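import Cfsg.Agent.H748.TW.SemiSL_m3
import Mathlib
import Cfsg.Agent.H982.TWModel
import Cfsg.Agent.CpAut.Fix
import Cfsg.Agent.S1265
import Cfsg.Agent.Lib.Cores
import Cfsg.Agent.SignalizersComponents.Components
import Cfsg.Agent.CpAut.Psl
import Cfsg.Agent.CpAutU.Fixed
import Cfsg.Agent.S0249
import Cfsg.Agent.ClassicalGeometry.PSL2Basic
import Cfsg.Agent.S0278
import Cfsg.Agent.S0279
import Cfsg.Agent.S0283
import Cfsg.Agent.Lib.LocalCore
import Cfsg.Agent.GH.L2AutF
import Cfsg.Agent.H989.TW.Comp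
import Cfsg.Agent.H477.HC.Levi
import Cfsg.Agent.TwoFusion.FStarControl
import Cfsg.Agent.H477.HC.Arith_m3
import Cfsg.Agent.H935.ExtNorm
import Cfsg.Agent.H734.OreT5
import Cfsg.Agent.S0023
import Cfsg.Agent.S0024
import Cfsg.Agent.H429.Suborbit
import Cfsg.Agent.H900.TWCore
import Cfsg.Agent.S3684
import Cfsg.Agent.S3685
import Mathlib.GroupTheory.SpecificGroups.Alternating.Simple
import Cfsg.Agent.FastGrp
import Cfsg.Agent.Prune
set_option linter.all false

section
prune_inst 0x7f00000000000000000000000000000000000000000000000000000000000000000000000000000000000000000000000000000000000000000000000000000000000000000000000000000000000000003fffffffffffffffffffffffffffbeffbdffffffff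

-- part: H607/TW/Ends
section
prune_inst 0xffb8f9bbb8bddfdfbf7e77aed4dffc3f915fffecdffd4bbfe021cf0fdf030e09c523a589e000fe0e83429410a87843f9ffce7fe86bdc7ffffd5ff41ffbee0ff5f7b108519e88b40fbc0ffe03f07f8e7f000000000000000000000000000000004000000000
set_option linter.all false
open scoped Cfsg.Agent.FastGrp

-- part: H607/TW/TypeAb
section
/-!
# S3694: the type theorem, abelian case (helper607)
-/

set_option autoImplicit false
set_option linter.style.haveILetI false

namespace Cfsg.Agent.H607.TW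

open Subgroup Cfsg
open Cfsg.Agent.H924 (IsPrimIdem)
open Cfsg.Agent.H296.TW (mt_mul mt_one mt_mul_inv mt_inv_mul not_comm)

universe u

variable {G : Type u} [Group G] {N A X : Subgroup G} {r : ℕ} {F : Type} [Field F] {n : ℕ} {S : Type} [Group S]
  {ι : S →* Matrix.GeneralLinearGroup (Fin n) F} {π : S →* G}

/-- The complete system of primitive idempotents of a commutative semisimple subalgebra. -/
theorem exists_idems' {C : Subalgebra F (Matrix (Fin n) (Fin n) F)} (hs : IsSemisimpleRing ↥C)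
    (hcomm : ∀ x ∈ C, ∀ y ∈ C, x * y = y * x) :
    ∃ (t : ℕ) (e : Fin t → Matrix (Fin n) (Fin n) F), (∀ i, IsPrimIdem C (e i)) ∧ Function.Injective e ∧
      (∑ i, e i = 1) ∧ (∀ e', IsPrimIdem C e' → ∃ i, e i = e') := by
  classical
  letI : CommRing C := { (inferInstance : Ring C) with mul_comm := fun a b => Subtype.ext (hcomm _ a.2 _ b.2) }
  haveI : IsReduced C := inferInstance
  haveI : IsArtinianRing C := by
    haveI : Module.Finite F C := inferInstance
    exact IsArtinianRing.of_finite F C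
  haveI : Finite ((MaximalSpectrum C :)) := inferInstance
  haveI : Fintype ((MaximalSpectrum C :)) := Fintype.ofFinite _
  let φ := IsArtinianRing.equivPi C
  let m := Fintype.card ((MaximalSpectrum C :))
  let k : (MaximalSpectrum C :) ≃ Fin m := Fintype.equivFin _
  let e0 : MaximalSpectrum C → C := fun I => φ.symm (Pi.single I 1)
  have hφ : ∀ I, φ (e0 I) = Pi.single I 1 := fun I => by simp [e0]
  have hne : ∀ I, e0 I ≠ 0 := by
    intro I h0
    have h1 := hφ I
    simp only [h0, map_zero] at h1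
    have h2 := congrFun h1 I
    rw [Pi.single_eq_same] at h2
    haveI := (I.isMaximal :)
    exact zero_ne_one (h2 :)
  have hidem : ∀ I, e0 I * e0 I = e0 I := by
    intro I
    apply φ.injective
    simp only [map_mul, hφ, ← Pi.single_mul, one_mul]
  have hprim : ∀ I, ∀ c : C, e0 I * c = 0 ∨ ∃ c' : C, e0 I * c * c' = e0 I := by
    intro I c
    haveI := I.isMaximal
    by_cases h0 : φ c I = 0
    · left
      apply φ.injective
      (rewrite [map_mul]; simp only [hφ]; simp only [map_zero])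
      ext J
      rcases eq_or_ne J I with rfl | hJ
      · simp [h0]
      · simp [Pi.single_eq_of_ne hJ]
    · right
      letI := Ideal.Quotient.field (I.asIdeal :)
      refine ⟨φ.symm (Pi.single I ((φ c I)⁻¹)), ?_⟩
      apply φ.injective
      simp only [map_mul, map_mul, hφ, AlgEquiv.apply_symm_apply]
      ext J
      rcases eq_or_ne J I with rfl | hJ
      · simp only [Pi.mul_apply, Pi.single_eq_same, one_mul]
        exact mul_inv_cancel₀ h0
      · simp [Pi.single_eq_of_ne hJ]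
  have hsum : ∑ I, e0 I = 1 := by
    apply φ.injective
    (rewrite [map_sum]; simp only [map_one])
    simp_rw [hφ]
    exact Finset.univ_sum_single (1 : ∀ I : (MaximalSpectrum C :), C ⧸ (I.asIdeal :))
  have hP : ∀ I, IsPrimIdem C (e0 I : Matrix (Fin n) (Fin n) F) := by
    intro I
    refine ⟨(e0 I).2, fun h => hne I (Subtype.ext h), ?_, ?_⟩
    · have := congrArg Subtype.val (hidem I)
      simpa only [_root_.MulMemClass.coe_mul] using this
    · intro c hc
      rcases hprim I ⟨c, hc⟩ with h | ⟨c', h⟩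
      · left
        have := congrArg Subtype.val h
        simpa only [_root_.MulMemClass.coe_mul, _root_.ZeroMemClass.coe_zero] using this
      · right
        refine ⟨c', c'.2, ?_⟩
        have := congrArg Subtype.val h
        simpa only [_root_.MulMemClass.coe_mul] using this
  have hsum' : (∑ i : Fin m, (e0 (k.symm i) : Matrix (Fin n) (Fin n) F)) = 1 := by
    have h1 : (∑ i : Fin m, e0 (k.symm i)) = 1 := by
      rw [← hsum]
      exact Equiv.sum_comp k.symm e0
    have h2 := congrArg C.val h1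
    rw [map_sum, map_one] at h2
    exact h2
  refine ⟨m, fun i => (e0 (k.symm i) : Matrix (Fin n) (Fin n) F), fun i => hP _, ?_, hsum', ?_⟩
  · intro i j hij
    have h1 : e0 (k.symm i) = e0 (k.symm j) := Subtype.ext hij
    have h2 : (Pi.single (k.symm i) 1 : ∀ I : (MaximalSpectrum C :), C ⧸ I.asIdeal) = Pi.single (k.symm j) 1 := by
      rw [← hφ, ← hφ, h1]
    by_contra hne'
    have h3 : k.symm i ≠ k.symm j := fun h => hne' (k.symm.injective h)
    have h4 := congrFun h2 (k.symm i)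
    simp only [Pi.single_eq_same, Pi.single_eq_of_ne h3] at h4
    haveI := ((k.symm i).isMaximal :)
    exact one_ne_zero h4
  · intro e' he'
    by_contra hcon
    push Not at hcon
    have h1 : ∀ i : Fin m, (e0 (k.symm i) : Matrix (Fin n) (Fin n) F) * e' = 0 := by
      intro i
      by_contra h2
      exact hcon i (IsPrimIdem.eq_of_mul_ne_zero hcomm (hP (k.symm i)) he' h2)
    apply he'.ne_zero
    calc e' = (∑ i : Fin m, (e0 (k.symm i) : Matrix (Fin n) (Fin n) F)) * e' := by rw [hsum', one_mul]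
      _ = ∑ i : Fin m, (e0 (k.symm i) : Matrix (Fin n) (Fin n) F) * e' := Finset.sum_mul _ _ _
      _ = 0 := Finset.sum_eq_zero fun i _ => h1 i

/-- The algebra generated by commuting matrices is commutative. -/
theorem adjoin_comm {s : Set (Matrix (Fin n) (Fin n) F)} (h : ∀ x ∈ s, ∀ y ∈ s, x * y = y * x) :
    ∀ x ∈ Algebra.adjoin F s, ∀ y ∈ Algebra.adjoin F s, x * y = y * x := by
  intro x hx y hy
  have h1 := (Algebra.isMulCommutative_adjoin F h).is_comm.comm (⟨x, hx⟩ : ↥(Algebra.adjoin F s)) ⟨y, hy⟩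
  exact congrArg Subtype.val h1

/-- The elements of `S` permuting a system of matrices. -/
theorem mem_A_of_perm [Finite G] [Finite F] (h : Loc N A r) (hM : Model N ι π) {t : ℕ} {e : Fin t → Matrix (Fin n) (Fin n) F}
    (hinj : Function.Injective e)
    (hperm : ∀ a ∈ A, ∀ τ, Ind ι π a τ → ∀ i, ∃ j, τ (e i) = e j)
    (hX : ∃ s₀ : S, π s₀ ≠ 1 ∧ ∀ i, mt ι s₀ * e i = e i * mt ι s₀)
    (hns : ∃ i, ∀ c : F, e i ≠ c • (1 : Matrix (Fin n) (Fin n) F))
    (s : S) (hs : ∀ i, ∃ j, mt ι s * e i = e j * mt ι s) : π s ∈ A := by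
  have hfin := hM.finite_S
  let P : S → Prop := fun s => ∀ i, ∃ j, mt ι s * e i = e j * mt ι s
  have hP1 : P 1 := fun i => ⟨i, by rw [mt_one, one_mul, mul_one]⟩
  have hPm : ∀ s s', P s → P s' → P (s * s') := by
    intro s s' h1 h2 i
    obtain ⟨j, hj⟩ := h2 i
    obtain ⟨k, hk⟩ := h1 j
    refine ⟨k, ?_⟩
    rw [mt_mul, mul_assoc, hj, ← mul_assoc, hk, mul_assoc]
  have hPi : ∀ s, P s → P s⁻¹ := by
    intro s hs
    have h1 : ∀ k : ℕ, P (s ^ k) := by
      intro k
      induction k with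
      | zero => rw [pow_zero]; exact hP1
      | succ k ih => rw [pow_succ]; exact hPm _ _ ih hs
    have h2 : s⁻¹ = s ^ (orderOf s - 1) := by
      rw [inv_eq_iff_mul_eq_one, ← pow_succ', Nat.sub_add_cancel (orderOf_pos s), pow_orderOf_eq_one]
    rw [h2]
    exact h1 _
  let H : Subgroup S := { carrier := {s | P s}, one_mem' := hP1, mul_mem' := fun h1 h2 => hPm _ _ h1 h2, inv_mem' := fun h1 => hPi _ h1 }
  have hH : ∀ s, s ∈ H ↔ P s := fun s => Iff.rfl
  -- `s * e i = e j * s` also in the form `e i * s = s * e j`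
  have hPl : ∀ s, P s → ∀ i, ∃ j, e i * mt ι s = mt ι s * e j := by
    intro s hs i
    obtain ⟨j, hj⟩ := hPi s hs i
    refine ⟨j, ?_⟩
    calc e i * mt ι s = mt ι s * (mt ι s⁻¹ * e i) * mt ι s := by rw [← mul_assoc, mt_mul_inv, one_mul]
      _ = mt ι s * e j * (mt ι s⁻¹ * mt ι s) := by rw [hj]; simp only [mul_assoc]
      _ = mt ι s * e j := by rw [mt_inv_mul, mul_one]
  -- the lifts permute the `e i`
  have hbij : ∀ a ∈ A, ∀ τ, Ind ι π a τ → ∀ j, ∃ i, τ (e i) = e j := by
    intro a ha τ hτ j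
    choose f hf using hperm a ha τ hτ
    have hfi : Function.Injective f := by
      intro i i' h1
      apply hinj
      apply τ.injective
      rw [hf, hf, h1]
    obtain ⟨i, rfl⟩ := Finite.surjective_of_injective hfi j
    exact ⟨i, hf i⟩
  have hnorm : A ≤ normalizer ((H.map π : Subgroup G) : Set G) := by
    apply le_normalizer_of_conj
    rintro a ha _ ⟨s, hs, rfl⟩
    obtain ⟨τ, hτ⟩ := H748.TW.exists_lift hM a
    have hb := hbij a ha τ hτ
    have hp := hperm a ha τ hτ
    rcases hτ with ⟨m, h1⟩ | ⟨m, h1⟩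
    · obtain ⟨s', e1, f1⟩ := h1 s
      refine ⟨s', ?_, f1⟩
      intro j
      obtain ⟨i, hi⟩ := hb j
      obtain ⟨k, hk⟩ := hs i
      obtain ⟨l, hl⟩ := hp k
      refine ⟨l, ?_⟩
      rw [e1, ← hi, ← m, hk, m, hl]
    · obtain ⟨s', e1, f1⟩ := h1 s
      refine ⟨s'⁻¹, ?_, by rw [map_inv]; exact f1⟩
      apply hPi
      intro j
      obtain ⟨i, hi⟩ := hb j
      obtain ⟨k, hk⟩ := hPl s hs i
      obtain ⟨l, hl⟩ := hp k
      refine ⟨l, ?_⟩
      rw [e1, ← hi, ← m, hk, m, hl]
  have hle : H.map π ≤ N := by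
    rintro _ ⟨s, -, rfl⟩
    exact hM.mem s
  have hne : H.map π ≠ N := by
    intro heq
    -- `H = ⊤`
    have hall : ∀ s, P s := by
      intro s
      have h1 := hM.mem s
      rw [← heq] at h1
      obtain ⟨t', ht, hts⟩ := h1
      obtain ⟨c, hc⟩ := hM.smul_of_eq hts.symm
      intro i
      obtain ⟨j, hj⟩ := ht i
      exact ⟨j, by rw [hc, smul_mul_assoc, hj, mul_smul_comm]⟩
    let Q : S → Prop := fun s => ∀ i, mt ι s * e i = e i * mt ι s
    have hQi : ∀ s, Q s → Q s⁻¹ := by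
      intro s hs i
      calc mt ι s⁻¹ * e i = mt ι s⁻¹ * (e i * mt ι s) * mt ι s⁻¹ := by
            rw [mul_assoc, mul_assoc, mt_mul_inv, mul_one]
        _ = e i * mt ι s⁻¹ := by rw [← hs i, ← mul_assoc, mt_inv_mul, one_mul]
    let K : Subgroup S :=
      { carrier := {s | Q s}
        one_mem' := fun i => by rw [mt_one, one_mul, mul_one]
        mul_mem' := fun {a b} ha hb i => by
          rw [mt_mul, mul_assoc, hb i, ← mul_assoc, ha i, mul_assoc]
        inv_mem' := fun {a} ha => hQi a ha }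
    have hKn : K.Normal := by
      refine ⟨fun k hk g => ?_⟩
      intro j
      obtain ⟨i, hi⟩ := hPl g (hall g) j
      -- e j * g = g * e i
      have hi' : mt ι g⁻¹ * e j = e i * mt ι g⁻¹ := by
        calc mt ι g⁻¹ * e j = mt ι g⁻¹ * (e j * mt ι g) * mt ι g⁻¹ := by
              rw [mul_assoc, mul_assoc, mt_mul_inv, mul_one]
          _ = e i * mt ι g⁻¹ := by rw [hi, ← mul_assoc, mt_inv_mul, one_mul]
      rw [mt_mul, mt_mul]
      calc mt ι g * mt ι k * mt ι g⁻¹ * e j = mt ι g * mt ι k * (mt ι g⁻¹ * e j) := by simp only [mul_assoc]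
        _ = mt ι g * (mt ι k * e i) * mt ι g⁻¹ := by rw [hi']; simp only [mul_assoc]
        _ = (mt ι g * e i) * mt ι k * mt ι g⁻¹ := by rw [hk i]; simp only [mul_assoc]
        _ = e j * (mt ι g * mt ι k * mt ι g⁻¹) := by rw [← hi]; simp only [mul_assoc]
    have hKN : K.map π = N := by
      have hs := h.simple
      have hn' : ((K.map π).subgroupOf N).Normal := by
        have h3 : N ≤ normalizer ((K.map π : Subgroup G) : Set G) := by
          apply le_normalizer_of_conj
          rintro g hg _ ⟨k, hk, rfl⟩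
          obtain ⟨g', rfl⟩ := hM.exists_pre hg
          exact ⟨g' * k * g'⁻¹, hKn.conj_mem k hk g', by simp only [_root_.map_mul, _root_.map_inv]⟩
        exact normal_subgroupOf_of_le_normalizer h3
      have hKle : K.map π ≤ N := by
        rintro _ ⟨s, -, rfl⟩
        exact hM.mem s
      rcases hs.eq_bot_or_eq_top_of_normal _ hn' with h4 | h4
      · exfalso
        obtain ⟨s₀, hs₀, hs₀'⟩ := hX
        rw [subgroupOf_eq_bot, disjoint_iff, inf_eq_left.2 hKle, eq_bot_iff] at h4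
        exact hs₀ (mem_bot.mp (h4 ⟨s₀, hs₀', rfl⟩))
      · rw [subgroupOf_eq_top] at h4
        exact le_antisymm hKle h4
    obtain ⟨i, hi⟩ := hns
    have h5 : ∀ s, e i * mt ι s = mt ι s * e i := by
      intro s
      have h1 := hM.mem s
      rw [← hKN] at h1
      obtain ⟨t', ht, hts⟩ := h1
      obtain ⟨c, hc⟩ := hM.smul_of_eq hts.symm
      rw [hc, smul_mul_assoc, mul_smul_comm, ht i]
    obtain ⟨c, hc⟩ := hM.scalar_of_comm h5
    exact hi c hc
  exact h.le_of_norm' hle hne hnorm ⟨s, hs, rfl⟩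

/-- **The type theorem, abelian case.** -/
theorem type_abelian [Finite G] [Finite F] (h : Loc N A r) (hM : Model N ι π) (hS : SemiAx ι π A) (hX : MinX N A X r)
    (hab : ∀ s t : S, π s ∈ X → π t ∈ X → s * t = t * s) :
    (∃ (t : ℕ) (e : Fin t → Matrix (Fin n) (Fin n) F), Frame ι π A e) ∨
      ∀ b ∈ Algebra.adjoin F (mt ι '' {s | π s ∈ X}), b ≠ 0 → ∃ c ∈ Algebra.adjoin F (mt ι '' {s | π s ∈ X}), b * c = 1 := by
  set B := Algebra.adjoin F (mt ι '' {s | π s ∈ X}) with hB
  have hInv : Inv ι π A B := Inv.adjoin hX.norm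
  have hcomm : ∀ x ∈ B, ∀ y ∈ B, x * y = y * x := by
    apply adjoin_comm
    rintro _ ⟨s, hs, rfl⟩ _ ⟨t, ht, rfl⟩
    rw [← mt_mul, ← mt_mul, hab s t hs ht]
  obtain ⟨t, e, he, hinj, hsum, hall⟩ := exists_idems' (hS B hInv) hcomm
  have h10 : (1 : Matrix (Fin n) (Fin n) F) ≠ 0 := by
    intro h1
    have h2 := congrFun (congrFun h1 ⟨0, hM.pos⟩) ⟨0, hM.pos⟩
    rw [Matrix.one_apply_eq, Matrix.zero_apply] at h2
    exact one_ne_zero h2
  have horth : ∀ i j, i ≠ j → e i * e j = 0 := by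
    intro i j hij
    by_contra h1
    exact hij (hinj (IsPrimIdem.eq_of_mul_ne_zero hcomm (he i) (he j) h1))
  have hperm : ∀ a ∈ A, ∀ τ, Ind ι π a τ → ∀ i, ∃ j, τ (e i) = e j := by
    intro a ha τ hτ i
    have h1 : IsPrimIdem B (τ (e i)) := by
      refine ⟨hInv a ha τ hτ _ (he i).mem, ?_, ?_, ?_⟩
      · intro h1
        apply (he i).ne_zero
        apply τ.injective
        rw [h1, map_zero]
      · rcases hτ with ⟨m, -⟩ | ⟨m, -⟩ <;> rw [← m, (he i).idem]
      · intro c hc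
        obtain ⟨c₀, hc₀, rfl⟩ := hInv.surj ha hτ hc
        have h2 : ∀ x ∈ B, ∀ y ∈ B, τ x * τ y = τ (x * y) := by
          intro x hx y hy
          rcases hτ with ⟨m, -⟩ | ⟨m, -⟩
          · rw [m]
          · rw [← m, hcomm x hx y hy]
        rcases (he i).prim c₀ hc₀ with h3 | ⟨c', hc', h3⟩
        · left
          rw [h2 _ (he i).mem _ hc₀, h3, map_zero]
        · right
          refine ⟨τ c', hInv a ha τ hτ _ hc', ?_⟩
          rw [h2 _ (he i).mem _ hc₀, h2 _ (mul_mem (he i).mem hc₀) _ hc', h3]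
    obtain ⟨j, hj⟩ := hall _ h1
    exact ⟨j, hj.symm⟩
  rcases Nat.lt_or_ge t 2 with ht | ht
  · right
    interval_cases t
    · rw [Fin.sum_univ_zero] at hsum
      exact absurd hsum.symm h10
    · rw [Fin.sum_univ_one] at hsum
      intro b hb hb0
      rcases (he 0).prim b hb with h1 | ⟨c, hc, h1⟩
      · rw [hsum, one_mul] at h1
        exact absurd h1 hb0
      · rw [hsum, one_mul] at h1
        exact ⟨c, hc, h1⟩
  · left
    refine ⟨t, e, ht, fun i => (he i).idem, fun i => (he i).ne_zero, horth, hsum, hperm, ?_⟩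
    have hne : ∃ s₀ : S, π s₀ ≠ 1 ∧ ∀ i, mt ι s₀ * e i = e i * mt ι s₀ := by
      obtain ⟨x, hx⟩ := (Subgroup.ne_bot_iff_exists_ne_one.mp hX.ne)
      obtain ⟨s₀, hs₀⟩ := hM.exists_pre (hX.le x.2).2
      refine ⟨s₀, ?_, ?_⟩
      · rw [hs₀]
        exact fun h1 => hx (Subtype.ext h1)
      · intro i
        refine hcomm _ ?_ _ (he i).mem
        apply Algebra.subset_adjoin
        refine ⟨s₀, ?_, rfl⟩
        rw [Set.mem_ofPred_eq, hs₀]
        exact x.2
    have hns : ∃ i, ∀ c : F, e i ≠ c • (1 : Matrix (Fin n) (Fin n) F) := by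
      refine ⟨⟨0, by omega⟩, fun c hc => ?_⟩
      have h1 := horth ⟨0, by omega⟩ ⟨1, by omega⟩ (by simp)
      rw [hc, smul_mul_assoc, one_mul] at h1
      rcases smul_eq_zero.mp h1 with h2 | h2
      · rw [h2, zero_smul] at hc
        exact (he _).ne_zero hc
      · exact (he _).ne_zero h2
    exact fun s hs => mem_A_of_perm h hM hinj hperm hne hns s hs

end Cfsg.Agent.H607.TW
end

-- part: H76/TW/FieldAbs
section
/-!
# S3694, T9: outer automorphisms of field type, the abstract part (helper76)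

* `Sett.conj` : change of the model and conjugation of the setting of `CpAut.Fix`;
* `card_fix` : `|C_G(α)|` divides `|H₀| |Z(H)|`;
* `key` : for `Loc N A r`, `x` centralizing exactly `A ∩ N` in `N`, with the setting `H₀ → S → N`: `H₀ / Z(H₀)` is not
  quasisimple, `r` divides `|A ∩ N|` and `|A ∩ N|` divides `|H₀| |Z(S)|`.
-/

set_option autoImplicit false

namespace Cfsg.Agent.H76.TW.Field

open Subgroup Cfsg Cfsg.Agent.H607.TW Cfsg.Agent.CpAut.Fix
open scoped commutatorElement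

section Abs

variable {H G G' H₀ : Type*} [Group H] [Group G] [Group G'] [Group H₀]

/-- Change of the model and conjugation. -/
theorem sett_conj {π₀ : H →* G} {γ₀ : MulAut H} {α₀ : MulAut G} {f : H₀ →* H} (S : Sett π₀ γ₀ α₀ f)
    (hker₀ : ∀ h, π₀ h = 1 ↔ h ∈ center H)
    {π : H →* G'} (hs : Function.Surjective π) (hker : ∀ h, π h = 1 ↔ h ∈ center H) (δ : MulAut H) {α : MulAut G'}
    (hc : ∀ h, α (π h) = π ((δ * γ₀ * δ⁻¹) h)) : Sett π (δ * γ₀ * δ⁻¹) α (δ.toMonoidHom.comp f) where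
  surj := hs
  ker := fun h hh => (hker h).1 hh
  compat := hc
  inj := by
    intro a b hab
    exact S.inj (δ.injective hab)
  fix h := by
    change (δ * γ₀ * δ⁻¹) (δ (f h)) = δ (f h)
    rw [MulAut.mul_apply, MulAut.mul_apply, MulAut.inv_apply_self, S.fix]
  comm a b ha hb := by
    have h1 : ∀ c, (δ * γ₀ * δ⁻¹) c = c → γ₀ (δ⁻¹ c) = δ⁻¹ c := by
      intro c h
      rw [MulAut.mul_apply, MulAut.mul_apply] at h
      conv_rhs => rw [← h, MulAut.inv_apply_self]
    obtain ⟨c, hc'⟩ := S.comm _ _ (h1 a ha) (h1 b hb)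
    refine ⟨c, ?_⟩
    change δ (f c) = _
    rw [hc', map_commutatorElement, MulAut.apply_inv_self, MulAut.apply_inv_self]
  cen h := by
    rw [hker, ← S.cen, hker₀]
    change δ (f h) ∈ center H ↔ _
    constructor
    · intro h1
      rw [mem_center_iff] at h1 ⊢
      intro g
      apply δ.injective
      rw [map_mul, map_mul]
      exact h1 _
    · intro h1
      rw [mem_center_iff] at h1 ⊢
      intro g
      have h2 := congrArg δ (h1 (δ⁻¹ g))
      rw [map_mul, map_mul, MulAut.apply_inv_self] at h2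
      exact h2

/-- `|C_G(α)|` divides `|H₀| |Z(H)|`. -/
theorem card_fix [Finite H] {π : H →* G} {γ : MulAut H} {α : MulAut G} {f : H₀ →* H} (S : Sett π γ α f)
    (hr : ∀ a, γ a = a → a ∈ f.range) : Nat.card ↥(fixedSubgroup α) ∣ Nat.card H₀ * Nat.card ↥(center H) := by
  let T : Subgroup H := (fixedSubgroup α).comap π
  have hT : ∀ t : ↥T, (t : H)⁻¹ * γ t ∈ center H := by
    intro t
    apply S.ker
    rw [MonoidHom.mem_ker, map_mul, map_inv, ← S.compat]
    have h1 : α (π (t : H)) = π (t : H) := t.2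
    rw [h1, inv_mul_cancel]
  let δ : ↥T →* ↥(center H) :=
    { toFun := fun t => ⟨(t : H)⁻¹ * γ t, hT t⟩
      map_one' := by
        apply Subtype.ext
        change (1 : H)⁻¹ * γ 1 = 1
        rw [map_one, inv_one, one_mul]
      map_mul' := by
        intro a b
        apply Subtype.ext
        change ((a : H) * b)⁻¹ * γ (a * b) = ((a : H)⁻¹ * γ a) * ((b : H)⁻¹ * γ b)
        have h1 := mem_center_iff.1 (hT a) ((b : H)⁻¹)
        calc ((a : H) * b)⁻¹ * γ (a * b) = (b : H)⁻¹ * ((a : H)⁻¹ * γ a) * γ b := by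
              rw [map_mul]; group
          _ = _ := by rw [h1]; group }
  have hdk : Nat.card ↥δ.ker * Nat.card ↥δ.range = Nat.card ↥T := by
    rw [← Subgroup.index_ker, Subgroup.card_mul_index]
  have hker : Nat.card ↥δ.ker ∣ Nat.card H₀ := by
    have h1 : (δ.ker.map T.subtype) ≤ f.range := by
      rintro _ ⟨t, ht, rfl⟩
      apply hr
      have h2 : (t : H)⁻¹ * γ t = 1 := congrArg Subtype.val ht
      have h3 : (t : H) = γ t := (inv_mul_eq_one.1 h2)
      exact h3.symm
    have h2 : Nat.card ↥(δ.ker.map T.subtype) = Nat.card ↥δ.ker := by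
      exact (Nat.card_congr (δ.ker.equivMapOfInjective T.subtype T.subtype_injective).toEquiv).symm
    have h3 : Nat.card ↥f.range = Nat.card H₀ := (Nat.card_congr (MonoidHom.ofInjective S.inj).toEquiv).symm
    rw [← h2, ← h3]
    exact Subgroup.card_dvd_of_le h1
  have hran : Nat.card ↥δ.range ∣ Nat.card ↥(center H) := Subgroup.card_subgroup_dvd_card _
  have hTd : Nat.card ↥(fixedSubgroup α) ∣ Nat.card ↥T := by
    have h1 : T.map π = fixedSubgroup α := Subgroup.map_comap_eq_self_of_surjective S.surj _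
    rw [← h1]
    exact Subgroup.card_map_dvd T π
  exact hTd.trans (hdk ▸ mul_dvd_mul hker hran)

end Abs

section Loc

variable {A : Type*} [Group A] [Finite A]

/-- A normal subgroup `C ≠ 1` of a group with `F*(A) = O_r(A)` has order divisible by `r`. -/
theorem dvd_card {r : ℕ} (hp : r.Prime) (hstar : generalizedFittingSubgroup A = pCore r A) {C : Subgroup A} (hC : C.Normal)
    (hne : C ≠ ⊥) : r ∣ Nat.card ↥C := by
  have : Fact r.Prime := ⟨hp⟩
  have hQn : (pCore r A).Normal := Lib.Cores.pCore_normal r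
  have hne' : C ⊓ pCore r A ≠ ⊥ := by
    intro h0
    apply hne
    have h1 : C ≤ centralizer (pCore r A : Set A) := by
      intro c hc
      rw [mem_centralizer_iff]
      intro k hk
      have h2 : ⁅c, k⁆ ∈ C ⊓ pCore r A := by
        constructor
        · rw [commutatorElement_def]
          have := hC.conj_mem c⁻¹ (C.inv_mem hc) k
          have h3 : c * (k * c⁻¹ * k⁻¹) ∈ C := C.mul_mem hc this
          have h4 : c * k * c⁻¹ * k⁻¹ = c * (k * c⁻¹ * k⁻¹) := by group
          rw [h4]; exact h3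
        · rw [commutatorElement_def]
          exact (pCore r A).mul_mem (hQn.conj_mem k hk c) ((pCore r A).inv_mem hk)
      rw [h0, mem_bot, commutatorElement_eq_one_iff_mul_comm] at h2
      exact h2.symm
    have h2 : C ≤ pCore r A := by
      have h3 := Cfsg.Agent.S1265.result (G := A)
      rw [hstar] at h3
      exact h1.trans h3
    rw [← h0, inf_eq_left.2 h2]
  have hpg : IsPGroup r ↥(C ⊓ pCore r A) := (Lib.Cores.pCore_isPGroup (G := A) r).to_le inf_le_right
  obtain ⟨k, hk⟩ := IsPGroup.iff_card.1 hpg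
  have h1 : Nat.card ↥(C ⊓ pCore r A) ∣ Nat.card ↥C := Subgroup.card_dvd_of_le inf_le_left
  have hk0 : k ≠ 0 := by
    rintro rfl
    rw [pow_zero, Subgroup.card_eq_one] at hk
    exact hne' hk
  refine dvd_trans ?_ h1
  rw [hk]
  exact dvd_pow_self r hk0

/-- No quasisimple characteristic subgroup of a normal subgroup. -/
theorem not_quasisimple {r : ℕ} (hp : r.Prime) (hstar : generalizedFittingSubgroup A = pCore r A) {C : Subgroup A}
    (hC : C.Normal) (K : Subgroup ↥C) (hK : K.Characteristic) (hq : IsQuasisimple ↥K) : False := by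
  have : Fact r.Prime := ⟨hp⟩
  have hn : (K.map C.subtype).Normal := inferInstance
  have hq' : IsQuasisimple ↥(K.map C.subtype) :=
    (CpQuot.Congr.isQuasisimple_iff (K.equivMapOfInjective C.subtype C.subtype_injective)).1 hq
  have h1 : K.map C.subtype ≤ pCore r A := by
    rw [← hstar]
    refine le_trans ?_ le_sup_left
    exact le_sSup ⟨hn.isSubnormal, hq'⟩
  have h2 : IsPGroup r ↥(K.map C.subtype) := (Lib.Cores.pCore_isPGroup (G := A) r).to_le h1
  have h3 : Group.IsNilpotent ↥(K.map C.subtype) := h2.isNilpotent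
  exact SignalizersComponents.Components.quasisimple_not_isSolvable hq' inferInstance

end Loc

section Key

variable {G : Type*} [Group G] [Finite G]

/-- **The key step.** -/
theorem key {N A : Subgroup G} {r : ℕ} (h : Loc N A r) {x : G} (hcen : ∀ y ∈ A ⊓ N, x * y = y * x)
    (hle : ∀ y ∈ N, x * y = y * x → y ∈ A) (hne : A ⊓ N ≠ ⊥) {S H₀ : Type*} [Group S] [Finite S] [Group H₀]
    {π : S →* ↥N} {γ : MulAut S} {α : MulAut ↥N} (hα : ∀ y : ↥N, ((α y : ↥N) : G) = x * y * x⁻¹)
    {f : H₀ →* S} (hS : Sett π γ α f) (hr : ∀ a, γ a = a → a ∈ f.range) :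
    ¬ IsQuasisimple (H₀ ⧸ center H₀) ∧ r ∣ Nat.card ↥(A ⊓ N) ∧
      Nat.card ↥(A ⊓ N) ∣ Nat.card H₀ * Nat.card ↥(center S) := by
  have hmap : (fixedSubgroup α).map N.subtype = A ⊓ N := by
    ext y
    constructor
    · rintro ⟨z, hz, rfl⟩
      have h1 : α z = z := hz
      have h2 : x * (z : G) * x⁻¹ = z := by rw [← hα, h1]
      have h3 : x * (z : G) = z * x := by rw [mul_inv_eq_iff_eq_mul] at h2; exact h2
      exact ⟨hle _ z.2 h3, z.2⟩
    · rintro ⟨hyA, hyN⟩
      refine ⟨⟨y, hyN⟩, ?_, rfl⟩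
      change α ⟨y, hyN⟩ = ⟨y, hyN⟩
      apply Subtype.ext
      rw [hα]
      change x * y * x⁻¹ = y
      rw [hcen y ⟨hyA, hyN⟩, mul_inv_cancel_right]
  let e1 : ↥(fixedSubgroup α) ≃* ↥(A ⊓ N) :=
    ((fixedSubgroup α).equivMapOfInjective N.subtype N.subtype_injective).trans (MulEquiv.subgroupCongr hmap)
  let C : Subgroup ↥A := (A ⊓ N).subgroupOf A
  let e2 : ↥C ≃* ↥(A ⊓ N) := Subgroup.subgroupOfEquivOfLe inf_le_left
  have hNn : N.Normal := h.normal
  have hC : C.Normal := by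
    have h1 : C = N.subgroupOf A := by
      ext y
      simp [C, mem_subgroupOf]
    rw [h1]
    infer_instance
  have hCne : C ≠ ⊥ := by
    intro h0
    apply hne
    have h1 := Nat.card_congr e2.toEquiv
    rw [h0, card_bot] at h1
    exact (Subgroup.card_eq_one).1 h1.symm
  refine ⟨?_, ?_, ?_⟩
  · intro hq
    have hq1 : IsQuasisimple ↥((π.comp f).range.subgroupOf (fixedSubgroup α)) :=
      (CpQuot.Congr.isQuasisimple_iff (hS.equiv.trans (Subgroup.subgroupOfEquivOfLe hS.le).symm)).1 hq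
    have h1 : ⁅(π.comp f).range.subgroupOf (fixedSubgroup α), (π.comp f).range.subgroupOf (fixedSubgroup α)⁆ =
        (π.comp f).range.subgroupOf (fixedSubgroup α) := by
      have h2 : commutator ↥((π.comp f).range.subgroupOf (fixedSubgroup α)) = ⊤ := hq1.1.commutator_eq_top
      have h3 := congrArg (Subgroup.map ((π.comp f).range.subgroupOf (fixedSubgroup α)).subtype) h2
      rw [commutator_def, map_commutator, ← MonoidHom.range_eq_map, range_subtype] at h3
      exact h3
    have h2 : (π.comp f).range.subgroupOf (fixedSubgroup α) = derivedSeries ↥(fixedSubgroup α) 2 :=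
      le_antisymm (Cfsg.Agent.LThree.le_derivedSeries_of_perfect h1 2) hS.derived
    rw [h2] at hq1
    have h3 : (derivedSeries ↥(fixedSubgroup α) 2).map (e1.trans e2.symm).toMonoidHom = derivedSeries ↥C 2 :=
      map_derivedSeries_eq (e1.trans e2.symm).surjective 2
    have hq2 : IsQuasisimple ↥(derivedSeries ↥C 2) := by
      rw [← h3]
      exact (CpQuot.Congr.isQuasisimple_iff
        ((derivedSeries ↥(fixedSubgroup α) 2).equivMapOfInjective _ (e1.trans e2.symm).injective)).1 hq1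
    exact not_quasisimple h.prime h.star hC (derivedSeries ↥C 2) inferInstance hq2
  · rw [← Nat.card_congr e2.toEquiv]
    exact dvd_card h.prime h.star hC hCne
  · rw [← Nat.card_congr e1.toEquiv]
    exact card_fix hS hr

end Key

end Cfsg.Agent.H76.TW.Field
end

-- part: H76/TW/FieldSL
section
/-!
# S3694, T9: outer automorphisms of field type, `SL_n` (helper76)

`field_sl` : if `x` induces `X ↦ B σ(X) B⁻¹`, `σ ≠ 1`, `x ^ r = 1` and `C_N(x) = A ∩ N ≠ 1` then `n = 2`, `|F| ≤ 27` and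
`|A ∩ N| ≤ 48`.
-/

set_option autoImplicit false

namespace Cfsg.Agent.H76.TW.Field

open Subgroup Matrix Cfsg Cfsg.Agent.H607.TW Cfsg.Agent.CpAut.Fix Cfsg.Agent.CpAut.Psl
open Cfsg.Agent.ClassicalGeometry.AutPSL.Root (pr pr_surjective)
open Cfsg.Agent.ClassicalGeometry.AutPSL.Auto (cj fld lift lift_pr coe_cj)

universe u

section Lift

variable {G : Type u} [Group G] {F : Type} [Field F] {n : ℕ} {S : Type} [Group S]
  {ι : S →* Matrix.GeneralLinearGroup (Fin n) F} {π : S →* G} {N : Subgroup G}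

theorem mt_injective (hM : Model N ι π) : Function.Injective (_root_.Cfsg.Agent.H607.TW.mt ι) := fun _ _ h => hM.inj (Units.ext h)

theorem tauP_mul (B : Matrix.GeneralLinearGroup (Fin n) F) (σ : F ≃+* F) (x y : Matrix (Fin n) (Fin n) F) :
    tauP B σ (x * y) = tauP B σ x * tauP B σ y := by
  rw [tauP_apply, tauP_apply, tauP_apply]
  have h1 : (x * y).map σ = x.map σ * y.map σ := Matrix.map_mul (f := (σ : F →+* F))
  have h2 : ((B⁻¹ : Matrix.GeneralLinearGroup (Fin n) F) : Matrix (Fin n) (Fin n) F) * (B : Matrix (Fin n) (Fin n) F) = 1 := by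
    rw [← Units.val_mul, inv_mul_cancel, Units.val_one]
  rw [h1]
  calc _ = (B : Matrix (Fin n) (Fin n) F) * x.map σ * 1 * y.map σ *
        ((B⁻¹ : Matrix.GeneralLinearGroup (Fin n) F) : Matrix (Fin n) (Fin n) F) := by
        rw [mul_one]; simp only [mul_assoc]
    _ = _ := by rw [← h2]; simp only [mul_assoc]

/-- `tauP` is not an anti-automorphism. -/
theorem ind_tauP (h2 : 2 ≤ n) {x : G} {B : Matrix.GeneralLinearGroup (Fin n) F} {σ : F ≃+* F}
    (hτ : Ind ι π x (tauP B σ)) (s : S) : ∃ s' : S, _root_.Cfsg.Agent.H607.TW.mt ι s' = tauP B σ (_root_.Cfsg.Agent.H607.TW.mt ι s) ∧ π s' = x * π s * x⁻¹ := by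
  rcases hτ with ⟨-, h⟩ | ⟨h, -⟩
  · exact h s
  · exfalso
    let i : Fin n := ⟨0, by omega⟩
    let j : Fin n := ⟨1, by omega⟩
    have hij : i ≠ j := by
      intro h0
      have h5 : (0 : ℕ) = 1 := congrArg Fin.val h0
      omega
    have h1 := h (Matrix.single i j 1) (Matrix.single j i 1)
    rw [← tauP_mul] at h1
    have h3 := (tauP B σ).injective h1
    rw [Matrix.single_mul_single_same, Matrix.single_mul_single_same] at h3
    have h4 := congrFun (congrFun h3 i) i
    rw [Matrix.single_apply_same, Matrix.single_apply_of_ne _ _ _ _ _ (by intro h5; exact hij h5.1.symm)] at h4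
    simp at h4

variable (hM : Model N ι π)

/-- `π` as a map onto `N`. -/
def piN (hM : Model N ι π) : S →* ↥N := π.codRestrict N (fun s => by rw [← hM.range]; exact ⟨s, rfl⟩)

theorem coe_piN (s : S) : ((piN hM s : ↥N) : G) = π s := rfl

theorem piN_surjective : Function.Surjective (piN hM) := by
  rintro ⟨y, hy⟩
  rw [← hM.range] at hy
  obtain ⟨s, rfl⟩ := hy
  exact ⟨s, rfl⟩

theorem piN_eq_one {s : S} : piN hM s = 1 ↔ π s = 1 := by
  constructor
  · intro h
    have := congrArg Subtype.val h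
    exact this
  · intro h
    exact Subtype.ext h

/-- Powers of a lift. -/
theorem piN_pow [hN : N.Normal] {x : G} {γ : MulAut S}
    (h : ∀ s, MulAut.conjNormal x (piN hM s) = piN hM (γ s)) {r : ℕ} (hx : x ^ r = 1) (s : S) :
    piN hM ((γ ^ r) s) = piN hM s := by
  have h1 : ∀ k : ℕ, ∀ s, piN hM ((γ ^ k) s) = (MulAut.conjNormal x ^ k) (piN hM s) := by
    intro k
    induction k with
    | zero => intro s; rfl
    | succ k ih =>
      intro s
      rw [pow_succ, pow_succ, MulAut.mul_apply, MulAut.mul_apply, ih, ← h]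
  rw [h1, ← map_pow, hx, map_one]
  rfl

end Lift

section SL

variable {G : Type u} [Group G] {N A : Subgroup G} {r : ℕ} {F : Type} [Field F] {n : ℕ}

theorem piN_eq_one_iff_center {π : Matrix.SpecialLinearGroup (Fin n) F →* G} (hM : Model N (iSL n F) π)
    (s : Matrix.SpecialLinearGroup (Fin n) F) : piN hM s = 1 ↔ s ∈ center (Matrix.SpecialLinearGroup (Fin n) F) := by
  rw [piN_eq_one, hM.ker, Matrix.SpecialLinearGroup.mem_center_iff]
  constructor
  · rintro ⟨c, hc⟩
    have hc' : (s : Matrix (Fin n) (Fin n) F) = c • 1 := hc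
    refine ⟨c, ?_, ?_⟩
    · have h1 := s.2
      rw [hc', Matrix.det_smul, Matrix.det_one, mul_one] at h1
      exact h1
    · rw [hc']
      ext i j
      simp [Matrix.scalar_apply, Matrix.diagonal_apply, Matrix.one_apply]
  · rintro ⟨c, -, hc⟩
    refine ⟨c, ?_⟩
    change (s : Matrix (Fin n) (Fin n) F) = c • 1
    rw [← hc]
    ext i j
    simp [Matrix.scalar_apply, Matrix.diagonal_apply, Matrix.one_apply]

/-- **T9, linear case.** -/
theorem field_sl [Finite G] [Fintype F] {π : Matrix.SpecialLinearGroup (Fin n) F →* G} (h : Loc N A r) (hM : Model N (iSL n F) π)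
    {x : G} (hxr : x ^ r = 1) (hcen : ∀ y ∈ A ⊓ N, x * y = y * x) (hle : ∀ y ∈ N, x * y = y * x → y ∈ A)
    (hne : A ⊓ N ≠ ⊥) {B : Matrix.GeneralLinearGroup (Fin n) F} {σ : F ≃+* F} (hσ : σ ≠ 1)
    (hτ : Ind (iSL n F) π x (tauP B σ)) : n = 2 ∧ Nat.card F ≤ 27 ∧ Nat.card ↥(A ⊓ N) ≤ 48 := by
  classical
  have hNn : N.Normal := h.normal
  have hn2 := hM.two
  have : Nontrivial (Fin n) := Fin.nontrivial_iff_two_le.2 hn2
  have hlift : ∀ s, MulAut.conjNormal x (piN hM s) = piN hM ((cj B * fld σ : MulAut (Matrix.SpecialLinearGroup (Fin n) F)) s) := by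
    intro s
    obtain ⟨s', h1, h2⟩ := ind_tauP hn2 hτ s
    have h3 : s' = (cj B * fld σ : MulAut (Matrix.SpecialLinearGroup (Fin n) F)) s := by
      apply mt_injective hM
      rw [h1]
      rfl
    apply Subtype.ext
    rw [MulAut.conjNormal_apply, coe_piN, coe_piN, ← h3, h2]
  have hlr : (lift (cj B * fld σ)) ^ r = 1 := by
    rw [← map_pow]
    apply MulEquiv.ext
    intro y
    obtain ⟨s, rfl⟩ := pr_surjective y
    rw [lift_pr, MulAut.one_apply]
    have h1 := piN_pow hM hlift hxr s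
    have h2 : piN hM (s⁻¹ * ((cj B * fld σ : MulAut (Matrix.SpecialLinearGroup (Fin n) F)) ^ r) s) = 1 := by
      rw [map_mul, h1, map_inv, inv_mul_cancel]
    rw [piN_eq_one_iff_center hM] at h2
    exact (QuotientGroup.eq.2 h2).symm
  obtain ⟨hord, B', hB'⟩ := exists_conj h.prime hlr hσ
  have hS : Sett (piN hM) (cj B' * fld σ * (cj B')⁻¹) (MulAut.conjNormal x)
      ((cj B').toMonoidHom.comp (emb (ι := Fin n) σ)) := by
    refine sett_conj (sett (Fin n) σ) ?_ (piN_surjective hM) (piN_eq_one_iff_center hM) (cj B') ?_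
    · intro s
      exact QuotientGroup.eq_one_iff s
    · intro s
      rw [hlift, hB']
  obtain ⟨h1, h2, h3⟩ := key h hcen hle hne (fun y => MulAut.conjNormal_apply x y) hS (by
    intro a ha
    obtain ⟨c, hc⟩ := exists_emb (σ := σ) (g := (cj B')⁻¹ a) (by
      rw [MulAut.mul_apply, MulAut.mul_apply] at ha
      conv_rhs => rw [← ha, MulAut.inv_apply_self])
    refine ⟨c, ?_⟩
    change cj B' (emb σ c) = a
    rw [hc, MulAut.apply_inv_self])
  have hcF := CpAutU.Fld.card_fixf hord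
  let _ : Fintype ↥(fixf σ) := Fintype.ofFinite _
  have hc2 := CpAutU.Fld.two_le_card σ
  have hns : ¬ IsSimpleGroup (Matrix.SpecialLinearGroup (Fin n) ↥(fixf σ) ⧸
      center (Matrix.SpecialLinearGroup (Fin n) ↥(fixf σ))) := by
    intro hs
    apply h1
    have := quasisimple_of_simple (not_comm_quot (H := Matrix.SpecialLinearGroup (Fin n) ↥(fixf σ)))
    exact this
  have hn : n = 2 := by
    by_contra hn
    exact hns (Cfsg.Agent.S0249.result n (by omega))
  subst hn
  have hc3 : Nat.card ↥(fixf σ) ≤ 3 := by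
    by_contra hc
    exact hns (Matrix.ProjectiveSpecialLinearGroup.rank_two_simple (by omega))
  have hcz : Nat.card ↥(center (Matrix.SpecialLinearGroup (Fin 2) F)) ∣ 2 := by
    by_cases h0 : (2 : F) = 0
    · rw [Cfsg.Agent.ClassicalGeometry.PSL2Basic.card_center_SL2_even h0]
      exact one_dvd _
    · rw [Cfsg.Agent.ClassicalGeometry.PSL2Basic.card_center_SL2_odd h0]
  have hc48 : Nat.card (Matrix.SpecialLinearGroup (Fin 2) ↥(fixf σ)) ∣ 24 := by
    rw [Cfsg.Agent.ClassicalGeometry.PSL2Basic.card_SL2, ← Nat.card_eq_fintype_card]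
    obtain h0 | h0 : Nat.card ↥(fixf σ) = 2 ∨ Nat.card ↥(fixf σ) = 3 := by omega
    · rw [h0]; norm_num
    · rw [h0]; norm_num
  have h48 : Nat.card ↥(A ⊓ N) ∣ 48 := h3.trans (mul_dvd_mul hc48 hcz)
  have hr : r ∣ 2 ^ 4 * 3 := (h2.trans h48)
  have hr23 : r = 2 ∨ r = 3 := by
    rcases (Nat.Prime.dvd_mul h.prime).1 hr with h5 | h5
    · exact Or.inl ((Nat.prime_dvd_prime_iff_eq h.prime Nat.prime_two).1 (h.prime.dvd_of_dvd_pow h5))
    · exact Or.inr ((Nat.prime_dvd_prime_iff_eq h.prime Nat.prime_three).1 h5)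
  refine ⟨rfl, ?_, Nat.le_of_dvd (by norm_num) h48⟩
  rw [Nat.card_eq_fintype_card, hcF]
  calc Nat.card ↥(fixf σ) ^ r ≤ 3 ^ r := Nat.pow_le_pow_left hc3 r
    _ ≤ 3 ^ 3 := Nat.pow_le_pow_right (by norm_num) (by omega)
    _ = 27 := by norm_num

end SL

end Cfsg.Agent.H76.TW.Field
end

-- part: H76/TW/FieldSU
section
/-!
# S3694, T9: outer automorphisms of field type, `SU_n` (helper76)

* `exists_gu` : a matrix normalizing `SU_n(q)` is a scalar multiple of a unitary one;
* `field_su` : if `x` induces `X ↦ B σ(X) B⁻¹`, `σ ≠ 1`, `x ^ r = 1`, `r` odd, and `C_N(x) = A ∩ N ≠ 1` then `n = 3`, `q = 8`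
  (and `|A ∩ N| ≤ 648`).
-/

set_option autoImplicit false

namespace Cfsg.Agent.H76.TW.Field

open Subgroup Matrix Cfsg Cfsg.Agent.H607.TW Cfsg.Agent.CpAut.Fix Cfsg.Agent.CpAut.Psl
open Cfsg.Agent.LieClassical.HermBasic Cfsg.Agent.LieClassical.HermSiegel
open Cfsg.Agent.ClassicalGeometry.PSUAutCount (gm semiConj toAut gm_inj gm_mul_inv gm_inv_mul gm_mul)
open Cfsg.Agent.ClassicalGeometry.UnitAutBasic (pr pr_surjective pr_eq_pr_iff exists_scalar_of_mem_center mem_center_of_scalar)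

universe u

section Mat

variable {F : Type} [Field F] [Fintype F] {n q : ℕ}

theorem herm_conj (hF : Fintype.card F = q ^ 2) (u v : Fin n → F) :
    hermForm n F q u v = u ⬝ᵥ (fun i => conj hF (v i)) := rfl

theorem herm_mul (hF : Fintype.card F = q ^ 2) (M : Matrix (Fin n) (Fin n) F) (u v : Fin n → F) :
    hermForm n F q (M *ᵥ u) (M *ᵥ v) = u ⬝ᵥ ((Mᵀ * M.map (conj hF)) *ᵥ (fun i => conj hF (v i))) := by
  rw [herm_conj hF]
  have h1 : (fun i => conj hF ((M *ᵥ v) i)) = (M.map (conj hF)) *ᵥ (fun i => conj hF (v i)) := by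
    funext i
    exact RingHom.map_mulVec (conj hF : F →+* F) M v i
  rw [h1, ← mulVec_mulVec, dotProduct_mulVec u, vecMul_transpose]

/-- unitary matrices -/
theorem mul_conj_eq (hF : Fintype.card F = q ^ 2) {M : Matrix (Fin n) (Fin n) F}
    (h : ∀ u v, hermForm n F q (M *ᵥ u) (M *ᵥ v) = hermForm n F q u v) : Mᵀ * M.map (conj hF) = 1 := by
  ext i j
  have h1 := h (Pi.single i 1) (Pi.single j 1)
  rw [herm_mul hF, herm_conj hF] at h1
  have h2 : (fun k => conj hF ((Pi.single j 1 : Fin n → F) k)) = (Pi.single j 1 : Fin n → F) := by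
    funext k
    by_cases hk : k = j
    · subst hk
      rw [Pi.single_eq_same, map_one]
    · rw [Pi.single_eq_of_ne hk, map_zero]
  rw [h2, single_one_dotProduct, mulVec_single_one, single_one_dotProduct] at h1
  have h3 : (Pi.single j 1 : Fin n → F) i = (1 : Matrix (Fin n) (Fin n) F) i j := by
    rw [one_apply, Pi.single_apply]
  rw [← h3, ← h1]
  rfl

theorem herm_of_mul_conj (hF : Fintype.card F = q ^ 2) {M : Matrix (Fin n) (Fin n) F}
    (h : Mᵀ * M.map (conj hF) = 1) (u v : Fin n → F) : hermForm n F q (M *ᵥ u) (M *ᵥ v) = hermForm n F q u v := by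
  rw [herm_mul hF, h, one_mulVec, herm_conj hF]

/-- A matrix normalizing `SU_n(q)` is a scalar multiple of a unitary one. -/
theorem exists_gu (hF : Fintype.card F = q ^ 2) (hn : 1 ≤ n)
    (hspan : Submodule.span F (Set.range (_root_.Cfsg.Agent.H607.TW.mt (iSU n F q))) = ⊤) {B : Matrix.GeneralLinearGroup (Fin n) F}
    (hB : ∀ t : SU n F q, ∃ t' : SU n F q, mat t' = (B : Matrix (Fin n) (Fin n) F) * mat t *
      ((B⁻¹ : Matrix.GeneralLinearGroup (Fin n) F) : Matrix (Fin n) (Fin n) F)) :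
    ∃ (c : Fˣ) (A : GU n F q), B = scg c * (A : Matrix.GeneralLinearGroup (Fin n) F) := by
  classical
  obtain ⟨D, hD⟩ : ∃ D, D = (B : Matrix (Fin n) (Fin n) F)ᵀ * (B : Matrix (Fin n) (Fin n) F).map (conj hF) := ⟨_, rfl⟩
  have hmap : ∀ X Y : Matrix (Fin n) (Fin n) F, (X * Y).map (conj hF) = X.map (conj hF) * Y.map (conj hF) :=
    fun X Y => Matrix.map_mul (f := (conj hF : F →+* F))
  have hcomm : ∀ t : SU n F q, (mat t)ᵀ * D = D * (mat t)ᵀ := by
    intro t
    obtain ⟨t', ht'⟩ := hB t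
    have h1 : mat t' * (B : Matrix (Fin n) (Fin n) F) = (B : Matrix (Fin n) (Fin n) F) * mat t := by
      rw [ht', mul_assoc, mul_assoc, ← Units.val_mul, inv_mul_cancel, Units.val_one, mul_one]
    have h2 : (mat t)ᵀ * (mat t).map (conj hF) = 1 := mul_conj_eq hF ((mem_SU_iff t.1).1 t.2)
    have h3 : (mat t')ᵀ * (mat t').map (conj hF) = 1 := mul_conj_eq hF ((mem_SU_iff t'.1).1 t'.2)
    have h4 : (mat t)ᵀ * D * (mat t).map (conj hF) = D := by
      calc (mat t)ᵀ * D * (mat t).map (conj hF)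
          = ((B : Matrix (Fin n) (Fin n) F) * mat t)ᵀ * ((B : Matrix (Fin n) (Fin n) F) * mat t).map (conj hF) := by
            rw [hD, hmap, transpose_mul]; simp only [mul_assoc]
        _ = (B : Matrix (Fin n) (Fin n) F)ᵀ * ((mat t')ᵀ * (mat t').map (conj hF)) *
            (B : Matrix (Fin n) (Fin n) F).map (conj hF) := by
            rw [← h1, hmap, transpose_mul]; simp only [mul_assoc]
        _ = D := by rw [h3, mul_one, hD]
    have h5 : (mat t).map (conj hF) * (mat t)ᵀ = 1 := mul_eq_one_comm.1 h2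
    calc (mat t)ᵀ * D = (mat t)ᵀ * D * ((mat t).map (conj hF) * (mat t)ᵀ) := by rw [h5, mul_one]
      _ = ((mat t)ᵀ * D * (mat t).map (conj hF)) * (mat t)ᵀ := by simp only [mul_assoc]
      _ = D * (mat t)ᵀ := by rw [h4]
  have hcomm2 : ∀ X : Matrix (Fin n) (Fin n) F, X * Dᵀ = Dᵀ * X := by
    intro X
    have hX : X ∈ Submodule.span F (Set.range (_root_.Cfsg.Agent.H607.TW.mt (iSU n F q))) := by rw [hspan]; trivial
    induction hX using Submodule.span_induction with
    | mem x hx =>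
      obtain ⟨t, rfl⟩ := hx
      have h1 := congrArg Matrix.transpose (hcomm t)
      rw [transpose_mul, transpose_mul, transpose_transpose] at h1
      exact h1.symm
    | zero => rw [zero_mul, mul_zero]
    | add x y _ _ hx hy => rw [add_mul, mul_add, hx, hy]
    | smul a x _ hx => rw [smul_mul_assoc, mul_smul_comm, hx]
  obtain ⟨l, hl⟩ : ∃ l : F, D = l • 1 := by
    have h1 : Dᵀ ∈ Set.range (Matrix.scalar (Fin n)) := by
      rw [Matrix.mem_range_scalar_iff_commute_single']
      intro i j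
      exact hcomm2 _
    obtain ⟨l, hl⟩ := h1
    refine ⟨l, ?_⟩
    have h2 := congrArg Matrix.transpose hl
    rw [transpose_transpose] at h2
    rw [← h2]
    ext i j
    simp [Matrix.scalar_apply, Matrix.diagonal_apply, Matrix.one_apply, eq_comm]
  have hlq : l ^ q = l := by
    have h1 : D ⟨0, by omega⟩ ⟨0, by omega⟩ = l := by
      rw [hl, Matrix.smul_apply, one_apply_eq, smul_eq_mul, mul_one]
    rw [← h1, hD, mul_apply, sum_pow_q hF]
    refine Finset.sum_congr rfl fun k _ => ?_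
    rw [transpose_apply, map_apply, conj_apply]
    exact norm_pow_q hF _
  have hl0 : l ≠ 0 := by
    rintro rfl
    have h1 : IsUnit D.det := by
      rw [hD, det_mul, det_transpose]
      have h2 : ((B : Matrix (Fin n) (Fin n) F).map (conj hF)).det = conj hF (B : Matrix (Fin n) (Fin n) F).det :=
        (RingHom.map_det (conj hF : F →+* F) _).symm
      rw [h2]
      have h3 : IsUnit (B : Matrix (Fin n) (Fin n) F).det := (Matrix.isUnit_iff_isUnit_det _).1 B.isUnit
      exact h3.mul (h3.map _)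
    have : Nonempty (Fin n) := ⟨⟨0, by omega⟩⟩
    rw [hl, zero_smul, det_zero] at h1
    exact not_isUnit_zero h1
  obtain ⟨m, hm0, hm⟩ := exists_norm_eq_ne hF hlq hl0
  let c : Fˣ := Units.mk0 m hm0
  have hcoe : ∀ (c : Fˣ) (X : Matrix.GeneralLinearGroup (Fin n) F),
      ((scg c * X : Matrix.GeneralLinearGroup (Fin n) F) : Matrix (Fin n) (Fin n) F) = (c : F) • (X : Matrix (Fin n) (Fin n) F) := by
    intro c X
    rw [Units.val_mul]
    change Matrix.scalar (Fin n) (c : F) * (X : Matrix (Fin n) (Fin n) F) = _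
    rw [Matrix.scalar_apply, ← Matrix.smul_eq_diagonal_mul]
  have hA : scg c⁻¹ * B ∈ GU n F q := by
    rw [mem_GU_iff]
    intro u v
    apply herm_of_mul_conj hF
    rw [hcoe]
    have h1 : (((c⁻¹ : Fˣ) : F) • (B : Matrix (Fin n) (Fin n) F)).map (conj hF) =
        (conj hF ((c⁻¹ : Fˣ) : F)) • (B : Matrix (Fin n) (Fin n) F).map (conj hF) := by
      ext i j
      rw [map_apply, Matrix.smul_apply, Matrix.smul_apply, map_apply, smul_eq_mul, smul_eq_mul, map_mul]
    rw [h1, transpose_smul, smul_mul_smul_comm, ← hD, hl, smul_smul]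
    have h2 : ((c⁻¹ : Fˣ) : F) * conj hF ((c⁻¹ : Fˣ) : F) * l = 1 := by
      rw [Units.val_inv_eq_inv_val, map_inv₀, conj_apply, ← hm]
      change m⁻¹ * (m ^ q)⁻¹ * (m * m ^ q) = 1
      have h3 : m ^ q ≠ 0 := pow_ne_zero _ hm0
      field_simp
    rw [h2, one_smul]
  refine ⟨c, ⟨_, hA⟩, ?_⟩
  change B = scg c * (scg c⁻¹ * B)
  apply Units.ext
  rw [hcoe, hcoe, smul_smul, ← Units.val_mul, mul_inv_cancel, Units.val_one, one_smul]

omit [Fintype F] in
theorem coe_scg_mul (c : Fˣ) (X : Matrix.GeneralLinearGroup (Fin n) F) :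
    ((scg c * X : Matrix.GeneralLinearGroup (Fin n) F) : Matrix (Fin n) (Fin n) F) = (c : F) • (X : Matrix (Fin n) (Fin n) F) := by
  rw [Units.val_mul]
  change Matrix.scalar (Fin n) (c : F) * (X : Matrix (Fin n) (Fin n) F) = _
  rw [Matrix.scalar_apply, ← Matrix.smul_eq_diagonal_mul]

omit [Fintype F] in
theorem tauP_scg (c : Fˣ) (X : Matrix.GeneralLinearGroup (Fin n) F) (σ : F ≃+* F) (M : Matrix (Fin n) (Fin n) F) :
    tauP (scg c * X) σ M = tauP X σ M := by
  have h1 : (((scg c * X)⁻¹ : Matrix.GeneralLinearGroup (Fin n) F) : Matrix (Fin n) (Fin n) F) =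
      ((c⁻¹ : Fˣ) : F) • ((X⁻¹ : Matrix.GeneralLinearGroup (Fin n) F) : Matrix (Fin n) (Fin n) F) := by
    rw [← coe_scg_mul]
    congr 1
    rw [inv_eq_iff_mul_eq_one]
    apply Units.ext
    rw [mul_assoc, coe_scg_mul, Units.val_mul, coe_scg_mul, mul_smul_comm, smul_smul, ← Units.val_mul c, mul_inv_cancel,
      Units.val_one, one_smul, ← Units.val_mul X, mul_inv_cancel]
  rw [tauP_apply, tauP_apply, h1, coe_scg_mul, smul_mul_assoc, mul_smul_comm, smul_mul_assoc, smul_smul, ← Units.val_mul c⁻¹,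
    inv_mul_cancel, Units.val_one, one_smul]

end Mat

section SU

variable {G : Type u} [Group G] {N A : Subgroup G} {r : ℕ} {F : Type} [Field F] [Fintype F] {n q : ℕ}

theorem piN_eq_one_iff_center' (hF : Fintype.card F = q ^ 2) (hn : 3 ≤ n) {π : ↥(SU n F q) →* G}
    (hM : Model N (iSU n F q) π) (s : ↥(SU n F q)) : piN hM s = 1 ↔ s ∈ center ↥(SU n F q) := by
  rw [piN_eq_one, hM.ker]
  constructor
  · rintro ⟨c, hc⟩
    refine mem_center_of_scalar (c := c) fun v => ?_
    have hc' : mat s = c • 1 := hc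
    rw [act_def, hc', Matrix.smul_mulVec, one_mulVec]
  · intro h
    obtain ⟨c, -, hc⟩ := exists_scalar_of_mem_center hF hn h
    refine ⟨c, ?_⟩
    change mat s = c • 1
    apply Matrix.ext_of_mulVec_single
    intro i
    rw [Matrix.smul_mulVec, one_mulVec]
    exact hc _

/-- **T9, unitary case.** -/
theorem field_su [Finite G] (hF : Fintype.card F = q ^ 2) {π : ↥(SU n F q) →* G} (hn : 3 ≤ n) (h : Loc N A r) (hr2 : r ≠ 2)
    (hM : Model N (iSU n F q) π) {x : G} (hxr : x ^ r = 1) (hcen : ∀ y ∈ A ⊓ N, x * y = y * x)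
    (hle : ∀ y ∈ N, x * y = y * x → y ∈ A) (hne : A ⊓ N ≠ ⊥) {B : Matrix.GeneralLinearGroup (Fin n) F} {σ : F ≃+* F}
    (hσ : σ ≠ 1) (hτ : Ind (iSU n F q) π x (tauP B σ)) : n = 3 ∧ q = 8 ∧ Nat.card ↥(A ⊓ N) ≤ 648 := by
  classical
  have hNn : N.Normal := h.normal
  -- `B` is a multiple of a unitary matrix
  obtain ⟨c, D, hD⟩ : ∃ (c : Fˣ) (D : GU n F q), B = scg c * (D : Matrix.GeneralLinearGroup (Fin n) F) := by
    refine exists_gu hF (by omega) hM.span fun t => ?_
    obtain ⟨t', h1, -⟩ := ind_tauP hM.two hτ ((semiConj 1 σ)⁻¹ t)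
    refine ⟨t', ?_⟩
    have h2 : mat t = (mat ((semiConj 1 σ)⁻¹ t)).map σ := by
      rw [← CpAutU.Fixed.mat_semiConj, MulAut.apply_inv_self]
    rw [h2]
    exact h1
  have hlift : ∀ s, MulAut.conjNormal x (piN hM s) = piN hM (semiConj D σ s) := by
    intro s
    obtain ⟨s', h1, h2⟩ := ind_tauP hM.two hτ s
    have h3 : s' = semiConj D σ s := by
      apply mt_injective hM
      rw [h1, hD, tauP_scg]
      rfl
    apply Subtype.ext
    rw [MulAut.conjNormal_apply, coe_piN, coe_piN, ← h3, h2]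
  have hpr : ∀ a b : SU n F q, pr n F q a = pr n F q b ↔ piN hM a = piN hM b := by
    intro a b
    rw [pr_eq_pr_iff, ← piN_eq_one_iff_center' hF hn hM, map_mul, map_inv, inv_mul_eq_one]
  have hlr : (toAut D σ) ^ r = 1 := by
    apply MulEquiv.ext
    intro y
    obtain ⟨s, rfl⟩ := pr_surjective y
    have h1 : ∀ (k : ℕ) (s : SU n F q), ((toAut D σ) ^ k) (pr n F q s) = pr n F q ((semiConj D σ ^ k) s) := by
      intro k
      induction k with
      | zero => intro s; rfl
      | succ k ih =>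
        intro s
        rw [pow_succ, pow_succ, MulAut.mul_apply, MulAut.mul_apply, ← ih]
        rfl
    rw [h1, MulAut.one_apply, hpr]
    exact piN_pow hM hlift hxr s
  obtain ⟨hord, M, hM'⟩ := CpAutU.Desc.exists_conj hF hn h.prime hr2 hlr hσ
  have hodd := h.prime.odd_of_ne_two hr2
  obtain ⟨s, hs2, hsc, hq⟩ := CpAutU.Fld.exists_s' hF hord hodd
  let _ : Fintype ↥(fixf σ) := Fintype.ofFinite _
  have hF₀ : Fintype.card ↥(fixf σ) = s ^ 2 := by rw [← Nat.card_eq_fintype_card, hsc]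
  have hpow : ∀ a ∈ fixf σ, a ^ q = a ^ s := fun a ha => CpAutU.Fld.pow_q hodd hsc hq ha
  have hS : Sett (piN hM) (semiConj M 1 * semiConj 1 σ * (semiConj M 1)⁻¹) (MulAut.conjNormal x)
      ((semiConj M 1).toMonoidHom.comp (CpAutU.Fixed.embSU (n := n) hF hpow)) := by
    refine sett_conj (CpAutU.Fixed.sett (n := n) hF hn hF₀ hpow) ?_ (piN_surjective hM) (piN_eq_one_iff_center' hF hn hM)
      (semiConj M 1) ?_
    · intro g
      exact QuotientGroup.eq_one_iff g
    · intro g
      rw [hlift, ← hpr]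
      have h1 : toAut D σ (pr n F q g) = (toAut M 1 * toAut 1 σ * (toAut M 1)⁻¹ : MulAut (PSU n F q)) (pr n F q g) := by
        rw [hM']
      have h2 : (toAut M 1)⁻¹ (pr n F q g) = pr n F q ((semiConj M 1)⁻¹ g) := by
        apply (toAut M 1).injective
        rw [MulAut.apply_inv_self]
        change _ = pr n F q (semiConj M 1 ((semiConj M 1)⁻¹ g))
        rw [MulAut.apply_inv_self]
      rw [MulAut.mul_apply, MulAut.mul_apply, h2] at h1
      exact h1
  obtain ⟨h1, h2, h3⟩ := key h hcen hle hne (fun y => MulAut.conjNormal_apply x y) hS (by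
    intro a ha
    obtain ⟨c, hc⟩ := CpAutU.Fixed.exists_embSU (ρ := σ) hF hpow (g := (semiConj M 1)⁻¹ a) (by
      rw [MulAut.mul_apply, MulAut.mul_apply] at ha
      conv_rhs => rw [← ha, MulAut.inv_apply_self])
    refine ⟨c, ?_⟩
    change semiConj M 1 (CpAutU.Fixed.embSU hF hpow c) = a
    rw [hc, MulAut.apply_inv_self])
  have hex : n = 3 ∧ s = 2 := by
    by_contra hex
    apply h1
    have hs : IsSimpleGroup (SU n ↥(fixf σ) s ⧸ center (SU n ↥(fixf σ) s)) := Cfsg.Agent.S0283.result hF₀ n hn hex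
    exact quasisimple_of_simple (not_comm_quot (H := ↥(SU n ↥(fixf σ) s)))
  obtain ⟨rfl, rfl⟩ := hex
  have hcz : Nat.card ↥(center ↥(SU 3 F q)) ∣ 3 := by
    rw [Cfsg.Agent.S0279.result hF 3 le_rfl]
    exact Nat.gcd_dvd_left _ _
  have hcs : Nat.card ↥(SU 3 ↥(fixf σ) 2) = 216 := by
    have h5 := Cfsg.Agent.S0278.result hF₀ 3 (by norm_num)
    have h6 : (∏ i ∈ Finset.range 3, (if Even i then 2 ^ (i + 1) + 1 else 2 ^ (i + 1) - 1)) = 81 := by decide
    rw [h6] at h5
    omega
  have h648 : Nat.card ↥(A ⊓ N) ∣ 648 := h3.trans (by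
    rw [hcs]
    exact mul_dvd_mul_left 216 hcz)
  have hr3 : r = 3 := by
    have hr : r ∣ 2 ^ 3 * 3 ^ 4 := (h2.trans h648)
    rcases (Nat.Prime.dvd_mul h.prime).1 hr with h5 | h5
    · exact absurd ((Nat.prime_dvd_prime_iff_eq h.prime Nat.prime_two).1 (h.prime.dvd_of_dvd_pow h5)) hr2
    · exact (Nat.prime_dvd_prime_iff_eq h.prime Nat.prime_three).1 (h.prime.dvd_of_dvd_pow h5)
  refine ⟨rfl, ?_, Nat.le_of_dvd (by norm_num) h648⟩
  rw [hq, hr3]
  norm_num

end SU

end Cfsg.Agent.H76.TW.Field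
end

-- part: H947/TW/Abs
section
/-!
# S3694, task T11 (helper947): the group theory of the torus normaliser case

* `le_of_norm` : a proper subgroup of `N` normalised by `A` lies in `A`;
* `TD N A T` : `T` is a cyclic normal subgroup of `A`, and `A ∩ N` is dihedral over `T`;
* `abs_false` : the contradiction, for `T` of exponent not dividing `4`.
-/

set_option autoImplicit false
set_option linter.unusedSectionVars false

namespace Cfsg.Agent.H947.TW

open Subgroup Cfsg.Agent.H607.TW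

universe u

section Basic

variable {G : Type u} [Group G] {N A C : Subgroup G} {r : ℕ}

theorem norm_of_forall [Finite G] {X : Subgroup G} {a : G} (h : ∀ x ∈ X, a * x * a⁻¹ ∈ X) : a ∈ normalizer (X : Set G) := by
  rw [Subgroup.mem_normalizer_iff_map_conj_eq]
  refine Subgroup.eq_of_le_of_card_ge ?_ (le_of_eq (Subgroup.card_map_of_injective
    (K := X) (MulAut.conj a).injective).symm)
  rintro _ ⟨x, hx, rfl⟩
  exact h x hx

theorem norm_mem {X : Subgroup G} {a x : G} (h : a ∈ normalizer (X : Set G)) (hx : x ∈ X) : a * x * a⁻¹ ∈ X :=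
  (mem_normalizer_iff.1 h x).1 hx

/-- normal subgroups of `G` inside `N` -/
theorem eq_bot_or (hN : IsSimpleGroup N) {X : Subgroup G} (hX : X ≤ N) (hXn : X.Normal) : X = ⊥ ∨ X = N := by
  have h1 : (X.subgroupOf N).Normal := inferInstance
  rcases h1.eq_bot_or_eq_top with h2 | h2
  · left
    rw [Subgroup.subgroupOf_eq_bot] at h2
    rw [eq_bot_iff]
    exact fun x hx => h2.le_bot ⟨hx, hX hx⟩
  · right
    rw [Subgroup.subgroupOf_eq_top] at h2
    exact le_antisymm hX h2

theorem le_of_norm (h : Loc N A r) {X : Subgroup G} (hX : X ≤ N) (hne : X ≠ N) (hA : A ≤ normalizer (X : Set G)) :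
    X ≤ A := by
  by_contra hcon
  have h1 : A < A ⊔ X := lt_of_le_of_ne le_sup_left (fun h2 => hcon (h2 ▸ le_sup_right))
  have h2 : A ⊔ X = ⊤ := h.max.2 _ h1
  have h3 : normalizer (X : Set G) = ⊤ := by
    rw [eq_top_iff, ← h2]
    exact sup_le hA le_normalizer
  have h4 : X.Normal := normalizer_eq_top_iff.1 h3
  rcases eq_bot_or h.simple hX h4 with h5 | h5
  · exact hcon (h5 ▸ bot_le)
  · exact hne h5

theorem eq_bot_of_norm (h : Loc N A r) (hC : IsCoatom C) (hAC : A ≠ C) {X : Subgroup G} (hX : X ≤ N) (hne : X ≠ N)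
    (h1 : A ≤ normalizer (X : Set G)) (h2 : C ≤ normalizer (X : Set G)) : X = ⊥ := by
  have h3 : A ⊔ C = ⊤ := by
    rcases eq_or_lt_of_le (le_sup_left : A ≤ A ⊔ C) with h4 | h4
    · exfalso
      have h5 : C ≤ A := h4 ▸ le_sup_right
      rcases eq_or_lt_of_le h5 with h6 | h6
      · exact hAC h6.symm
      · exact h.max.1 (hC.2 _ h6)
    · exact h.max.2 _ h4
  have h4 : X.Normal := normalizer_eq_top_iff.1 (by
    rw [eq_top_iff, ← h3]
    exact sup_le h1 h2)
  rcases eq_bot_or h.simple hX h4 with h5 | h5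
  · exact h5
  · exact absurd h5 hne

/-- abelian subgroups are not `N` -/
theorem ne_of_comm (h : Loc N A r) {X : Subgroup G} (hX : ∀ x ∈ X, ∀ y ∈ X, x * y = y * x) : X ≠ N := by
  rintro rfl
  exact h.nonab ⟨⟨fun a b => Subtype.ext (hX a a.2 b b.2)⟩⟩

end Basic

/-- `T` is a cyclic normal subgroup of `A`, and `A ∩ N` is dihedral over `T` -/
structure TD {G : Type u} [Group G] (N A T : Subgroup G) : Prop where
  leA : T ≤ A
  leN : T ≤ N
  cyc : IsCyclic T
  norm : ∀ a ∈ A, ∀ t ∈ T, a * t * a⁻¹ ∈ T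
  out : ∀ h ∈ A, h ∈ N → h ∉ T → h * h = 1 ∧ ∀ t ∈ T, h * t * h⁻¹ = t⁻¹

section TD

variable {G : Type u} [Group G] {N A T : Subgroup G}

theorem TD.comm (h : TD N A T) : ∀ x ∈ T, ∀ y ∈ T, x * y = y * x := by
  intro x hx y hy
  have := h.cyc.isMulCommutative
  exact congrArg Subtype.val (this.is_comm.comm (⟨x, hx⟩ : T) ⟨y, hy⟩)

theorem TD.conj (h : TD N A T) (hN : N.Normal) (g : G) :
    TD N (A.map (MulAut.conj g).toMonoidHom) (T.map (MulAut.conj g).toMonoidHom) := by
  have hc : ∀ x : G, (MulAut.conj g).toMonoidHom x = g * x * g⁻¹ := fun x => rfl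
  refine ⟨map_mono h.leA, ?_, ?_, ?_, ?_⟩
  · rintro _ ⟨t, ht, rfl⟩
    rw [hc]
    exact hN.conj_mem t (h.leN ht) g
  · have := h.cyc
    exact isCyclic_of_surjective ((MulAut.conj g).toMonoidHom.subgroupMap T)
      ((MulAut.conj g).toMonoidHom.subgroupMap_surjective T)
  · rintro _ ⟨a, ha, rfl⟩ _ ⟨t, ht, rfl⟩
    exact ⟨a * t * a⁻¹, h.norm a ha t ht, by rw [map_mul, map_mul, map_inv]⟩
  · rintro _ ⟨a, ha, rfl⟩ haN haT
    have haN' : a ∈ N := by
      have := hN.conj_mem _ haN g⁻¹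
      rw [hc] at this
      have e : g⁻¹ * (g * a * g⁻¹) * g⁻¹⁻¹ = a := by group
      rwa [e] at this
    have haT' : a ∉ T := fun h1 => haT ⟨a, h1, rfl⟩
    obtain ⟨h1, h2⟩ := h.out a ha haN' haT'
    refine ⟨by rw [← map_mul, h1, map_one], ?_⟩
    rintro _ ⟨t, ht, rfl⟩
    rw [← map_inv, ← map_mul, ← map_mul, h2 t ht, map_inv]

/-- elements of order `n` of a cyclic group -/
theorem TD.mem_zpowers [Finite G] (h : TD N A T) {a b : G} (ha : a ∈ T) (hb : b ∈ T) {n : ℕ} (han : a ^ n = 1)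
    (hbn : orderOf b = n) : a ∈ zpowers b := by
  classical
  have hn : 0 < n := by rw [← hbn]; exact orderOf_pos b
  have := h.cyc
  have hfin : Finite T := inferInstance
  have : Fintype T := Fintype.ofFinite T
  by_contra hcon
  have h1 := IsCyclic.card_pow_eq_one_le (α := T) hn
  set b' : T := ⟨b, hb⟩ with hb'
  set a' : T := ⟨a, ha⟩ with ha'
  have hbn' : orderOf b' = n := by rw [hb', Subgroup.orderOf_mk]; exact hbn
  have hcon' : a' ∉ zpowers b' := by
    intro h2
    apply hcon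
    obtain ⟨k, hk⟩ := mem_zpowers_iff.1 h2
    refine mem_zpowers_iff.2 ⟨k, ?_⟩
    have := congrArg Subtype.val hk
    simpa using this
  have h2 : insert a' (Finset.univ.filter fun c : T => c ∈ zpowers b') ⊆ Finset.univ.filter fun c : T => c ^ n = 1 := by
    intro c hc
    rw [Finset.mem_filter]
    refine ⟨Finset.mem_univ _, ?_⟩
    rcases Finset.mem_insert.1 hc with rfl | hc
    · exact Subtype.ext han
    · obtain ⟨k, rfl⟩ := mem_zpowers_iff.1 (Finset.mem_filter.1 hc).2
      rw [← zpow_natCast, ← zpow_mul, mul_comm, zpow_mul, zpow_natCast, ← hbn', pow_orderOf_eq_one, one_zpow]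
  have h3 := Finset.card_le_card h2
  rw [Finset.card_insert_of_notMem (by simpa only [_root_.Finset.mem_filter, _root_.Finset.mem_univ, _root_.true_and] using hcon')] at h3
  have h4 : (Finset.univ.filter fun c : T => c ∈ zpowers b').card = n := by
    rw [← hbn', ← Nat.card_zpowers, Nat.card_eq_fintype_card, Fintype.card_subtype]
  omega

/-- the cyclic subgroup generated by an element of `T` is normal in `A` -/
theorem TD.norm_zpowers [Finite G] (h : TD N A T) {y : G} (hy : y ∈ T) : A ≤ normalizer (zpowers y : Set G) := by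
  intro a ha
  apply norm_of_forall
  intro x hx
  obtain ⟨k, rfl⟩ := mem_zpowers_iff.1 hx
  have h1 : a * y * a⁻¹ ∈ zpowers y := by
    refine h.mem_zpowers (h.norm a ha y hy) hy (n := orderOf y) ?_ rfl
    rw [conj_pow, pow_orderOf_eq_one, mul_one, mul_inv_cancel]
  have h2 : a * y ^ k * a⁻¹ = (a * y * a⁻¹) ^ k := conj_zpow.symm
  rw [h2]
  exact zpow_mem h1 k

end TD

section Main

theorem pow4 {G : Type*} [Group G] (s : G) : s ^ 4 = (s * s) * (s * s) := by
  rw [← pow_two, ← pow_two, ← pow_mul]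

variable {G : Type u} [Group G] [Finite G] {N A C A₁ C₁ A₂ C₂ T : Subgroup G} {r d : ℕ}

/-- **The contradiction.** -/
theorem abs_false (h : Sit N A C A₁ C₁ A₂ C₂ r d) (hT : TD N A T) (hTr : IsPGroup r T) (hbig : ∃ t ∈ T, t ^ 4 ≠ 1)
    (hF : ∀ x ∈ A₂, x ^ r = 1 → (∀ t ∈ T, x * t = t * x) → x ∈ N) : False := by
  have hrp : Fact r.Prime := ⟨h.locA.prime⟩
  have hN := h.locA.normal
  obtain ⟨g, hg⟩ := h.conj
  set TC := T.map (MulAut.conj g).toMonoidHom with hTC
  have hTDC : TD N C TC := by rw [hg]; exact hT.conj hN g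
  have hTCr : IsPGroup r TC := hTr.map _
  have hA2r : IsPGroup r A₂ := (Cfsg.Agent.Lib.LocalCore.isPGroup_map_pCore r C).to_le h.A₂_OO
  have hA2A : A₂ ≤ A := h.A₂_le.trans (inf_le_left.trans (h.A₁_le.trans inf_le_left))
  have hA2C : A₂ ≤ C := h.A₂_le.trans (inf_le_left.trans (h.A₁_le.trans inf_le_right))
  -- `A₂ ∩ N ≠ 1`
  have hA2N : A₂ ⊓ N ≠ ⊥ := by
    intro h0
    have hdvd : r ∣ Nat.card A₂ := by
      obtain ⟨k, hk⟩ := IsPGroup.iff_card.1 hA2r
      rw [hk]
      refine dvd_pow_self r ?_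
      rintro rfl
      rw [pow_zero, card_eq_one] at hk
      exact h.A₂_ne hk
    obtain ⟨x, hx⟩ := exists_prime_orderOf_dvd_card' r hdvd
    have hxr : (x : G) ^ r = 1 := by
      have : x ^ r = 1 := by rw [← hx]; exact pow_orderOf_eq_one x
      exact congrArg Subtype.val this
    have hcomm : ∀ t ∈ T, (x : G) * t = t * x := by
      intro t ht
      have h1 : (x : G) * t * (x : G)⁻¹ * t⁻¹ ∈ A₂ ⊓ N := by
        refine ⟨?_, ?_⟩
        · have h2 : t * (x : G)⁻¹ * t⁻¹ ∈ A₂ := norm_mem (h.A₂_norm (hT.leA ht)) (A₂.inv_mem x.2)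
          have e : (x : G) * t * (x : G)⁻¹ * t⁻¹ = x * (t * (x : G)⁻¹ * t⁻¹) := by group
          rw [e]
          exact A₂.mul_mem x.2 h2
        · exact N.mul_mem (hN.conj_mem t (hT.leN ht) x) (N.inv_mem (hT.leN ht))
      rw [h0, mem_bot] at h1
      calc (x : G) * t = ((x : G) * t * (x : G)⁻¹ * t⁻¹) * (t * x) := by group
        _ = t * x := by rw [h1, one_mul]
    have hxN := hF x x.2 hxr hcomm
    have h2 : (x : G) ∈ A₂ ⊓ N := ⟨x.2, hxN⟩
    rw [h0, mem_bot] at h2
    have h3 : x = 1 := Subtype.ext h2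
    rw [h3, orderOf_one] at hx
    exact hrp.out.one_lt.ne hx
  obtain ⟨y, hy, hy1⟩ : ∃ y ∈ A₂ ⊓ N, y ≠ 1 := by
    by_contra hcon
    push Not at hcon
    exact hA2N ((Subgroup.eq_bot_iff_forall _).2 hcon)
  -- an element of order `r` normalised by both
  have key : ∀ z : G, z ∈ T → z ∈ TC → z ≠ 1 → False := by
    intro z hz hzC hz1
    have h1 := eq_bot_of_norm h.locA h.locC.max h.ne (X := zpowers z) (by rw [zpowers_le]; exact hT.leN hz)
      (ne_of_comm h.locA (by
        rintro a ⟨i, rfl⟩ b ⟨j, rfl⟩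
        exact (Commute.refl z).zpow_zpow i j)) (hT.norm_zpowers hz) (hTDC.norm_zpowers hzC)
    exact hz1 (by rwa [zpowers_eq_bot] at h1)
  by_cases hr2 : r = 2
  · subst hr2
    -- the involution of `T`
    obtain ⟨t0, ht0, ht04⟩ := hbig
    have hord : ∀ t ∈ T, t ≠ 1 → ∃ k : ℕ, orderOf (t ^ k) = 2 := by
      intro t ht ht1
      obtain ⟨k, hk⟩ := hTr ⟨t, ht⟩
      have hk' : t ^ 2 ^ k = 1 := congrArg Subtype.val hk
      obtain ⟨j, -, hj⟩ := (Nat.dvd_prime_pow Nat.prime_two).1 (orderOf_dvd_of_pow_eq_one hk')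
      have hj0 : j ≠ 0 := by
        rintro rfl
        rw [pow_zero, orderOf_eq_one_iff] at hj
        exact ht1 hj
      obtain ⟨i, rfl⟩ := Nat.exists_eq_succ_of_ne_zero hj0
      refine ⟨2 ^ i, ?_⟩
      rw [orderOf_pow_of_dvd (by positivity) (by rw [hj]; exact pow_dvd_pow 2 (Nat.le_succ i)), hj, Nat.succ_eq_add_one,
        pow_succ]
      exact Nat.mul_div_cancel_left 2 (by positivity)
    have ht01 : t0 ≠ 1 := by rintro rfl; exact ht04 (one_pow 4)
    obtain ⟨k0, hk0⟩ := hord t0 ht0 ht01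
    obtain ⟨z, hz⟩ : ∃ z, t0 ^ k0 = z := ⟨_, rfl⟩
    rw [hz] at hk0
    have hzT : z ∈ T := by rw [← hz]; exact T.pow_mem ht0 k0
    have hz1 : z ≠ 1 := by rintro rfl; rw [orderOf_one] at hk0; omega
    have hzz : z * z = 1 := by rw [← sq, ← hk0]; exact pow_orderOf_eq_one z
    have huniq : ∀ w ∈ T, orderOf w = 2 → w = z := by
      intro w hw hw2
      have h1 := hT.mem_zpowers hw hzT (n := 2) (by rw [← hw2]; exact pow_orderOf_eq_one w) hk0
      obtain ⟨k, rfl⟩ := mem_zpowers_iff.1 h1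
      rcases Int.even_or_odd k with hk | hk
      · exfalso
        obtain ⟨i, rfl⟩ := hk
        rw [← two_mul, zpow_mul, zpow_ofNat, sq, hzz, one_zpow, orderOf_one] at hw2
        omega
      · obtain ⟨i, rfl⟩ := hk
        rw [zpow_add, zpow_mul, zpow_ofNat, sq, hzz, one_zpow, one_mul, zpow_one]
    have hpowz : ∀ t ∈ T, t ≠ 1 → t ∈ A₂ → z ∈ A₂ := by
      intro t ht ht1 htA
      obtain ⟨k, hk⟩ := hord t ht ht1
      rw [← huniq _ (T.pow_mem ht k) hk]
      exact A₂.pow_mem htA k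
    have hzA2 : z ∈ A₂ := by
      by_cases hyT : y ∈ T
      · exact hpowz y hyT hy1 hy.1
      · obtain ⟨-, h2⟩ := hT.out y (hA2A hy.1) hy.2 hyT
        have h3 : t0 * t0 ∈ A₂ := by
          have h4 : t0 * y * t0⁻¹ ∈ A₂ := norm_mem (h.A₂_norm (hT.leA ht0)) hy.1
          have h5 : y * t0⁻¹ * y⁻¹ = t0 := by
            have := h2 t0⁻¹ (T.inv_mem ht0)
            rwa [inv_inv] at this
          have e : t0 * t0 = (t0 * y * t0⁻¹) * y⁻¹ := by
            calc t0 * t0 = t0 * (y * t0⁻¹ * y⁻¹) := by rw [h5]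
              _ = (t0 * y * t0⁻¹) * y⁻¹ := by group
          rw [e]
          exact A₂.mul_mem h4 (A₂.inv_mem hy.1)
        refine hpowz (t0 * t0) (T.mul_mem ht0 ht0) (fun h4 => ht04 ?_) h3
        calc t0 ^ 4 = (t0 * t0) * (t0 * t0) := pow4 t0
          _ = 1 := by rw [h4, one_mul]
    have hzcent : ∀ a ∈ A, a * z = z * a := by
      intro a ha
      have h1 := huniq (a * z * a⁻¹) (hT.norm a ha z hzT) (by
        rw [← hk0]
        exact orderOf_injective (MulAut.conj a).toMonoidHom (MulAut.conj a).injective z)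
      calc a * z = (a * z * a⁻¹) * a := by group
        _ = z * a := by rw [h1]
    have hzC1 : ∀ c ∈ C, c * z * c⁻¹ ∈ A := by
      intro c hc
      have h1 : c * z * c⁻¹ ∈ C₁ := norm_mem (h.C₁_norm hc) (h.A₂_le hzA2).2
      exact (h.C₁_le h1).1
    by_cases hzTC : z ∈ TC
    · exact key z hzT hzTC hz1
    · obtain ⟨-, h2⟩ := hTDC.out z (hA2C hzA2) (hT.leN hzT) hzTC
      -- a big element of `TC`
      have hs0 : g * t0 * g⁻¹ ∈ TC := ⟨t0, ht0, rfl⟩
      obtain ⟨s, hs⟩ : ∃ s, g * t0 * g⁻¹ = s := ⟨_, rfl⟩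
      rw [hs] at hs0
      have hs4 : s ^ 4 ≠ 1 := by
        intro h3
        apply ht04
        rw [← hs, conj_pow] at h3
        calc t0 ^ 4 = g⁻¹ * (g * t0 ^ 4 * g⁻¹) * g := by group
          _ = 1 := by rw [h3]; group
      apply hs4
      have h3 := hzcent _ (hzC1 s (hTDC.leA hs0))
      have h4 := h2 s hs0
      have hzi : z⁻¹ = z := inv_eq_of_mul_eq_one_left hzz
      rw [hzi] at h4
      -- `z s = s⁻¹ z`
      have h5 : z * s = s⁻¹ * z := by
        calc z * s = (z * s * z) * z := by rw [mul_assoc (z * s), hzz, mul_one]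
          _ = s⁻¹ * z := by rw [h4]
      have h6 : z * s⁻¹ = s * z := by
        have h7 := h2 s⁻¹ (TC.inv_mem hs0)
        rw [hzi, inv_inv] at h7
        calc z * s⁻¹ = (z * s⁻¹ * z) * z := by rw [mul_assoc (z * s⁻¹), hzz, mul_one]
          _ = s * z := by rw [h7]
      have h7 : s * z * s⁻¹ * z = s * s := by
        calc s * z * s⁻¹ * z = s * (z * s⁻¹) * z := by group
          _ = s * s * (z * z) := by rw [h6]; group
          _ = s * s := by rw [hzz, mul_one]
      have h8 : z * (s * z * s⁻¹) = s⁻¹ * s⁻¹ := by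
        calc z * (s * z * s⁻¹) = (z * s) * z * s⁻¹ := by group
          _ = s⁻¹ * (z * z) * s⁻¹ := by rw [h5]; group
          _ = s⁻¹ * s⁻¹ := by rw [hzz, mul_one]
      rw [h7, h8] at h3
      calc s ^ 4 = (s * s) * (s * s) := pow4 s
        _ = (s⁻¹ * s⁻¹) * (s * s) := by rw [← h3]
        _ = 1 := by group
  · -- `r` odd
    have hodd : ∀ w : G, (∃ k : ℕ, w ^ r ^ k = 1) → w * w = 1 → w = 1 := by
      rintro w ⟨k, hk⟩ hw
      have h1 : orderOf w ∣ r ^ k := orderOf_dvd_of_pow_eq_one hk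
      have h2 : orderOf w ∣ 2 := orderOf_dvd_of_pow_eq_one (by rw [sq, hw])
      have h3 : Nat.Coprime (r ^ k) 2 := Nat.Coprime.pow_left k ((Nat.coprime_primes hrp.out Nat.prime_two).2 hr2)
      have h4 : orderOf w ∣ 1 := h3 ▸ Nat.dvd_gcd h1 h2
      exact orderOf_eq_one_iff.1 (Nat.dvd_one.1 h4)
    have hyr : ∃ k : ℕ, y ^ r ^ k = 1 := by
      obtain ⟨k, hk⟩ := hA2r ⟨y, hy.1⟩
      exact ⟨k, congrArg Subtype.val hk⟩
    have hyT : y ∈ T := by
      by_contra hcon
      exact hy1 (hodd y hyr (hT.out y (hA2A hy.1) hy.2 hcon).1)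
    have hyC : y ∈ TC := by
      by_contra hcon
      exact hy1 (hodd y hyr (hTDC.out y (hA2C hy.1) hy.2 hcon).1)
    exact key y hyT hyC hy1

end Main

end Cfsg.Agent.H947.TW
end

-- part: H947/TW/Mat
section
/-!
# S3694, task T11 (helper947): `2 × 2` matrices and lifts

* `ch`, `span_of_comm` : Cayley-Hamilton, centralizers;
* `exists_lift` : every element of `G` has a lift `tauP B σ`.
-/

set_option autoImplicit false
set_option linter.unusedSectionVars false

namespace Cfsg.Agent.H947.TW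

open Subgroup Cfsg.Agent.H607.TW Matrix

universe u

section Mat

variable {F : Type*} [Field F]

local notation "M2" => Matrix (Fin 2) (Fin 2) F

theorem ch (m : M2) : m * m = m.trace • m - m.det • (1 : M2) := by
  ext i j
  (revert i j; simp only [Matrix.mul_apply, Fin.sum_univ_two, Matrix.trace_fin_two, Matrix.det_fin_two, Matrix.sub_apply, _root_.Fin.forall_fin_succ, Fin.isValue, _root_.Matrix.smul_apply, _root_.smul_eq_mul, _root_.Fin.succ_zero_eq_one, _root_.IsEmpty.forall_iff, _root_.and_true, _root_.Matrix.one_apply_eq, _root_.mul_one, Nat.reduceAdd, _root_.ne_eq, _root_.zero_ne_one, _root_.not_false_eq_true, _root_.Matrix.one_apply_ne, _root_.MulZeroClass.mul_zero, _root_.sub_zero, _root_.Fin.succ_ne_zero]) <;> (repeat' with_reducible apply And.intro) <;> ring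

/-- scalar matrices -/
def Sc (g : M2) : Prop := ∃ c : F, g = c • (1 : M2)

theorem span_of_comm {g y : M2} (hg : ¬ Sc g) (h : y * g = g * y) : ∃ a b : F, y = a • (1 : M2) + b • g := by
  have e00 := congrFun (congrFun h 0) 0
  have e01 := congrFun (congrFun h 0) 1
  have e10 := congrFun (congrFun h 1) 0
  simp only [Matrix.mul_apply, Fin.sum_univ_two] at e00 e01 e10
  by_cases h01 : g 0 1 = 0
  · by_cases h10 : g 1 0 = 0
    · have hd : g 0 0 - g 1 1 ≠ 0 := by
        intro hd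
        apply hg
        refine ⟨g 0 0, ?_⟩
        ext i j
        fin_cases i <;> fin_cases j
        · simp
        · simpa using h01
        · simpa using h10
        · simp; linear_combination -hd
      refine ⟨y 0 0 - (y 0 0 - y 1 1) / (g 0 0 - g 1 1) * g 0 0, (y 0 0 - y 1 1) / (g 0 0 - g 1 1), ?_⟩
      rw [h01] at e01
      rw [h10] at e10
      have y01 : y 0 1 = 0 := by
        have : y 0 1 * (g 0 0 - g 1 1) = 0 := by linear_combination -e01
        exact (mul_eq_zero.1 this).resolve_right hd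
      have y10 : y 1 0 = 0 := by
        have : y 1 0 * (g 0 0 - g 1 1) = 0 := by linear_combination e10
        exact (mul_eq_zero.1 this).resolve_right hd
      ext i j
      fin_cases i <;> fin_cases j
      · simp
      · simp [y01, h01]
      · simp [y10, h10]
      · simp
        field_simp
        ring
    · refine ⟨y 0 0 - y 1 0 / g 1 0 * g 0 0, y 1 0 / g 1 0, ?_⟩
      ext i j
      fin_cases i <;> fin_cases j
      · simp
      · simp
        field_simp
        linear_combination e00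
      · simp [h10]
      · simp
        field_simp
        linear_combination e10
  · refine ⟨y 0 0 - y 0 1 / g 0 1 * g 0 0, y 0 1 / g 0 1, ?_⟩
    ext i j
    fin_cases i <;> fin_cases j
    · simp
    · simp [h01]
    · simp
      field_simp
      linear_combination -e00
    · simp
      field_simp
      linear_combination -e01

theorem det_span (g : M2) (a b : F) : (a • (1 : M2) + b • g).det = a ^ 2 + a * b * g.trace + b ^ 2 * g.det := by
  rw [Matrix.det_fin_two, Matrix.det_fin_two, Matrix.trace_fin_two]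
  simp
  ring

theorem trace_span (g : M2) (a b : F) : (a • (1 : M2) + b • g).trace = 2 * a + b * g.trace := by
  rw [Matrix.trace_fin_two, Matrix.trace_fin_two]
  simp only [_root_.Fin.isValue, _root_.Matrix.add_apply, _root_.Matrix.smul_apply, _root_.Matrix.one_apply_eq, _root_.smul_eq_mul, _root_.mul_one]
  ring

theorem adj_eq (m : M2) : m.adjugate = m.trace • (1 : M2) - m := by
  rw [Matrix.adjugate_fin_two]
  ext i j
  (revert i j; simp only [Matrix.trace_fin_two, _root_.Fin.forall_fin_succ, Fin.isValue, _root_.Matrix.of_apply, _root_.Matrix.cons_val', _root_.Matrix.cons_val_fin_one, _root_.Matrix.sub_apply, _root_.Matrix.smul_apply, _root_.smul_eq_mul, _root_.Matrix.cons_val_zero, _root_.Matrix.cons_val_succ, _root_.Fin.succ_zero_eq_one, _root_.IsEmpty.forall_iff, _root_.and_true, _root_.Matrix.one_apply_eq, _root_.mul_one, _root_.add_sub_cancel_left, Nat.reduceAdd, _root_.ne_eq, _root_.zero_ne_one, _root_.not_false_eq_true, _root_.Matrix.one_apply_ne,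 _root_.MulZeroClass.mul_zero, _root_.zero_sub, _root_.and_self, _root_.Fin.succ_ne_zero, _root_.neg_inj, _root_.add_sub_cancel_right])

/-- the matrix `[[0, 1], [-1, 0]]` -/
def J : GL (Fin 2) F where
  val := !![0, 1; -1, 0]
  inv := !![0, -1; 1, 0]
  val_inv := by ext i j; (revert i j; simp only [Matrix.mul_apply, Fin.sum_univ_two, _root_.Fin.forall_fin_succ, _root_.Matrix.of_apply, _root_.Matrix.cons_val', _root_.Matrix.cons_val_fin_one, Fin.isValue, _root_.Matrix.cons_val_zero, _root_.Matrix.cons_val_one, _root_.MulZeroClass.mul_zero, _root_.mul_one, _root_.zero_add, _root_.Matrix.cons_val_succ, _root_.mul_neg, _root_.add_zero, _root_.IsEmpty.forall_iff, _root_.and_true, _root_.Matrix.one_apply_eq, _root_.neg_zero, Nat.reduceAdd, _root_.Fin.succ_zero_eq_one, _root_.ne_eq, _root_.zero_ne_one, _root_.not_false_eq_true, _root_.Matrix.one_apply_ne, _root_.and_self, _root_.Fin.succ_ne_zero, _root_.neg_neg, _root_.true_and])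
  inv_val := by ext i j; (revert i j; simp only [Matrix.mul_apply, Fin.sum_univ_two, _root_.Fin.forall_fin_succ, _root_.Matrix.of_apply, _root_.Matrix.cons_val', _root_.Matrix.cons_val_fin_one, Fin.isValue, _root_.Matrix.cons_val_zero, _root_.Matrix.cons_val_one, _root_.MulZeroClass.mul_zero, _root_.mul_neg, _root_.mul_one, _root_.zero_add, _root_.Matrix.cons_val_succ, _root_.add_zero, _root_.IsEmpty.forall_iff, _root_.and_true, _root_.neg_neg, _root_.Matrix.one_apply_eq, Nat.reduceAdd, _root_.Fin.succ_zero_eq_one, _root_.ne_eq, _root_.zero_ne_one, _root_.not_false_eq_true, _root_.Matrix.one_apply_ne, _root_.and_self, _root_.neg_zero, _root_.Fin.succ_ne_zero, _root_.true_and])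

theorem J_adj (m : M2) : (J : GL (Fin 2) F).1 * m.adjugate * (J : GL (Fin 2) F).2 = m.transpose := by
  rw [Matrix.adjugate_fin_two]
  ext i j
  (revert i j; simp only [J, Matrix.mul_apply, Fin.sum_univ_two, _root_.Fin.forall_fin_succ, Fin.isValue, _root_.Matrix.cons_mul, _root_.Nat.succ_eq_add_one, Nat.reduceAdd, _root_.Matrix.vecMul_cons, _root_.Matrix.head_cons, _root_.zero_smul, _root_.Matrix.tail_cons, _root_.one_smul, _root_.Matrix.empty_vecMul, _root_.add_zero, _root_.zero_add, _root_.neg_smul, _root_.Matrix.neg_cons, _root_.neg_neg, _root_.Matrix.neg_empty, _root_.Matrix.empty_mul, _root_.Equiv.symm_apply_apply, _root_.Units.inv_eq_val_inv, _root_.Units.inv_mk, _root_.Matrix.of_apply, _root_.Matrix.cons_val', _root_.Matrix.cons_val_fin_one, _root_.Matrix.cons_val_zero, _root_.Matrix.cons_val_one, _root_.Matrix.transpose_apply, _root_.MulZeroClass.mul_zero, _root_.mul_one, _root_.Matrix.cons_val_succ, _root_.mul_neg, _root_.Fin.succ_zero_eq_one,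 _root_.IsEmpty.forall_iff, _root_.and_true, _root_.and_self])

end Mat

section Lift

variable {G : Type u} [Group G] {N : Subgroup G} {F : Type} [Field F]

local notation "M2" => Matrix (Fin 2) (Fin 2) F
local notation "S2" => Matrix.SpecialLinearGroup (Fin 2) F

theorem mt_eq (s : S2) : _root_.Cfsg.Agent.H607.TW.mt (iSL 2 F) s = (s : M2) := rfl

theorem tauP_mul (B : GL (Fin 2) F) (σ : F ≃+* F) (x y : M2) : tauP B σ (x * y) = tauP B σ x * tauP B σ y := by
  rw [tauP_apply, tauP_apply, tauP_apply]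
  have h1 : ((B⁻¹ : GL (Fin 2) F) : M2) * (B : M2) = 1 := by rw [← Units.val_mul, inv_mul_cancel, Units.val_one]
  have h2 : (x * y).map σ = x.map σ * y.map σ := by
    have := Matrix.map_mul (L := x) (M := y) (f := (σ : F →+* F))
    simpa using this
  rw [h2]
  calc (B : M2) * (x.map σ * y.map σ) * ((B⁻¹ : GL (Fin 2) F) : M2)
      = (B : M2) * x.map σ * (1 : M2) * y.map σ * ((B⁻¹ : GL (Fin 2) F) : M2) := by simp only [mul_assoc, mul_one, one_mul]
    _ = _ := by rw [← h1]; simp only [mul_assoc]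

theorem trace_tauP (B : GL (Fin 2) F) (σ : F ≃+* F) (x : M2) : (tauP B σ x).trace = σ x.trace := by
  have h1 : ((B⁻¹ : GL (Fin 2) F) : M2) * (B : M2) = 1 := by rw [← Units.val_mul, inv_mul_cancel, Units.val_one]
  rw [tauP_apply, Matrix.trace_mul_comm, ← mul_assoc, h1, one_mul, Matrix.trace_fin_two, Matrix.trace_fin_two]
  simp only [_root_.Fin.isValue, _root_.Matrix.map_apply, _root_.map_add]

theorem adj_tauP (B : GL (Fin 2) F) (σ : F ≃+* F) (x : M2) : (tauP B σ x).adjugate = tauP B σ x.adjugate := by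
  have h1 : (B : M2) * ((B⁻¹ : GL (Fin 2) F) : M2) = 1 := by rw [← Units.val_mul, mul_inv_cancel, Units.val_one]
  rw [adj_eq, adj_eq, trace_tauP, map_sub]
  congr 1
  rw [tauP_apply]
  have h2 : (x.trace • (1 : M2)).map σ = σ x.trace • (1 : M2) := by
    ext i j
    fin_cases i <;> fin_cases j <;> simp only [_root_.Fin.zero_eta, _root_.Fin.isValue, _root_.Matrix.map_apply, _root_.Matrix.smul_apply, _root_.Matrix.one_apply_eq, _root_.smul_eq_mul, _root_.mul_one, _root_.Fin.mk_one, _root_.Nat.reduceAdd, _root_.ne_eq, _root_.zero_ne_one, _root_.not_false_eq_true, _root_.Matrix.one_apply_ne, _root_.MulZeroClass.mul_zero, _root_.map_zero, _root_.one_ne_zero]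
  rw [h2, mul_smul_comm, mul_one, smul_mul_assoc, h1]

theorem tauM_eq (B : GL (Fin 2) F) (σ : F ≃+* F) (x : M2) : tauM B σ x = (tauP (B * J) σ x).adjugate := by
  rw [adj_tauP, tauM_apply, tauP_apply]
  have h1 : x.transpose.map σ = (J : GL (Fin 2) F).1 * (x.adjugate.map σ) * (J : GL (Fin 2) F).2 := by
    have h2 : x.transpose.map σ = (x.map σ).transpose := by ext i j; rfl
    have h3 : x.adjugate.map σ = (x.map σ).adjugate := by
      rw [Matrix.adjugate_fin_two, Matrix.adjugate_fin_two]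
      ext i j
      (revert i j; simp only [_root_.Fin.forall_fin_succ, Fin.isValue, _root_.Matrix.map_apply, _root_.Matrix.of_apply, _root_.Matrix.cons_val', _root_.Matrix.cons_val_fin_one, _root_.Matrix.cons_val_zero, _root_.Matrix.cons_val_succ, _root_.forall_const, _root_.map_neg, _root_.and_self, _root_.implies_true])
    rw [h2, h3, J_adj]
  rw [h1, _root_.mul_inv_rev, Units.val_mul, Units.val_mul]
  have h4 : ((J⁻¹ : GL (Fin 2) F) : M2) = (J : GL (Fin 2) F).2 := rfl
  rw [h4]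
  simp only [mul_assoc]

theorem exists_noncomm : ∃ x y : M2, x * y ≠ y * x := by
  refine ⟨!![0, 1; 0, 0], !![0, 0; 1, 0], fun h => ?_⟩
  have := congrFun (congrFun h 0) 0
  simp [Matrix.mul_apply, Fin.sum_univ_two] at this

/-- the kernel -/
theorem pi_eq_one (π : S2 →* G) (hM : Model N (iSL 2 F) π) {s : S2} (h : π s = 1) : s = 1 ∨ s = -1 := by
  obtain ⟨c, hc⟩ := (hM.ker s).1 h
  rw [mt_eq] at hc
  have h1 : c ^ 2 = 1 := by
    have := congrArg Matrix.det hc
    rw [s.2, Matrix.det_smul, Matrix.det_one, mul_one, Fintype.card_fin] at this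
    exact this.symm
  have h2 : (c - 1) * (c + 1) = 0 := by linear_combination h1
  rcases mul_eq_zero.1 h2 with h3 | h3
  · left
    apply Subtype.ext
    have : c = 1 := by linear_combination h3
    rw [this, one_smul] at hc
    exact hc
  · right
    apply Subtype.ext
    have : c = -1 := by linear_combination h3
    rw [this, neg_smul, one_smul] at hc
    exact hc

theorem pi_neg_one (π : S2 →* G) (hM : Model N (iSL 2 F) π) : π (-1) = 1 := by
  rw [hM.ker, mt_eq]
  exact ⟨-1, by rw [neg_smul, one_smul]; rfl⟩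

theorem pi_eq (π : S2 →* G) (hM : Model N (iSL 2 F) π) {s t : S2} (h : π s = π t) : s = t ∨ s = -t := by
  have h1 : π (s * t⁻¹) = 1 := by rw [map_mul, map_inv, h, mul_inv_cancel]
  rcases pi_eq_one π hM h1 with h2 | h2
  · left
    exact mul_inv_eq_one.1 h2
  · right
    have h3 : s = (s * t⁻¹) * t := by group
    rw [h3, h2, neg_mul, one_mul]

/-- **Lifts.** -/
theorem exists_lift (π : S2 →* G) (hM : Model N (iSL 2 F) π) (g : G) :
    ∃ (B : GL (Fin 2) F) (σ : F ≃+* F), Ind (iSL 2 F) π g (tauP B σ) ∧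
      ∀ s : S2, ∃ s' : S2, (s' : M2) = tauP B σ (s : M2) ∧ π s' = g * π s * g⁻¹ := by
  obtain ⟨B, σ, h | h⟩ := hM.lift g
  · rcases h with ⟨h1, h2⟩ | ⟨h1, h2⟩
    · exact ⟨B, σ, Or.inl ⟨h1, h2⟩, h2⟩
    · exfalso
      obtain ⟨x, y, hxy⟩ := exists_noncomm (F := F)
      apply hxy
      apply (tauP B σ).injective
      rw [h1, tauP_mul]
  · rcases h with ⟨h1, h2⟩ | ⟨h1, h2⟩
    · exfalso
      obtain ⟨x, y, hxy⟩ := exists_noncomm (F := F)
      apply hxy
      apply (tauM B σ).injective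
      have h3 : tauM B σ (y * x) = tauM B σ x * tauM B σ y := by
        rw [tauM_eq, tauM_eq, tauM_eq, tauP_mul, Matrix.adjugate_mul_distrib]
      rw [h1, h3]
    · have h3 : ∀ s : S2, ∃ s' : S2, _root_.Cfsg.Agent.H607.TW.mt (iSL 2 F) s' = tauP (B * J) σ (_root_.Cfsg.Agent.H607.TW.mt (iSL 2 F) s) ∧ π s' = g * π s * g⁻¹ := by
        intro s
        obtain ⟨s', hs1, hs2⟩ := h2 s
        refine ⟨s'⁻¹, ?_, by rw [map_inv, hs2]⟩
        rw [mt_eq, Matrix.SpecialLinearGroup.coe_inv, ← mt_eq, hs1, tauM_eq, adj_eq, adj_eq]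
        have h4 : ((tauP (B * J) σ (_root_.Cfsg.Agent.H607.TW.mt (iSL 2 F) s)).trace • (1 : M2) - tauP (B * J) σ (_root_.Cfsg.Agent.H607.TW.mt (iSL 2 F) s)).trace =
            (tauP (B * J) σ (_root_.Cfsg.Agent.H607.TW.mt (iSL 2 F) s)).trace := by
          rw [Matrix.trace_sub, Matrix.trace_smul, Matrix.trace_one, Fintype.card_fin, smul_eq_mul]
          push_cast
          ring
        rw [h4]
        abel
      exact ⟨B * J, σ, Or.inl ⟨tauP_mul _ _, h3⟩, h3⟩

end Lift

end Cfsg.Agent.H947.TW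
end

-- part: H947/TW/TorA
section
/-!
# S3694, task T11 (helper947): the torus `E ∩ SL₂(F)`

`E` is a commutative subalgebra of `M₂(F)`, `E ≠ F`, without unipotent elements `≠ 1`.
* `exists_dom` : `E ∩ SL₂(F)` embeds into a field, in particular it is cyclic;
* `card_HE` : it has at least `q - 1` elements;
* `out_aux` : the elements of `SL₂(F)` normalising `E`.
-/

set_option autoImplicit false
set_option linter.unusedSectionVars false

namespace Cfsg.Agent.H947.TW

open Subgroup Cfsg.Agent.H607.TW Matrix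

universe u

section Alg

variable {F : Type} [Field F]

local notation "M2" => Matrix (Fin 2) (Fin 2) F
local notation "S2" => Matrix.SpecialLinearGroup (Fin 2) F

/-- the elements of `SL₂` in `E` -/
def HE (E : Subalgebra F M2) : Subgroup S2 where
  carrier := {s | (s : M2) ∈ E}
  one_mem' := by
    change ((1 : S2) : M2) ∈ E
    rw [Matrix.SpecialLinearGroup.coe_one]
    exact E.one_mem
  mul_mem' := by
    intro a b ha hb
    change ((a * b : S2) : M2) ∈ E
    rw [Matrix.SpecialLinearGroup.coe_mul]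
    exact E.mul_mem ha hb
  inv_mem' := by
    intro a ha
    change ((a⁻¹ : S2) : M2) ∈ E
    rw [Matrix.SpecialLinearGroup.coe_inv, adj_eq]
    exact E.sub_mem (E.smul_mem E.one_mem _) ha

theorem mem_HE {E : Subalgebra F M2} {s : S2} : s ∈ HE E ↔ (s : M2) ∈ E := Iff.rfl

theorem exists_nonscalar {E : Subalgebra F M2} (h1 : E ≠ ⊥) : ∃ X ∈ E, ¬ Sc X := by
  by_contra hcon
  push Not at hcon
  apply h1
  rw [eq_bot_iff]
  intro x hx
  obtain ⟨c, hc⟩ := hcon x hx
  rw [hc, Algebra.mem_bot]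
  exact ⟨c, by rw [Algebra.algebraMap_eq_smul_one]⟩

theorem mem_of_comm {E : Subalgebra F M2} {X y : M2} (hX : X ∈ E) (hs : ¬ Sc X) (h : y * X = X * y) : y ∈ E := by
  obtain ⟨a, b, rfl⟩ := span_of_comm hs h
  exact E.add_mem (E.smul_mem E.one_mem _) (E.smul_mem hX _)

theorem adj_mem {E : Subalgebra F M2} {x : M2} (hx : x ∈ E) : x.adjugate ∈ E := by
  rw [adj_eq]
  exact E.sub_mem (E.smul_mem E.one_mem _) hx

theorem ch1 (s : S2) : (s : M2) * s = (s : M2).trace • (s : M2) - 1 := by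
  have := ch (s : M2)
  rw [s.2, one_smul] at this
  exact this

/-- `E ∩ SL₂(F)` embeds into a field -/
theorem exists_dom {E : Subalgebra F M2} (hcomm : ∀ x ∈ E, ∀ y ∈ E, x * y = y * x)
    (hun : ∀ e ∈ HE E, ((e : M2) - 1) * ((e : M2) - 1) = 0 → e = 1) :
    ∃ (D : Type) (_ : Field D) (f : F →+* D) (φ : ↥(HE E) →* D), Function.Injective φ ∧
      ∀ s : ↥(HE E), φ s * φ s + 1 = f (((s : S2) : M2).trace) * φ s := by
  let _ : CommRing E := { (inferInstance : Ring E) with mul_comm := fun x y => Subtype.ext (hcomm x x.2 y y.2) }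
  obtain ⟨m, hm⟩ := Ideal.exists_maximal E
  let _ : Field (E ⧸ m) := Ideal.Quotient.field m
  let φ : ↥(HE E) →* E ⧸ m :=
    { toFun := fun s => Ideal.Quotient.mk m ⟨((s : S2) : M2), s.2⟩
      map_one' := by
        (simp only [← map_one (Ideal.Quotient.mk m)])
        congr 1
      map_mul' := fun a b => by
        (simp only [← map_mul])
        congr 1 }
  have hφ : ∀ s : ↥(HE E), φ s = Ideal.Quotient.mk m ⟨((s : S2) : M2), s.2⟩ := fun s => rfl
  refine ⟨E ⧸ m, inferInstance, (Ideal.Quotient.mk m).comp (algebraMap F E), φ, ?_, ?_⟩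
  · rw [injective_iff_map_eq_one]
    intro s hs
    simp only [hφ, ← map_one (Ideal.Quotient.mk m), Ideal.Quotient.eq] at hs
    set w : E := ⟨((s : S2) : M2), s.2⟩ - 1 with hw
    have hwc : (w : M2) = ((s : S2) : M2) - 1 := rfl
    have hd : (w : M2).det = 0 := by
      by_contra hd
      apply hm.ne_top
      rw [Ideal.eq_top_iff_one]
      have h1 : (w * ⟨(w : M2).det⁻¹ • (w : M2).adjugate, E.smul_mem (adj_mem w.2) _⟩ : E) = 1 := by
        apply Subtype.ext
        change (w : M2) * ((w : M2).det⁻¹ • (w : M2).adjugate) = 1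
        rw [mul_smul_comm, Matrix.mul_adjugate, smul_smul, inv_mul_cancel₀ hd, one_smul]
      rw [← h1]
      exact m.mul_mem_right _ hs
    apply Subtype.ext
    apply hun _ s.2
    have htr : (w : M2).trace = 0 := by
      rw [hwc] at hd ⊢
      have h2 := (s : S2).2
      rw [Matrix.det_fin_two] at h2 hd
      rw [Matrix.trace_fin_two]
      simp only [Matrix.sub_apply, Matrix.one_apply_eq, ne_eq, zero_ne_one, not_false_eq_true, Matrix.one_apply_ne, sub_zero,
        one_ne_zero] at hd ⊢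
      linear_combination h2 - hd
    rw [← hwc, ch, htr, hd, zero_smul, zero_smul, sub_zero]
  · intro s
    simp only [hφ, RingHom.comp_apply, ← map_one (Ideal.Quotient.mk m), ← map_mul, ← map_mul, ← map_add]
    congr 1
    apply Subtype.ext
    change ((s : S2) : M2) * ((s : S2) : M2) + 1 = algebraMap F M2 _ * ((s : S2) : M2)
    rw [ch1, sub_add_cancel, Algebra.algebraMap_eq_smul_one, smul_mul_assoc, one_mul]

theorem cyclic_HE [Finite F] {E : Subalgebra F M2} (hcomm : ∀ x ∈ E, ∀ y ∈ E, x * y = y * x)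
    (hun : ∀ e ∈ HE E, ((e : M2) - 1) * ((e : M2) - 1) = 0 → e = 1) : IsCyclic ↥(HE E) := by
  obtain ⟨D, hD, f, φ, hφ, -⟩ := exists_dom hcomm hun
  exact isCyclic_of_injective_ringHom φ hφ

/-- at most two elements with a given trace -/
theorem card_trace_le [Fintype F] [DecidableEq F] {E : Subalgebra F M2} (hcomm : ∀ x ∈ E, ∀ y ∈ E, x * y = y * x)
    (hun : ∀ e ∈ HE E, ((e : M2) - 1) * ((e : M2) - 1) = 0 → e = 1) (S : Finset ↥(HE E)) (K : Finset F)
    (hS : ∀ s ∈ S, ((s : S2) : M2).trace ∈ K) : S.card ≤ 2 * K.card := by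
  classical
  obtain ⟨D, hD, f, φ, hφ, h2⟩ := exists_dom hcomm hun
  refine (Finset.card_le_mul_card_image_of_maps_to (f := fun s : ↥(HE E) => ((s : S2) : M2).trace) hS 2 ?_)
  intro c hc
  by_contra hcon
  push Not at hcon
  obtain ⟨a, b, d, ha, hb, hd, hab, had, hbd⟩ := Finset.two_lt_card_iff.1 hcon
  rw [Finset.mem_filter] at ha hb hd
  have ea := h2 a
  have eb := h2 b
  have ed := h2 d
  rw [ha.2] at ea
  rw [hb.2] at eb
  rw [hd.2] at ed
  have nab : φ a - φ b ≠ 0 := fun h => hab (hφ (sub_eq_zero.1 h))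
  have nad : φ a - φ d ≠ 0 := fun h => had (hφ (sub_eq_zero.1 h))
  have nbd : φ b - φ d ≠ 0 := fun h => hbd (hφ (sub_eq_zero.1 h))
  have h3 : φ a + φ b - f c = 0 := by
    have : (φ a - φ b) * (φ a + φ b - f c) = 0 := by linear_combination ea - eb
    exact (mul_eq_zero.1 this).resolve_left nab
  have h4 : φ a + φ d - f c = 0 := by
    have : (φ a - φ d) * (φ a + φ d - f c) = 0 := by linear_combination ea - ed
    exact (mul_eq_zero.1 this).resolve_left nad
  exact nbd (by linear_combination h3 - h4)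

theorem card_HE [Fintype F] {E : Subalgebra F M2} (hcomm : ∀ x ∈ E, ∀ y ∈ E, x * y = y * x) {X : M2} (hX : X ∈ E)
    (hs : ¬ Sc X) (hq : 3 ≤ Fintype.card F) : Fintype.card F - 1 ≤ Nat.card ↥(HE E) := by
  classical
  set y : F × F → M2 := fun p => p.1 • (1 : M2) + p.2 • X with hy
  have hyE : ∀ p, y p ∈ E := fun p => E.add_mem (E.smul_mem E.one_mem _) (E.smul_mem hX _)
  have hyi : Function.Injective y := by
    rintro ⟨a, b⟩ ⟨a', b'⟩ h
    have h1 : (b' - b) • X = (a - a') • (1 : M2) := by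
      have h2 : a • (1 : M2) + b • X = a' • (1 : M2) + b' • X := h
      rw [sub_smul, sub_smul, sub_eq_sub_iff_add_eq_add, add_comm (b' • X), ← h2]
    by_cases hb : b' - b = 0
    · rw [hb, zero_smul] at h1
      have h3 : a - a' = 0 := by
        have := congrFun (congrFun h1 0) 0
        simpa using this.symm
      rw [Prod.mk.injEq]
      exact ⟨by linear_combination h3, by linear_combination -hb⟩
    · exfalso
      apply hs
      refine ⟨(b' - b)⁻¹ * (a - a'), ?_⟩
      rw [mul_smul, ← h1, smul_smul, inv_mul_cancel₀ hb, one_smul]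
  set Q : F × F → F := fun p => (y p).det with hQ
  set S : Finset (F × F) := Finset.univ.filter fun p => Q p ≠ 0 with hS
  set Z : Finset (F × F) := Finset.univ.filter fun p => Q p = 0 with hZ
  have h1 : Z.card ≤ 2 * Fintype.card F := by
    rw [← Finset.card_univ]
    refine Finset.card_le_mul_card_image_of_maps_to (f := fun p : F × F => p.2) (fun p _ => Finset.mem_univ _) 2 ?_
    intro b _
    by_contra hcon
    push Not at hcon
    obtain ⟨⟨p, p'⟩, ⟨q, q'⟩, ⟨s, s'⟩, ha, hb, hd, hab, had, hbd⟩ := Finset.two_lt_card_iff.1 hcon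
    rw [Finset.mem_filter, hZ, Finset.mem_filter] at ha hb hd
    obtain ⟨⟨-, ha⟩, rfl⟩ := ha
    obtain ⟨⟨-, hb⟩, hb'⟩ := hb
    obtain ⟨⟨-, hd⟩, hd'⟩ := hd
    dsimp only at hb' hd'
    subst hb' hd'
    rw [hQ, hy] at ha hb hd
    dsimp only at ha hb hd
    rw [det_span] at ha hb hd
    have nab : p - q ≠ 0 := fun h => hab (by rw [sub_eq_zero.1 h])
    have nad : p - s ≠ 0 := fun h => had (by rw [sub_eq_zero.1 h])
    have nbd : q - s ≠ 0 := fun h => hbd (by rw [sub_eq_zero.1 h])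
    have h3 : p + q + s' * X.trace = 0 := by
      have : (p - q) * (p + q + s' * X.trace) = 0 := by linear_combination ha - hb
      exact (mul_eq_zero.1 this).resolve_left nab
    have h4 : p + s + s' * X.trace = 0 := by
      have : (p - s) * (p + s + s' * X.trace) = 0 := by linear_combination ha - hd
      exact (mul_eq_zero.1 this).resolve_left nad
    exact nbd (by linear_combination h3 - h4)
  have h2 : S.card + Z.card = Fintype.card F * Fintype.card F := by
    rw [← Fintype.card_prod, ← Finset.card_univ, hS, hZ, add_comm]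
    exact Finset.card_filter_add_card_filter_not _
  have : Fintype ↥(HE E) := Fintype.ofFinite _
  have h3 : S.card ≤ Nat.card ↥(HE E) * (Fintype.card F - 1) := by
    have h4 : (Finset.univ.erase (0 : F)).card = Fintype.card F - 1 := by
      rw [Finset.card_erase_of_mem (Finset.mem_univ _), Finset.card_univ]
    rw [← h4]
    refine Finset.card_le_mul_card_image_of_maps_to (f := Q) (fun p hp => ?_) _ ?_
    · rw [hS, Finset.mem_filter] at hp
      exact Finset.mem_erase.2 ⟨hp.2, Finset.mem_univ _⟩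
    intro c hc
    have hc0 : c ≠ 0 := (Finset.mem_erase.1 hc).1
    rcases (S.filter fun p => Q p = c).eq_empty_or_nonempty with h5 | ⟨p0, hp0⟩
    · rw [h5, Finset.card_empty]
      exact Nat.zero_le _
    rw [Nat.card_eq_fintype_card, ← Finset.card_univ (α := ↥(HE E))]
    rw [Finset.mem_filter] at hp0
    have hdet : ∀ p ∈ S.filter fun p => Q p = c, (c⁻¹ • (y p * (y p0).adjugate)).det = 1 := by
      intro p hp
      rw [Finset.mem_filter] at hp
      have e1 : (y p).det = c := hp.2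
      have e2 : (y p0).det = c := hp0.2
      rw [Matrix.det_smul, Matrix.det_mul, Matrix.det_adjugate, Fintype.card_fin, e1, e2]
      field_simp
      norm_num
    refine Finset.card_le_card_of_injOn
      (fun p => if hp : (c⁻¹ • (y p * (y p0).adjugate)).det = 1 then
        (⟨⟨c⁻¹ • (y p * (y p0).adjugate), hp⟩, E.smul_mem (E.mul_mem (hyE p) (adj_mem (hyE p0))) _⟩ : ↥(HE E)) else 1)
      (fun _ _ => Finset.mem_coe.2 (Finset.mem_univ _)) ?_
    intro p hp p' hp' hpp
    have e1 := hdet p hp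
    have e2 := hdet p' hp'
    dsimp only at hpp
    rw [dif_pos e1, dif_pos e2] at hpp
    have e3 : c⁻¹ • (y p * (y p0).adjugate) = c⁻¹ • (y p' * (y p0).adjugate) :=
      congrArg (fun s : ↥(HE E) => ((s : S2) : M2)) hpp
    apply hyi
    have e4 : y p * (y p0).adjugate = y p' * (y p0).adjugate := by
      have := congrArg (fun m => c • m) e3
      simpa only [smul_smul, mul_inv_cancel₀ hc0, one_smul] using this
    have e5 : (y p0).det = c := hp0.2
    have e6 : c⁻¹ • (y p * (y p0).adjugate * y p0) = c⁻¹ • (y p' * (y p0).adjugate * y p0) := by rw [e4]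
    rwa [mul_assoc, mul_assoc, Matrix.adjugate_mul, e5, mul_smul_comm, mul_smul_comm, mul_one, mul_one, smul_smul, smul_smul,
      inv_mul_cancel₀ hc0, one_smul, one_smul] at e6
  obtain ⟨k, hk⟩ : ∃ k, Fintype.card F = k + 3 := ⟨Fintype.card F - 3, by omega⟩
  rw [hk] at h1 h2 h3 ⊢
  simp only [Nat.add_succ_sub_one] at h3 ⊢
  by_contra hcon
  push Not at hcon
  have h5 : Nat.card ↥(HE E) ≤ k + 1 := by omega
  have h6 : Nat.card ↥(HE E) * (k + 2) ≤ (k + 1) * (k + 2) := Nat.mul_le_mul_right _ h5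
  linarith only [h3, h2, h1, h6]

/-- the elements of `SL₂(F)` normalising `E` -/
theorem out_aux {E : Subalgebra F M2} (hcomm : ∀ x ∈ E, ∀ y ∈ E, x * y = y * x)
    (hun : ∀ e ∈ HE E, ((e : M2) - 1) * ((e : M2) - 1) = 0 → e = 1) {X : M2} (hX : X ∈ E) (hsX : ¬ Sc X) {s : S2}
    (hs : s ∉ HE E) (hn : (s : M2) * X * ((s⁻¹ : S2) : M2) ∈ E) :
    (∀ e ∈ HE E, s * e * s⁻¹ = e⁻¹) ∧ s * s = -1 := by
  have hss : ((s⁻¹ : S2) : M2) * (s : M2) = 1 := by
    rw [← Matrix.SpecialLinearGroup.coe_mul, inv_mul_cancel, Matrix.SpecialLinearGroup.coe_one]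
  have hss' : (s : M2) * ((s⁻¹ : S2) : M2) = 1 := by
    rw [← Matrix.SpecialLinearGroup.coe_mul, mul_inv_cancel, Matrix.SpecialLinearGroup.coe_one]
  set X1 := (s : M2) * X * ((s⁻¹ : S2) : M2) with hX1
  have ht : X1.trace = X.trace := by
    rw [hX1, Matrix.trace_mul_comm, ← mul_assoc, hss, one_mul]
  have hd : X1.det = X.det := by
    rw [hX1, Matrix.det_mul, Matrix.det_mul, s.2, (s⁻¹ : S2).2, one_mul, mul_one]
  have hc := hcomm X1 hn X hX
  have c1 := ch X1
  have c0 := ch X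
  rw [ht, hd] at c1
  set P := X1 - X with hP
  set Q := X1 + X - X.trace • (1 : M2) with hQ
  have hPE : P ∈ E := E.sub_mem hn hX
  have hPQ : P * Q = 0 := by
    rw [hP, hQ]
    simp only [mul_sub, sub_mul, mul_add, c1, c0, hc, mul_smul_comm, mul_one]
    module
  have hPt : P.trace = 0 := by rw [hP, Matrix.trace_sub, ht, sub_self]
  have hP0 : P ≠ 0 := by
    intro h
    apply hs
    rw [mem_HE]
    refine mem_of_comm hX hsX ?_
    have h1 : X1 = X := sub_eq_zero.1 h
    calc (s : M2) * X = (s : M2) * X * (((s⁻¹ : S2) : M2) * (s : M2)) := by rw [hss, mul_one]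
      _ = X1 * s := by rw [hX1]; simp only [mul_assoc]
      _ = X * s := by rw [h1]
  have hPd : P.det ≠ 0 := by
    intro h
    apply hP0
    have h1 : P * P = 0 := by rw [ch, hPt, h, zero_smul, zero_smul, sub_zero]
    have h2 : ((1 : F) • (1 : M2) + (1 : F) • P).det = 1 := by
      rw [det_span, hPt, h]
      ring
    rw [one_smul, one_smul] at h2
    have h3 := hun ⟨1 + P, h2⟩ (E.add_mem E.one_mem hPE) (by
      change (1 + P - 1) * (1 + P - 1) = 0
      rw [add_sub_cancel_left, h1])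
    have h4 : 1 + P = 1 := congrArg (fun s : S2 => (s : M2)) h3
    simpa using h4
  have hQ0 : Q = 0 := by
    have h1 : P.adjugate * (P * Q) = P.det • Q := by
      rw [← mul_assoc, Matrix.adjugate_mul, smul_mul_assoc, one_mul]
    rw [hPQ, mul_zero] at h1
    exact (smul_eq_zero.1 h1.symm).resolve_left hPd
  have hX1' : X1 = X.trace • (1 : M2) - X := by
    rw [eq_sub_iff_add_eq]
    exact sub_eq_zero.1 hQ0
  refine ⟨?_, ?_⟩
  · intro e he
    apply Subtype.ext
    change ((s * e * s⁻¹ : S2) : M2) = ((e⁻¹ : S2) : M2)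
    rw [Matrix.SpecialLinearGroup.coe_mul, Matrix.SpecialLinearGroup.coe_mul, Matrix.SpecialLinearGroup.coe_inv e, adj_eq]
    obtain ⟨a, b, hab⟩ := span_of_comm hsX (hcomm e he X hX)
    rw [hab, trace_span]
    calc (s : M2) * (a • (1 : M2) + b • X) * ((s⁻¹ : S2) : M2)
        = a • ((s : M2) * ((s⁻¹ : S2) : M2)) + b • ((s : M2) * X * ((s⁻¹ : S2) : M2)) := by
          rw [mul_add, add_mul, mul_smul_comm, mul_smul_comm, mul_one, smul_mul_assoc, smul_mul_assoc]
      _ = a • (1 : M2) + b • (X.trace • (1 : M2) - X) := by rw [hss', ← hX1, hX1']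
      _ = _ := by
        rw [smul_sub, smul_smul]
        module
  · have h1 : (s : M2) * X = X1 * s := by
      calc (s : M2) * X = (s : M2) * X * (((s⁻¹ : S2) : M2) * (s : M2)) := by rw [hss, mul_one]
        _ = X1 * s := by rw [hX1]; simp only [mul_assoc]
    have h2 : (s : M2) * X1 = X * s := by
      rw [hX1', mul_sub, mul_smul_comm, mul_one, h1, hX1', sub_mul, smul_mul_assoc, one_mul]
      abel
    have h3 : ((s : M2) * s) * X = X * (s * s) := by
      rw [mul_assoc, h1, ← mul_assoc, h2, mul_assoc]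
    have h4 : (s : M2).trace = 0 := by
      by_contra h5
      apply hs
      rw [mem_HE]
      refine mem_of_comm hX hsX ?_
      rw [ch1, sub_mul, mul_sub, smul_mul_assoc, mul_smul_comm, one_mul, mul_one, sub_left_inj] at h3
      have := congrArg (fun m => (s : M2).trace⁻¹ • m) h3
      simpa only [smul_smul, inv_mul_cancel₀ h5, one_smul] using this
    apply Subtype.ext
    change ((s * s : S2) : M2) = ((-1 : S2) : M2)
    rw [Matrix.SpecialLinearGroup.coe_mul, ch1, h4, zero_smul, zero_sub]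
    rfl

end Alg

end Cfsg.Agent.H947.TW
end

-- part: H947/TW/Torus
section
/-!
# S3694, task T11 (helper947): the normaliser of a torus of `SL₂(F)`

`two_torus` : if the maximal subgroup `A` fixes a commutative subalgebra `E ≠ F` of `M₂(F)`, then `|A| ≤ M d`.
-/

set_option autoImplicit false
set_option linter.unusedSectionVars false

namespace Cfsg.Agent.H947.TW

open Subgroup Cfsg.Agent.H607.TW Matrix

universe u

section Grp

variable {G : Type u} [Group G] [Finite G] {N A : Subgroup G} {r : ℕ} {F : Type} [Field F] [Fintype F]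

local notation "M2" => Matrix (Fin 2) (Fin 2) F
local notation "S2" => Matrix.SpecialLinearGroup (Fin 2) F

theorem conj_mem' {π : S2 →* G} (hM : Model N (iSL 2 F) π) {E : Subalgebra F M2} (hE : _root_.Cfsg.Agent.H607.TW.Inv (iSL 2 F) π A E) :
    ∀ a ∈ A, ∀ t ∈ (HE E).map π, a * t * a⁻¹ ∈ (HE E).map π := by
  rintro a ha _ ⟨s, hs, rfl⟩
  obtain ⟨B, σ, hi, hl⟩ := exists_lift π hM a
  obtain ⟨s', h1, h2⟩ := hl s
  refine ⟨s', ?_, h2⟩
  rw [SetLike.mem_coe, mem_HE, h1]
  exact hE a ha _ hi _ hs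

theorem map_comm {π : S2 →* G} {E : Subalgebra F M2} (hcomm : ∀ x ∈ E, ∀ y ∈ E, x * y = y * x) :
    ∀ x ∈ (HE E).map π, ∀ y ∈ (HE E).map π, x * y = y * x := by
  rintro _ ⟨s, hs, rfl⟩ _ ⟨t, ht, rfl⟩
  rw [← map_mul, ← map_mul]
  congr 1
  apply Subtype.ext
  exact hcomm s hs t ht

theorem map_le {π : S2 →* G} (hM : Model N (iSL 2 F) π) {E : Subalgebra F M2} : (HE E).map π ≤ N := by
  rw [← hM.range]
  exact Subgroup.map_le_range π _

theorem map_leA {π : S2 →* G} (h : Loc N A r) (hM : Model N (iSL 2 F) π) {E : Subalgebra F M2} (hE : _root_.Cfsg.Agent.H607.TW.Inv (iSL 2 F) π A E)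
    (hcomm : ∀ x ∈ E, ∀ y ∈ E, x * y = y * x) : (HE E).map π ≤ A :=
  le_of_norm h (map_le hM) (ne_of_comm h (map_comm hcomm)) fun a ha => norm_of_forall (conj_mem' hM hE a ha)

theorem map_isPGroup {π : S2 →* G} (h : Loc N A r) (hM : Model N (iSL 2 F) π) {E : Subalgebra F M2}
    (hE : _root_.Cfsg.Agent.H607.TW.Inv (iSL 2 F) π A E) (hcomm : ∀ x ∈ E, ∀ y ∈ E, x * y = y * x) : IsPGroup r ((HE E).map π : Subgroup G) := by
  have hn : Group.IsNilpotent ↥((HE E).map π) := by
    let _ : CommGroup ↥((HE E).map π) :=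
      { (inferInstance : Group ↥((HE E).map π)) with
        mul_comm := fun a b => Subtype.ext (map_comm (π := π) hcomm a.1 a.2 b.1 b.2) }
    exact CommGroup.isNilpotent
  have h1 := Cfsg.Agent.Lib.LocalCore.le_map_fittingSubgroup (map_leA h hM hE hcomm) hn
    (fun a ha => norm_of_forall (conj_mem' hM hE a ha))
  have h2 : (Cfsg.fittingSubgroup ↥A).map A.subtype ≤ (Cfsg.pCore r ↥A).map A.subtype := by
    rw [← h.star]
    exact Subgroup.map_mono le_sup_right
  exact (Cfsg.Agent.Lib.LocalCore.isPGroup_map_pCore r A).to_le (h1.trans h2)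

/-- no unipotent elements -/
theorem unip {π : S2 →* G} (hM : Model N (iSL 2 F) π) (hrp : r.Prime) (hr : ¬ r ∣ Fintype.card F) {E : Subalgebra F M2}
    (hT : IsPGroup r ((HE E).map π : Subgroup G)) :
    ∀ e ∈ HE E, ((e : M2) - 1) * ((e : M2) - 1) = 0 → e = 1 := by
  intro e he hu
  set p := ringChar F with hpdef
  have hp : p.Prime := CharP.char_is_prime F p
  have hpf : Fact p.Prime := ⟨hp⟩
  have hcp : CharP M2 p := inferInstance
  have hpr : p ≠ r := by
    rintro h
    obtain ⟨n, -, hn⟩ := FiniteField.card F p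
    apply hr
    rw [hn, ← h]
    exact dvd_pow_self p n.ne_zero
  have h1 : (e : M2) ^ p = 1 := by
    have h2 : (e : M2) = 1 + ((e : M2) - 1) := by abel
    rw [h2, add_pow_char_of_commute p (Commute.one_left _), one_pow]
    have h3 : ((e : M2) - 1) ^ p = 0 := by
      obtain ⟨k, hk⟩ : ∃ k, p = 2 + k := ⟨p - 2, by have := hp.two_le; omega⟩
      rw [hk, pow_add, pow_two, hu, zero_mul]
    rw [h3, add_zero]
  have h4 : e ^ p = 1 := Subtype.ext (by rw [Matrix.SpecialLinearGroup.coe_pow, h1, Matrix.SpecialLinearGroup.coe_one])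
  have h5 : (π e) ^ p = 1 := by rw [← map_pow, h4, map_one]
  obtain ⟨k, hk⟩ := hT ⟨π e, mem_map_of_mem π he⟩
  have hk' : (π e) ^ (r ^ k) = 1 := congrArg Subtype.val hk
  have h6 : Nat.Coprime p (r ^ k) := ((Nat.coprime_primes hp hrp).2 hpr).pow_right k
  have h7 : π e = 1 := by
    rw [← orderOf_eq_one_iff, ← Nat.dvd_one, ← h6]
    exact Nat.dvd_gcd (orderOf_dvd_of_pow_eq_one h5) (orderOf_dvd_of_pow_eq_one hk')
  rcases pi_eq_one π hM h7 with h8 | h8
  · exact h8
  · rw [h8] at hu ⊢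
    have h9 : (2 : F) = 0 := by
      have h10 : ((-1 : S2) : M2) = -1 := rfl
      rw [h10] at hu
      have h11 := congrFun (congrFun hu 0) 0
      simp only [Matrix.mul_apply, Fin.sum_univ_two, Matrix.sub_apply, Matrix.neg_apply, Matrix.one_apply_eq, ne_eq,
        zero_ne_one, not_false_eq_true, Matrix.one_apply_ne, one_ne_zero, neg_zero, sub_zero, mul_zero, add_zero,
        Matrix.zero_apply] at h11
      have h12 : (2 : F) * 2 = 0 := by linear_combination h11
      exact (mul_self_eq_zero.1 h12)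
    apply Subtype.ext
    change (-1 : M2) = 1
    have h13 : (-1 : F) = 1 := by linear_combination -h9
    ext i j
    (revert i j; simp only [h13, _root_.Fin.forall_fin_succ, _root_.Matrix.neg_apply, _root_.IsEmpty.forall_iff, _root_.and_true, _root_.Matrix.one_apply_eq, Nat.reduceAdd, Fin.isValue, _root_.Fin.succ_zero_eq_one, _root_.ne_eq, _root_.zero_ne_one, _root_.not_false_eq_true, _root_.Matrix.one_apply_ne, _root_.neg_zero, _root_.and_self, _root_.Fin.succ_ne_zero, _root_.true_and])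

/-- `B ^ k` induces the conjugation by `x ^ k` -/
theorem lift_pow {π : S2 →* G} {x : G} {B : GL (Fin 2) F}
    (hl : ∀ s : S2, ∃ s' : S2, (s' : M2) = (B : M2) * s * ((B⁻¹ : GL (Fin 2) F) : M2) ∧ π s' = x * π s * x⁻¹) (k : ℕ) :
    ∀ s : S2, ∃ s' : S2, (s' : M2) = ((B ^ k : GL (Fin 2) F) : M2) * s * (((B ^ k)⁻¹ : GL (Fin 2) F) : M2) ∧
      π s' = x ^ k * π s * (x ^ k)⁻¹ := by
  induction k with
  | zero =>
    intro s
    refine ⟨s, ?_, ?_⟩
    · rw [pow_zero, inv_one, Units.val_one, one_mul, mul_one]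
    · rw [pow_zero, inv_one, one_mul, mul_one]
  | succ k ih =>
    intro s
    obtain ⟨s1, h1, h2⟩ := ih s
    obtain ⟨s2, h3, h4⟩ := hl s1
    refine ⟨s2, ?_, ?_⟩
    · rw [h3, h1, pow_succ', _root_.mul_inv_rev, Units.val_mul, Units.val_mul]
      simp only [mul_assoc]
    · rw [h4, h2, pow_succ', _root_.mul_inv_rev]
      simp only [mul_assoc]

/-- a matrix inducing the identity is scalar -/
theorem scalar_of_trivial {π : S2 →* G} (hM : Model N (iSL 2 F) π) {B : GL (Fin 2) F}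
    (hl : ∀ s : S2, ∃ s' : S2, (s' : M2) = (B : M2) * s * ((B⁻¹ : GL (Fin 2) F) : M2) ∧ π s' = π s) :
    ∃ c : F, (B : M2) = c • (1 : M2) := by
  have hBB : ((B⁻¹ : GL (Fin 2) F) : M2) * (B : M2) = 1 := by rw [← Units.val_mul, inv_mul_cancel, Units.val_one]
  have key : ∀ s : S2, (s : M2).trace = 2 → (B : M2) * s = s * B := by
    intro s hs
    obtain ⟨s', h1, h2⟩ := hl s
    have h3 : (s' : M2) = s := by
      rcases pi_eq π hM h2 with h4 | h4
      · rw [h4]
      · have h5 : (s' : M2).trace = (s : M2).trace := by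
          rw [h1, Matrix.trace_mul_comm, ← mul_assoc, hBB, one_mul]
        have h6 : (s' : M2) = -(s : M2) := by rw [h4]; rfl
        have h7 : (2 : F) = 0 := by
          rw [h6, Matrix.trace_neg, hs] at h5
          have h8 : (2 : F) * 2 = 0 := by linear_combination -h5
          exact mul_self_eq_zero.1 h8
        rw [h6]
        ext i j
        rw [Matrix.neg_apply]
        linear_combination -((s : M2) i j) * h7
    calc (B : M2) * s = (B : M2) * s * (((B⁻¹ : GL (Fin 2) F) : M2) * (B : M2)) := by rw [hBB, mul_one]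
      _ = s' * B := by rw [h1]; simp only [mul_assoc]
      _ = s * B := by rw [h3]
  have k1 := key ⟨!![1, 1; 0, 1], by simp [Matrix.det_fin_two]⟩ (by
    change Matrix.trace !![1, 1; 0, 1] = 2
    rw [Matrix.trace_fin_two]
    simp
    norm_num)
  have k2 := key ⟨!![1, 0; 1, 1], by simp [Matrix.det_fin_two]⟩ (by
    change Matrix.trace !![1, 0; 1, 1] = 2
    rw [Matrix.trace_fin_two]
    simp
    norm_num)
  change (B : M2) * !![1, 1; 0, 1] = !![1, 1; 0, 1] * (B : M2) at k1
  change (B : M2) * !![1, 0; 1, 1] = !![1, 0; 1, 1] * (B : M2) at k2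
  have a1 := congrFun (congrFun k1 0) 0
  have a2 := congrFun (congrFun k1 0) 1
  have a3 := congrFun (congrFun k2 0) 0
  simp only [Matrix.mul_apply, Fin.sum_univ_two, _root_.Fin.isValue, _root_.Matrix.of_apply, _root_.Matrix.cons_val', _root_.Matrix.cons_val_zero, _root_.Matrix.cons_val_fin_one, _root_.mul_one, _root_.Matrix.cons_val_one, _root_.MulZeroClass.mul_zero, _root_.add_zero, _root_.one_mul, _root_.left_eq_add, _root_.MulZeroClass.zero_mul, _root_.add_eq_left] at a1 a2 a3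
  refine ⟨(B : M2) 0 0, ?_⟩
  ext i j
  fin_cases i <;> fin_cases j
  · simp
  · simpa using a3
  · simpa using a1
  · simp
    linear_combination -a2

/-- `B` with square determinant -/
theorem mem_of_isSquare {π : S2 →* G} (hM : Model N (iSL 2 F) π) (hc : centralizer (N : Set G) = ⊥) {x : G}
    {B : GL (Fin 2) F}
    (hl : ∀ s : S2, ∃ s' : S2, (s' : M2) = (B : M2) * s * ((B⁻¹ : GL (Fin 2) F) : M2) ∧ π s' = x * π s * x⁻¹)
    (hsq : IsSquare (B : M2).det) : x ∈ N := by
  obtain ⟨μ, hμ⟩ := hsq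
  have hBB : ((B⁻¹ : GL (Fin 2) F) : M2) * (B : M2) = 1 := by rw [← Units.val_mul, inv_mul_cancel, Units.val_one]
  have hd : (B : M2).det ≠ 0 := by
    intro h
    have := congrArg Matrix.det hBB
    rw [Matrix.det_mul, h, mul_zero, Matrix.det_one] at this
    exact zero_ne_one this
  have hμ0 : μ ≠ 0 := by
    rintro rfl
    rw [mul_zero] at hμ
    exact hd hμ
  let s0 : S2 := ⟨μ⁻¹ • (B : M2), by
    rw [Matrix.det_smul, hμ, Fintype.card_fin]
    field_simp⟩
  have hs0 : (s0 : M2) = μ⁻¹ • (B : M2) := rfl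
  have h1 : (π s0)⁻¹ * x ∈ centralizer (N : Set G) := by
    rw [mem_centralizer_iff]
    rintro y hy
    rw [SetLike.mem_coe, ← hM.range] at hy
    obtain ⟨s, rfl⟩ := hy
    obtain ⟨s', h2, h3⟩ := hl s
    have h4 : s' * s0 = s0 * s := by
      apply Subtype.ext
      change (s' : M2) * (s0 : M2) = (s0 : M2) * (s : M2)
      rw [h2, hs0, mul_smul_comm, smul_mul_assoc, mul_assoc, hBB, mul_one]
    have h5 : π s' = π s0 * π s * (π s0)⁻¹ := by
      rw [eq_mul_inv_iff_mul_eq, ← map_mul, ← map_mul, h4]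
    rw [h3] at h5
    calc π s * ((π s0)⁻¹ * x) = (π s0)⁻¹ * (π s0 * π s * (π s0)⁻¹) * x := by group
      _ = (π s0)⁻¹ * (x * π s * x⁻¹) * x := by rw [h5]
      _ = (π s0)⁻¹ * x * π s := by group
  rw [hc, mem_bot, inv_mul_eq_one] at h1
  rw [← h1, ← hM.range]
  exact ⟨s0, rfl⟩

/-- the number of elements of `G`, crudely -/
theorem card_G_le {π : S2 →* G} (hM : Model N (iSL 2 F) π) (hc : centralizer (N : Set G) = ⊥) :
    Nat.card G ≤ Fintype.card F ^ 5 := by
  classical
  choose B σ hi hl using exists_lift π hM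
  obtain ⟨u, hu⟩ := IsCyclic.exists_generator (α := Fˣ)
  let Φ : G → (Fin 2 → Fin 2 → F) × F := fun g => (fun i j => ((B g : GL (Fin 2) F) : M2) i j, σ g (u : F))
  have hinj : Function.Injective Φ := by
    intro g g' hgg
    have h1 : B g = B g' := Units.ext (by
      ext i j
      exact congrFun (congrFun (congrArg Prod.fst hgg) i) j)
    have h2 : σ g = σ g' := by
      have h3 : σ g (u : F) = σ g' (u : F) := congrArg Prod.snd hgg
      ext a
      by_cases ha : a = 0
      · rw [ha, map_zero, map_zero]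
      · obtain ⟨k, hk⟩ := mem_powers_iff_mem_zpowers.2 (hu (Units.mk0 a ha))
        have hk' : (u : F) ^ k = a := by
          have := congrArg Units.val hk
          simpa using this
        rw [← hk', map_pow, map_pow, h3]
    have h3 : g'⁻¹ * g ∈ centralizer (N : Set G) := by
      rw [mem_centralizer_iff]
      rintro y hy
      rw [SetLike.mem_coe, ← hM.range] at hy
      obtain ⟨s, rfl⟩ := hy
      obtain ⟨s1, h4, h5⟩ := hl g s
      obtain ⟨s2, h6, h7⟩ := hl g' s
      have h8 : s1 = s2 := Subtype.ext (by rw [h4, h6, h1, h2])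
      rw [h8] at h5
      have h9 : g * π s * g⁻¹ = g' * π s * g'⁻¹ := by rw [← h5, ← h7]
      calc π s * (g'⁻¹ * g) = g'⁻¹ * (g' * π s * g'⁻¹) * g := by group
        _ = g'⁻¹ * (g * π s * g⁻¹) * g := by rw [h9]
        _ = g'⁻¹ * g * π s := by group
    rw [hc, mem_bot, inv_mul_eq_one] at h3
    exact h3.symm
  have h1 := Nat.card_le_card_of_injective Φ hinj
  refine h1.trans (le_of_eq ?_)
  rw [Nat.card_eq_fintype_card, Fintype.card_prod]
  simp only [Fintype.card_pi, Finset.prod_const, Finset.card_univ, Fintype.card_fin]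
  ring

/-- the determinant is a square -/
theorem isSquare_det {π : S2 →* G} (hM : Model N (iSL 2 F) π) (hr : ¬ r ∣ Fintype.card F)
    {E : Subalgebra F M2} (hcomm : ∀ x ∈ E, ∀ y ∈ E, x * y = y * x) {B : GL (Fin 2) F} (hB : (B : M2) ∈ E)
    (hT : IsPGroup r ((HE E).map π : Subgroup G)) {c : F} (hBr : (B : M2) ^ r = c • (1 : M2)) (hrp : r.Prime)
    {h0 : S2} (hh0 : h0 ∈ HE E) (hord : 2 < orderOf h0) : IsSquare (B : M2).det := by
  by_cases h2 : ringChar F = 2
  · exact FiniteField.isSquare_of_char_two h2 _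
  have h2' : (2 : F) ≠ 0 := Ring.two_ne_zero h2
  have hBB : ((B⁻¹ : GL (Fin 2) F) : M2) * (B : M2) = 1 := by rw [← Units.val_mul, inv_mul_cancel, Units.val_one]
  have hd : (B : M2).det ≠ 0 := by
    intro h
    have := congrArg Matrix.det hBB
    rw [Matrix.det_mul, h, mul_zero, Matrix.det_one] at this
    exact zero_ne_one this
  rcases hrp.eq_two_or_odd' with rfl | ⟨k, hk⟩
  · -- `r = 2`
    obtain ⟨k, hk⟩ := hT ⟨π h0, mem_map_of_mem π hh0⟩
    have hk' : (π h0) ^ (2 ^ k) = 1 := congrArg Subtype.val hk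
    have h3 : h0 ^ (2 ^ (k + 1)) = 1 := by
      rw [← map_pow] at hk'
      rw [pow_succ, pow_mul]
      rcases pi_eq_one π hM hk' with h4 | h4
      · rw [h4, one_pow]
      · rw [h4, neg_one_sq]
    have hex : ∃ j, h0 ^ (2 ^ j) = 1 := ⟨k + 1, h3⟩
    classical
    obtain ⟨j, hj, hmin⟩ : ∃ j, h0 ^ (2 ^ j) = 1 ∧ ∀ i < j, h0 ^ (2 ^ i) ≠ 1 :=
      ⟨Nat.find hex, Nat.find_spec hex, fun i hi => Nat.find_min hex hi⟩
    have hj2 : 2 ≤ j := by
      by_contra hcon
      have h4 : 2 ^ j ≤ 2 ^ 1 := Nat.pow_le_pow_right (by norm_num) (by omega)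
      have h5 := orderOf_le_of_pow_eq_one (by positivity) hj
      omega
    obtain ⟨i, rfl⟩ : ∃ i, j = i + 2 := ⟨j - 2, by omega⟩
    set i0 : S2 := h0 ^ (2 ^ i) with hi0
    have hy1 : i0 * i0 ≠ 1 := by
      have := hmin (i + 1) (by omega)
      rw [pow_succ, pow_mul, ← hi0, pow_two] at this
      exact this
    have hy2 : (i0 * i0) * (i0 * i0) = 1 := by
      have := hj
      rw [pow_add, pow_mul, ← hi0] at this
      rw [← this, show (2 : ℕ) ^ 2 = 2 + 2 from rfl, pow_add, pow_two]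
    have hi0E : (i0 : M2) ∈ E := (HE E).pow_mem hh0 _
    have hym : ((i0 * i0 : S2) : M2) = -1 := by
      have h4 := ch1 (i0 * i0)
      rw [← Matrix.SpecialLinearGroup.coe_mul, hy2, Matrix.SpecialLinearGroup.coe_one] at h4
      have h5 : ((i0 * i0 : S2) : M2).trace • ((i0 * i0 : S2) : M2) = (2 : F) • (1 : M2) := by
        rw [two_smul]
        exact (eq_sub_iff_add_eq.1 h4).symm
      by_cases h6 : ((i0 * i0 : S2) : M2).trace = 0
      · exfalso
        rw [h6, zero_smul] at h5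
        have := congrFun (congrFun h5 0) 0
        simp at this
        exact h2' this.symm
      · have h7 : ((i0 * i0 : S2) : M2) = (((i0 * i0 : S2) : M2).trace⁻¹ * 2) • (1 : M2) := by
          rw [mul_smul, ← h5, smul_smul, inv_mul_cancel₀ h6, one_smul]
        set e := ((i0 * i0 : S2) : M2).trace⁻¹ * 2 with he
        have h8 : e ^ 2 = 1 := by
          have := (i0 * i0 : S2).2
          rw [h7, Matrix.det_smul, Matrix.det_one, mul_one, Fintype.card_fin] at this
          exact this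
        have h9 : (e - 1) * (e + 1) = 0 := by linear_combination h8
        rcases mul_eq_zero.1 h9 with h10 | h10
        · exfalso
          apply hy1
          apply Subtype.ext
          have : e = 1 := by linear_combination h10
          rw [this, one_smul] at h7
          exact h7
        · have : e = -1 := by linear_combination h10
          rw [h7, this, neg_smul, one_smul]
    have hc1 := ch1 i0
    rw [← Matrix.SpecialLinearGroup.coe_mul, hym] at hc1
    have hi0ne : (i0 : M2) ≠ 0 := by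
      intro h
      have := i0.2
      rw [h, Matrix.det_fin_two] at this
      simp at this
    have htr : (i0 : M2).trace = 0 := by
      have h4 : (i0 : M2).trace • (i0 : M2) = 0 := by
        rw [eq_comm, sub_eq_iff_eq_add] at hc1
        rw [hc1]
        abel
      exact (smul_eq_zero.1 h4).resolve_right hi0ne
    have hns : ¬ Sc (i0 : M2) := by
      rintro ⟨e, he⟩
      rw [he, Matrix.trace_smul, Matrix.trace_one, Fintype.card_fin, smul_eq_mul] at htr
      push_cast at htr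
      rcases mul_eq_zero.1 htr with h4 | h4
      · apply hi0ne
        rw [he, h4, zero_smul]
      · exact h2' h4
    have hB2 := ch (B : M2)
    rw [← pow_two, hBr] at hB2
    by_cases h6 : (B : M2).trace = 0
    · obtain ⟨a, b, hab⟩ := span_of_comm hns (hcomm _ hB _ hi0E)
      have h7 : a = 0 := by
        rw [hab, trace_span, htr, mul_zero, add_zero] at h6
        exact (mul_eq_zero.1 h6).resolve_left h2'
      rw [hab, h7, det_span, htr, i0.2]
      exact ⟨b, by ring⟩
    · have h7 : (B : M2).trace • (B : M2) = (c + (B : M2).det) • (1 : M2) := by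
        rw [add_smul, hB2]
        abel
      have h8 : (B : M2) = ((B : M2).trace⁻¹ * (c + (B : M2).det)) • (1 : M2) := by
        rw [mul_smul, ← h7, smul_smul, inv_mul_cancel₀ h6, one_smul]
      rw [h8, Matrix.det_smul, Matrix.det_one, mul_one, Fintype.card_fin]
      exact ⟨_, pow_two _⟩
  · -- `r` odd
    have h3 : (B : M2).det ^ r = c ^ 2 := by
      rw [← Matrix.det_pow, hBr, Matrix.det_smul, Matrix.det_one, mul_one, Fintype.card_fin]
    refine ⟨c / (B : M2).det ^ k, ?_⟩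
    rw [div_mul_div_comm, eq_div_iff (mul_ne_zero (pow_ne_zero _ hd) (pow_ne_zero _ hd)), ← pow_two c, ← h3, hk]
    ring

/-- elements of order `r` centralising the torus -/
theorem hF_aux {π : S2 →* G} (hM : Model N (iSL 2 F) π) (hc : centralizer (N : Set G) = ⊥) (hrp : r.Prime)
    (hr : ¬ r ∣ Fintype.card F) (hq : 63 ≤ Fintype.card F)
    {E : Subalgebra F M2} (hcomm : ∀ x ∈ E, ∀ y ∈ E, x * y = y * x) {X : M2} (hX : X ∈ E) (hsX : ¬ Sc X)
    (hT : IsPGroup r ((HE E).map π : Subgroup G)) {x : G} (hxr : x ^ r = 1)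
    (hx : ∀ t ∈ (HE E).map π, x * t = t * x) : x ∈ N := by
  classical
  have hun := unip hM hrp hr hT
  have hcyc := cyclic_HE hcomm hun
  obtain ⟨h0, hh0⟩ := hcyc.exists_generator
  have hord : orderOf h0 = Nat.card ↥(HE E) := orderOf_eq_card_of_forall_mem_zpowers hh0
  have hcard := card_HE hcomm hX hsX (by omega)
  rw [← hord] at hcard
  set n := orderOf h0 with hn
  obtain ⟨B, σ, -, hl⟩ := exists_lift π hM x
  have hBB : ((B⁻¹ : GL (Fin 2) F) : M2) * (B : M2) = 1 := by rw [← Units.val_mul, inv_mul_cancel, Units.val_one]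
  have hBB' : (B : M2) * ((B⁻¹ : GL (Fin 2) F) : M2) = 1 := by rw [← Units.val_mul, mul_inv_cancel, Units.val_one]
  have hg : tauP B σ (((h0 : S2) * h0 : S2) : M2) = (((h0 : S2) * h0 : S2) : M2) := by
    obtain ⟨s', h1, h2⟩ := hl h0
    have h3 : π s' = π (h0 : S2) := by
      rw [h2, hx _ (mem_map_of_mem π h0.2), mul_inv_cancel_right]
    rw [Matrix.SpecialLinearGroup.coe_mul, tauP_mul, ← h1]
    rcases pi_eq π hM h3 with h4 | h4
    · rw [h4]
    · have h5 : (s' : M2) = -((h0 : S2) : M2) := by rw [h4]; rfl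
      rw [h5, neg_mul_neg]
  set g : S2 := (h0 : S2) * h0 with hgdef
  have hgE : (g : M2) ∈ E := (HE E).mul_mem h0.2 h0.2
  have hone : tauP B σ (1 : M2) = 1 := by
    rw [tauP_apply, Matrix.map_one σ (map_zero σ) (map_one σ), mul_one, hBB']
  have hgk : ∀ k : ℕ, tauP B σ ((g : M2) ^ k) = (g : M2) ^ k := by
    intro k
    induction k with
    | zero => rw [pow_zero, hone]
    | succ k ih => rw [pow_succ, tauP_mul, ih, hg]
  -- `σ = 1`
  have hσ : σ = 1 := by
    by_contra hσ
    obtain ⟨K, hK, hKc⟩ := Cfsg.Agent.GH.L2Aut.exists_fixed_field σ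
    have ho : 2 ≤ orderOf σ := by
      have h1 := Cfsg.Agent.GH.L2Aut.orderOf_pos' σ
      have h2 : orderOf σ ≠ 1 := fun h => hσ (orderOf_eq_one_iff.1 h)
      omega
    have hKq : Nat.card K ^ 2 ≤ Fintype.card F := by
      rw [← Nat.card_eq_fintype_card, hKc]
      exact Nat.pow_le_pow_right Nat.card_pos ho
    set S : Finset ↥(HE E) := Finset.univ.filter fun s => s ∈ zpowers (h0 * h0) with hS
    set Kf : Finset F := Finset.univ.filter fun a => a ∈ K with hKf
    have hSc : S.card = orderOf (h0 * h0) := by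
      rw [← Nat.card_zpowers, hS, Nat.card_eq_fintype_card, Fintype.card_subtype]
    have hKfc : Kf.card = Nat.card K := by
      rw [hKf, Nat.card_eq_fintype_card, Fintype.card_subtype]
    have h1 := card_trace_le hcomm hun S Kf (by
      intro s hs
      rw [hS, Finset.mem_filter] at hs
      rw [hKf, Finset.mem_filter]
      refine ⟨Finset.mem_univ _, ?_⟩
      rw [hK]
      obtain ⟨k, rfl⟩ := mem_powers_iff_mem_zpowers.2 hs.2
      have h2 : (((h0 * h0) ^ k : ↥(HE E)) : S2) = g ^ k := rfl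
      dsimp only
      rw [h2, Matrix.SpecialLinearGroup.coe_pow, ← trace_tauP B σ, hgk])
    rw [hSc, hKfc] at h1
    have h2 : n ≤ 2 * orderOf (h0 * h0) := by
      apply Nat.le_of_dvd
      · have := (orderOf_pos (h0 * h0) :)
        omega
      · apply orderOf_dvd_of_pow_eq_one
        rw [pow_mul, pow_two]
        exact pow_orderOf_eq_one _
    obtain ⟨m, hm⟩ : ∃ m, Fintype.card F = m + 63 := ⟨Fintype.card F - 63, by omega⟩
    rw [hm] at hKq hcard
    have h3 : m + 62 ≤ 4 * Nat.card K := by omega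
    nlinarith only [hKq, h3]
  subst hσ
  have htau : ∀ y : M2, tauP B 1 y = (B : M2) * y * ((B⁻¹ : GL (Fin 2) F) : M2) := by
    intro y
    rw [tauP_apply]
    congr 2
  have hl' : ∀ s : S2, ∃ s' : S2, (s' : M2) = (B : M2) * s * ((B⁻¹ : GL (Fin 2) F) : M2) ∧ π s' = x * π s * x⁻¹ := by
    intro s
    obtain ⟨s', h1, h2⟩ := hl s
    exact ⟨s', by rw [h1, htau], h2⟩
  have hgB : (B : M2) * g = g * B := by
    rw [htau] at hg
    calc (B : M2) * g = (B : M2) * g * (((B⁻¹ : GL (Fin 2) F) : M2) * (B : M2)) := by rw [hBB, mul_one]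
      _ = ((B : M2) * g * ((B⁻¹ : GL (Fin 2) F) : M2)) * B := by simp only [mul_assoc]
      _ = g * B := by rw [hg]
  have hgns : ¬ Sc (g : M2) := by
    rintro ⟨c, hc⟩
    have h1 : c ^ 2 = 1 := by
      have := g.2
      rw [hc, Matrix.det_smul, Matrix.det_one, mul_one, Fintype.card_fin] at this
      exact this
    have h2 : g * g = 1 := by
      apply Subtype.ext
      change (g : M2) * g = 1
      rw [hc, smul_mul_assoc, one_mul, smul_smul, ← pow_two, h1, one_smul]
    have h3 : h0 ^ 4 = 1 := by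
      apply Subtype.ext
      change (h0 : S2) ^ 4 = 1
      rw [← h2, hgdef, show 4 = 2 + 2 from rfl, pow_add, pow_two]
    have h4 := orderOf_le_of_pow_eq_one (by norm_num) h3
    omega
  have hBE : (B : M2) ∈ E := mem_of_comm hgE hgns hgB
  obtain ⟨c, hBc⟩ := scalar_of_trivial hM (B := B ^ r) (by
    intro s
    obtain ⟨s', h1, h2⟩ := lift_pow hl' r s
    refine ⟨s', h1, ?_⟩
    rw [h2, hxr, one_mul, inv_one, mul_one])
  have hBc' : (B : M2) ^ r = c • (1 : M2) := by rw [← hBc, Units.val_pow_eq_pow_val]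
  refine mem_of_isSquare hM hc hl' (isSquare_det hM hr hcomm hBE hT hBc' hrp h0.2 ?_)
  rw [Subgroup.orderOf_coe]
  omega

theorem M_five_le {d : ℕ} (hd : 5 ≤ d) : 955514880 ≤ M d := by
  have h1 : M 5 = 955514880 := by decide
  rw [← h1]
  unfold M
  have h2 : Nat.factorial (5 - 1) ≤ Nat.factorial (d - 1) := Nat.factorial_le (by omega)
  refine Nat.mul_le_mul (Nat.factorial_le hd) ?_
  exact (Nat.pow_le_pow_left h2 5).trans (Nat.pow_le_pow_right (Nat.factorial_pos _) hd)

/-- **The torus case.** -/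
theorem two_torus {C A₁ C₁ A₂ C₂ : Subgroup G} {d : ℕ} {π : S2 →* G} (h : Sit N A C A₁ C₁ A₂ C₂ r d)
    (hr : ¬ r ∣ Fintype.card F)
    (hM : Model N (iSL 2 F) π) (E : Subalgebra F (Matrix (Fin 2) (Fin 2) F)) (hE : _root_.Cfsg.Agent.H607.TW.Inv (iSL 2 F) π A E) (h1 : E ≠ ⊥)
    (hcomm : ∀ x ∈ E, ∀ y ∈ E, x * y = y * x) : Nat.card A ≤ M d := by
  rcases Nat.lt_or_ge (Fintype.card F) 63 with hq | hq
  · refine le_trans ?_ (M_five_le h.five)
    have h2 := card_G_le hM h.locA.cent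
    have h3 : Fintype.card F ^ 5 ≤ 62 ^ 5 := Nat.pow_le_pow_left (by omega) 5
    have h4 : Nat.card A ≤ Nat.card G := Nat.card_le_card_of_injective _ Subtype.val_injective
    refine h4.trans (h2.trans (h3.trans (by norm_num)))
  exfalso
  have hrp := h.locA.prime
  obtain ⟨X, hX, hsX⟩ := exists_nonscalar h1
  have hT := map_isPGroup h.locA hM hE hcomm
  have hun := unip hM hrp hr hT
  have hcyc := cyclic_HE hcomm hun
  obtain ⟨h0, hh0⟩ := hcyc.exists_generator
  have hord : orderOf h0 = Nat.card ↥(HE E) := orderOf_eq_card_of_forall_mem_zpowers hh0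
  have hcard := card_HE hcomm hX hsX (by omega)
  rw [← hord] at hcard
  have hTD : TD N A ((HE E).map π) := by
    refine ⟨map_leA h.locA hM hE hcomm, map_le hM, ?_, conj_mem' hM hE, ?_⟩
    · exact isCyclic_of_surjective (π.subgroupMap (HE E)) (π.subgroupMap_surjective (HE E))
    · intro a ha haN haT
      rw [← hM.range] at haN
      obtain ⟨s, rfl⟩ := haN
      have hs : s ∉ HE E := fun hs => haT (mem_map_of_mem π hs)
      have hss : Ind (iSL 2 F) π (π s) (tauP (Matrix.SpecialLinearGroup.toGL s) 1) := by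
        left
        refine ⟨tauP_mul _ _, fun t => ⟨s * t * s⁻¹, ?_, by rw [map_mul, map_mul, map_inv]⟩⟩
        rw [mt_eq, mt_eq, tauP_apply, ← map_inv, Matrix.SpecialLinearGroup.coe_mul, Matrix.SpecialLinearGroup.coe_mul]
        rfl
      have hn : (s : M2) * X * ((s⁻¹ : S2) : M2) ∈ E := by
        have := hE (π s) ha _ hss X hX
        rw [tauP_apply, ← map_inv] at this
        exact this
      obtain ⟨h5, h6⟩ := out_aux hcomm hun hX hsX hs hn
      refine ⟨by rw [← map_mul, h6, pi_neg_one π hM], ?_⟩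
      rintro _ ⟨e, he, rfl⟩
      rw [← map_inv, ← map_mul, ← map_mul, h5 e he, map_inv]
  refine abs_false h hTD hT ⟨π h0, mem_map_of_mem π h0.2, ?_⟩ ?_
  · intro h4
    rw [← map_pow] at h4
    have h5 : h0 ^ 8 = 1 := by
      apply Subtype.ext
      change (h0 : S2) ^ 8 = 1
      rcases pi_eq_one π hM h4 with h6 | h6
      · rw [show 8 = 4 * 2 from rfl, pow_mul, h6, one_pow]
      · rw [show 8 = 4 * 2 from rfl, pow_mul, h6, neg_one_sq]
    have h6 := orderOf_le_of_pow_eq_one (by norm_num) h5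
    omega
  · intro x _ hxr hxT
    exact hF_aux hM h.locA.cent hrp hr hq hcomm hX hsX hT hxr hxT

end Grp

end Cfsg.Agent.H947.TW
end

-- part: H607/TW/Ends
section
/-!
# S3694: the hypotheses of the end theorems (helper607)
-/

set_option autoImplicit false

namespace Cfsg.Agent.H607.TW

open Subgroup Cfsg

universe u

section general

variable {G : Type u} [Group G] {N A X : Subgroup G} {r : ℕ} {F : Type} [Field F] {n : ℕ} {S : Type} [Group S]
  {ι : S →* Matrix.GeneralLinearGroup (Fin n) F} {π : S →* G}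

/-- Skolem-Noether, semilinear version -/
theorem eq_tauP {σ : F ≃+* F} {τ : Matrix (Fin n) (Fin n) F ≃+ Matrix (Fin n) (Fin n) F} (h1 : Par true τ) (h2 : Semi σ τ) :
    ∃ B : Matrix.GeneralLinearGroup (Fin n) F, τ = tauP B σ := by
  have p1 : Par true ((tauP 1 σ).symm.trans τ) := by
    have := h1.comp (tauP_par (1 : Matrix.GeneralLinearGroup (Fin n) F) σ).symm'
    simpa using this
  have s1 : Semi 1 ((tauP 1 σ).symm.trans τ) := by
    have := h2.comp (tauP_semi (1 : Matrix.GeneralLinearGroup (Fin n) F) σ).symm'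
    rwa [mul_inv_cancel] at this
  obtain ⟨B, hB⟩ := eq_tauP_one p1 s1
  refine ⟨B, ?_⟩
  ext1 x
  have h3 : τ x = ((tauP 1 σ).symm.trans τ) (tauP (1 : Matrix.GeneralLinearGroup (Fin n) F) σ x) := by
    rw [AddEquiv.trans_apply, AddEquiv.symm_apply_apply]
  rw [h3, hB, H296.TW.tauP_one_eq, tauP_apply, tauP_apply, inv_one, Units.val_one, one_mul, mul_one]

/-- an element of odd order has a lift of the first kind -/
theorem lift_of_odd [Finite F] (hM : Model N ι π) {x : G} {m : ℕ} (hm : Odd m) (hx : x ^ m = 1) :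
    ∃ (B : Matrix.GeneralLinearGroup (Fin n) F) (σ : F ≃+* F), Ind ι π x (tauP B σ) := by
  have key : ∃ (σ : F ≃+* F) (τ : Matrix (Fin n) (Fin n) F ≃+ Matrix (Fin n) (Fin n) F), Par true τ ∧ Semi σ τ ∧ Ind ι π x τ := by
    obtain ⟨b, σ, τ, p1, s1, i1⟩ := hM.exists_lift' x
    have h2 : ∀ k : ℕ, ∃ (σ : F ≃+* F) (τ : Matrix (Fin n) (Fin n) F ≃+ Matrix (Fin n) (Fin n) F),
        Par true τ ∧ Semi σ τ ∧ Ind ι π ((x * x) ^ k) τ := by
      intro k
      induction k with
      | zero => exact ⟨1, _, tauP_par 1 1, tauP_semi 1 1, by rw [pow_zero]; exact hM.ind_one⟩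
      | succ k ih =>
        obtain ⟨σ', τ', p2, s2, i2⟩ := ih
        refine ⟨_, _, ?_, s2.comp (s1.comp s1), by rw [pow_succ]; exact i2.comp (i1.comp i1)⟩
        have := p2.comp (p1.comp p1)
        cases b <;> simpa using this
    obtain ⟨k, hk⟩ := hm
    have h3 : (x * x) ^ (k + 1) = x := by
      rw [← pow_two, ← pow_mul, show 2 * (k + 1) = m + 1 by omega, pow_succ, hx, one_mul]
    obtain ⟨σ', τ', h4, h5, h6⟩ := h2 (k + 1)
    rw [h3] at h6
    exact ⟨σ', τ', h4, h5, h6⟩
  obtain ⟨σ, τ, h1, h2, h3⟩ := key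
  obtain ⟨B, rfl⟩ := eq_tauP h1 h2
  exact ⟨B, σ, h3⟩

theorem card_aut_le [Finite F] : Nat.card (F ≃+* F) ≤ Nat.card F := by
  classical
  have := Fintype.ofFinite F
  obtain ⟨g, hg⟩ := IsCyclic.exists_generator (α := Fˣ)
  apply Nat.card_le_card_of_injective (fun σ : F ≃+* F => σ (g : F))
  intro σ τ h
  ext x
  by_cases hx : x = 0
  · rw [hx, map_zero, map_zero]
  · obtain ⟨k, hk⟩ := hg (Units.mk0 x hx)
    have h1 : x = ((g ^ k : Fˣ) : F) := by
      have := congrArg Units.val hk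
      simpa using this.symm
    have h2 : ∀ ρ : F ≃+* F, ρ ((g ^ k : Fˣ) : F) = (ρ (g : F)) ^ k := by
      intro ρ
      rw [Units.val_zpow_eq_zpow_val, map_zpow₀]
    rw [h1, h2, h2]
    simp only at h
    rw [h]

theorem card_ker_le [Finite F] (hM : Model N ι π) : Nat.card ↥π.ker ≤ Nat.card F := by
  have h1 : ∀ z : ↥π.ker, ∃ c : F, mt ι z = c • (1 : Matrix (Fin n) (Fin n) F) := fun z => (hM.ker z).1 z.2
  choose f hf using h1
  apply Nat.card_le_card_of_injective f
  intro z w hzw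
  apply Subtype.ext
  apply hM.mt_inj
  rw [hf, hf, hzw]

/-- a crude bound for `|A|` -/
theorem card_le_crude [Finite G] [Finite F] (h : Loc N A r) (hM : Model N ι π)
    (hidx : N.index ≤ 2 * Nat.card (F ≃+* F) * Nat.card π.ker) {m q : ℕ} (h1 : Nat.card ↥(A ⊓ N : Subgroup G) ≤ m) (h2 : Nat.card F ≤ q)
    (h3 : m * (2 * q * q) ≤ 955514880) : Nat.card ↥A ≤ M 5 := by
  rw [M_five]
  refine le_trans ?_ h3
  refine h.card_le.trans (Nat.mul_le_mul h1 (hidx.trans ?_))
  exact Nat.mul_le_mul (Nat.mul_le_mul_left 2 (card_aut_le.trans h2)) ((card_ker_le hM).trans h2)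

end general

section SL

variable {G : Type u} [Group G] [Finite G] {N A : Subgroup G} {r : ℕ} {F : Type} [Field F] [Fintype F] {n : ℕ}
  {π : Matrix.SpecialLinearGroup (Fin n) F →* G}

theorem compAx_sl (h : Loc N A r) (hM : Model N (iSL n F) π) : CompAx (iSL n F) π A := by
  intro E hE hne L _ w φ hφ hr hc
  rcases H748.TW.comp_sl h hM E hE hne L w φ hφ hr hc with h1 | ⟨h1, h2, h3⟩
  · exact Or.inl h1
  · exact Or.inr (Or.inl ⟨h1, h2, by omega⟩)

theorem cycAx_sl (h : Loc N A r) (hM : Model N (iSL n F) π) : CycAx (iSL n F) π N :=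
  fun X hX hx => H296.TW.cyc_sl h.normal h.cent hM X hX hx

theorem fld_sl (hn : 3 ≤ n) (hM : Model N (iSL n F) π) (A' : Subgroup G) (x : G) (h : Loc N A' r) (hx : x ^ r = 1) (_hx1 : x ≠ 1)
    (hc : ∀ y ∈ A' ⊓ N, x * y = y * x) (hle : ∀ y ∈ N, x * y = y * x → y ∈ A') (hne : A' ⊓ N ≠ ⊥)
    (B : Matrix.GeneralLinearGroup (Fin n) F) (σ : F ≃+* F) (hσ : σ ≠ 1) (hτ : Ind (iSL n F) π x (tauP B σ)) :
    r = 2 ∨ Nat.card ↥A' ≤ M 5 := by
  have := (H76.TW.Field.field_sl h hM hx hc hle hne hσ hτ).1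
  omega

theorem out_sl (hr : ¬ r ∣ Fintype.card F) (hn : 3 ≤ n) (hM : Model N (iSL n F) π) (A' : Subgroup G) (x : G) (h : Loc N A' r)
    (hX : Extra (iSL n F) π N A' r) (hx : x ^ r = 1) (_hx1 : x ≠ 1)
    (hc : ∀ y ∈ A' ⊓ N, x * y = y * x) (hle : ∀ y ∈ N, x * y = y * x → y ∈ A')
    (hno : ∀ B : Matrix.GeneralLinearGroup (Fin n) F, ¬ Ind (iSL n F) π x (tauP B 1)) :
    (r = 2 ∧ Nat.card F ≤ 10 ^ 4) ∨ Nat.card ↥A' ≤ M 5 := by
  have hne : A' ⊓ N ≠ ⊥ := fun h1 => hX.ne (eq_bot_iff.mpr ((inf_le_inf_right N (OO_le r A')).trans h1.le))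
  obtain ⟨B, σ, hB⟩ | ⟨h2, B, σ, hB⟩ : (∃ (B : Matrix.GeneralLinearGroup (Fin n) F) (σ : F ≃+* F), Ind (iSL n F) π x (tauP B σ)) ∨
      (r = 2 ∧ ∃ (B : Matrix.GeneralLinearGroup (Fin n) F) (σ : F ≃+* F), Ind (iSL n F) π x (tauM B σ)) := by
    rcases h.prime.eq_two_or_odd' with h2 | h2
    · obtain ⟨B, σ, h3 | h3⟩ := hM.lift x
      · exact Or.inl ⟨B, σ, h3⟩
      · exact Or.inr ⟨h2, B, σ, h3⟩
    · exact Or.inl (lift_of_odd hM h2 hx)
  · have hσ : σ ≠ 1 := by
      rintro rfl
      exact hno B hB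
    have := (H76.TW.Field.field_sl h hM hx hc hle hne hσ hB).1
    omega
  · left
    subst h2
    exact ⟨rfl, (H588.TWG.graph_q_sl h hn hr hM hX hx hc hle hB).trans (by norm_num)⟩

/-- `n = 2` -/
theorem out_sl_two {π : Matrix.SpecialLinearGroup (Fin 2) F →* G} (hM : Model N (iSL 2 F) π) (A' : Subgroup G) (x : G) (h : Loc N A' r)
    (hX : Extra (iSL 2 F) π N A' r) (hx : x ^ r = 1) (_hx1 : x ≠ 1)
    (hc : ∀ y ∈ A' ⊓ N, x * y = y * x) (hle : ∀ y ∈ N, x * y = y * x → y ∈ A')
    (hno : ∀ B : Matrix.GeneralLinearGroup (Fin 2) F, ¬ Ind (iSL 2 F) π x (tauP B 1)) :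
    (r = 2 ∧ Nat.card F ≤ 10 ^ 4) ∨ Nat.card ↥A' ≤ M 5 := by
  have hne : A' ⊓ N ≠ ⊥ := fun h1 => hX.ne (eq_bot_iff.mpr ((inf_le_inf_right N (OO_le r A')).trans h1.le))
  obtain ⟨B, σ, hB, -⟩ := H947.TW.exists_lift π hM x
  have hσ : σ ≠ 1 := by
    rintro rfl
    exact hno B hB
  obtain ⟨-, h1, h2⟩ := H76.TW.Field.field_sl h hM hx hc hle hne hσ hB
  right
  exact card_le_crude h hM (H982.TWModel.index_sl h.normal h.cent hM) h2 h1 (by norm_num)

end SL

section SU

variable {G : Type u} [Group G] [Finite G] {N A : Subgroup G} {r : ℕ} {F : Type} [Field F] [Fintype F] {n q : ℕ}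
  {π : ↥(Cfsg.SU n F q) →* G}

theorem compAx_su (hF : Fintype.card F = q ^ 2) (hn : 3 ≤ n) (h : Loc N A r) (hM : Model N (iSU n F q) π) :
    CompAx (iSU n F q) π A := by
  intro E hE hne L _ w φ hφ hr hc
  rcases H989.TW.comp_su hF hn h hM E hE hne L w φ hφ hr hc with h1 | ⟨-, h2, ⟨h1, h3⟩ | ⟨h1, h3⟩⟩
  · exact Or.inl h1
  · refine Or.inr (Or.inl ⟨h1, h2, ?_⟩)
    rw [Nat.card_eq_fintype_card, hF]
    rcases h3 with rfl | rfl <;> norm_num
  · refine Or.inr (Or.inr ⟨h1, h2, ?_⟩)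
    rw [Nat.card_eq_fintype_card, hF, h3]
    norm_num

theorem cycAx_su (hF : Fintype.card F = q ^ 2) (hn : 3 ≤ n) (h : Loc N A r) (hM : Model N (iSU n F q) π) :
    CycAx (iSU n F q) π N :=
  fun X hX hx => H296.TW.cyc_su hF h.normal h.cent hn hM X hX hx

theorem idx_su (hF : Fintype.card F = q ^ 2) (hn : 3 ≤ n) (h : Loc N A r) (hM : Model N (iSU n F q) π) :
    N.index ≤ 2 * Nat.card (F ≃+* F) * Nat.card π.ker := by
  refine (H296.TW.index_su hF h.normal h.cent hn hM).trans ?_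
  rw [mul_assoc]
  exact Nat.le_mul_of_pos_left _ two_pos

theorem fld_su (hF : Fintype.card F = q ^ 2) (hn : 3 ≤ n) (hM : Model N (iSU n F q) π) (A' : Subgroup G) (x : G) (h : Loc N A' r)
    (hx : x ^ r = 1) (_hx1 : x ≠ 1)
    (hc : ∀ y ∈ A' ⊓ N, x * y = y * x) (hle : ∀ y ∈ N, x * y = y * x → y ∈ A') (hne : A' ⊓ N ≠ ⊥)
    (B : Matrix.GeneralLinearGroup (Fin n) F) (σ : F ≃+* F) (hσ : σ ≠ 1) (hτ : Ind (iSU n F q) π x (tauP B σ)) :
    r = 2 ∨ Nat.card ↥A' ≤ M 5 := by
  by_cases hr2 : r = 2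
  · exact Or.inl hr2
  · right
    obtain ⟨-, h1, h2⟩ := H76.TW.Field.field_su hF hn h hr2 hM hx hc hle hne hσ hτ
    refine card_le_crude h hM (idx_su hF hn h hM) h2 (q := 64) ?_ (by norm_num)
    rw [Nat.card_eq_fintype_card, hF, h1]
    norm_num

theorem out_su (hF : Fintype.card F = q ^ 2) (hr : ¬ r ∣ Fintype.card F) (hn : 3 ≤ n) (hM : Model N (iSU n F q) π) (A' : Subgroup G)
    (x : G) (h : Loc N A' r)
    (hX : Extra (iSU n F q) π N A' r) (hx : x ^ r = 1) (hx1 : x ≠ 1)
    (hc : ∀ y ∈ A' ⊓ N, x * y = y * x) (hle : ∀ y ∈ N, x * y = y * x → y ∈ A')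
    (hno : ∀ B : Matrix.GeneralLinearGroup (Fin n) F, ¬ Ind (iSU n F q) π x (tauP B 1)) :
    (r = 2 ∧ Nat.card F ≤ 10 ^ 4) ∨ Nat.card ↥A' ≤ M 5 := by
  have hne : A' ⊓ N ≠ ⊥ := fun h1 => hX.ne (eq_bot_iff.mpr ((inf_le_inf_right N (OO_le r A')).trans h1.le))
  obtain ⟨B, σ, -, hB⟩ := H296.TW.lift_su hF hn hM x
  have hσ : σ ≠ 1 := by
    rintro rfl
    exact hno B hB
  rcases fld_su hF hn hM A' x h hx hx1 hc hle hne B σ hσ hB with h1 | h1
  · left
    subst h1
    exact ⟨rfl, H588.TWG.graph_q_su hF h hn hr hM hX hx hc hle hσ hB⟩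
  · exact Or.inr h1

end SU

end Cfsg.Agent.H607.TW
end

private theorem dce_33c6896678ca : _root_.True := by
  try have : _root_.True := by simp only [_root_.Cfsg.Agent.H947.TW.J.eq_1]
  exact _root_.True.intro
end

-- part: H328/TW/CharSU
section
set_option linter.all false
open scoped Cfsg.Agent.FastGrp

-- part: H328/TW/Siegel
section
/-!
# Siegel transformations of hermitian spaces and the invariant subspaces of a parabolic (S3694-T8, helper328)

* `Hm F` : `F` is hermitian, with surjective trace and norm;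
* `exists_siegel` : the isometries `v ↦ v + (v,u) b - (v,b) u + α (v,u) u`;
* `inv_sub` : the only subspaces invariant under the stabilizer of the totally isotropic subspace `U` are `0`, `U`, `U^⊥`, `V`;
* `semi_unip` : a semilinear map commuting with all Siegel transformations stabilising `U` is linear, and a scalar times a unipotent map.
-/

set_option autoImplicit false

namespace Cfsg.Agent.H328.TW

open Module Cfsg.Agent.H477.HC

universe u v

variable {K : Type u} [Field K] {V : Type v} [AddCommGroup V] [Module K V]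

/-- hermitian forms with surjective trace and norm -/
structure Hm (F : CForm K V) : Prop where
  ε : F.ε = 1
  Q : ∀ v, F.Q v = F.B v v
  tr : ∀ c, F.σ c = c → ∃ t, t + F.σ t = c
  nm : ∀ c, F.σ c = c → ∃ a, a * F.σ a = c
  ne : ∃ a, F.σ a ≠ a

variable {F : CForm K V} (hF : Hm F)

include hF

theorem Hm.symm (u v : V) : F.B u v = F.σ (F.B v u) := by
  rw [F.B_symm, hF.ε, one_mul]

theorem Hm.self (v : V) : F.σ (F.B v v) = F.B v v := (hF.symm v v).symm

theorem Hm.exists_skew : ∃ a : K, a ≠ 0 ∧ a + F.σ a = 0 := by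
  obtain ⟨x, hx⟩ := hF.ne
  refine ⟨x - F.σ x, fun h => hx (sub_eq_zero.1 h).symm, ?_⟩
  rw [map_sub, F.σσ]
  ring

theorem Hm.exists_norm_one : ∃ a : K, a ≠ 1 ∧ a * F.σ a = 1 := by
  obtain ⟨x, hx⟩ := hF.ne
  have hx0 : x ≠ 0 := by
    rintro rfl
    exact hx (map_zero _)
  have hx1 : F.σ x ≠ 0 := (map_ne_zero F.σ).2 hx0
  refine ⟨F.σ x / x, fun h => hx ((div_eq_one_iff_eq hx0).1 h), ?_⟩
  rw [map_div₀, F.σσ]
  field_simp

/-- **Siegel transformations** -/
theorem Hm.exists_siegel [FiniteDimensional K V] {u b : V} {α : K} (hu : F.B u u = 0) (hub : F.B u b = 0)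
    (hα : α + F.σ α + F.B b b = 0) :
    ∃ g : F.iso, ∀ v, (g : V ≃ₗ[K] V) v = v + F.B v u • b - F.B v b • u + (α * F.B v u) • u := by
  have hbu := F.B_eq_zero hub
  let f : V →ₗ[K] V :=
    { toFun := fun v => v + F.B v u • b - F.B v b • u + (α * F.B v u) • u
      map_add' := fun x y => by
        rw [F.B_add_left, F.B_add_left]
        module
      map_smul' := fun a x => by
        rw [F.B_smul_left, F.B_smul_left, RingHom.id_apply]
        module }
  have hfB : ∀ v w, F.B (f v) (f w) = F.B v w := by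
    intro v w
    change F.B (v + F.B v u • b - F.B v b • u + (α * F.B v u) • u)
      (w + F.B w u • b - F.B w b • u + (α * F.B w u) • u) = F.B v w
    simp only [F.B_add_left, F.B_add_right, F.B_sub_left, F.B_sub_right, F.B_smul_left, F.B_smul_right, hu, hub, hbu,
      map_mul]
    rw [hF.symm b w, hF.symm u w]
    linear_combination (F.B v u * F.σ (F.B w u)) * hα
  exact F.exists_iso f hfB (fun v => by rw [hF.Q, hF.Q, hfB])

omit hF

/-- the isometry `g` is a Siegel transformation -/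
def IsSiegel (F : CForm K V) (g : F.iso) : Prop :=
  ∃ (u b : V) (α : K), F.B u u = 0 ∧ F.B u b = 0 ∧ α + F.σ α + F.B b b = 0 ∧
    ∀ v, (g : V ≃ₗ[K] V) v = v + F.B v u • b - F.B v b • u + (α * F.B v u) • u

/-- `P` contains all Siegel transformations stabilising `U` -/
def Big (F : CForm K V) (P : Subgroup F.iso) (U : Submodule K V) : Prop :=
  ∀ g : F.iso, IsSiegel F g → (∀ v ∈ U, (g : V ≃ₗ[K] V) v ∈ U) → g ∈ P

/-- `W` is invariant under `P` -/
def PInv (F : CForm K V) (P : Subgroup F.iso) (W : Submodule K V) : Prop :=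
  ∀ g ∈ P, ∀ w ∈ W, (g : V ≃ₗ[K] V) w ∈ W

theorem PInv.perp {P : Subgroup F.iso} {W : Submodule K V} (h : PInv F P W) : PInv F P (F.perp W) := by
  intro g hg v hv w hw
  have h1 := h g⁻¹ (P.inv_mem hg) w hw
  have h2 : (g : V ≃ₗ[K] V) (((g⁻¹ : F.iso) : V ≃ₗ[K] V) w) = w := (g : V ≃ₗ[K] V).apply_symm_apply w
  have h3 := F.iso_B g v (((g⁻¹ : F.iso) : V ≃ₗ[K] V) w)
  rw [h2] at h3
  rw [h3]
  exact hv _ h1

variable {P : Subgroup F.iso} {U : Submodule K V}

include hF

/-- the Siegel transformations in `P`, first type: `u ∈ U`, `b ∈ U^⊥` -/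
theorem Hm.sieg_mem [FiniteDimensional K V] (hU : F.TS U) (hP : Big F P U) {u b : V} {α : K} (hu : u ∈ U)
    (hb : b ∈ F.perp U) (hα : α + F.σ α + F.B b b = 0) :
    ∃ g ∈ P, ∀ v, (g : V ≃ₗ[K] V) v = v + F.B v u • b - F.B v b • u + (α * F.B v u) • u := by
  have hub : F.B u b = 0 := F.B_eq_zero (hb u hu)
  obtain ⟨g, hg⟩ := hF.exists_siegel (hU.2 u hu u hu) hub hα
  refine ⟨g, hP g ⟨u, b, α, hU.2 u hu u hu, hub, hα, hg⟩ fun v hv => ?_, hg⟩
  rw [hg, hU.2 v hv u hu, F.B_eq_zero (hb v hv)]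
  simpa using hv

/-- second type: `u ∈ U`, `b` isotropic -/
theorem Hm.sieg_mem' [FiniteDimensional K V] (hU : F.TS U) (hP : Big F P U) {u b : V} (hu : u ∈ U)
    (hb : F.B b b = 0) (hub : F.B u b = 0) :
    ∃ g ∈ P, ∀ v, (g : V ≃ₗ[K] V) v = v + F.B v u • b - F.B v b • u := by
  obtain ⟨g, hg⟩ := hF.exists_siegel (α := 0) (hU.2 u hu u hu) hub (by rw [map_zero, hb]; ring)
  refine ⟨g, hP g ⟨u, b, 0, hU.2 u hu u hu, hub, by rw [map_zero, hb]; ring, hg⟩ fun v hv => ?_, fun v => ?_⟩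
  · rw [hg, hU.2 v hv u hu]
    simp only [zero_smul, mul_zero, add_zero]
    exact U.sub_mem hv (U.smul_mem _ hu)
  · rw [hg, zero_mul, zero_smul, add_zero]

/-- third type: transvections with isotropic centre in `U^⊥` -/
theorem Hm.tv_mem [FiniteDimensional K V] (hP : Big F P U) {z : V} {a : K} (hz : F.B z z = 0)
    (hzU : z ∈ F.perp U) (ha : a + F.σ a = 0) :
    ∃ g ∈ P, ∀ v, (g : V ≃ₗ[K] V) v = v + (a * F.B v z) • z := by
  obtain ⟨g, hg⟩ := hF.exists_siegel (u := z) (b := 0) (α := a) hz (by simp) (by simpa only [_root_.Cfsg.Agent.H477.HC.CForm.B_zero_right, _root_.add_zero] using ha)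
  refine ⟨g, hP g ⟨z, 0, a, hz, by simp, by simpa only [_root_.Cfsg.Agent.H477.HC.CForm.B_zero_right, _root_.add_zero] using ha, hg⟩ fun v hv => ?_, fun v => ?_⟩
  · rw [hg, F.B_eq_zero (hzU v hv)]
    simpa using hv
  · rw [hg]
    simp

/-- irreducibility on `U` -/
theorem Hm.irr_U [FiniteDimensional K V] (hU : F.TS U) (hP : Big F P U) {T : Submodule K V} (hT : T ≤ U) (hT0 : T ≠ ⊥)
    (hinv : PInv F P T) : T = U := by
  classical
  obtain ⟨t, ht, ht0⟩ := (Submodule.ne_bot_iff T).1 hT0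
  refine le_antisymm hT fun u hu => ?_
  by_cases hdep : u ∈ K ∙ t
  · exact (Submodule.span_singleton_le_iff_mem _ _).2 ht hdep
  obtain ⟨f, hf, hf'⟩ : ∃ f : Dual K V, f t = 1 ∧ f u = 0 := by
    have h1 : t ∉ K ∙ u := by
      intro h
      obtain ⟨c, rfl⟩ := Submodule.mem_span_singleton.1 h
      have hc : c ≠ 0 := by
        rintro rfl
        exact ht0 (zero_smul _ _)
      apply hdep
      exact Submodule.mem_span_singleton.2 ⟨c⁻¹, by rw [smul_smul, inv_mul_cancel₀ hc, one_smul]⟩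
    obtain ⟨f, hf, hf'⟩ := Submodule.exists_dual_map_eq_bot_of_notMem h1 inferInstance
    refine ⟨(f t)⁻¹ • f, ?_, ?_⟩
    · rw [LinearMap.smul_apply, smul_eq_mul, inv_mul_cancel₀ hf]
    · have h2 : f u ∈ (K ∙ u).map f := ⟨u, Submodule.mem_span_singleton_self u, rfl⟩
      rw [hf', Submodule.mem_bot] at h2
      rw [LinearMap.smul_apply, h2, smul_zero]
  obtain ⟨b, hb, hb1, -⟩ := F.exists_sing_dual (W' := ⊥) hU (fun v _ w hw => by
      rw [(Submodule.mem_bot K).1 hw, F.B_zero_right]) (f.comp U.subtype) (fun w hw => by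
      rw [LinearMap.comp_apply, Submodule.subtype_apply, (Submodule.mem_bot K).1 hw, map_zero]) (by
      intro h
      have := LinearMap.congr_fun h ⟨t, hT ht⟩
      change f t = 0 at this
      rw [hf] at this
      exact one_ne_zero this)
  have htb : F.B t b = 1 := by
    rw [← hf]
    exact (hb1 ⟨t, hT ht⟩).symm
  have hub : F.B u b = 0 := by
    rw [← hf']
    exact (hb1 ⟨u, hu⟩).symm
  obtain ⟨g, hg, hg'⟩ := hF.sieg_mem' hU hP hu hb.2 hub
  have h1 := hinv g hg t ht
  rw [hg', hU.2 t (hT ht) u hu, htb, zero_smul, add_zero, one_smul] at h1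
  have h2 := T.sub_mem ht h1
  rwa [sub_sub_cancel] at h2

/-- isotropic vectors -/
theorem Hm.exists_iso_vec [FiniteDimensional K V] {W M : Submodule K V} (hWM : W < M) (hW : F.perp M ≤ W) {w : V}
    (hw : w ∈ W) (hw' : w ∉ F.perp M) : ∃ z ∈ M, F.B z z = 0 ∧ F.B w z ≠ 0 := by
  obtain ⟨z₀, hz₀, hwz⟩ : ∃ z₀ ∈ M, F.B w z₀ ≠ 0 := by
    by_contra hcon
    push Not at hcon
    exact hw' hcon
  by_cases hzz : F.B z₀ z₀ = 0
  · exact ⟨z₀, hz₀, hzz, hwz⟩
  obtain ⟨m, hm, hmW⟩ := SetLike.exists_of_lt hWM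
  obtain ⟨y, hy⟩ : ∃ y, y = m - (F.B m z₀ / F.B w z₀) • w := ⟨_, rfl⟩
  have hyM : y ∈ M := by
    rw [hy]
    exact M.sub_mem hm (M.smul_mem _ (hWM.le hw))
  have hyW : y ∉ W := by
    intro h
    apply hmW
    have h1 := W.add_mem h (W.smul_mem (F.B m z₀ / F.B w z₀) hw)
    rwa [hy, sub_add_cancel] at h1
  have hyz : F.B y z₀ = 0 := by
    rw [hy, F.B_sub_left, F.B_smul_left, div_mul_cancel₀ _ hwz, sub_self]
  have hzy := F.B_eq_zero hyz
  -- a nonsingular vector of `M` orthogonal to `z₀`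
  obtain ⟨y', hy'M, hy'z, hy'0⟩ : ∃ y' ∈ M, F.B y' z₀ = 0 ∧ F.B y' y' ≠ 0 := by
    by_cases hyy : F.B y y = 0
    swap
    · exact ⟨y, hyM, hyz, hyy⟩
    obtain ⟨m₁, hm₁, hym⟩ : ∃ m₁ ∈ M, F.B y m₁ ≠ 0 := by
      by_contra hcon
      push Not at hcon
      exact hyW (hW hcon)
    obtain ⟨m', hm'⟩ : ∃ m', m' = m₁ - (F.B m₁ z₀ / F.B z₀ z₀) • z₀ := ⟨_, rfl⟩
    have hm'M : m' ∈ M := by
      rw [hm']
      exact M.sub_mem hm₁ (M.smul_mem _ hz₀)
    have hm'z : F.B m' z₀ = 0 := by
      rw [hm', F.B_sub_left, F.B_smul_left, div_mul_cancel₀ _ hzz, sub_self]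
    have hym' : F.B y m' ≠ 0 := by
      rw [hm', F.B_sub_right, F.B_smul_right, hyz, mul_zero, sub_zero]
      exact hym
    by_cases hmm : F.B m' m' = 0
    swap
    · exact ⟨m', hm'M, hm'z, hmm⟩
    obtain ⟨t, ht⟩ := hF.tr 1 (map_one _)
    refine ⟨y + (t / F.σ (F.B y m')) • m', M.add_mem hyM (M.smul_mem _ hm'M), ?_, ?_⟩
    · rw [F.B_add_left, F.B_smul_left, hyz, hm'z, mul_zero, add_zero]
    · have hs : F.σ (F.B y m') ≠ 0 := (map_ne_zero F.σ).2 hym'
      have : F.B (y + (t / F.σ (F.B y m')) • m') (y + (t / F.σ (F.B y m')) • m') = 1 := by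
        rw [F.B_add_left, F.B_add_right, F.B_add_right, F.B_smul_left, F.B_smul_left, F.B_smul_right, F.B_smul_right,
          hyy, hmm, hF.symm m' y, map_div₀, F.σσ, ← ht]
        field_simp
        ring
      rw [this]
      exact one_ne_zero
  have hzy' := F.B_eq_zero hy'z
  -- the isotropic vectors
  obtain ⟨l, hl⟩ := hF.nm (-(F.B z₀ z₀ / F.B y' y')) (by rw [map_neg, map_div₀, hF.self, hF.self])
  have hl0 : l ≠ 0 := by
    rintro rfl
    rw [zero_mul] at hl
    have := neg_eq_zero.1 hl.symm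
    rcases div_eq_zero_iff.1 this with h | h
    · exact hzz h
    · exact hy'0 h
  obtain ⟨ζ, hζ, hζ1⟩ := hF.exists_norm_one
  have key : ∀ x : K, x * F.σ x = -(F.B z₀ z₀ / F.B y' y') → F.B (z₀ + x • y') (z₀ + x • y') = 0 := by
    intro x hx
    rw [F.B_add_left, F.B_add_right, F.B_add_right, F.B_smul_left, F.B_smul_left, F.B_smul_right, F.B_smul_right,
      hzy', hy'z]
    have h1 : x * F.σ x * F.B y' y' = -(F.B z₀ z₀) := by
      rw [hx, neg_mul, div_mul_cancel₀ _ hy'0]
    linear_combination h1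
  by_cases h1 : F.B w (z₀ + l • y') = 0
  · refine ⟨z₀ + (ζ * l) • y', M.add_mem hz₀ (M.smul_mem _ hy'M), key _ ?_, fun h2 => hwz ?_⟩
    · rw [map_mul, ← hl]
      linear_combination (l * F.σ l) * hζ1
    · rw [F.B_add_right, F.B_smul_right] at h1 h2
      rw [map_mul] at h2
      have h3 : F.σ l * F.B w y' * (1 - F.σ ζ) = 0 := by linear_combination h1 - h2
      rcases mul_eq_zero.1 h3 with h4 | h4
      · rwa [h4, add_zero] at h1
      · exfalso
        apply hζ
        have h5 : F.σ ζ = 1 := (sub_eq_zero.1 h4).symm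
        have h6 := congrArg F.σ h5
        rwa [F.σσ, map_one] at h6
  · exact ⟨_, M.add_mem hz₀ (M.smul_mem _ hy'M), key l hl, h1⟩

/-- irreducibility on `U^⊥/U` -/
theorem Hm.irr_mid [FiniteDimensional K V] (hU : F.TS U) (hP : Big F P U) {W : Submodule K V} (h1 : U ≤ W)
    (h2 : W ≤ F.perp U) (hinv : PInv F P W) : W = U ∨ W = F.perp U := by
  by_contra hcon
  push Not at hcon
  obtain ⟨hWU, hWM⟩ := hcon
  have hlt : W < F.perp U := lt_of_le_of_ne h2 hWM
  -- the second subspace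
  have h3 : U ≤ F.perp W ⊓ F.perp U := by
    refine le_inf ?_ hU.le_perp
    have := F.perp_anti h2
    rwa [F.perp_perp] at this
  have hinv' : PInv F P (F.perp W) := hinv.perp
  have h4 : F.perp W ⊓ F.perp U < F.perp U := by
    refine lt_of_le_of_ne inf_le_right fun h => hWU ?_
    have h5 : F.perp U ≤ F.perp W := inf_eq_right.1 h
    have h6 := F.perp_anti h5
    rw [F.perp_perp, F.perp_perp] at h6
    exact le_antisymm h6 h1
  have hnt : ∀ z ∈ F.perp U, F.B z z = 0 → ∀ W' : Submodule K V, PInv F P W' → (∃ w ∈ W', F.B w z ≠ 0) → z ∈ W' := by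
    rintro z hz hzz W' hW' ⟨w, hw, hwz⟩
    obtain ⟨a, ha, ha'⟩ := hF.exists_skew
    obtain ⟨g, hg, hg'⟩ := hF.tv_mem hP hzz hz ha'
    have h5 := W'.sub_mem (hW' g hg w hw) hw
    rw [hg', add_sub_cancel_left] at h5
    have h6 := W'.smul_mem (a * F.B w z)⁻¹ h5
    rwa [smul_smul, inv_mul_cancel₀ (mul_ne_zero ha hwz), one_smul] at h6
  obtain ⟨w, hw, hwU⟩ := SetLike.exists_of_lt (lt_of_le_of_ne h1 (Ne.symm hWU))
  obtain ⟨z, hz, hzz, hwz⟩ := hF.exists_iso_vec hlt (by rw [F.perp_perp]; exact h1) hw (by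
    rw [F.perp_perp]; exact hwU)
  have hzW := hnt z hz hzz W hinv ⟨w, hw, hwz⟩
  have h5 : U ≠ F.perp W ⊓ F.perp U := by
    intro h
    apply hWM
    refine le_antisymm h2 fun m hm => ?_
    have h6 : F.perp W ⊓ F.perp U ≤ U := h.ge
    -- by duality
    have h7 : F.perp U ≤ F.perp (F.perp W ⊓ F.perp U) := F.perp_anti h6
    have h8 := h7 hm
    have h9 : F.perp (F.perp W ⊓ F.perp U) ≤ W := by
      have h10 : F.perp W ⊓ F.perp U = F.perp (W ⊔ U) := by
        ext x
        refine ⟨fun hx y hy => ?_, fun hx => ⟨fun y hy => hx y (Submodule.mem_sup_left hy),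
          fun y hy => hx y (Submodule.mem_sup_right hy)⟩⟩
        obtain ⟨y₁, hy₁, y₂, hy₂, rfl⟩ := Submodule.mem_sup.1 hy
        rw [F.B_add_right, hx.1 y₁ hy₁, hx.2 y₂ hy₂, add_zero]
      rw [h10, F.perp_perp, sup_eq_left.2 h1]
    exact h9 h8
  obtain ⟨w', hw', hw'U⟩ := SetLike.exists_of_lt (lt_of_le_of_ne h3 h5)
  obtain ⟨z', hz', hzz', hwz'⟩ := hF.exists_iso_vec h4 (by rw [F.perp_perp]; exact h3) hw' (by
    rw [F.perp_perp]; exact hw'U)
  have hzW' := hnt z' hz' hzz' (F.perp W) hinv' ⟨w', hw'.1, hwz'⟩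
  have e1 : F.B z z' = 0 := F.B_eq_zero (hzW' z hzW)
  have e2 : F.B z' z = 0 := hzW' z hzW
  have e3 : F.B (z + z') (z + z') = 0 := by
    rw [F.B_add_left, F.B_add_right, F.B_add_right, hzz, hzz', e1, e2]
    simp
  have e4 : F.B w z' = 0 := F.B_eq_zero (hzW' w hw)
  have e5 : z + z' ∈ W := hnt _ ((F.perp U).add_mem hz hz') e3 W hinv ⟨w, hw, by
    rw [F.B_add_right, e4, add_zero]; exact hwz⟩
  have e6 : z' ∈ W := by
    have := W.sub_mem e5 hzW
    rwa [add_sub_cancel_left] at this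
  exact hwz' (hw'.1 z' e6)

/-- **the invariant subspaces** -/
theorem Hm.inv_sub [FiniteDimensional K V] (hU : F.TS U) (hP : Big F P U) {W : Submodule K V}
    (hinv : PInv F P W) : W = ⊥ ∨ W = U ∨ W = F.perp U ∨ W = ⊤ := by
  have key : ∀ W : Submodule K V, PInv F P W → ¬ W ≤ F.perp U → W = ⊤ := by
    intro W hinv hW
    obtain ⟨w, hw, hwU⟩ := Set.not_subset.1 hW
    obtain ⟨u₀, hu₀, hwu⟩ : ∃ u₀ ∈ U, F.B w u₀ ≠ 0 := by
      by_contra hcon
      push Not at hcon
      exact hwU hcon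
    have h1 : u₀ ∈ W := by
      obtain ⟨a, ha, ha'⟩ := hF.exists_skew
      obtain ⟨g, hg, hg'⟩ := hF.tv_mem hP (hU.2 u₀ hu₀ u₀ hu₀) (hU.le_perp hu₀) ha'
      have h5 := W.sub_mem (hinv g hg w hw) hw
      rw [hg', add_sub_cancel_left] at h5
      have h6 := W.smul_mem (a * F.B w u₀)⁻¹ h5
      rwa [smul_smul, inv_mul_cancel₀ (mul_ne_zero ha hwu), one_smul] at h6
    have h2 : F.perp U ≤ W := by
      intro b hb
      obtain ⟨α, hα⟩ := hF.tr (-F.B b b) (by rw [map_neg, hF.self])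
      obtain ⟨g, hg, hg'⟩ := hF.sieg_mem hU hP hu₀ hb (α := α) (by rw [hα]; ring)
      have h3 := hinv g hg w hw
      rw [hg'] at h3
      have h4 : F.B w u₀ • b ∈ W := by
        have e : F.B w u₀ • b = (w + F.B w u₀ • b - F.B w b • u₀ + (α * F.B w u₀) • u₀) - w +
            (F.B w b - α * F.B w u₀) • u₀ := by module
        rw [e]
        exact W.add_mem (W.sub_mem h3 hw) (W.smul_mem _ h1)
      have h6 := W.smul_mem (F.B w u₀)⁻¹ h4
      rwa [smul_smul, inv_mul_cancel₀ hwu, one_smul] at h6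
    have h3 : F.perp W ≤ U := by
      have := F.perp_anti h2
      rwa [F.perp_perp] at this
    by_cases h4 : F.perp W = ⊥
    · rw [← F.perp_perp W, h4]
      exact (Submodule.eq_top_iff').2 fun x y hy => by rw [(Submodule.mem_bot K).1 hy, F.B_zero_right]
    · exfalso
      apply hW
      rw [← hF.irr_U hU hP h3 h4 hinv.perp, F.perp_perp]
  by_cases h1 : W ≤ F.perp U
  swap
  · exact Or.inr (Or.inr (Or.inr (key W hinv h1)))
  by_cases h2 : F.perp W ≤ F.perp U
  swap
  · left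
    have := key _ hinv.perp h2
    rw [← F.perp_perp W, this, Submodule.eq_bot_iff]
    exact fun x hx => F.nondeg x fun u => hx u trivial
  · have h3 : U ≤ W := by
      have := F.perp_anti h2
      rwa [F.perp_perp, F.perp_perp] at this
    rcases hF.irr_mid hU hP h3 h1 hinv with h | h
    · exact Or.inr (Or.inl h)
    · exact Or.inr (Or.inr (Or.inl h))

/-- **semilinear maps commuting with all Siegel transformations stabilising `U`** -/
theorem Hm.semi_unip [FiniteDimensional K V] (hU : F.TS U) (hP : Big F P U) (hU0 : U ≠ ⊥) (h3 : 3 ≤ finrank K V)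
    (τ : K ≃+* K) (f : V → V) (hadd : ∀ v w, f (v + w) = f v + f w) (hsmul : ∀ (c : K) v, f (c • v) = τ c • f v)
    (hcomm : ∀ g : F.iso, IsSiegel F g → g ∈ P → ∀ v, f ((g : V ≃ₗ[K] V) v) = (g : V ≃ₗ[K] V) (f v))
    (hinj : Function.Injective f) :
    (∀ c, τ c = c) ∧ ∃ (u : V) (μ : K), u ∈ U ∧ u ≠ 0 ∧ μ ≠ 0 ∧ (∀ v, F.B (f v) u = μ * F.B v u) ∧ f u = μ • u ∧
      (∀ b ∈ F.perp U, ∃ c : K, f b = μ • b + c • u) ∧
      (∀ v, F.B v u = 0 → f v - μ • v ∈ U) := by
  classical
  obtain ⟨u, hu, hu0⟩ := (Submodule.ne_bot_iff U).1 hU0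
  have huu := hU.2 u hu u hu
  obtain ⟨v₀, hv₀⟩ : ∃ v₀, F.B v₀ u = 1 := by
    by_contra hcon
    push Not at hcon
    apply hu0
    refine F.nondeg u fun x => ?_
    by_contra hx
    have hx' : F.B x u ≠ 0 := fun h => hx (F.B_eq_zero h)
    refine hcon ((F.B x u)⁻¹ • x) ?_
    rw [F.B_smul_left, inv_mul_cancel₀ hx']
  have f0 : f 0 = 0 := by
    have := hadd 0 0
    rw [add_zero] at this
    exact left_eq_add.1 this
  -- transvections
  obtain ⟨a, ha, ha'⟩ := hF.exists_skew
  have ht : ∀ v, (τ a * τ (F.B v u)) • f u = (a * F.B (f v) u) • u := by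
    intro v
    obtain ⟨g, hg⟩ := hF.exists_siegel (u := u) (b := 0) (α := a) huu (by simp) (by simpa only [_root_.Cfsg.Agent.H477.HC.CForm.B_zero_right, _root_.add_zero] using ha')
    have hgS : IsSiegel F g := ⟨u, 0, a, huu, by simp, by simpa only [_root_.Cfsg.Agent.H477.HC.CForm.B_zero_right, _root_.add_zero] using ha', hg⟩
    have hgP : g ∈ P := hP g hgS fun v hv => by
      rw [hg, hU.2 v hv u hu]
      simpa using hv
    have h1 := hcomm g hgS hgP v
    rw [hg, hg] at h1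
    simp only [smul_zero, add_zero, F.B_zero_right, zero_smul, sub_zero] at h1
    rw [hadd, hsmul, map_mul] at h1
    exact add_left_cancel h1
  obtain ⟨μ, hμ⟩ : ∃ μ : K, f u = μ • u := by
    have h1 := ht v₀
    rw [hv₀, map_one, mul_one] at h1
    have h2 : τ a ≠ 0 := (map_ne_zero τ).2 ha
    refine ⟨(τ a)⁻¹ * (a * F.B (f v₀) u), ?_⟩
    rw [mul_smul, ← h1, smul_smul, inv_mul_cancel₀ h2, one_smul]
  have hμ0 : μ ≠ 0 := by
    rintro rfl
    rw [zero_smul, ← f0] at hμ
    exact hu0 (hinj hμ)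
  have ht' : ∀ v, τ a * τ (F.B v u) * μ = a * F.B (f v) u := by
    intro v
    have h1 := ht v
    rw [hμ, smul_smul] at h1
    exact smul_left_injective K hu0 h1
  -- Siegel transformations
  have hs : ∀ b ∈ F.perp U, ∀ v, τ (F.B v u) • f b + (F.B (f v) b) • u =
      F.B (f v) u • b + (τ (F.B v b) * μ) • u +
        ((Classical.choose (hF.tr (-F.B b b) (by rw [map_neg, hF.self]))) * F.B (f v) u -
          τ (Classical.choose (hF.tr (-F.B b b) (by rw [map_neg, hF.self])) * F.B v u) * μ) • u := by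
    intro b hb v
    obtain ⟨α, hα⟩ : ∃ α, α = Classical.choose (hF.tr (-F.B b b) (by rw [map_neg, hF.self])) := ⟨_, rfl⟩
    have hα' : α + F.σ α + F.B b b = 0 := by
      have := Classical.choose_spec (hF.tr (-F.B b b) (by rw [map_neg, hF.self]))
      rw [← hα] at this
      rw [this, neg_add_cancel]
    rw [← hα]
    have hub : F.B u b = 0 := F.B_eq_zero (hb u hu)
    obtain ⟨g, hg⟩ := hF.exists_siegel (u := u) (b := b) (α := α) huu hub hα'
    have hgS : IsSiegel F g := ⟨u, b, α, huu, hub, hα', hg⟩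
    have hgP : g ∈ P := hP g hgS fun v hv => by
      rw [hg, hU.2 v hv u hu, F.B_eq_zero (hb v hv)]
      simpa using hv
    have h1 := hcomm g hgS hgP v
    have hneg : ∀ x, f (-x) = -f x := fun x => by
      have := hadd x (-x)
      rw [add_neg_cancel, f0] at this
      exact (neg_eq_of_add_eq_zero_right this.symm).symm
    rw [hg, hg, sub_eq_add_neg, hadd, hadd, hadd, hneg, hsmul, hsmul, hsmul, hμ] at h1
    have h2 : τ (F.B v u) • f b = F.B (f v) u • b - F.B (f v) b • u + (α * F.B (f v) u) • u +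
        τ (F.B v b) • μ • u - τ (α * F.B v u) • μ • u := by
      have h3 : f v + (τ (F.B v u) • f b) + -(τ (F.B v b) • μ • u) + τ (α * F.B v u) • μ • u =
          f v + (F.B (f v) u • b - F.B (f v) b • u + (α * F.B (f v) u) • u) := by
        rw [h1]; abel
      have h4 : τ (F.B v u) • f b = (f v + (τ (F.B v u) • f b) + -(τ (F.B v b) • μ • u) + τ (α * F.B v u) • μ • u) -
          f v + τ (F.B v b) • μ • u - τ (α * F.B v u) • μ • u := by abel
      rw [h4, h3]
      abel
    rw [h2]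
    module
  -- `τ = 1`
  have hfb : ∀ b ∈ F.perp U, ∃ c : K, f b = F.B (f v₀) u • b + c • u := by
    intro b hb
    have h1 := hs b hb v₀
    rw [hv₀, map_one, one_smul] at h1
    have h2 : f b - F.B (f v₀) u • b ∈ K ∙ u := by
      rw [eq_sub_of_add_eq h1]
      have hu' := Submodule.mem_span_singleton_self (R := K) u
      rw [show ∀ A x y z : V, A + x + y - z - A = x + y - z from fun A x y z => by abel]
      exact Submodule.sub_mem _ (Submodule.add_mem _ (Submodule.smul_mem _ _ hu') (Submodule.smul_mem _ _ hu'))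
        (Submodule.smul_mem _ _ hu')
    obtain ⟨c, hc⟩ := Submodule.mem_span_singleton.1 h2
    exact ⟨c, by rw [hc, add_sub_cancel]⟩
  have hκ : F.B (f v₀) u ≠ 0 := by
    intro h
    have := ht' v₀
    rw [hv₀, map_one, mul_one, h, mul_zero] at this
    exact (mul_ne_zero ((map_ne_zero τ).2 ha) hμ0) this
  have hτ : ∀ c, τ c = c := by
    obtain ⟨b, hb, hbu⟩ : ∃ b ∈ F.perp U, b ∉ K ∙ u := by
      by_contra hcon
      push Not at hcon
      have h1 : F.perp U ≤ K ∙ u := hcon
      have h2 : F.perp (K ∙ u) ≤ K ∙ u := by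
        have h4 := F.perp_anti h1
        rw [F.perp_perp] at h4
        exact (h4.trans hU.le_perp).trans h1
      have h5 : finrank K (F.perp (K ∙ u)) ≤ 1 := by
        refine (Submodule.finrank_mono h2).trans ?_
        exact (finrank_span_singleton hu0).le
      have h6 : finrank K V ≤ finrank K (F.perp (K ∙ u)) + 1 := by
        have h7 : F.perp (K ∙ u) = LinearMap.ker (F.lf u) := by
          ext x
          refine ⟨fun h => h u (Submodule.mem_span_singleton_self u), fun h y hy => ?_⟩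
          obtain ⟨c, rfl⟩ := Submodule.mem_span_singleton.1 hy
          rw [F.B_smul_right]
          have : F.B x u = 0 := h
          rw [this, mul_zero]
        rw [h7]
        have h8 := LinearMap.finrank_range_add_finrank_ker (F.lf u)
        have h9 : finrank K (LinearMap.range (F.lf u)) ≤ 1 := by
          refine (Submodule.finrank_le _).trans ?_
          rw [finrank_self]
        omega
      omega
    intro c
    obtain ⟨c₁, hc₁⟩ := hfb b hb
    obtain ⟨c₂, hc₂⟩ := hfb (c • b) ((F.perp U).smul_mem c hb)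
    rw [hsmul, hc₁] at hc₂
    by_contra hne
    apply hbu
    have h1 : ((τ c - c) * F.B (f v₀) u) • b = (c₂ - τ c * c₁) • u := by
      have : (τ c * F.B (f v₀) u) • b + (τ c * c₁) • u = (F.B (f v₀) u * c) • b + c₂ • u := by
        rw [mul_smul, mul_smul, ← smul_add, hc₂, mul_smul]
      have h2 : ((τ c - c) * F.B (f v₀) u) • b = ((τ c * F.B (f v₀) u) • b + (τ c * c₁) • u) -
          (τ c * c₁) • u - (F.B (f v₀) u * c) • b := by module
      rw [h2, this]
      module
    have h2 : (τ c - c) * F.B (f v₀) u ≠ 0 := mul_ne_zero (sub_ne_zero.2 hne) hκ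
    refine Submodule.mem_span_singleton.2 ⟨((τ c - c) * F.B (f v₀) u)⁻¹ * (c₂ - τ c * c₁), ?_⟩
    rw [mul_smul, ← h1, smul_smul, inv_mul_cancel₀ h2, one_smul]
  have hBu : ∀ v, F.B (f v) u = μ * F.B v u := by
    intro v
    have h1 := ht' v
    rw [hτ, hτ] at h1
    have h2 : a * F.B (f v) u = a * (μ * F.B v u) := by rw [← h1]; ring
    exact mul_left_cancel₀ ha h2
  refine ⟨hτ, u, μ, hu, hu0, hμ0, hBu, hμ, fun b hb => ?_, fun v hv => ?_⟩
  · obtain ⟨c, hc⟩ := hfb b hb
    refine ⟨c, ?_⟩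
    rw [hc, hBu, hv₀, mul_one]
  · rw [← F.perp_perp U]
    intro b hb
    have h1 := hs b hb v
    rw [hv, hBu, hv] at h1
    simp only [map_zero, zero_smul, mul_zero, zero_add, zero_mul, sub_zero, add_zero] at h1
    have h2 : F.B (f v) b = τ (F.B v b) * μ := smul_left_injective K hu0 h1
    rw [F.B_sub_left, F.B_smul_left, h2, hτ]
    ring

/-- a group of isometries normalised by `P`, trivial on `U^⊥` -/
theorem Hm.exists_aniso [FiniteDimensional K V] (hU : F.TS U) (hP : Big F P U) (X : Subgroup F.iso)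
    (hn : ∀ g ∈ P, ∀ x ∈ X, g * x * g⁻¹ ∈ X) (hX : ∀ x ∈ X, ∀ z ∈ F.perp U, (x : V ≃ₗ[K] V) z = z)
    (hX1 : X ≠ ⊥) {v : V} (hv : v ∉ F.perp U) : ∃ x ∈ X, F.B ((x : V ≃ₗ[K] V) v - v) v ≠ 0 := by
  classical
  by_contra hcon
  push Not at hcon
  have hXU : ∀ x ∈ X, ∀ w, (x : V ≃ₗ[K] V) w - w ∈ U := by
    intro x hx w
    rw [← F.perp_perp U]
    intro z hz
    have h1 := F.iso_B x w z
    rw [hX x hx z hz] at h1
    rw [F.B_sub_left, h1, sub_self]
  have hH1 : ∀ w, (∀ x ∈ X, F.B ((x : V ≃ₗ[K] V) w - w) w = 0) → ∀ z ∈ F.perp U,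
      ∀ x ∈ X, F.B ((x : V ≃ₗ[K] V) (w + z) - (w + z)) (w + z) = 0 := by
    intro w hw z hz x hx
    rw [map_add, hX x hx z hz, add_sub_add_right_eq_sub, F.B_add_right, hw x hx,
      F.B_eq_zero (hz _ (hXU x hx w)), add_zero]
  have hH2 : ∀ w, (∀ x ∈ X, F.B ((x : V ≃ₗ[K] V) w - w) w = 0) → ∀ c : K,
      ∀ x ∈ X, F.B ((x : V ≃ₗ[K] V) (c • w) - (c • w)) (c • w) = 0 := by
    intro w hw c x hx
    rw [map_smul, ← smul_sub, F.B_smul_left, F.B_smul_right, hw x hx, mul_zero, mul_zero]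
  have hH3 : ∀ w, (∀ x ∈ X, F.B ((x : V ≃ₗ[K] V) w - w) w = 0) → ∀ g ∈ P,
      ∀ x ∈ X, F.B ((x : V ≃ₗ[K] V) ((g : V ≃ₗ[K] V) w) - ((g : V ≃ₗ[K] V) w)) ((g : V ≃ₗ[K] V) w) = 0 := by
    intro w hw g hg x hx
    have h1 := hw _ (by
      have := hn g⁻¹ (P.inv_mem hg) x hx
      rwa [inv_inv] at this)
    have h2 : (x : V ≃ₗ[K] V) ((g : V ≃ₗ[K] V) w) = (g : V ≃ₗ[K] V) (((g⁻¹ * x * g : F.iso) : V ≃ₗ[K] V) w) := by
      have h3 : g * (g⁻¹ * x * g) = x * g := by group
      exact (congrArg (fun y : F.iso => (y : V ≃ₗ[K] V) w) h3).symm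
    rw [h2, ← map_sub, F.iso_B]
    exact h1
  have key : ∀ w, ∀ x ∈ X, F.B ((x : V ≃ₗ[K] V) w - w) w = 0 := by
    intro w
    by_cases hw : w ∈ F.perp U
    · intro x hx
      rw [hX x hx w hw, sub_self, F.B_zero_left]
    obtain ⟨u₁, hu₁, hvu₁⟩ : ∃ u₁ ∈ U, F.B v u₁ ≠ 0 := by
      by_contra h
      push Not at h
      exact hv h
    obtain ⟨u₂, hu₂, hwu₂⟩ : ∃ u₂ ∈ U, F.B w u₂ ≠ 0 := by
      by_contra h
      push Not at h
      exact hw h
    obtain ⟨u, hu, hvu, hwu⟩ : ∃ u ∈ U, F.B v u ≠ 0 ∧ F.B w u ≠ 0 := by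
      by_cases h1 : F.B w u₁ = 0
      · by_cases h2 : F.B v u₂ = 0
        · exact ⟨u₁ + u₂, U.add_mem hu₁ hu₂, by rw [F.B_add_right, h2, add_zero]; exact hvu₁,
            by rw [F.B_add_right, h1, zero_add]; exact hwu₂⟩
        · exact ⟨u₂, hu₂, h2, hwu₂⟩
      · exact ⟨u₁, hu₁, hvu₁, h1⟩
    obtain ⟨u₀, hu₀⟩ : ∃ u₀, u₀ = F.σ (F.B v u)⁻¹ • u := ⟨_, rfl⟩
    have hu₀U : u₀ ∈ U := by rw [hu₀]; exact U.smul_mem _ hu
    have hvu₀ : F.B v u₀ = 1 := by rw [hu₀, F.B_smul_right, F.σσ, inv_mul_cancel₀ hvu]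
    have hwu₀ : F.B w u₀ ≠ 0 := by
      rw [hu₀, F.B_smul_right, F.σσ]
      exact mul_ne_zero (inv_ne_zero hvu) hwu
    obtain ⟨w', hw'⟩ : ∃ w', w' = (F.B w u₀)⁻¹ • w := ⟨_, rfl⟩
    have hwu' : F.B w' u₀ = 1 := by rw [hw', F.B_smul_left, inv_mul_cancel₀ hwu₀]
    have hww' : w = F.B w u₀ • w' := by rw [hw', smul_smul, mul_inv_cancel₀ hwu₀, one_smul]
    rw [hww']
    apply hH2
    by_cases hd : w' - v ∈ F.perp U
    · have := hH1 v hcon _ hd
      rwa [add_sub_cancel] at this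
    obtain ⟨z₁, hz₁, hdz⟩ : ∃ z₁ ∈ U, F.B (w' - v) z₁ ≠ 0 := by
      by_contra h
      push Not at h
      exact hd h
    obtain ⟨l, hl⟩ := hF.tr (-F.B (w' - v) (w' - v)) (by rw [map_neg, hF.self])
    obtain ⟨z, hz⟩ : ∃ z, z = (l * F.σ (F.B (w' - v) z₁)⁻¹) • z₁ := ⟨_, rfl⟩
    have hzU : z ∈ U := by rw [hz]; exact U.smul_mem _ hz₁
    have hdz' : F.B (w' - v) z = F.σ l := by
      rw [hz, F.B_smul_right, map_mul, F.σσ, mul_assoc, inv_mul_cancel₀ hdz, mul_one]
    have hbb : F.B (w' - v + z) (w' - v + z) = 0 := by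
      rw [F.B_add_left, F.B_add_right, F.B_add_right, hU.2 z hzU z hzU, hF.symm z, hdz', F.σσ]
      linear_combination hl
    have hub : F.B u₀ (w' - v + z) = 0 := by
      rw [F.B_add_right, hU.2 u₀ hu₀U z hzU, add_zero, hF.symm, F.B_sub_left, hwu', hvu₀, sub_self, map_zero]
    obtain ⟨g, hg, hg'⟩ := hF.sieg_mem' hU hP hu₀U hbb hub
    have h1 := hH3 v hcon g hg
    rw [hg', hvu₀, one_smul] at h1
    have h2 := hH1 _ h1 (F.B v (w' - v + z) • u₀ - z)
      ((F.perp U).sub_mem ((F.perp U).smul_mem _ (hU.le_perp hu₀U)) (hU.le_perp hzU))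
    have h3 : v + (w' - v + z) - F.B v (w' - v + z) • u₀ + (F.B v (w' - v + z) • u₀ - z) = w' := by abel
    rwa [h3] at h2
  -- polarisation
  apply hX1
  rw [Subgroup.eq_bot_iff_forall]
  intro x hx
  obtain ⟨c, hc⟩ := hF.ne
  have hpol : ∀ a b, F.B ((x : V ≃ₗ[K] V) a - a) b + F.B ((x : V ≃ₗ[K] V) b - b) a = 0 := by
    intro a b
    have h1 := key (a + b) x hx
    rw [map_add, add_sub_add_comm, F.B_add_left, F.B_add_right, F.B_add_right, key a x hx, key b x hx] at h1
    linear_combination h1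
  apply Subtype.ext
  ext a
  change (x : V ≃ₗ[K] V) a = a
  rw [← sub_eq_zero]
  refine F.nondeg _ fun b => ?_
  have h1 := hpol a b
  have h2 := hpol (c • a) b
  rw [map_smul, ← smul_sub, F.B_smul_left, F.B_smul_right] at h2
  have h3 : (c - F.σ c) * F.B ((x : V ≃ₗ[K] V) a - a) b = 0 := by linear_combination h2 - F.σ c * h1
  rcases mul_eq_zero.1 h3 with h4 | h4
  · exact absurd (sub_eq_zero.1 h4).symm hc
  · exact h4

end Cfsg.Agent.H328.TW
end

-- part: H328/TW/Loc
section
/-!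
# S3694-T8: group theoretic preliminaries (helper328)

* `OO_conj_mem`, `OO_isPGroup`, `le_OO`;
* `E_ne` : `O_r(A) ∩ N ≠ 1` if `r` divides `|N|`.
-/

set_option autoImplicit false

namespace Cfsg.Agent.H328.TW

open Subgroup Cfsg.Agent.H607.TW

universe u

variable {G : Type u} [Group G]

theorem OO_le (r : ℕ) (A : Subgroup G) : OO r A ≤ A := by
  rintro _ ⟨x, -, rfl⟩
  exact x.2

theorem OO_isPGroup [Finite G] (r : ℕ) (A : Subgroup G) : IsPGroup r (OO r A) :=
  (Lib.Cores.pCore_isPGroup r).map _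

theorem le_OO {r : ℕ} {A R : Subgroup G} (hRA : R ≤ A) (hn : A ≤ normalizer (R : Set G)) (hR : IsPGroup r R) :
    R ≤ OO r A := by
  intro x hx
  have h1 : (R.subgroupOf A).Normal := by
    constructor
    intro y hy a
    rw [mem_subgroupOf] at hy ⊢
    exact ((hn a.2) _).1 hy
  have h2 : IsPGroup r (R.subgroupOf A) := hR.comap_of_injective _ (subtype_injective A)
  exact ⟨⟨x, hRA hx⟩, Lib.Cores.le_pCore h1 h2 hx, rfl⟩

theorem OO_conj_mem [Finite G] {r : ℕ} {A C : Subgroup G} {g : G} (hC : C = A.map (MulAut.conj g).toMonoidHom) {x : G}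
    (hx : x ∈ OO r A) : g * x * g⁻¹ ∈ OO r C := by
  have hR : IsPGroup r ((OO r A).map (MulAut.conj g).toMonoidHom) := (OO_isPGroup r A).map _
  refine le_OO (R := (OO r A).map (MulAut.conj g).toMonoidHom) ?_ ?_ hR ⟨x, hx, rfl⟩
  · rw [hC]
    exact map_mono (OO_le r A)
  · rw [hC]
    rintro _ ⟨a, ha, rfl⟩
    rw [mem_normalizer_iff]
    have key : ∀ a ∈ A, ∀ y ∈ (OO r A).map (MulAut.conj g).toMonoidHom,
        (MulAut.conj g) a * y * ((MulAut.conj g) a)⁻¹ ∈ (OO r A).map (MulAut.conj g).toMonoidHom := by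
      rintro a ha _ ⟨z, ⟨z', hz', rfl⟩, rfl⟩
      refine ⟨a * z' * a⁻¹, ⟨(⟨a, ha⟩ * z' * ⟨a, ha⟩⁻¹ :), (Lib.Cores.pCore_normal r).conj_mem _ hz' _, rfl⟩, ?_⟩
      change g * (a * z' * a⁻¹) * g⁻¹ = g * a * g⁻¹ * (g * z' * g⁻¹) * (g * a * g⁻¹)⁻¹
      group
    intro y
    refine ⟨key a ha y, fun h => ?_⟩
    have h1 := key a⁻¹ (A.inv_mem ha) _ h
    have h2 : (MulAut.conj g) a⁻¹ * ((MulAut.conj g).toMonoidHom a * y * ((MulAut.conj g).toMonoidHom a)⁻¹) *
        ((MulAut.conj g) a⁻¹)⁻¹ = y := by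
      rw [map_inv]
      change ((MulAut.conj g) a)⁻¹ * ((MulAut.conj g) a * y * ((MulAut.conj g) a)⁻¹) * (((MulAut.conj g) a)⁻¹)⁻¹ = y
      group
    rwa [h2] at h1

theorem OO_conj_self [Finite G] {r : ℕ} {A : Subgroup G} {a x : G} (ha : a ∈ A) (hx : x ∈ OO r A) :
    a * x * a⁻¹ ∈ OO r A := by
  obtain ⟨z, hz, rfl⟩ := hx
  exact ⟨(⟨a, ha⟩ * z * ⟨a, ha⟩⁻¹ :), (Lib.Cores.pCore_normal r).conj_mem _ hz _, rfl⟩

/-- a nontrivial subgroup normalised by `A`, contained in `A` : normalizer -/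
theorem norm_eq [Finite G] {N A R : Subgroup G} {r : ℕ} (h : Loc N A r) (hR : R ≠ ⊥) (hRA : R ≤ A)
    (hn : A ≤ normalizer (R : Set G)) : normalizer (R : Set G) = A := by
  have := h.normal
  by_contra hne
  have h1 : normalizer (R : Set G) = ⊤ := h.max.2 _ (lt_of_le_of_ne hn (Ne.symm hne))
  have hRn : R.Normal := normalizer_eq_top_iff.1 h1
  have h2 : ((N ⊓ R).subgroupOf N).Normal := inferInstance
  have := h.simple
  have h3 := h2.eq_bot_or_eq_top
  rcases h3 with h3 | h3
  · have h4 : N ⊓ R = ⊥ := by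
      rw [subgroupOf_eq_bot] at h3
      have := disjoint_iff.1 h3
      rwa [inf_comm, ← inf_assoc, inf_idem] at this
    apply hR
    rw [eq_bot_iff, ← h.cent]
    intro x hx
    rw [mem_centralizer_iff]
    intro y hy
    have h5 : y * x * y⁻¹ * x⁻¹ ∈ N ⊓ R := by
      refine ⟨?_, R.mul_mem (hRn.conj_mem x hx y) (R.inv_mem hx)⟩
      have h6 := N.mul_mem hy (h.normal.conj_mem _ (N.inv_mem hy) x)
      have h7 : y * (x * y⁻¹ * x⁻¹) = y * x * y⁻¹ * x⁻¹ := by group
      rwa [h7] at h6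
    rw [h4, mem_bot] at h5
    have h6 : y * x = (y * x * y⁻¹ * x⁻¹) * (x * y) := by group
    rw [h6, h5, one_mul]
  · rw [subgroupOf_eq_top] at h3
    exact h.not_le ((h3.trans inf_le_right).trans hRA)

/-- `A ∩ N ≠ 1` -/
theorem inf_ne [Finite G] {N A R : Subgroup G} {r : ℕ} (h : Loc N A r) (hr : r ∣ Nat.card N) (hR : R ≠ ⊥) (hRA : R ≤ A)
    (hn : A ≤ normalizer (R : Set G)) (hRp : IsPGroup r R) : A ⊓ N ≠ ⊥ := by
  classical
  have hrp : Fact r.Prime := ⟨h.prime⟩
  have := h.normal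
  let _ : MulAction R N :=
    { smul := fun g x => ⟨(g : G) * x * (g : G)⁻¹, h.normal.conj_mem _ x.2 _⟩
      one_smul := fun x => Subtype.ext (by
        change ((1 : R) : G) * x * ((1 : R) : G)⁻¹ = x
        simp only [_root_.OneMemClass.coe_one, _root_.one_mul, _root_.inv_one, _root_.mul_one])
      mul_smul := fun a b x => Subtype.ext (by
        change ((a * b : R) : G) * x * ((a * b : R) : G)⁻¹ = (a : G) * ((b : G) * x * (b : G)⁻¹) * (a : G)⁻¹
        rw [coe_mul]
        group) }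
  obtain ⟨x, hx, hx1⟩ := hRp.exists_fixed_point_of_prime_dvd_card_of_fixed_point N hr (a := 1) (fun g => Subtype.ext (by
    change (g : G) * ((1 : N) : G) * (g : G)⁻¹ = ((1 : N) : G)
    simp only [_root_.OneMemClass.coe_one, _root_.mul_one, _root_.mul_inv_cancel]))
  intro hbot
  apply hx1
  apply Subtype.ext
  have h1 : (x : G) ∈ A ⊓ N := by
    refine ⟨?_, x.2⟩
    change (x : G) ∈ A
    rw [← norm_eq h hR hRA hn, mem_normalizer_iff]
    have h2 : ∀ y ∈ R, (x : G) * y * (x : G)⁻¹ = y := by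
      intro y hy
      have h3 := congrArg Subtype.val (hx ⟨y, hy⟩)
      change y * (x : G) * y⁻¹ = x at h3
      calc (x : G) * y * (x : G)⁻¹ = (y * (x : G) * y⁻¹) * y * (x : G)⁻¹ := by rw [h3]
        _ = y := by group
    intro y
    refine ⟨fun hy => by rw [h2 y hy]; exact hy, fun hy => ?_⟩
    have h3 := h2 _ hy
    have h4 : y = (x : G)⁻¹ * ((x : G) * y * (x : G)⁻¹) * (x : G) := by group
    have h5 : (x : G) * y * (x : G)⁻¹ = y := by
      have h6 : (x : G) * ((x : G) * y * (x : G)⁻¹) * (x : G)⁻¹ = (x : G) * y * (x : G)⁻¹ := h3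
      have h7 := mul_right_cancel h6
      exact mul_left_cancel h7
    rw [← h5]
    exact hy
  rw [hbot, mem_bot] at h1
  exact h1.symm

/-- **`O_r(A) ∩ N ≠ 1`** -/
theorem E_ne [Finite G] {N A R : Subgroup G} {r : ℕ} (h : Loc N A r) (hr : r ∣ Nat.card N) (hR : R ≠ ⊥) (hRA : R ≤ A)
    (hn : A ≤ normalizer (R : Set G)) (hRp : IsPGroup r R) : OO r A ⊓ N ≠ ⊥ := by
  intro hbot
  apply inf_ne h hr hR hRA hn hRp
  rw [eq_bot_iff, ← hbot]
  rintro x ⟨hxA, hxN⟩
  refine ⟨?_, hxN⟩
  have h1 : (⟨x, hxA⟩ : A) ∈ centralizer (Cfsg.generalizedFittingSubgroup ↥A : Set ↥A) := by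
    rw [h.star, mem_centralizer_iff]
    intro y hy
    have h2 : (y : G) * x * (y : G)⁻¹ * x⁻¹ ∈ OO r A ⊓ N := by
      constructor
      · have h3 : (y : G) * (x * (y : G)⁻¹ * x⁻¹) ∈ OO r A :=
          (OO r A).mul_mem ⟨y, hy, rfl⟩ (OO_conj_self hxA ((OO r A).inv_mem ⟨y, hy, rfl⟩))
        have h4 : (y : G) * (x * (y : G)⁻¹ * x⁻¹) = (y : G) * x * (y : G)⁻¹ * x⁻¹ := by group
        rwa [h4] at h3
      · exact N.mul_mem (h.normal.conj_mem _ hxN _) (N.inv_mem hxN)
    rw [hbot, mem_bot] at h2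
    apply Subtype.ext
    change (y : G) * x = x * y
    have h3 : (y : G) * x = ((y : G) * x * (y : G)⁻¹ * x⁻¹) * (x * y) := by group
    rw [h3, h2, one_mul]
  have h2 := TwoFusion.FStarControl.fitting_le_genFitting
    (TwoFusion.FStarControl.centralizer_genFitting_le_fitting h1)
  rw [h.star] at h2
  exact ⟨_, h2, rfl⟩

end Cfsg.Agent.H328.TW
end

-- part: H328/TW/Hat
section
/-!
# S3694-T8: unipotent lifts and their fixed spaces (helper328)
-/

set_option autoImplicit false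

namespace Cfsg.Agent.H328.TW

open Subgroup Cfsg Cfsg.Agent.H607.TW Cfsg.Agent.H296.TW Cfsg.Agent.H477.HC Cfsg.Agent.LieClassical.HermBasic
  Cfsg.Agent.H477.HC.CForm

universe u v

section field

variable {F : Type} [Field F] [Fintype F] {q : ℕ}

theorem exists_norm_eq (hF : Fintype.card F = q ^ 2) {u : Fˣ} (hu : u ^ (q - 1) = 1) : ∃ b : Fˣ, b ^ (q + 1) = u := by
  have hq : Nat.card F = q ^ 2 := by rw [Nat.card_eq_fintype_card, hF]
  have h2 := two_le_of_card hq
  have hle : (powMonoidHom (q + 1) : Fˣ →* Fˣ).range ≤ (powMonoidHom (q - 1) : Fˣ →* Fˣ).ker := by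
    rintro _ ⟨b, rfl⟩
    rw [MonoidHom.mem_ker, powMonoidHom_apply, powMonoidHom_apply, ← pow_mul, ← card_units_eq hF]
    exact pow_card_eq_one'
  have hcard : Nat.card (powMonoidHom (q - 1) : Fˣ →* Fˣ).ker ≤
      Nat.card (powMonoidHom (q + 1) : Fˣ →* Fˣ).range := by
    rw [IsCyclic.card_powMonoidHom_ker, IsCyclic.card_powMonoidHom_range, card_units_eq hF,
      Nat.gcd_eq_right (Dvd.intro _ rfl), Nat.gcd_eq_right (Dvd.intro_left _ rfl),
      Nat.mul_div_cancel_left _ (by omega)]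
  have heq := Subgroup.eq_of_le_of_card_ge hle hcard
  have h3 : u ∈ (powMonoidHom (q + 1) : Fˣ →* Fˣ).range := by
    rw [heq]; exact hu
  obtain ⟨b, hb⟩ := h3
  exact ⟨b, hb⟩

theorem hm_herm (hq : Nat.card F = q ^ 2) (n : ℕ) : Hm (CForm.hermF F hq n) where
  ε := rfl
  Q := fun _ => rfl
  tr := fun c hc => _root_.Cfsg.Agent.H477.HC.CForm.exists_trace_eq hq hc
  nm := fun c hc => by
    have hF : Fintype.card F = q ^ 2 := by rw [← Nat.card_eq_fintype_card, hq]
    have h2 := two_le_of_card hq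
    change c ^ q = c at hc
    by_cases h0 : c = 0
    · exact ⟨0, by rw [zero_mul, h0]⟩
    obtain ⟨m, rfl⟩ : ∃ m, q = m + 1 := ⟨q - 1, by omega⟩
    obtain ⟨b, hb⟩ := exists_norm_eq hF (u := Units.mk0 c h0) (by
      apply Units.ext
      rw [Nat.add_sub_cancel, Units.val_pow_eq_pow_val, Units.val_mk0, Units.val_one]
      rw [pow_succ] at hc
      exact mul_right_cancel₀ h0 (by rw [hc, one_mul]))
    refine ⟨b, ?_⟩
    have h3 := congrArg Units.val hb
    rw [Units.val_pow_eq_pow_val, Units.val_mk0] at h3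
    change (b : F) * (b : F) ^ (m + 1) = c
    rw [← h3]
    ring
  ne := by
    have hF : Fintype.card F = q ^ 2 := by rw [← Nat.card_eq_fintype_card, hq]
    have h2 := two_le_of_card hq
    by_contra hcon
    push Not at hcon
    obtain ⟨g, hg⟩ := IsCyclic.exists_generator (α := Fˣ)
    have hord : orderOf g = (q + 1) * (q - 1) := by
      rw [orderOf_eq_card_of_forall_mem_zpowers hg, card_units_eq hF]
    have h3 : g ^ (q - 1) = 1 := by
      obtain ⟨m, rfl⟩ : ∃ m, q = m + 1 := ⟨q - 1, by omega⟩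
      have h4 := hcon (g : F)
      change (g : F) ^ (m + 1) = g at h4
      apply Units.ext
      rw [Nat.add_sub_cancel, Units.val_pow_eq_pow_val, Units.val_one]
      rw [pow_succ] at h4
      exact mul_right_cancel₀ g.ne_zero (by rw [h4, one_mul])
    have h4 := orderOf_dvd_of_pow_eq_one h3
    rw [hord] at h4
    have h5 := Nat.le_of_dvd (by omega) h4
    have h6 : 2 * (q - 1) ≤ (q + 1) * (q - 1) := Nat.mul_le_mul_right _ (by omega)
    omega

end field

section det

variable {K : Type u} [Field K] {V : Type v} [AddCommGroup V] [Module K V] [FiniteDimensional K V]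

theorem det_one_of_nilp {f : V →ₗ[K] V} (h : IsNilpotent (f - 1)) : LinearMap.det f = 1 := by
  have h1 : IsNilpotent (1 - f) := by
    rw [← neg_sub]
    exact h.neg
  have h2 := h1.charpoly_eq_X_pow_finrank
  have h3 := LinearMap.eval_charpoly (1 - f) (1 : K)
  rw [h2, Polynomial.eval_pow, Polynomial.eval_X, one_pow] at h3
  rw [h3, map_one]
  congr 1
  abel

omit [FiniteDimensional K V] in
theorem siegel_nilp {F : CForm K V} {g : F.iso} (hg : IsSiegel F g) :
    (((g : V ≃ₗ[K] V) : V →ₗ[K] V) - 1) ^ 3 = 0 := by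
  obtain ⟨u, b, α, hu, hub, -, hv⟩ := hg
  have h1 : ∀ v, (((g : V ≃ₗ[K] V) : V →ₗ[K] V) - 1) v = F.B v u • b - F.B v b • u + (α * F.B v u) • u := by
    intro v
    rw [LinearMap.sub_apply, Module.End.one_apply]
    change (g : V ≃ₗ[K] V) v - v = _
    rw [hv]
    abel
  have hbu := F.B_eq_zero hub
  ext v
  rw [pow_succ, pow_succ, pow_one, Module.End.mul_apply, Module.End.mul_apply, h1 v, h1, h1]
  simp only [F.B_add_left, F.B_sub_left, F.B_smul_left, hu, hub, hbu]
  simp

theorem siegel_det {F : CForm K V} {g : F.iso} (hg : IsSiegel F g) :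
    LinearMap.det ((g : V ≃ₗ[K] V) : V →ₗ[K] V) = 1 := det_one_of_nilp ⟨3, siegel_nilp hg⟩

end det

section act

variable {F : Type} [Field F] [Fintype F] {q : ℕ} (hq : Nat.card F = q ^ 2) (n : ℕ)

/-- the action of `SU` -/
noncomputable def act : SU n F q →* (CForm.hermF F hq n).iso :=
  (isoGU hq n).toMonoidHom.comp ((Matrix.SpecialLinearGroup.toGL.comp (SU n F q).subtype).codRestrict (GU n F q)
    (fun A => A.2))

theorem act_ext {s t : SU n F q} (h : ∀ v, ((act hq n s : (CForm.hermF F hq n).iso) :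
    (Fin n → F) ≃ₗ[F] (Fin n → F)) v = ((act hq n t : (CForm.hermF F hq n).iso) :
    (Fin n → F) ≃ₗ[F] (Fin n → F)) v) : s = t := by
  have h1 : _root_.Cfsg.Agent.H607.TW.mt (iSU n F q) s = _root_.Cfsg.Agent.H607.TW.mt (iSU n F q) t := Matrix.ext_of_mulVec_single fun i => h _
  apply Subtype.ext
  apply Subtype.ext
  exact h1

theorem act_injective : Function.Injective (act hq n) := fun s t h => act_ext hq n fun v => by rw [h]

theorem exists_act {g : (CForm.hermF F hq n).iso}
    (hg : LinearMap.det ((g : (Fin n → F) ≃ₗ[F] (Fin n → F)) : (Fin n → F) →ₗ[F] (Fin n → F)) = 1) :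
    ∃ s : SU n F q, act hq n s = g := by
  obtain ⟨A, rfl⟩ := (isoGU hq n).surjective g
  have h1 : LinearMap.det (((isoGU hq n A : (CForm.hermF F hq n).iso) : (Fin n → F) ≃ₗ[F] (Fin n → F)) :
      (Fin n → F) →ₗ[F] (Fin n → F)) = ((A : GL (Fin n) F) : Matrix (Fin n) (Fin n) F).det := by
    rw [← LinearMap.det_toLin']
    congr 1
  rw [h1] at hg
  exact ⟨⟨⟨((A : GL (Fin n) F) : Matrix (Fin n) (Fin n) F), hg⟩, A.2⟩, congrArg (isoGU hq n)
    (Subtype.ext (Units.ext rfl))⟩

end act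

/-- elements of `r`-power order -/
def PE {S : Type*} [Group S] (r : ℕ) (s : S) : Prop := ∃ k : ℕ, s ^ r ^ k = 1

section hat

variable {G : Type u} [Group G] {S : Type v} [Group S] {π : S →* G} {r : ℕ}

theorem PE.inv {s : S} (h : PE r s) : PE r s⁻¹ := by
  obtain ⟨k, hk⟩ := h
  exact ⟨k, by rw [inv_pow, hk, inv_one]⟩

theorem PE.map {s : S} (h : PE r s) (f : S →* G) : PE r (f s) := by
  obtain ⟨k, hk⟩ := h
  exact ⟨k, by rw [← map_pow, hk, map_one]⟩

theorem PE.zpowers [hr : Fact r.Prime] {s : S} (h : PE r s) : IsPGroup r (Subgroup.zpowers s) := by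
  obtain ⟨k, hk⟩ := h
  obtain ⟨j, -, hj⟩ := (Nat.dvd_prime_pow hr.out).1 (orderOf_dvd_of_pow_eq_one hk)
  apply IsPGroup.of_card (n := j)
  rw [Nat.card_zpowers, hj]

theorem pe_of_isPGroup {X : Subgroup S} (hX : IsPGroup r X) {s : S} (hs : s ∈ X) : PE r s := by
  obtain ⟨k, hk⟩ := hX ⟨s, hs⟩
  exact ⟨k, congrArg Subtype.val hk⟩

theorem exists_lift [Finite S] [hr : Fact r.Prime] {x : G} (hx : PE r x) (hxr : x ∈ π.range) :
    ∃ s, π s = x ∧ PE r s := by
  obtain ⟨s, rfl⟩ := hxr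
  obtain ⟨e, he⟩ := hx
  have ho : orderOf s ≠ 0 := (orderOf_pos s).ne'
  obtain ⟨a, m, hm, ham⟩ := Nat.exists_eq_pow_mul_and_not_dvd ho r hr.out.ne_one
  have hcop : Nat.Coprime (r ^ e) m := Nat.Coprime.pow_left e ((Nat.Prime.coprime_iff_not_dvd hr.out).2 hm)
  obtain ⟨c, hc1, hc2⟩ := Nat.chineseRemainder hcop 1 0
  refine ⟨s ^ c, ?_, a, ?_⟩
  · rw [map_pow]
    have h1 : orderOf (π s) ∣ r ^ e := orderOf_dvd_of_pow_eq_one he
    have h2 : (π s) ^ c = (π s) ^ 1 := pow_eq_pow_iff_modEq.2 (hc1.of_dvd h1)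
    rw [h2, pow_one]
  · rw [← pow_mul]
    apply orderOf_dvd_iff_pow_eq_one.1
    rw [ham, mul_comm c]
    exact Nat.mul_dvd_mul_left _ (Nat.modEq_zero_iff_dvd.1 hc2)

theorem hat_mul [Finite S] [hr : Fact r.Prime] (hZ : ∀ s, π s = 1 → ∀ t, s * t = t * s) {X : Subgroup G}
    (hX : IsPGroup r X) {s t : S} (hs : π s ∈ X) (ht : π t ∈ X) (hs' : PE r s) (ht' : PE r t) : PE r (s * t) := by
  classical
  let K : Subgroup S := X.comap π
  let f : K →* X := (π.comp K.subtype).codRestrict X fun k => k.2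
  have hfr : IsPGroup r f.range := hX.to_subgroup _
  have hnil : Group.IsNilpotent K := by
    have hfin : Finite f.range := Finite.of_surjective f.rangeRestrict f.rangeRestrict_surjective
    have h1 : Group.IsNilpotent f.range := hfr.isNilpotent
    refine Subgroup.isNilpotent_of_ker_le_center f.rangeRestrict (fun k hk => ?_)
    rw [MonoidHom.ker_rangeRestrict, MonoidHom.mem_ker] at hk
    rw [mem_center_iff]
    intro k'
    apply Subtype.ext
    exact (hZ k (congrArg Subtype.val hk) k').symm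
  let P : Sylow r K := default
  have hPn : (P : Subgroup K).Normal := by
    have htf := (Group.isNilpotent_of_finite_tfae (G := K)).out 0 3
    exact htf.1 hnil r hr P
  have hmem : ∀ k : K, PE r k → k ∈ P := by
    intro k hk
    obtain ⟨Q, hQ⟩ := hk.zpowers.exists_le_sylow
    have h1 : Q = P := by
      have := Sylow.unique_of_normal P hPn
      exact Subsingleton.elim _ _
    rw [← h1]
    exact hQ (mem_zpowers k)
  have h1 : (⟨s, hs⟩ : K) ∈ P := hmem _ (by
    obtain ⟨k, hk⟩ := hs'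
    exact ⟨k, Subtype.ext hk⟩)
  have h2 : (⟨t, ht⟩ : K) ∈ P := hmem _ (by
    obtain ⟨k, hk⟩ := ht'
    exact ⟨k, Subtype.ext hk⟩)
  obtain ⟨k, hk⟩ := P.isPGroup' ⟨_, (P : Subgroup K).mul_mem h1 h2⟩
  exact ⟨k, congrArg Subtype.val (congrArg Subtype.val hk)⟩

/-- the group of the `r`-elements over `X` -/
def hat (π : S →* G) (r : ℕ) (X : Subgroup G) : Subgroup S := Subgroup.closure {s | π s ∈ X ∧ PE r s}

theorem mem_hat [Finite S] [hr : Fact r.Prime] (hZ : ∀ s, π s = 1 → ∀ t, s * t = t * s) {X : Subgroup G}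
    (hX : IsPGroup r X) {s : S} : s ∈ hat π r X ↔ π s ∈ X ∧ PE r s := by
  refine ⟨fun h => ?_, fun h => _root_.Subgroup.subset_closure h⟩
  induction h using closure_induction with
  | mem x hx => exact hx
  | one => exact ⟨by rw [map_one]; exact X.one_mem, 0, one_pow _⟩
  | mul x y _ _ hx hy => exact ⟨by rw [map_mul]; exact X.mul_mem hx.1 hy.1, hat_mul hZ hX hx.1 hy.1 hx.2 hy.2⟩
  | inv x _ hx => exact ⟨by rw [map_inv]; exact X.inv_mem hx.1, hx.2.inv⟩

theorem hat_isPGroup [Finite S] [hr : Fact r.Prime] (hZ : ∀ s, π s = 1 → ∀ t, s * t = t * s) {X : Subgroup G}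
    (hX : IsPGroup r X) : IsPGroup r (hat π r X) := by
  intro s
  obtain ⟨k, hk⟩ := ((mem_hat hZ hX).1 s.2).2
  exact ⟨k, Subtype.ext hk⟩

theorem pe_uniq [Finite S] [hr : Fact r.Prime] (hZ : ∀ s, π s = 1 → ∀ t, s * t = t * s)
    (hZ' : ∀ s, π s = 1 → PE r s → s = 1) {s t : S} (h : π s = π t) (hs : PE r s) (ht : PE r t) : s = t := by
  have h1 : PE r (s⁻¹ * t) := hat_mul hZ (X := Subgroup.zpowers (π s)) (hs.map π).zpowers
    (by rw [map_inv]; exact inv_mem (mem_zpowers _)) (by rw [← h]; exact mem_zpowers _) hs.inv ht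
  have h2 := hZ' _ (by rw [map_mul, map_inv, h, inv_mul_cancel]) h1
  exact (inv_mul_eq_one.1 h2)

end hat

end Cfsg.Agent.H328.TW
end

-- part: H328/TW/FixL
section
/-!
# S3694-T8: fixed spaces and lifts (helper328)
-/

set_option autoImplicit false

namespace Cfsg.Agent.H328.TW

open Subgroup Cfsg Cfsg.Agent.H607.TW Cfsg.Agent.H296.TW Cfsg.Agent.H477.HC Cfsg.Agent.LieClassical.HermBasic
  Cfsg.Agent.H477.HC.CForm Module

universe u v

variable {G : Type u} [Group G] {F : Type} [Field F] [Fintype F] {q : ℕ} (hq : Nat.card F = q ^ 2) (n : ℕ)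

/-- the action as a function -/
noncomputable def av (s : SU n F q) (v : Fin n → F) : Fin n → F :=
  ((act hq n s : (CForm.hermF F hq n).iso) : (Fin n → F) ≃ₗ[F] (Fin n → F)) v

theorem av_mul (s t : SU n F q) (v : Fin n → F) : av hq n (s * t) v = av hq n s (av hq n t v) := by
  unfold av
  rw [map_mul]
  rfl

theorem av_one (v : Fin n → F) : av hq n 1 v = v := by
  unfold av
  rw [map_one]
  rfl

theorem av_mt (s : SU n F q) (v : Fin n → F) : av hq n s v = (_root_.Cfsg.Agent.H607.TW.mt (iSU n F q) s).mulVec v := rfl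

theorem av_add (s : SU n F q) (v w : Fin n → F) : av hq n s (v + w) = av hq n s v + av hq n s w := map_add _ _ _

theorem av_smul (s : SU n F q) (c : F) (v : Fin n → F) : av hq n s (c • v) = c • av hq n s v := map_smul _ _ _

theorem av_zero (s : SU n F q) : av hq n s 0 = 0 := map_zero _

theorem av_form (s : SU n F q) (v w : Fin n → F) : (CForm.hermF F hq n).B (av hq n s v) (av hq n s w) =
    (CForm.hermF F hq n).B v w := (CForm.hermF F hq n).iso_B _ v w

theorem av_inv (s : SU n F q) (v : Fin n → F) : av hq n s⁻¹ (av hq n s v) = v := by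
  rw [← av_mul, inv_mul_cancel, av_one]

theorem av_inv' (s : SU n F q) (v : Fin n → F) : av hq n s (av hq n s⁻¹ v) = v := by
  rw [← av_mul, mul_inv_cancel, av_one]

theorem av_ext {s t : SU n F q} (h : ∀ v, av hq n s v = av hq n t v) : s = t := act_ext hq n h

section model

variable {n} {N : Subgroup G} {π : SU n F q →* G} (hM : Model N (iSU n F q) π)

include hq hM

theorem ker_scalar {s : SU n F q} (hs : π s = 1) : ∃ c : F, ∀ v, av hq n s v = c • v := by
  obtain ⟨c, hc⟩ := (hM.ker s).1 hs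
  refine ⟨c, fun v => ?_⟩
  rw [av_mt, hc, Matrix.smul_mulVec, Matrix.one_mulVec]

theorem ker_comm {s : SU n F q} (hs : π s = 1) (t : SU n F q) : s * t = t * s := by
  have hq' : Nat.card F = q ^ 2 := hq
  obtain ⟨c, hc⟩ := ker_scalar hq hM hs
  apply av_ext hq n
  intro v
  rw [av_mul, av_mul, hc, hc, av_smul]

theorem ker_pe {r : ℕ} [Fact r.Prime] [CharP F r] {s : SU n F q} (hs : π s = 1) (hp : PE r s) : s = 1 := by
  obtain ⟨c, hc⟩ := ker_scalar hq hM hs
  obtain ⟨k, hk⟩ := hp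
  have h2 := hM.two
  have h1 : ∀ m : ℕ, ∀ v, av hq n (s ^ m) v = c ^ m • v := by
    intro m
    induction m with
    | zero => intro v; rw [pow_zero, pow_zero, av_one, one_smul]
    | succ m ih => intro v; rw [pow_succ, av_mul, hc, ih, smul_smul, pow_succ]
  have h3 : c ^ r ^ k = 1 := by
    have h4 := h1 (r ^ k) (Pi.single ⟨0, by omega⟩ 1)
    rw [hk, av_one] at h4
    have h5 := congrFun h4 ⟨0, by omega⟩
    rw [Pi.smul_apply, Pi.single_eq_same, smul_eq_mul, mul_one] at h5
    exact h5.symm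
  have h4 : c = 1 := by
    have h5 : (c - 1) ^ r ^ k = 0 := by rw [sub_pow_char_pow, h3, one_pow, sub_self]
    exact sub_eq_zero.1 (pow_eq_zero_iff (pow_ne_zero k (Fact.out : r.Prime).ne_zero) |>.1 h5)
  apply av_ext hq n
  intro v
  rw [hc, h4, one_smul, av_one]

end model

variable {n}

/-- the fixed space -/
noncomputable def Fix (π : SU n F q →* G) (r : ℕ) (X : Subgroup G) : Submodule F (Fin n → F) where
  carrier := {v | ∀ s ∈ hat π r X, av hq n s v = v}
  zero_mem' := fun s _ => av_zero hq n s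
  add_mem' := fun {a b} ha hb s hs => by rw [av_add, ha s hs, hb s hs]
  smul_mem' := fun c a ha s hs => by rw [av_smul, ha s hs]

/-- a hat-invariant nonzero subspace contains nonzero fixed vectors -/
theorem Fix_inf_ne {π : SU n F q →* G} {r : ℕ} [hr : Fact r.Prime] [CharP F r] {X : Subgroup G}
    (hX : IsPGroup r (hat π r X)) {W : Submodule F (Fin n → F)} (hW : W ≠ ⊥)
    (hinv : ∀ s ∈ hat π r X, ∀ w ∈ W, av hq n s w ∈ W) : Fix hq π r X ⊓ W ≠ ⊥ := by
  classical
  let _ : MulAction (hat π r X) W :=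
    { smul := fun s w => ⟨(av hq n s w :), hinv s s.2 w w.2⟩
      one_smul := fun w => Subtype.ext (av_one hq n _)
      mul_smul := fun a b w => Subtype.ext (av_mul hq n _ _ _) }
  have hfin : Finite W := inferInstance
  obtain ⟨w₀, hw₀, hw₀0⟩ := (Submodule.ne_bot_iff W).1 hW
  have hdvd : r ∣ Nat.card W := by
    have h1 : Nat.card W = Nat.card F ^ finrank F W := natCard_eq_pow_finrank
    have h2 : finrank F W ≠ 0 := by
      intro h
      exact hW (Submodule.finrank_eq_zero.1 h)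
    rw [h1]
    refine dvd_pow ?_ h2
    rw [Nat.card_eq_fintype_card]
    exact (CharP.cast_eq_zero_iff F r _).1 (Nat.cast_card_eq_zero F)
  obtain ⟨w, hw, hw0⟩ := hX.exists_fixed_point_of_prime_dvd_card_of_fixed_point W hdvd (a := 0) (fun s =>
    Subtype.ext (av_zero hq n _))
  intro h
  apply hw0
  have h1 : (w : Fin n → F) ∈ Fix hq π r X ⊓ W := ⟨fun s hs => congrArg Subtype.val (hw ⟨s, hs⟩), w.2⟩
  rw [h] at h1
  have h2 : w = 0 := Subtype.ext ((Submodule.mem_bot F).1 h1)
  exact h2.symm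

theorem Fix_anti {π : SU n F q →* G} {r : ℕ} {X Y : Subgroup G} (h : X ≤ Y) : Fix hq π r Y ≤ Fix hq π r X :=
  fun v hv s hs => hv s (Subgroup.closure_mono (k := {s | π s ∈ Y ∧ PE r s})
    (fun t (ht : π t ∈ X ∧ PE r t) => (⟨h ht.1, ht.2⟩ : π t ∈ Y ∧ PE r t)) hs)

/-- the invariant totally isotropic subspace -/
noncomputable def UU (π : SU n F q →* G) (r : ℕ) (X : Subgroup G) : Submodule F (Fin n → F) :=
  Fix hq π r X ⊓ (CForm.hermF F hq n).perp (Fix hq π r X)

theorem UU_TS (π : SU n F q →* G) (r : ℕ) (X : Subgroup G) : (CForm.hermF F hq n).TS (UU hq π r X) :=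
  ⟨fun w hw => hw.2 w hw.1, fun _ hw w' hw' => hw.2 w' hw'.1⟩

theorem UU_ne {π : SU n F q →* G} {r : ℕ} [hr : Fact r.Prime] [CharP F r] {X : Subgroup G}
    (hX : IsPGroup r (hat π r X)) (hX1 : hat π r X ≠ ⊥) : UU hq π r X ≠ ⊥ := by
  refine Fix_inf_ne hq hX (fun h => hX1 ?_) (fun s hs w hw v hv => ?_)
  · have h1 : Fix hq π r X = ⊤ := by
      rw [← (CForm.hermF F hq n).perp_perp (Fix hq π r X), h]
      exact (Submodule.eq_top_iff').2 fun x y hy => by
        rw [(Submodule.mem_bot F).1 hy, (CForm.hermF F hq n).B_zero_right]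
    rw [eq_bot_iff_forall]
    intro s hs
    apply av_ext hq n
    intro v
    rw [av_one]
    have : v ∈ Fix hq π r X := by rw [h1]; trivial
    exact this s hs
  · have h1 := av_form hq n s w v
    rw [hv s hs] at h1
    rw [h1]
    exact hw v hv

/-- a lift of `g` -/
structure Lf (π : SU n F q →* G) (g : G) (σ : F ≃+* F) (f : (Fin n → F) → (Fin n → F)) : Prop where
  add : ∀ v w, f (v + w) = f v + f w
  smul : ∀ (c : F) v, f (c • v) = σ c • f v
  bij : Function.Bijective f
  form : ∀ v w, (CForm.hermF F hq n).B (f v) (f w) = σ ((CForm.hermF F hq n).B v w)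
  conj : ∀ s, ∃ s', (∀ v, f (av hq n s v) = av hq n s' (f v)) ∧ π s' = g * π s * g⁻¹

variable {hq}

theorem Lf.pow {f : (Fin n → F) → (Fin n → F)} {s s' : SU n F q} (h : ∀ v, f (av hq n s v) = av hq n s' (f v)) (m : ℕ) (v : Fin n → F) :
    f (av hq n (s ^ m) v) = av hq n (s' ^ m) (f v) := by
  induction m generalizing v with
  | zero => rw [pow_zero, pow_zero, av_one, av_one]
  | succ m ih => rw [pow_succ, av_mul, ih, h, pow_succ, av_mul]

theorem Lf.pe {π : SU n F q →* G} {g : G} {σ : F ≃+* F} {f : (Fin n → F) → (Fin n → F)} (hf : Lf hq π g σ f)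
    {s s' : SU n F q} (h : ∀ v, f (av hq n s v) = av hq n s' (f v)) {r : ℕ} (hs : PE r s) : PE r s' := by
  obtain ⟨k, hk⟩ := hs
  refine ⟨k, av_ext hq n fun v => ?_⟩
  obtain ⟨w, rfl⟩ := hf.bij.2 v
  rw [← Lf.pow h, hk, av_one, av_one]

theorem lf_self (π : SU n F q →* G) (s : SU n F q) : Lf hq π (π s) (RingEquiv.refl F) (av hq n s) where
  add := av_add hq n s
  smul := fun c v => av_smul hq n s c v
  bij := ⟨fun v w h => by rw [← av_inv hq n s v, h, av_inv], fun v => ⟨_, av_inv' hq n s v⟩⟩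
  form := fun v w => av_form hq n s v w
  conj := fun t => ⟨s * t * s⁻¹, fun v => by rw [av_mul, av_mul, av_inv], by rw [map_mul, map_mul, map_inv]⟩

theorem exists_lf (hn : 3 ≤ n) {N : Subgroup G} {π : SU n F q →* G} (hM : Model N (iSU n F q) π) (g : G) :
    ∃ σ f, Lf hq π g σ f := by
  have hF : Fintype.card F = q ^ 2 := by rw [← Nat.card_eq_fintype_card, hq]
  obtain ⟨B, σ, hB, hI⟩ := lift_su hF hn hM g
  rw [ind_tauP (by omega)] at hI
  have hmv : ∀ (x : Matrix (Fin n) (Fin n) F) (v : Fin n → F), (fun i => σ (x.mulVec v i)) =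
      (x.map σ).mulVec (fun i => σ (v i)) := by
    intro x v
    ext i
    simp only [Matrix.mulVec, dotProduct, map_sum, map_mul, Matrix.map_apply]
  have hbij : ∀ v, ((B⁻¹ : GL (Fin n) F) : Matrix (Fin n) (Fin n) F).mulVec ((B : Matrix (Fin n) (Fin n) F).mulVec v) =
      v := by
    intro v
    rw [Matrix.mulVec_mulVec, GL_inv_mul, Matrix.one_mulVec]
  have hbij' : ∀ v, (B : Matrix (Fin n) (Fin n) F).mulVec (((B⁻¹ : GL (Fin n) F) : Matrix (Fin n) (Fin n) F).mulVec v) =
      v := by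
    intro v
    rw [Matrix.mulVec_mulVec, GL_mul_inv, Matrix.one_mulVec]
  refine ⟨σ, fun v => (B : Matrix (Fin n) (Fin n) F).mulVec (fun i => σ (v i)), fun v w => ?_, fun c v => ?_,
    ⟨fun v w h => ?_, fun v => ?_⟩, fun v w => ?_, fun s => ?_⟩
  · rw [← Matrix.mulVec_add]
    congr 1
    ext i
    simp
  · rw [← Matrix.mulVec_smul]
    congr 1
    ext i
    simp
  · have h1 : (fun i => σ (v i)) = fun i => σ (w i) := by
      have h2 := congrArg (((B⁻¹ : GL (Fin n) F) : Matrix (Fin n) (Fin n) F).mulVec) h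
      change ((B⁻¹ : GL (Fin n) F) : Matrix (Fin n) (Fin n) F).mulVec
        ((B : Matrix (Fin n) (Fin n) F).mulVec (fun i => σ (v i))) =
        ((B⁻¹ : GL (Fin n) F) : Matrix (Fin n) (Fin n) F).mulVec
        ((B : Matrix (Fin n) (Fin n) F).mulVec (fun i => σ (w i))) at h2
      rwa [hbij, hbij] at h2
    ext i
    exact σ.injective (congrFun h1 i)
  · refine ⟨fun i => σ.symm (((B⁻¹ : GL (Fin n) F) : Matrix (Fin n) (Fin n) F).mulVec v i), ?_⟩
    have h1 : (fun i => σ (σ.symm (((B⁻¹ : GL (Fin n) F) : Matrix (Fin n) (Fin n) F).mulVec v i))) =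
        ((B⁻¹ : GL (Fin n) F) : Matrix (Fin n) (Fin n) F).mulVec v := by
      ext i
      rw [RingEquiv.apply_symm_apply]
    change (B : Matrix (Fin n) (Fin n) F).mulVec _ = v
    rw [h1, hbij']
  · have h1 : (CForm.hermF F hq n).B ((B : Matrix (Fin n) (Fin n) F).mulVec (fun i => σ (v i)))
        ((B : Matrix (Fin n) (Fin n) F).mulVec (fun i => σ (w i))) =
        (CForm.hermF F hq n).B (fun i => σ (v i)) (fun i => σ (w i)) := hB _ _
    rw [h1]
    change hermForm n F q _ _ = σ (hermForm n F q v w)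
    unfold hermForm
    rw [map_sum]
    refine Finset.sum_congr rfl fun i _ => ?_
    rw [map_mul, map_pow]
  · obtain ⟨s', h1, h2⟩ := hI s
    refine ⟨s', fun v => ?_, h2⟩
    rw [av_mt, av_mt, h1, hmv, tauP_apply, ← Matrix.mulVec_mulVec, ← Matrix.mulVec_mulVec, hbij]

section fix

variable {N : Subgroup G} {π : SU n F q →* G} (hM : Model N (iSU n F q) π) {r : ℕ} [hr : Fact r.Prime] [CharP F r]

include hq hM

omit [CharP F r] in
theorem hatm {X : Subgroup G} (hX : IsPGroup r X) {s : SU n F q} : s ∈ hat π r X ↔ π s ∈ X ∧ PE r s := by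
  have hfin : Finite (SU n F q) := inferInstance
  exact mem_hat (fun s hs t => ker_comm hq hM hs t) hX

omit [CharP F r] in
theorem hatp {X : Subgroup G} (hX : IsPGroup r X) : IsPGroup r (hat π r X) := by
  have hfin : Finite (SU n F q) := inferInstance
  exact hat_isPGroup (fun s hs t => ker_comm hq hM hs t) hX

omit [CharP F r] in
theorem hat_ne {X : Subgroup G} (hX : IsPGroup r X) (hXN : X ≤ N) (hX1 : X ≠ ⊥) : hat π r X ≠ ⊥ := by
  have hfin : Finite (SU n F q) := inferInstance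
  intro h
  apply hX1
  rw [eq_bot_iff_forall]
  intro x hx
  obtain ⟨s, hs, hs'⟩ := exists_lift (π := π) (pe_of_isPGroup hX hx) (by rw [hM.range]; exact hXN hx)
  have h1 : s ∈ hat π r X := (hatm (hq := hq) hM hX).2 ⟨by rw [hs]; exact hx, hs'⟩
  rw [h, mem_bot] at h1
  rw [← hs, h1, map_one]

theorem uniq {s t : SU n F q} (h : π s = π t) (hs : PE r s) (ht : PE r t) : s = t := by
  have hfin : Finite (SU n F q) := inferInstance
  exact pe_uniq (fun s hs t => ker_comm hq hM hs t) (fun s hs hp => ker_pe hq hM hs hp) h hs ht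

/-- **transport of fixed spaces** -/
theorem Lf.fix_iff {g : G} {σ : F ≃+* F} {f : (Fin n → F) → (Fin n → F)} (hf : Lf hq π g σ f) {X Y : Subgroup G}
    (hX : IsPGroup r X) (hY : IsPGroup r Y) (hXN : X ≤ N) (hXY : ∀ x, x ∈ X ↔ g * x * g⁻¹ ∈ Y) (v : Fin n → F) :
    v ∈ Fix hq π r X ↔ f v ∈ Fix hq π r Y := by
  have hfin : Finite (SU n F q) := inferInstance
  constructor
  · intro hv t ht
    obtain ⟨ht1, ht2⟩ := (hatm (hq := hq) hM hY).1 ht
    have hx : g⁻¹ * π t * g ∈ X := by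
      rw [hXY]
      have : g * (g⁻¹ * π t * g) * g⁻¹ = π t := by group
      rwa [this]
    obtain ⟨s, hs, hs'⟩ := exists_lift (π := π) (pe_of_isPGroup hX hx) (by rw [hM.range]; exact hXN hx)
    obtain ⟨s', h1, h2⟩ := hf.conj s
    have h3 : s' = t := uniq (hq := hq) hM (by rw [h2, hs]; group) (hf.pe h1 hs') ht2
    rw [← h3, ← h1, hv s ((hatm (hq := hq) hM hX).2 ⟨by rw [hs]; exact hx, hs'⟩)]
  · intro hv s hs
    obtain ⟨hs1, hs2⟩ := (hatm (hq := hq) hM hX).1 hs
    obtain ⟨s', h1, h2⟩ := hf.conj s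
    apply hf.bij.1
    rw [h1]
    exact hv s' ((hatm (hq := hq) hM hY).2 ⟨by rw [h2]; exact (hXY _).1 hs1, hf.pe h1 hs2⟩)

omit hM hr [CharP F r] in
theorem Lf.perp_iff {g : G} {σ : F ≃+* F} {f : (Fin n → F) → (Fin n → F)} (hf : Lf hq π g σ f)
    {W W' : Submodule F (Fin n → F)} (h : ∀ v, v ∈ W ↔ f v ∈ W') (v : Fin n → F) :
    v ∈ (CForm.hermF F hq n).perp W ↔ f v ∈ (CForm.hermF F hq n).perp W' := by
  constructor
  · intro hv y hy
    obtain ⟨w, rfl⟩ := hf.bij.2 y
    rw [hf.form, hv w ((h w).2 hy), map_zero]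
  · intro hv y hy
    have h1 := hv (f y) ((h y).1 hy)
    rw [hf.form] at h1
    exact (map_eq_zero σ).1 h1

theorem Lf.UU_iff {g : G} {σ : F ≃+* F} {f : (Fin n → F) → (Fin n → F)} (hf : Lf hq π g σ f) {X Y : Subgroup G}
    (hX : IsPGroup r X) (hY : IsPGroup r Y) (hXN : X ≤ N) (hXY : ∀ x, x ∈ X ↔ g * x * g⁻¹ ∈ Y) (v : Fin n → F) :
    v ∈ UU hq π r X ↔ f v ∈ UU hq π r Y := by
  have h1 := hf.fix_iff hM hX hY hXN hXY
  exact and_congr (h1 v) (hf.perp_iff h1 v)

end fix

end Cfsg.Agent.H328.TW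
end

-- part: H328/TW/StabSU
section
/-!
# S3694-T8: the stabilizer (helper328)

* `stab_iff` : `A ∩ N` is the stabilizer of an `A`-invariant proper subspace;
* `mem_N_of_comm` : an element of `G` commuting with the stabilizer of a totally isotropic subspace lies in `N`.
-/

set_option autoImplicit false

namespace Cfsg.Agent.H328.TW

open Subgroup Cfsg Cfsg.Agent.H607.TW Cfsg.Agent.H296.TW Cfsg.Agent.H477.HC Cfsg.Agent.LieClassical.HermBasic
  Cfsg.Agent.H477.HC.CForm Module

universe u v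

variable {G : Type u} [Group G] {N A : Subgroup G} {r : ℕ} {F : Type} [Field F] [Fintype F] {n q : ℕ}
  (hq : Nat.card F = q ^ 2)

theorem charP_of {r : ℕ} (hr : r.Prime) (h : r ∣ Fintype.card F) : CharP F r := by
  have hp := CharP.exists F
  obtain ⟨p, hp⟩ := hp
  have hpr : p.Prime := (CharP.char_is_prime_or_zero F p).resolve_right (CharP.char_ne_zero_of_finite F p)
  obtain ⟨m, -, hm⟩ := FiniteField.card F p
  rw [hm] at h
  have := (Nat.prime_dvd_prime_iff_eq hr hpr).1 (hr.dvd_of_dvd_pow h)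
  rw [this]
  exact hp

/-- Siegel transformations have `r`-power order -/
theorem siegel_pe [hr : Fact r.Prime] [CharP F r] (hn : 0 < n) {s : SU n F q}
    (hs : IsSiegel (CForm.hermF F hq n) (act hq n s)) : PE r s := by
  have : Nonempty (Fin n) := ⟨⟨0, hn⟩⟩
  have h1 := siegel_nilp hs
  have h2 : (_root_.Cfsg.Agent.H607.TW.mt (iSU n F q) s - 1) ^ 3 = 0 := by
    apply (Matrix.toLinAlgEquiv' (R := F) (n := Fin n)).injective
    rw [map_pow, map_sub, map_one, map_zero, ← h1]
    congr 1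
  have h3 : (_root_.Cfsg.Agent.H607.TW.mt (iSU n F q) s) ^ r ^ 2 = 1 := by
    have h4 : (_root_.Cfsg.Agent.H607.TW.mt (iSU n F q) s - 1) ^ r ^ 2 = 0 := by
      have h5 : 3 ≤ r ^ 2 := by
        have := hr.out.two_le
        nlinarith only [this]
      obtain ⟨m, hm⟩ := Nat.exists_eq_add_of_le h5
      rw [hm, pow_add, h2, zero_mul]
    rw [sub_pow_char_pow_of_commute r 2 (Commute.one_right _), one_pow] at h4
    exact sub_eq_zero.1 h4
  refine ⟨2, ?_⟩
  apply av_ext hq n
  intro v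
  have h4 : ∀ m : ℕ, _root_.Cfsg.Agent.H607.TW.mt (iSU n F q) (s ^ m) = (_root_.Cfsg.Agent.H607.TW.mt (iSU n F q) s) ^ m := by
    intro m
    induction m with
    | zero => rw [pow_zero, pow_zero, mt_one]
    | succ m ih => rw [pow_succ, pow_succ, mt_mul, ih]
  rw [av_mt, h4, h3, Matrix.one_mulVec, av_one]

theorem av_mem_iff {U : Submodule F (Fin n → F)} {s : SU n F q} (h : ∀ u ∈ U, av hq n s u ∈ U) (u : Fin n → F) :
    u ∈ U ↔ av hq n s u ∈ U := by
  refine ⟨h u, fun hu => ?_⟩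
  have hinj : Function.Injective (fun x : U => (⟨(av hq n s x :), h x x.2⟩ : U)) := by
    intro x y hxy
    have h1 := congrArg Subtype.val hxy
    apply Subtype.ext
    rw [← av_inv hq n s x, ← av_inv hq n s y]
    exact congrArg (av hq n s⁻¹) h1
  obtain ⟨x, hx⟩ := (Finite.injective_iff_surjective.1 hinj) ⟨_, hu⟩
  have h1 := congrArg Subtype.val hx
  have h2 : (x : Fin n → F) = u := by
    rw [← av_inv hq n s x, ← av_inv hq n s u]
    exact congrArg (av hq n s⁻¹) h1
  rw [← h2]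
  exact x.2

/-- `SU` is irreducible -/
theorem irr_top {π : SU n F q →* G} (hM : Model N (iSU n F q) π) {U : Submodule F (Fin n → F)}
    (h : ∀ s : SU n F q, ∀ u ∈ U, av hq n s u ∈ U) : U = ⊥ ∨ U = ⊤ := by
  classical
  by_contra hcon
  push Not at hcon
  obtain ⟨u, hu, hu0⟩ := (Submodule.ne_bot_iff U).1 hcon.1
  apply hcon.2
  rw [Submodule.eq_top_iff']
  intro v
  have hall : ∀ M : Matrix (Fin n) (Fin n) F, M.mulVec u ∈ U := by
    intro M
    have hM' : M ∈ Submodule.span F (Set.range (_root_.Cfsg.Agent.H607.TW.mt (iSU n F q))) := by rw [hM.span]; trivial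
    induction hM' using Submodule.span_induction with
    | mem x hx =>
      obtain ⟨s, rfl⟩ := hx
      exact h s u hu
    | zero => rw [Matrix.zero_mulVec]; exact U.zero_mem
    | add x y _ _ hx hy => rw [Matrix.add_mulVec]; exact U.add_mem hx hy
    | smul c x _ hx => rw [Matrix.smul_mulVec]; exact U.smul_mem c hx
  obtain ⟨i, hi⟩ : ∃ i, u i ≠ 0 := by
    by_contra hc
    push Not at hc
    exact hu0 (funext hc)
  have h1 := hall (Matrix.of fun j k => if k = i then v j * (u i)⁻¹ else 0)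
  have h2 : (Matrix.of fun j k => if k = i then v j * (u i)⁻¹ else 0).mulVec u = v := by
    ext j
    simp only [Matrix.mulVec, dotProduct, Matrix.of_apply, ite_mul, zero_mul, Finset.sum_ite_eq',
      Finset.mem_univ, if_true]
    rw [mul_assoc, inv_mul_cancel₀ hi, mul_one]
  rwa [h2] at h1

/-- **`A ∩ N` is the stabilizer** -/
theorem stab_iff [Finite G] (hn : 3 ≤ n) {π : SU n F q →* G} (hM : Model N (iSU n F q) π) (hA : Loc N A r)
    {U : Submodule F (Fin n → F)} (hU0 : U ≠ ⊥) (hU1 : U ≠ ⊤)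
    (hinv : ∀ a ∈ A, ∀ σ f, Lf hq π a σ f → ∀ v, v ∈ U ↔ f v ∈ U) (s : SU n F q) :
    π s ∈ A ↔ ∀ u ∈ U, av hq n s u ∈ U := by
  refine ⟨fun hs u hu => (hinv _ hs _ _ (lf_self π s) u).1 hu, fun hs => ?_⟩
  let St₀ : Subgroup (SU n F q) :=
    { carrier := {t | ∀ u, u ∈ U ↔ av hq n t u ∈ U}
      one_mem' := fun u => by rw [av_one]
      mul_mem' := fun {a b} ha hb u => by rw [av_mul, ← ha, ← hb]
      inv_mem' := fun {a} ha u => by rw [ha (av hq n a⁻¹ u), av_inv'] }
  obtain ⟨St, hSt⟩ : ∃ St : Subgroup G, St = St₀.map π := ⟨_, rfl⟩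
  have hStN : St ≤ N := by
    rw [hSt, ← hM.range]
    exact map_le_range _ _
  have hsSt : π s ∈ St := by
    rw [hSt]
    exact ⟨s, fun u => av_mem_iff hq hs u, rfl⟩
  have key : ∀ a ∈ A, ∀ y ∈ St, a * y * a⁻¹ ∈ St := by
    intro a ha y hy
    rw [hSt] at hy ⊢
    obtain ⟨t, ht, rfl⟩ := hy
    obtain ⟨σ, f, hf⟩ := exists_lf (hq := hq) hn hM a
    obtain ⟨t', h1, h2⟩ := hf.conj t
    refine ⟨t', fun u => ?_, h2⟩
    obtain ⟨v, rfl⟩ := hf.bij.2 u
    rw [← hinv a ha σ f hf v, ← h1, ← hinv a ha σ f hf]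
    exact ht v
  have hnorm : A ≤ normalizer (St : Set G) := by
    intro a ha
    rw [mem_normalizer_iff]
    intro y
    refine ⟨key a ha y, fun h => ?_⟩
    have h1 := key a⁻¹ (A.inv_mem ha) _ h
    have h2 : a⁻¹ * (a * y * a⁻¹) * a⁻¹⁻¹ = y := by group
    rwa [h2] at h1
  by_cases hNA : normalizer (St : Set G) = A
  · rw [← hNA]
    exact le_normalizer hsSt
  · have h1 : normalizer (St : Set G) = ⊤ := hA.max.2 _ (lt_of_le_of_ne hnorm (Ne.symm hNA))
    have hStn : St.Normal := normalizer_eq_top_iff.1 h1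
    have h2 : (St.subgroupOf N).Normal := hStn.subgroupOf N
    have := hA.simple
    rcases h2.eq_bot_or_eq_top with h3 | h3
    · have h4 : St = ⊥ := by
        rw [subgroupOf_eq_bot] at h3
        have := disjoint_iff.1 h3
        rwa [inf_eq_left.2 hStN] at this
      rw [h4, mem_bot] at hsSt
      rw [hsSt]
      exact A.one_mem
    · exfalso
      rw [subgroupOf_eq_top] at h3
      have h4 : ∀ t : SU n F q, ∀ u ∈ U, av hq n t u ∈ U := by
        intro t u hu
        have h5 : π t ∈ St := h3 (by rw [← hM.range]; exact ⟨t, rfl⟩)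
        rw [hSt] at h5
        obtain ⟨t', ht', h6⟩ := h5
        obtain ⟨c, hc⟩ := ker_scalar hq hM (s := t'⁻¹ * t) (by rw [map_mul, map_inv, h6, inv_mul_cancel])
        have h7 : av hq n t u = c • av hq n t' u := by
          have : t = t' * (t'⁻¹ * t) := by group
          rw [this, av_mul, hc, av_smul]
        rw [h7]
        exact U.smul_mem c ((ht' u).1 hu)
      rcases irr_top hq hM h4 with h5 | h5
      · exact hU0 h5
      · exact hU1 h5

/-- the group of isometries over `A` -/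
noncomputable def PA (π : SU n F q →* G) (A : Subgroup G) : Subgroup (CForm.hermF F hq n).iso :=
  (A.comap π).map (act hq n)

theorem PA_big {π : SU n F q →* G} {U : Submodule F (Fin n → F)}
    (hst : ∀ s : SU n F q, π s ∈ A ↔ ∀ u ∈ U, av hq n s u ∈ U) : Big (CForm.hermF F hq n) (PA hq π A) U := by
  intro g hg hgU
  obtain ⟨s, hs⟩ := exists_act hq n (siegel_det hg)
  refine ⟨s, ?_, hs⟩
  change π s ∈ A
  rw [hst]
  intro u hu
  unfold av
  rw [hs]
  exact hgU u hu

/-- **elements commuting with the stabilizer** -/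
theorem mem_N_of_comm (hn : 3 ≤ n) [hr : Fact r.Prime] [CharP F r] {π : SU n F q →* G} (hM : Model N (iSU n F q) π)
    (hcent : centralizer (N : Set G) = ⊥) {U : Submodule F (Fin n → F)} (hU : (CForm.hermF F hq n).TS U)
    (hU0 : U ≠ ⊥) (hst : ∀ s : SU n F q, π s ∈ A ↔ ∀ u ∈ U, av hq n s u ∈ U) {x : G}
    (hx : ∀ y ∈ A ⊓ N, x * y = y * x) : x ∈ N := by
  obtain ⟨σ, f, hf⟩ := exists_lf (hq := hq) hn hM x
  have hH := hm_herm hq n
  have hcomm : ∀ g : (CForm.hermF F hq n).iso, IsSiegel (CForm.hermF F hq n) g → g ∈ PA hq π A →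
      ∀ v, f ((g : (Fin n → F) ≃ₗ[F] (Fin n → F)) v) = (g : (Fin n → F) ≃ₗ[F] (Fin n → F)) (f v) := by
    rintro _ hg ⟨s, hs, rfl⟩ v
    have hpe : PE r s := siegel_pe hq (by omega) hg
    obtain ⟨s', h1, h2⟩ := hf.conj s
    have h3 : π s' = π s := by
      rw [h2, hx (π s) ⟨hs, by rw [← hM.range]; exact ⟨s, rfl⟩⟩]
      group
    have h4 : s' = s := uniq (hq := hq) hM h3 (hf.pe h1 hpe) hpe
    have h5 := h1 v
    rw [h4] at h5
    exact h5
  obtain ⟨hσ, u, μ, hu, hu0, hμ0, hBu, hfu, hfb, hfv⟩ := hH.semi_unip hU (PA_big hq hst) hU0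
    (by rw [Module.finrank_fintype_fun_eq_card, Fintype.card_fin]; exact hn) σ f hf.add hf.smul hcomm hf.bij.1
  have hform : ∀ v w, (CForm.hermF F hq n).B (f v) (f w) = (CForm.hermF F hq n).B v w := fun v w => by
    rw [hf.form, hσ]
  obtain ⟨v₀, hv₀⟩ : ∃ v₀, (CForm.hermF F hq n).B v₀ u ≠ 0 := by
    by_contra hcon
    push Not at hcon
    exact hu0 ((CForm.hermF F hq n).nondeg u fun w => (CForm.hermF F hq n).B_eq_zero (hcon w))
  have hμ1 : (CForm.hermF F hq n).σ μ * μ = 1 := by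
    have h1 := hform v₀ u
    rw [hfu, (CForm.hermF F hq n).B_smul_right, hBu, ← mul_assoc] at h1
    exact mul_right_cancel₀ hv₀ (by rw [h1, one_mul])
  -- the unipotent isometry
  let g₀ : (Fin n → F) →ₗ[F] (Fin n → F) :=
    { toFun := fun v => μ⁻¹ • f v
      map_add' := fun v w => by rw [hf.add, smul_add]
      map_smul' := fun c v => by rw [hf.smul, hσ, smul_comm, RingHom.id_apply] }
  have hg₀ : ∀ v, g₀ v = μ⁻¹ • f v := fun v => rfl
  have hB₀ : ∀ v w, (CForm.hermF F hq n).B (g₀ v) (g₀ w) = (CForm.hermF F hq n).B v w := by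
    intro v w
    rw [hg₀, hg₀, (CForm.hermF F hq n).B_smul_left, (CForm.hermF F hq n).B_smul_right, hform, map_inv₀,
      ← mul_assoc, ← mul_inv, mul_comm μ, hμ1, inv_one, one_mul]
  obtain ⟨g, hg⟩ := (CForm.hermF F hq n).exists_iso g₀ hB₀ (fun v => by rw [hH.Q, hH.Q, hB₀])
  have hD : ∀ v, (g₀ - 1) v = μ⁻¹ • (f v - μ • v) := by
    intro v
    rw [LinearMap.sub_apply, Module.End.one_apply, hg₀, smul_sub, smul_smul, inv_mul_cancel₀ hμ0, one_smul]
  have hD4 : (g₀ - 1) ^ 4 = 0 := by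
    ext1 i
    ext1
    rw [LinearMap.comp_apply, LinearMap.comp_apply]
    generalize (LinearMap.single F (fun _ => F) i) 1 = v
    rw [pow_succ, pow_succ, pow_succ, pow_one, Module.End.mul_apply, Module.End.mul_apply, Module.End.mul_apply]
    have e1 : (CForm.hermF F hq n).B ((g₀ - 1) v) u = 0 := by
      rw [hD, (CForm.hermF F hq n).B_smul_left, (CForm.hermF F hq n).B_sub_left, hBu,
        (CForm.hermF F hq n).B_smul_left, sub_self, mul_zero]
    have e2 : (g₀ - 1) ((g₀ - 1) v) ∈ U := by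
      rw [hD ((g₀ - 1) v)]
      exact U.smul_mem _ (hfv _ e1)
    obtain ⟨c, hc⟩ := hfb _ (hU.le_perp e2)
    have e3 : (g₀ - 1) ((g₀ - 1) ((g₀ - 1) v)) = (μ⁻¹ * c) • u := by
      rw [hD ((g₀ - 1) ((g₀ - 1) v)), hc, add_sub_cancel_left, smul_smul]
    rw [e3, map_smul, hD, hfu, sub_self, smul_zero, smul_zero]
    rfl
  have hgdet : LinearMap.det ((g : (Fin n → F) ≃ₗ[F] (Fin n → F)) : (Fin n → F) →ₗ[F] (Fin n → F)) = 1 := by
    have h1 : ((g : (Fin n → F) ≃ₗ[F] (Fin n → F)) : (Fin n → F) →ₗ[F] (Fin n → F)) = g₀ := by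
      ext1 i
      ext1
      exact hg _
    rw [h1]
    exact det_one_of_nilp ⟨4, hD4⟩
  obtain ⟨s₀, hs₀⟩ := exists_act hq n hgdet
  have hav : ∀ v, f v = μ • av hq n s₀ v := by
    intro v
    unfold av
    rw [hs₀, hg, hg₀, smul_smul, mul_inv_cancel₀ hμ0, one_smul]
  have h1 : x⁻¹ * π s₀ ∈ centralizer (N : Set G) := by
    rw [mem_centralizer_iff]
    intro y hy
    rw [SetLike.mem_coe, ← hM.range] at hy
    obtain ⟨s, rfl⟩ := hy
    obtain ⟨s', h2, h3⟩ := hf.conj s
    have h4 : s₀ * s = s' * s₀ := by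
      apply av_ext hq n
      intro v
      have h5 := h2 v
      rw [hav, hav, av_smul] at h5
      have h6 := smul_right_injective _ hμ0 h5
      rw [av_mul, av_mul]
      exact h6
    have h5 : π s₀ * π s = x * π s * x⁻¹ * π s₀ := by rw [← h3, ← map_mul, ← map_mul, h4]
    calc π s * (x⁻¹ * π s₀) = x⁻¹ * (x * π s * x⁻¹ * π s₀) := by group
      _ = x⁻¹ * (π s₀ * π s) := by rw [h5]
      _ = x⁻¹ * π s₀ * π s := by group
  rw [hcent, mem_bot] at h1
  rw [show x = π s₀ from (inv_mul_eq_one.1 h1), ← hM.range]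
  exact ⟨s₀, rfl⟩

end Cfsg.Agent.H328.TW
end

-- part: H328/TW/CharSU
section
/-!
# S3694, task T8: the defining characteristic, unitary case (helper328)

`char_su` : the situation `Sit` is impossible in `PSU_n(q)`, `r | q`.
-/

set_option autoImplicit false

namespace Cfsg.Agent.H328.TW

open Subgroup Cfsg Cfsg.Agent.H607.TW Cfsg.Agent.H296.TW Cfsg.Agent.H477.HC Cfsg.Agent.LieClassical.HermBasic
  Cfsg.Agent.H477.HC.CForm Module

universe u v

variable {G : Type u} [Group G] [Finite G] {N A C A₁ C₁ A₂ C₂ : Subgroup G} {r d : ℕ}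
  {F : Type} [Field F] [Fintype F] {n q : ℕ} (hq : Nat.card F = q ^ 2)

include hq in
omit [Finite G] in
theorem dvd_card_N [hr : Fact r.Prime] [CharP F r] (hn : 3 ≤ n) {π : SU n F q →* G}
    (hM : Model N (iSU n F q) π) [Finite N] : r ∣ Nat.card N := by
  classical
  have hH := hm_herm hq n
  obtain ⟨x, -, hx, -, -⟩ := exists_norm_neg_one hq
  have hq2 := two_le_of_card hq
  obtain ⟨i₀, i₁, h01⟩ : ∃ i₀ i₁ : Fin n, i₀ ≠ i₁ :=
    ⟨⟨0, by omega⟩, ⟨1, by omega⟩, fun h => by simpa using congrArg Fin.val h⟩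
  obtain ⟨u, hu⟩ : ∃ u : Fin n → F, u = Pi.single i₀ 1 + x • Pi.single i₁ 1 := ⟨_, rfl⟩
  have hu0 : u i₀ = 1 := by
    rw [hu, Pi.add_apply, Pi.single_eq_same, Pi.smul_apply, Pi.single_eq_of_ne h01, smul_zero, add_zero]
  have hu1 : u i₁ = x := by
    rw [hu, Pi.add_apply, Pi.single_eq_of_ne h01.symm, Pi.smul_apply, Pi.single_eq_same, smul_eq_mul, mul_one, zero_add]
  have hun : ∀ i : Fin n, i ≠ i₀ → i ≠ i₁ → u i = 0 := by
    intro i h0 h1
    rw [hu, Pi.add_apply, Pi.single_eq_of_ne h0, Pi.smul_apply, Pi.single_eq_of_ne h1, smul_zero, add_zero]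
  have huu : (CForm.hermF F hq n).B u u = 0 := by
    change hermForm n F q u u = 0
    unfold hermForm
    rw [Finset.sum_eq_add_of_mem i₀ i₁ (Finset.mem_univ _) (Finset.mem_univ _) h01
      (fun i _ hi => by rw [hun i hi.1 hi.2, zero_mul]), hu0, hu1, one_pow, one_mul, ← pow_succ']
    exact hx
  have hune : u ≠ 0 := fun h => by
    rw [h, Pi.zero_apply] at hu0
    exact zero_ne_one hu0
  obtain ⟨a, ha, ha'⟩ := hH.exists_skew
  have hu00 : (CForm.hermF F hq n).B u 0 = 0 := (CForm.hermF F hq n).B_zero_right u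
  have ha0 : a + (CForm.hermF F hq n).σ a + (CForm.hermF F hq n).B 0 0 = 0 := by
    rw [(CForm.hermF F hq n).B_zero_left, add_zero, ha']
  obtain ⟨g, hg⟩ := hH.exists_siegel (u := u) (b := 0) (α := a) huu hu00 ha0
  have hgS : IsSiegel (CForm.hermF F hq n) g := ⟨u, 0, a, huu, hu00, ha0, hg⟩
  obtain ⟨s, rfl⟩ := exists_act hq n (siegel_det hgS)
  have hpe : PE r s := siegel_pe hq (by omega) hgS
  have hs1 : s ≠ 1 := by
    intro h
    obtain ⟨v, hv⟩ : ∃ v, (CForm.hermF F hq n).B v u ≠ 0 := by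
      by_contra hcon
      push Not at hcon
      exact hune ((CForm.hermF F hq n).nondeg u fun w => (CForm.hermF F hq n).B_eq_zero (hcon w))
    have h1 := hg v
    rw [h, map_one] at h1
    simp only [smul_zero, add_zero, (CForm.hermF F hq n).B_zero_right, zero_smul, sub_zero] at h1
    have h2 : (a * (CForm.hermF F hq n).B v u) • u = 0 := by
      have h3 : v = v + (a * (CForm.hermF F hq n).B v u) • u := h1
      exact left_eq_add.1 h3
    rcases smul_eq_zero.1 h2 with h3 | h3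
    · exact mul_ne_zero ha hv h3
    · exact hune h3
  obtain ⟨k, hk⟩ := hpe
  have hx1 : π s ≠ 1 := fun h => hs1 (ker_pe hq hM h ⟨k, hk⟩)
  have hxN : π s ∈ N := by rw [← hM.range]; exact ⟨s, rfl⟩
  have h1 : orderOf (⟨π s, hxN⟩ : N) ∣ r ^ k := by
    apply orderOf_dvd_of_pow_eq_one
    apply Subtype.ext
    change (π s) ^ r ^ k = 1
    rw [← map_pow, hk, map_one]
  obtain ⟨j, -, hj⟩ := (Nat.dvd_prime_pow hr.out).1 h1
  have hj0 : j ≠ 0 := by
    rintro rfl
    rw [pow_zero, orderOf_eq_one_iff] at hj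
    exact hx1 (congrArg Subtype.val hj)
  exact ((dvd_pow_self r hj0).trans hj.symm.dvd).trans (_root_.orderOf_dvd_natCard _)

include hq in
/-- the space attached to a maximal subgroup -/
theorem exists_U [hr : Fact r.Prime] [CharP F r] (hn : 3 ≤ n) {π : SU n F q →* G} (hM : Model N (iSU n F q) π)
    (hA : Loc N A r) {R : Subgroup G} (hR : R ≠ ⊥) (hRA : R ≤ A) (hRn : A ≤ normalizer (R : Set G))
    (hRp : IsPGroup r R) : UU hq π r (OO r A ⊓ N) ≠ ⊥ ∧ UU hq π r (OO r A ⊓ N) ≠ ⊤ ∧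
      ∀ s : SU n F q, π s ∈ A ↔ ∀ u ∈ UU hq π r (OO r A ⊓ N), av hq n s u ∈ UU hq π r (OO r A ⊓ N) := by
  have hE : OO r A ⊓ N ≠ ⊥ := E_ne hA (dvd_card_N hq hn hM) hR hRA hRn hRp
  have hEp : IsPGroup r (OO r A ⊓ N : Subgroup G) := (OO_isPGroup r A).to_le inf_le_left
  have hU0 : UU hq π r (OO r A ⊓ N) ≠ ⊥ :=
    UU_ne hq (hatp (hq := hq) hM hEp) (hat_ne (hq := hq) hM hEp inf_le_right hE)
  have hU1 : UU hq π r (OO r A ⊓ N) ≠ ⊤ := by
    intro h
    have h1 := UU_TS hq π r (OO r A ⊓ N)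
    rw [h] at h1
    have h2 : ∀ v : Fin n → F, v = 0 := fun v =>
      (CForm.hermF F hq n).nondeg v fun u => h1.2 v trivial u trivial
    have h3 := congrFun (h2 (Pi.single ⟨0, by omega⟩ 1)) ⟨0, by omega⟩
    rw [Pi.single_eq_same, Pi.zero_apply] at h3
    exact one_ne_zero h3
  refine ⟨hU0, hU1, stab_iff hq hn hM hA hU0 hU1 fun a ha σ f hf v => ?_⟩
  refine hf.UU_iff hM hEp hEp inf_le_right (fun x => ⟨fun hx => ⟨OO_conj_self ha hx.1, hA.normal.conj_mem _ hx.2 _⟩,
    fun hx => ?_⟩) v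
  have h1 : a⁻¹ * (a * x * a⁻¹) * a⁻¹⁻¹ = x := by group
  rw [← h1]
  exact ⟨OO_conj_self (A.inv_mem ha) hx.1, hA.normal.conj_mem _ hx.2 _⟩

include hq in
/-- the main argument -/
theorem main [hr : Fact r.Prime] [CharP F r] (hn : 3 ≤ n) {π : SU n F q →* G} (hM : Model N (iSU n F q) π)
    (h : Sit N A C A₁ C₁ A₂ C₂ r d) : False := by
  classical
  have hH := hm_herm hq n
  have hA₂p : IsPGroup r A₂ := (OO_isPGroup r C).to_le h.A₂_OO
  have hC₂p : IsPGroup r C₂ := (OO_isPGroup r A).to_le h.C₂_OO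
  have hA₂A : A₂ ≤ A := h.A₂_le.trans (inf_le_left.trans (h.A₁_le.trans inf_le_left))
  have hC₂C : C₂ ≤ C := h.C₂_le.trans (inf_le_right.trans (h.C₁_le.trans inf_le_right))
  obtain ⟨hUA0, hUA1, hstA⟩ := exists_U hq hn hM h.locA h.A₂_ne hA₂A h.A₂_norm hA₂p
  obtain ⟨hUC0, hUC1, hstC⟩ := exists_U hq hn hM h.locC h.C₂_ne hC₂C h.C₂_norm hC₂p
  have hTA := UU_TS hq π r (OO r A ⊓ N)
  have hTC := UU_TS hq π r (OO r C ⊓ N)
  have hEAp : IsPGroup r (OO r A ⊓ N : Subgroup G) := (OO_isPGroup r A).to_le inf_le_left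
  have hECp : IsPGroup r (OO r C ⊓ N : Subgroup G) := (OO_isPGroup r C).to_le inf_le_left
  obtain ⟨UA, hUA⟩ : ∃ U, U = UU hq π r (OO r A ⊓ N) := ⟨_, rfl⟩
  obtain ⟨UC, hUC⟩ : ∃ U, U = UU hq π r (OO r C ⊓ N) := ⟨_, rfl⟩
  -- `UA`, `UC` have the same cardinality
  have hcard : finrank F UA = finrank F UC := by
    obtain ⟨g, hg⟩ := h.conj
    obtain ⟨σ, f, hf⟩ := exists_lf (hq := hq) hn hM g
    have h1 : ∀ v, v ∈ UA ↔ f v ∈ UC := by
      rw [hUA, hUC]
      refine hf.UU_iff hM hEAp hECp inf_le_right (fun x => ⟨fun hx => ⟨OO_conj_mem hg hx.1,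
        h.locA.normal.conj_mem _ hx.2 _⟩, fun hx => ?_⟩)
      have h2 : A = C.map (MulAut.conj g⁻¹).toMonoidHom := by
        rw [hg, Subgroup.map_map]
        conv_lhs => rw [← Subgroup.map_id A]
        congr 1
        ext y
        change y = g⁻¹ * (g * y * g⁻¹) * g⁻¹⁻¹
        group
      have h3 := OO_conj_mem h2 hx.1
      have h4 : g⁻¹ * (g * x * g⁻¹) * g⁻¹⁻¹ = x := by group
      rw [h4] at h3
      have h5 := h.locA.normal.conj_mem _ hx.2 g⁻¹
      rw [h4] at h5
      exact ⟨h3, h5⟩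
    have h2 : Nat.card UA = Nat.card UC := Nat.card_eq_of_bijective (fun v : UA => (⟨(f v :), (h1 v).1 v.2⟩ : UC))
      ⟨fun v w hvw => Subtype.ext (hf.bij.1 (congrArg Subtype.val hvw)), fun v => by
        obtain ⟨w, hw⟩ := hf.bij.2 v
        exact ⟨⟨w, (h1 w).2 (by rw [hw]; exact v.2)⟩, Subtype.ext hw⟩⟩
    rw [Module.natCard_eq_pow_finrank (K := F), Module.natCard_eq_pow_finrank (K := F) (V := UC)] at h2
    exact Nat.pow_right_injective (Finite.one_lt_card (α := F)) h2
  -- the two subspaces are different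
  have hEA : OO r A ⊓ N ≠ ⊥ := E_ne h.locA (dvd_card_N hq hn hM) h.A₂_ne hA₂A h.A₂_norm hA₂p
  have hnormi : ∀ {D : Subgroup G}, Loc N D r → D ≤ normalizer ((D ⊓ N : Subgroup G) : Set G) := by
    intro D hD a ha
    rw [mem_normalizer_iff]
    intro y
    constructor
    · intro hy
      exact ⟨D.mul_mem (D.mul_mem ha hy.1) (D.inv_mem ha), hD.normal.conj_mem _ hy.2 _⟩
    · intro hy
      have h4 : a⁻¹ * (a * y * a⁻¹) * a⁻¹⁻¹ = y := by group
      rw [← h4]
      exact ⟨D.mul_mem (D.mul_mem (D.inv_mem ha) hy.1) (D.inv_mem (D.inv_mem ha)), hD.normal.conj_mem _ hy.2 _⟩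
  have hne : UA ≠ UC := by
    intro heq
    apply h.ne
    have h1 : A ⊓ N = C ⊓ N := by
      ext y
      constructor
      · rintro ⟨hy1, hy2⟩
        refine ⟨?_, hy2⟩
        rw [SetLike.mem_coe, ← hM.range] at hy2
        obtain ⟨s, rfl⟩ := hy2
        have h3 := (hstA s).1 hy1
        rw [← hUA, heq, hUC] at h3
        exact (hstC s).2 h3
      · rintro ⟨hy1, hy2⟩
        refine ⟨?_, hy2⟩
        rw [SetLike.mem_coe, ← hM.range] at hy2
        obtain ⟨s, rfl⟩ := hy2
        have h3 := (hstC s).1 hy1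
        rw [← hUC, ← heq, hUA] at h3
        exact (hstA s).2 h3
    have h2 : A ⊓ N ≠ ⊥ := fun h2 => hEA (by
      rw [eq_bot_iff, ← h2]
      exact inf_le_inf_right N (OO_le r A))
    rw [← norm_eq h.locA h2 inf_le_left (hnormi h.locA), h1]
    exact norm_eq h.locC (by rw [← h1]; exact h2) inf_le_left (hnormi h.locC)
  have hne' : ¬ UA ≤ UC := fun h1 => hne (Submodule.eq_of_le_of_finrank_eq h1 hcard)
  have hne'' : ¬ UC ≤ UA := fun h1 => hne (Submodule.eq_of_le_of_finrank_eq h1 hcard.symm).symm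
  rw [← hUA] at hUA0 hUA1 hstA hTA
  rw [← hUC] at hUC0 hUC1 hstC hTC
  -- the group `X`
  have hAn : ∀ a ∈ A, ∀ y ∈ A₂, a * y * a⁻¹ ∈ A₂ := fun a ha y hy => ((h.A₂_norm ha) y).1 hy
  have hCn : ∀ c ∈ C, ∀ y ∈ C₁, c * y * c⁻¹ ∈ C₁ := fun c hc y hy => ((h.C₁_norm hc) y).1 hy
  obtain ⟨X, hX⟩ : ∃ X, X = A₂ ⊓ N := ⟨_, rfl⟩
  have hXN : X ≤ N := by rw [hX]; exact inf_le_right
  have hXp : IsPGroup r X := hA₂p.to_le (by rw [hX]; exact inf_le_left)
  have hXA : ∀ a ∈ A, ∀ x, x ∈ X ↔ a * x * a⁻¹ ∈ X := by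
    have key : ∀ a ∈ A, ∀ x ∈ X, a * x * a⁻¹ ∈ X := by
      intro a ha x hx
      rw [hX] at hx ⊢
      exact ⟨hAn a ha x hx.1, h.locA.normal.conj_mem _ hx.2 _⟩
    intro a ha x
    refine ⟨key a ha x, fun hx => ?_⟩
    have h1 := key a⁻¹ (A.inv_mem ha) _ hx
    have h4 : a⁻¹ * (a * x * a⁻¹) * a⁻¹⁻¹ = x := by group
    rwa [h4] at h1
  have hX1 : X ≠ ⊥ := by
    intro hbot
    apply h.A₂_ne
    rw [eq_bot_iff, ← hbot, hX]
    refine le_inf le_rfl fun x hx => ?_
    refine mem_N_of_comm (A := A) hq hn hM h.locA.cent hTA hUA0 hstA fun y hy => ?_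
    have h1 : x * y * x⁻¹ * y⁻¹ ∈ A₂ ⊓ N := by
      constructor
      · have h2 := A₂.mul_mem hx (hAn y hy.1 x⁻¹ (A₂.inv_mem hx))
        have h3 : x * (y * x⁻¹ * y⁻¹) = x * y * x⁻¹ * y⁻¹ := by group
        rwa [h3] at h2
      · exact N.mul_mem (h.locA.normal.conj_mem _ hy.2 _) (N.inv_mem hy.2)
    rw [← hX, hbot, mem_bot] at h1
    calc x * y = (x * y * x⁻¹ * y⁻¹) * (y * x) := by group
      _ = y * x := by rw [h1, one_mul]
  have hPA := PA_big (A := A) (π := π) hq hstA
  have hPC := PA_big (A := C) (π := π) hq hstC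
  have hinvX : PInv (CForm.hermF F hq n) (PA hq π A) (Fix hq π r X) := by
    rintro _ ⟨s, hs, rfl⟩ v hv
    exact ((lf_self (hq := hq) π s).fix_iff hM hXp hXp hXN (hXA _ hs) v).1 hv
  have hFX0 : Fix hq π r X ≠ ⊥ := by
    intro h1
    have h2 := Fix_inf_ne hq (hatp (hq := hq) hM hXp) (W := ⊤) (fun h2 => hUA1 (by
      rw [eq_top_iff]
      rw [h2]
      exact bot_le)) (fun _ _ _ _ => trivial)
    rw [h1, bot_inf_eq] at h2
    exact h2 rfl
  have hFX1 : Fix hq π r X ≠ ⊤ := by
    intro h1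
    apply hat_ne (hq := hq) hM hXp hXN hX1
    rw [eq_bot_iff_forall]
    intro s hs
    apply av_ext hq n
    intro v
    rw [av_one]
    have : v ∈ Fix hq π r X := by rw [h1]; trivial
    exact this s hs
  have hFX : Fix hq π r X = (CForm.hermF F hq n).perp UA := by
    rcases hH.inv_sub hTA hPA hinvX with h1 | h1 | h1 | h1
    · exact absurd h1 hFX0
    · exfalso
      apply hne''
      rw [← h1, hUC]
      refine inf_le_left.trans (Fix_anti hq ?_)
      rw [hX]
      exact inf_le_inf_right N h.A₂_OO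
    · exact h1
    · exact absurd h1 hFX1
  -- all conjugates of `UA` under `C` are orthogonal to `UA`
  have horth : ∀ s : SU n F q, π s ∈ C → ∀ u ∈ UA, ∀ v ∈ UA, (CForm.hermF F hq n).B (av hq n s u) v = 0 := by
    intro s hs u hu v hv
    by_contra hcon
    obtain ⟨v', hv'⟩ : ∃ v', v' = av hq n s⁻¹ v := ⟨_, rfl⟩
    have hv : av hq n s v' = v := by rw [hv', av_inv']
    have h1 : v' ∉ (CForm.hermF F hq n).perp UA := by
      intro h2
      apply hcon
      apply (CForm.hermF F hq n).B_eq_zero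
      rw [← hv, av_form]
      exact h2 u hu
    obtain ⟨_, ⟨t, ht, rfl⟩, h2⟩ := hH.exists_aniso hTA hPA ((hat π r X).map (act hq n)) (by
        rintro _ ⟨s, hs, rfl⟩ _ ⟨t, ht, rfl⟩
        refine ⟨s * t * s⁻¹, ?_, by rw [map_mul, map_mul, map_inv]⟩
        obtain ⟨ht1, k, hk⟩ := (hatm (hq := hq) hM hXp).1 ht
        refine (hatm (hq := hq) hM hXp).2 ⟨?_, k, ?_⟩
        · rw [map_mul, map_mul, map_inv]
          exact (hXA _ hs _).1 ht1
        · rw [conj_pow, hk, mul_one, mul_inv_cancel]) (by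
        rintro _ ⟨t, ht, rfl⟩ z hz
        rw [← hFX] at hz
        exact hz t ht) (by
        intro h2
        apply hat_ne (hq := hq) hM hXp hXN hX1
        exact (map_eq_bot_iff_of_injective _ (act_injective hq n)).1 h2) h1
    apply h2
    have h3 : π (s * t * s⁻¹) ∈ A := by
      have h4 : π t ∈ C₁ := by
        have h5 := ((hatm (hq := hq) hM hXp).1 ht).1
        rw [hX] at h5
        exact (h.A₂_le h5.1).2
      rw [map_mul, map_mul, map_inv]
      exact (h.C₁_le (hCn _ hs _ h4)).1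
    have h4 := (hstA _).1 h3 v (by assumption)
    have h5 : av hq n (s * t * s⁻¹) v - v ∈ UA := UA.sub_mem h4 (by assumption)
    have h6 := hTA.2 _ h5 v (by assumption)
    have h7 : av hq n (s * t * s⁻¹) v = av hq n s (av hq n t v') := by
      rw [av_mul, av_mul, hv']
    have h8 : av hq n (s * t * s⁻¹) v - v = av hq n s (av hq n t v' - v') := by
      have h9 : av hq n s (av hq n t v' - v') = av hq n s (av hq n t v') - av hq n s v' := map_sub _ _ _
      rw [h9, h7, hv]
    have h10 : (CForm.hermF F hq n).B (av hq n s (av hq n t v' - v')) (av hq n s v') = 0 := by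
      rw [← h8, hv]
      exact h6
    rw [av_form] at h10
    exact h10
  -- the span of the conjugates
  obtain ⟨R, hR⟩ : ∃ R : Submodule F (Fin n → F),
      R = Submodule.span F {w | ∃ s, π s ∈ C ∧ ∃ u ∈ UA, w = av hq n s u} := ⟨_, rfl⟩
  have hRinv : PInv (CForm.hermF F hq n) (PA hq π C) R := by
    rintro _ ⟨s, hs, rfl⟩ w hw
    rw [hR] at hw ⊢
    induction hw using Submodule.span_induction with
    | mem x hx =>
      obtain ⟨t, ht, u, hu, rfl⟩ := hx
      refine Submodule.subset_span ⟨s * t, by rw [map_mul]; exact C.mul_mem hs ht, u, hu, ?_⟩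
      exact (av_mul hq n s t u).symm
    | zero => rw [map_zero]; exact Submodule.zero_mem _
    | add x y _ _ hx hy => rw [map_add]; exact Submodule.add_mem _ hx hy
    | smul c x _ hx => rw [map_smul]; exact Submodule.smul_mem _ c hx
  have hRle : R ≤ (CForm.hermF F hq n).perp UA := by
    rw [hR, Submodule.span_le]
    rintro _ ⟨s, hs, u, hu, rfl⟩ v hv
    exact horth s hs u hu v hv
  have hleR : UA ≤ R := by
    intro u hu
    rw [hR]
    exact Submodule.subset_span ⟨1, by rw [map_one]; exact C.one_mem, u, hu, (av_one hq n u).symm⟩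
  rcases hH.inv_sub hTC hPC hRinv with h1 | h1 | h1 | h1
  · exact hUA0 (le_bot_iff.1 (h1 ▸ hleR))
  · exact hne' (h1 ▸ hleR)
  · apply hne'
    rw [h1] at hRle
    have h2 := (CForm.hermF F hq n).perp_anti hRle
    rwa [(CForm.hermF F hq n).perp_perp, (CForm.hermF F hq n).perp_perp] at h2
  · apply hUA0
    rw [eq_bot_iff]
    intro u hu
    refine (Submodule.mem_bot F).2 ((CForm.hermF F hq n).nondeg u fun w => ?_)
    apply (CForm.hermF F hq n).B_eq_zero
    have h2 : w ∈ R := by rw [h1]; trivial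
    exact hRle h2 u hu

/-- **task T8** : the defining characteristic, unitary case -/
theorem char_su {q : ℕ} (hF : Fintype.card F = q ^ 2) {π : ↥(Cfsg.SU n F q) →* G}
    (h : Sit N A C A₁ C₁ A₂ C₂ r d) (hr : r ∣ Fintype.card F) (hn : 3 ≤ n) (hM : Model N (iSU n F q) π) :
    Nat.card A ≤ M d := by
  exfalso
  have hrp : Fact r.Prime := ⟨h.locA.prime⟩
  have := charP_of hrp.out hr
  have hq : Nat.card F = q ^ 2 := by rw [Nat.card_eq_fintype_card, hF]
  exact main hq hn hM h

end Cfsg.Agent.H328.TW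
end
end

section
prune_inst 0xfda8fb9bfcf1dedfff7e77a6d8cdfc39961fffe6dff94bbfe029df0bdf03820dc52bad09e010fe0e96421410a87843f9ffceffea6bdc7ffffd5ff41ffbee0ff5f7b50851968c340f380ff703f0778e7f000000000000000000000000000000000000000000

-- part: H189/TW/Rank_mg
section
prune_inst 0x10060000c010000018800020200000100000020040040004020800004100000001084008200114120008010001004001100000020000000a000000000500000000000080080008400000000000000000000000000000000000000000000000200000000
set_option linter.all false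
open scoped Cfsg.Agent.FastGrp

-- part: H189/TW/Star
section
/-!
# S3694, T6: the matrix ring with involution (helper189)

`F` is a field with `q²` elements, `star x = x ^ q`; `xᴴ` is the adjoint.
* `exists_mt` : unitary matrices of determinant one come from `SU_n(q)`;
* `blk P α` : the matrix acting as `α` on the subspace with the orthonormal basis `P`;
* `fix_of_norm`, `fix_of_many` : automorphisms of `F` fixing the elements of norm one.
-/

set_option autoImplicit false

namespace Cfsg.Agent.H189.TW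

open Matrix Subgroup Cfsg Cfsg.Agent.H607.TW
open Cfsg.Agent.LieClassical.HermBasic (conj conj_apply pow_q_pow_q exists_norm_eq card_norm_eq_one q_pos)
open Cfsg.Agent.H296.TW (st)

universe u

/-- The involution of the field with `q²` elements. -/
@[reducible] def starF {F : Type} [Field F] [Fintype F] {q : ℕ} (hF : Fintype.card F = q ^ 2) : StarRing F where
  star x := x ^ q
  star_involutive x := pow_q_pow_q hF x
  star_mul x y := by rw [mul_pow, mul_comm]
  star_add x y := Cfsg.Agent.LieClassical.HermBasic.add_pow_q hF x y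

section Field

variable {F : Type} [Field F] [Fintype F] {q : ℕ} (hF : Fintype.card F = q ^ 2)

include hF in
/-- a ring endomorphism of `F` fixing more than `q` elements is the identity -/
theorem fix_of_many (σ : F →+* F) (K : Finset F) (hK : q < K.card) (h : ∀ a ∈ K, σ a = a) (x : F) : σ x = x := by
  let R : Subring F :=
    { carrier := {a | σ a = a}
      mul_mem' := by
        intro a b ha hb
        change σ (a * b) = a * b
        rw [map_mul]
        exact congrArg₂ _ ha hb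
      one_mem' := map_one σ
      add_mem' := by
        intro a b ha hb
        change σ (a + b) = a + b
        rw [map_add]
        exact congrArg₂ _ ha hb
      zero_mem' := map_zero σ
      neg_mem' := by
        intro a ha
        change σ (-a) = -a
        rw [map_neg]
        exact congrArg _ ha }
  by_cases hR : R = ⊤
  · have : x ∈ R := hR ▸ Subring.mem_top x
    exact this
  · exfalso
    have h1 := Cfsg.Agent.H935.card_subring_sq R hR
    rw [Nat.card_eq_fintype_card (α := F), hF] at h1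
    have h2 : K.card ≤ Nat.card R := by
      have h4 : Nat.card K ≤ Nat.card R :=
        Nat.card_le_card_of_injective (fun a : K => (⟨a.1, h a.1 a.2⟩ : R)) (by
          intro a b hab
          exact Subtype.ext (congrArg (fun z : R => (z : F)) hab))
      rwa [Nat.card_eq_fintype_card, Fintype.card_coe] at h4
    have h3 : K.card * K.card ≤ q ^ 2 := (Nat.mul_le_mul h2 h2).trans h1
    nlinarith only [hK, h3]

/-- the elements of norm one -/
noncomputable def nrm (F : Type) [Field F] [Fintype F] (q : ℕ) : Finset F := by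
  classical
  exact Finset.univ.filter fun a => a * a ^ q = 1

theorem mem_nrm {a : F} : a ∈ nrm F q ↔ a * a ^ q = 1 := by
  classical
  simp only [nrm, _root_.Cfsg.Agent.H189.TW.nrm, _root_.Finset.mem_filter, _root_.Finset.mem_univ, _root_.true_and]

include hF in
theorem card_nrm : (nrm F q).card = q + 1 := by
  classical
  rw [← card_norm_eq_one hF, Nat.card_eq_fintype_card, Fintype.card_subtype]
  unfold nrm
  congr

include hF in
theorem fix_of_norm (σ : F →+* F) (h : ∀ a : F, a * a ^ q = 1 → σ a = a) (x : F) : σ x = x :=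
  fix_of_many hF σ (nrm F q) (by rw [card_nrm hF]; omega) (fun a ha => h a (mem_nrm.1 ha)) x

end Field

section Basic

variable {F : Type} [Field F] [Fintype F] [StarRing F] {q n m k : ℕ} (hF : Fintype.card F = q ^ 2)
  (hs : ∀ x : F, star x = x ^ q)

include hs in
theorem st_eq (x : Matrix (Fin n) (Fin n) F) : st hF x = xᴴ := by
  ext i j
  rw [st, Matrix.conjTranspose_apply, hs]
  rfl

include hF hs in
theorem exists_mt {X : Matrix (Fin n) (Fin n) F} (h : Xᴴ * X = 1) (hd : X.det = 1) :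
    ∃ s : ↥(Cfsg.SU n F q), _root_.Cfsg.Agent.H607.TW.mt (iSU n F q) s = X := by
  have h1 : st hF X * X = 1 := by rw [st_eq hF hs, h]
  have h2 := (Cfsg.Agent.H296.TW.preserves_iff_st hF X).2 h1
  exact ⟨⟨⟨X, hd⟩, h2⟩, rfl⟩

include hF hs in
theorem mt_star (s : ↥(Cfsg.SU n F q)) : (_root_.Cfsg.Agent.H607.TW.mt (iSU n F q) s)ᴴ = _root_.Cfsg.Agent.H607.TW.mt (iSU n F q) s⁻¹ := by
  rw [← st_eq hF hs, Cfsg.Agent.H296.TW.st_mt_eq hF]

/-- the matrix acting as `α` on the span of the orthonormal columns of `P`, trivial on the orthogonal complement -/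
def blk (P : Matrix (Fin n) (Fin m) F) (α : Matrix (Fin m) (Fin m) F) : Matrix (Fin n) (Fin n) F :=
  1 + P * (α - 1) * Pᴴ

omit [Fintype F] in
theorem blk_def (P : Matrix (Fin n) (Fin m) F) (α : Matrix (Fin m) (Fin m) F) :
    blk P α = 1 + P * (α - 1) * Pᴴ := rfl

omit [Fintype F] in
theorem blk_one (P : Matrix (Fin n) (Fin m) F) : blk P 1 = 1 := by
  rw [blk_def, sub_self, Matrix.mul_zero, Matrix.zero_mul, add_zero]

omit [Fintype F] in
theorem blk_mul {P : Matrix (Fin n) (Fin m) F} (hP : Pᴴ * P = 1) (α β : Matrix (Fin m) (Fin m) F) :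
    blk P α * blk P β = blk P (α * β) := by
  simp only [blk_def]
  have h : P * (α - 1) * Pᴴ * (P * (β - 1) * Pᴴ) = P * ((α - 1) * (β - 1)) * Pᴴ := by
    calc _ = P * (α - 1) * (Pᴴ * P) * (β - 1) * Pᴴ := by simp only [Matrix.mul_assoc]
      _ = _ := by rw [hP, Matrix.mul_one]; simp only [Matrix.mul_assoc]
  rw [mul_add, add_mul, one_mul, add_mul, mul_one, one_mul, h]
  have h2 : α * β - 1 = (α - 1) + (β - 1) + (α - 1) * (β - 1) := by noncomm_ring
  rw [h2, Matrix.mul_add, Matrix.mul_add, Matrix.add_mul, Matrix.add_mul]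
  abel

omit [Fintype F] in
theorem blk_star (P : Matrix (Fin n) (Fin m) F) (α : Matrix (Fin m) (Fin m) F) : (blk P α)ᴴ = blk P αᴴ := by
  simp only [blk_def, Matrix.conjTranspose_add, Matrix.conjTranspose_one, Matrix.conjTranspose_mul,
    Matrix.conjTranspose_conjTranspose, Matrix.conjTranspose_sub, Matrix.mul_assoc]

omit [Fintype F] in
theorem blk_unit {P : Matrix (Fin n) (Fin m) F} (hP : Pᴴ * P = 1) {α : Matrix (Fin m) (Fin m) F} (h : αᴴ * α = 1) :
    (blk P α)ᴴ * blk P α = 1 := by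
  rw [blk_star, blk_mul hP, h, blk_one]

omit [Fintype F] in
theorem blk_det {P : Matrix (Fin n) (Fin m) F} (hP : Pᴴ * P = 1) (α : Matrix (Fin m) (Fin m) F) :
    (blk P α).det = α.det := by
  rw [blk_def, Matrix.mul_assoc, Matrix.det_one_add_mul_comm, Matrix.mul_assoc, hP, Matrix.mul_one]
  congr 1
  abel

end Basic

end Cfsg.Agent.H189.TW
end

-- part: H189/TW/Fam
section
/-!
# S3694, T6: orthonormal families (helper189)

`OF P` : `P i` (`i < t`) are `n × m` matrices with `Pᵢᴴ Pⱼ = δᵢⱼ` and `∑ Pᵢ Pᵢᴴ = 1`; `pr P i = Pᵢ Pᵢᴴ`.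
* `exists_blk`, `exists_dg`, `exists_rot` : elements of `SU_n(q)` adapted to the decomposition.
-/

set_option autoImplicit false

namespace Cfsg.Agent.H189.TW

open Matrix Subgroup Cfsg Cfsg.Agent.H607.TW

section

variable {F : Type} [Field F] [StarRing F] {n m t : ℕ}

/-- an orthogonal decomposition of the space into `t` subspaces of dimension `m` with orthonormal bases -/
structure OF (P : Fin t → Matrix (Fin n) (Fin m) F) : Prop where
  self : ∀ i, (P i)ᴴ * P i = 1
  orth : ∀ i j, i ≠ j → (P i)ᴴ * P j = 0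
  sum : ∑ i, P i * (P i)ᴴ = 1

/-- the projections -/
def pr (P : Fin t → Matrix (Fin n) (Fin m) F) (i : Fin t) : Matrix (Fin n) (Fin n) F := P i * (P i)ᴴ

variable {P : Fin t → Matrix (Fin n) (Fin m) F}

theorem pr_def (i : Fin t) : pr P i = P i * (P i)ᴴ := rfl

theorem pr_star (i : Fin t) : (pr P i)ᴴ = pr P i := by
  rw [pr_def, Matrix.conjTranspose_mul, Matrix.conjTranspose_conjTranspose]

theorem OF.pr_P (h : OF P) (i : Fin t) : pr P i * P i = P i := by
  rw [pr_def, Matrix.mul_assoc, h.self, Matrix.mul_one]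

theorem OF.Ps_pr (h : OF P) (i : Fin t) : (P i)ᴴ * pr P i = (P i)ᴴ := by
  rw [pr_def, ← Matrix.mul_assoc, h.self, Matrix.one_mul]

theorem OF.pr_P_ne (h : OF P) {i j : Fin t} (hij : i ≠ j) : pr P i * P j = 0 := by
  rw [pr_def, Matrix.mul_assoc, h.orth _ _ hij, Matrix.mul_zero]

theorem OF.Ps_pr_ne (h : OF P) {i j : Fin t} (hij : i ≠ j) : (P i)ᴴ * pr P j = 0 := by
  rw [pr_def, ← Matrix.mul_assoc, h.orth _ _ hij, Matrix.zero_mul]

theorem OF.pr_mul_self (h : OF P) (i : Fin t) : pr P i * pr P i = pr P i := by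
  rw [pr_def, ← Matrix.mul_assoc, ← pr_def, h.pr_P]
  rfl

theorem OF.pr_mul_ne (h : OF P) {i j : Fin t} (hij : i ≠ j) : pr P i * pr P j = 0 := by
  rw [pr_def (i := j), ← Matrix.mul_assoc, h.pr_P_ne hij, Matrix.zero_mul]

theorem OF.sum_pr (h : OF P) : ∑ i, pr P i = 1 := h.sum

theorem OF.eq_sum (h : OF P) (x : Matrix (Fin n) (Fin n) F) : ∑ i, pr P i * x = x := by
  rw [← Finset.sum_mul, h.sum_pr, one_mul]

theorem OF.eq_sum' (h : OF P) (x : Matrix (Fin n) (Fin n) F) : ∑ i, x * pr P i = x := by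
  rw [← Finset.mul_sum, h.sum_pr, mul_one]

theorem OF.pr_ne_zero (h : OF P) (hm : 0 < m) (i : Fin t) : pr P i ≠ 0 := by
  intro h0
  have h1 : (P i)ᴴ * (pr P i * P i) = 1 := by rw [h.pr_P, h.self]
  rw [h0, Matrix.zero_mul, Matrix.mul_zero] at h1
  have h2 := congrFun (congrFun h1 ⟨0, hm⟩) ⟨0, hm⟩
  rw [Matrix.zero_apply, Matrix.one_apply_eq] at h2
  exact zero_ne_one h2

theorem OF.pr_inj (h : OF P) (hm : 0 < m) {i j : Fin t} (hij : pr P i = pr P j) : i = j := by
  by_contra hne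
  have h1 := h.pr_mul_ne hne
  rw [hij, h.pr_mul_self] at h1
  exact h.pr_ne_zero hm j h1

/-- the whole dimension -/
theorem OF.card (h : OF P) : n = t * m := by
  let U : Matrix (Fin n) (Fin t × Fin m) F := fun a x => P x.1 a x.2
  have h1 : U * Uᴴ = 1 := by
    rw [← h.sum]
    ext a b
    rw [Matrix.mul_apply, Fintype.sum_prod_type, Matrix.sum_apply]
    refine Finset.sum_congr rfl fun i _ => ?_
    rw [Matrix.mul_apply]
    rfl
  have h2 : Uᴴ * U = 1 := by
    ext ⟨i, b⟩ ⟨j, c⟩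
    have h3 : (Uᴴ * U) (i, b) (j, c) = ((P i)ᴴ * P j) b c := rfl
    rw [h3]
    by_cases hij : i = j
    · subst hij
      rw [h.self]
      by_cases hbc : b = c
      · subst hbc
        rw [Matrix.one_apply_eq, Matrix.one_apply_eq]
      · rw [Matrix.one_apply_ne hbc, Matrix.one_apply_ne]
        exact fun h4 => hbc (congrArg Prod.snd h4)
    · rw [h.orth _ _ hij, Matrix.zero_apply, Matrix.one_apply_ne]
      exact fun h4 => hij (congrArg Prod.fst h4)
  have h3 : Fintype.card (Fin n) ≤ Fintype.card (Fin t × Fin m) := by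
    have h5 : Function.Injective (Matrix.mulVecLin Uᴴ) := by
      intro x y hxy
      simp only [Matrix.mulVecLin_apply] at hxy
      have h6 := congrArg (fun z => U *ᵥ z) hxy
      simp only [Matrix.mulVec_mulVec, h1, Matrix.one_mulVec] at h6
      exact h6
    have h6 := LinearMap.finrank_le_finrank_of_injective h5
    simpa only [_root_.Fintype.card_fin, _root_.Fintype.card_prod, _root_.ge_iff_le, _root_.Module.finrank_fintype_fun_eq_card] using h6
  have h4 : Fintype.card (Fin t × Fin m) ≤ Fintype.card (Fin n) := by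
    have h5 : Function.Injective (Matrix.mulVecLin U) := by
      intro x y hxy
      simp only [Matrix.mulVecLin_apply] at hxy
      have h6 := congrArg (fun z => Uᴴ *ᵥ z) hxy
      simp only [Matrix.mulVec_mulVec, h2, Matrix.one_mulVec] at h6
      exact h6
    have h6 := LinearMap.finrank_le_finrank_of_injective h5
    simpa only [_root_.Fintype.card_prod, _root_.Fintype.card_fin, _root_.ge_iff_le, _root_.Module.finrank_fintype_fun_eq_card] using h6
  have h5 := le_antisymm h3 h4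
  simpa only [_root_.Fintype.card_fin, _root_.Fintype.card_prod] using h5

theorem blk_pr_ne (h : OF P) (α : Matrix (Fin m) (Fin m) F) {i j : Fin t} (hij : i ≠ j) :
    blk (P i) α * pr P j = pr P j := by
  rw [blk_def, add_mul, one_mul, Matrix.mul_assoc, h.Ps_pr_ne hij, Matrix.mul_zero, add_zero]

theorem pr_blk_ne (h : OF P) (α : Matrix (Fin m) (Fin m) F) {i j : Fin t} (hij : i ≠ j) :
    pr P j * blk (P i) α = pr P j := by
  rw [blk_def, mul_add, mul_one, ← Matrix.mul_assoc, ← Matrix.mul_assoc, h.pr_P_ne hij.symm, Matrix.zero_mul,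
    Matrix.zero_mul, add_zero]

theorem blk_pr (h : OF P) (α : Matrix (Fin m) (Fin m) F) (i : Fin t) :
    blk (P i) α * pr P i = P i * α * (P i)ᴴ := by
  rw [blk_def, add_mul, one_mul, Matrix.mul_assoc (P i * (α - 1)), h.Ps_pr, pr_def, Matrix.mul_sub, Matrix.mul_one,
    Matrix.sub_mul]
  abel

theorem pr_blk (h : OF P) (α : Matrix (Fin m) (Fin m) F) (i : Fin t) :
    pr P i * blk (P i) α = P i * α * (P i)ᴴ := by
  rw [blk_def, mul_add, mul_one, ← Matrix.mul_assoc, ← Matrix.mul_assoc, h.pr_P, pr_def, Matrix.mul_sub, Matrix.mul_one,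
    Matrix.sub_mul]
  abel

theorem blk_comm (h : OF P) (α : Matrix (Fin m) (Fin m) F) (i j : Fin t) :
    blk (P i) α * pr P j = pr P j * blk (P i) α := by
  by_cases hij : i = j
  · subst hij
    rw [blk_pr h, pr_blk h]
  · rw [blk_pr_ne h α hij, pr_blk_ne h α hij]

end

section

variable {F : Type} [Field F] [Fintype F] [StarRing F] {q n m t : ℕ} (hF : Fintype.card F = q ^ 2)
  (hs : ∀ x : F, star x = x ^ q) {P : Fin t → Matrix (Fin n) (Fin m) F}

include hF hs in
theorem exists_blk (h : OF P) (i : Fin t) {α : Matrix (Fin m) (Fin m) F} (h1 : αᴴ * α = 1) (h2 : α.det = 1) :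
    ∃ s : ↥(Cfsg.SU n F q), _root_.Cfsg.Agent.H607.TW.mt (iSU n F q) s = blk (P i) α :=
  exists_mt hF hs (blk_unit (h.self i) h1) (by rw [blk_det (h.self i), h2])

include hF hs in
theorem exists_dg (h : OF P) {i j : Fin t} (hij : i ≠ j) {a : F} (ha : a * a ^ q = 1) :
    ∃ s : ↥(Cfsg.SU n F q), _root_.Cfsg.Agent.H607.TW.mt (iSU n F q) s = 1 + (a - 1) • pr P i + (a⁻¹ - 1) • pr P j := by
  have ha0 : a ≠ 0 := by
    rintro rfl
    rw [zero_mul] at ha
    exact zero_ne_one ha
  have hu : ∀ b : F, b * b ^ q = 1 → ((b • (1 : Matrix (Fin m) (Fin m) F))ᴴ * (b • 1)) = 1 := by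
    intro b hb
    rw [Matrix.conjTranspose_smul, Matrix.conjTranspose_one, hs, smul_mul_smul_comm, mul_one, mul_comm, hb, one_smul]
  have ha' : a⁻¹ * a⁻¹ ^ q = 1 := by rw [inv_pow, ← mul_inv, ha, inv_one]
  have h1 : blk (P i) (a • 1) * blk (P j) (a⁻¹ • 1) = 1 + (a - 1) • pr P i + (a⁻¹ - 1) • pr P j := by
    have e1 : ∀ (b : F) (k : Fin t), blk (P k) (b • 1) = 1 + (b - 1) • pr P k := by
      intro b k
      rw [blk_def, pr_def]
      have : b • (1 : Matrix (Fin m) (Fin m) F) - 1 = (b - 1) • 1 := by rw [sub_smul, one_smul]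
      rw [this, Matrix.mul_smul, Matrix.mul_one, Matrix.smul_mul]
    rw [e1, e1, mul_add, mul_one, add_mul, one_mul, smul_mul_smul_comm, h.pr_mul_ne hij, smul_zero, add_zero]
  rw [← h1]
  apply exists_mt hF hs
  · rw [Matrix.conjTranspose_mul]
    have e1 := blk_unit (h.self i) (hu a ha)
    have e2 := blk_unit (h.self j) (hu _ ha')
    calc _ = (blk (P j) (a⁻¹ • 1))ᴴ * ((blk (P i) (a • 1))ᴴ * blk (P i) (a • 1)) * blk (P j) (a⁻¹ • 1) := by
          simp only [Matrix.mul_assoc]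
      _ = 1 := by rw [e1, Matrix.mul_one, e2]
  · rw [Matrix.det_mul, blk_det (h.self i), blk_det (h.self j), Matrix.det_smul, Matrix.det_smul, Matrix.det_one, mul_one,
      mul_one, ← mul_pow, mul_inv_cancel₀ ha0, one_pow]

/-- the rotation -/
def rot (P : Fin t → Matrix (Fin n) (Fin m) F) (i j : Fin t) : Matrix (Fin n) (Fin n) F :=
  1 - pr P i - pr P j + P i * (P j)ᴴ - P j * (P i)ᴴ

omit [Fintype F] in
theorem rot_P (h : OF P) {i j : Fin t} (hij : i ≠ j) : rot P i j * P i = - P j := by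
  rw [rot, Matrix.sub_mul, Matrix.add_mul, Matrix.sub_mul, Matrix.sub_mul, Matrix.one_mul, h.pr_P, h.pr_P_ne hij.symm,
    Matrix.mul_assoc, Matrix.mul_assoc, h.self, h.orth _ _ hij.symm, Matrix.mul_zero, Matrix.mul_one]
  abel

omit [Fintype F] in
theorem rot_P' (h : OF P) {i j : Fin t} (hij : i ≠ j) : rot P i j * P j = P i := by
  rw [rot, Matrix.sub_mul, Matrix.add_mul, Matrix.sub_mul, Matrix.sub_mul, Matrix.one_mul, h.pr_P, h.pr_P_ne hij,
    Matrix.mul_assoc, Matrix.mul_assoc, h.self, h.orth _ _ hij, Matrix.mul_zero, Matrix.mul_one]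
  abel

omit [Fintype F] in
theorem rot_P_ne (h : OF P) {i j k : Fin t} (hik : i ≠ k) (hjk : j ≠ k) : rot P i j * P k = P k := by
  rw [rot, Matrix.sub_mul, Matrix.add_mul, Matrix.sub_mul, Matrix.sub_mul, Matrix.one_mul, h.pr_P_ne hik, h.pr_P_ne hjk,
    Matrix.mul_assoc, Matrix.mul_assoc, h.orth _ _ hik, h.orth _ _ hjk, Matrix.mul_zero, Matrix.mul_zero]
  abel

omit [Fintype F] in
theorem rot_star (i j : Fin t) : (rot P i j)ᴴ = rot P j i := by
  rw [rot, rot, Matrix.conjTranspose_sub, Matrix.conjTranspose_add, Matrix.conjTranspose_sub, Matrix.conjTranspose_sub,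
    Matrix.conjTranspose_one, pr_star, pr_star, Matrix.conjTranspose_mul, Matrix.conjTranspose_mul,
    Matrix.conjTranspose_conjTranspose, Matrix.conjTranspose_conjTranspose]
  abel

omit [Fintype F] in
theorem ext_OF (h : OF P) {x y : Matrix (Fin n) (Fin n) F} (hxy : ∀ i, x * P i = y * P i) : x = y := by
  rw [← h.eq_sum' x, ← h.eq_sum' y]
  refine Finset.sum_congr rfl fun i _ => ?_
  rw [pr_def, ← Matrix.mul_assoc, ← Matrix.mul_assoc, hxy]

omit [Fintype F] in
theorem rot_mul_rot (h : OF P) {i j : Fin t} (hij : i ≠ j) : rot P j i * rot P i j = 1 := by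
  apply ext_OF h
  intro k
  rw [Matrix.one_mul, Matrix.mul_assoc]
  by_cases hki : i = k
  · subst hki
    rw [rot_P h hij, Matrix.mul_neg, rot_P h hij.symm, neg_neg]
  · by_cases hkj : j = k
    · subst hkj
      rw [rot_P' h hij, rot_P' h hij.symm]
    · rw [rot_P_ne h hki hkj, rot_P_ne h hkj hki]

theorem rot_det (h : OF P) (hn : 0 < n) {i j : Fin t} (hij : i ≠ j) : (rot P i j).det = 1 := by
  set c : Matrix (Fin n) (Fin n) F := P i * (P j)ᴴ with hc
  set d : Matrix (Fin n) (Fin n) F := P j * (P i)ᴴ with hd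
  have hcc : c * c = 0 := by
    rw [hc]
    calc _ = P i * ((P j)ᴴ * P i) * (P j)ᴴ := by simp only [Matrix.mul_assoc]
      _ = 0 := by rw [h.orth _ _ hij.symm, Matrix.mul_zero, Matrix.zero_mul]
  have hdd : d * d = 0 := by
    rw [hd]
    calc _ = P j * ((P i)ᴴ * P j) * (P i)ᴴ := by simp only [Matrix.mul_assoc]
      _ = 0 := by rw [h.orth _ _ hij, Matrix.mul_zero, Matrix.zero_mul]
  have hcd : c * d = pr P i := by
    rw [hc, hd, pr_def]
    calc _ = P i * ((P j)ᴴ * P j) * (P i)ᴴ := by simp only [Matrix.mul_assoc]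
      _ = _ := by rw [h.self, Matrix.mul_one]
  have hdc : d * c = pr P j := by
    rw [hc, hd, pr_def]
    calc _ = P j * ((P i)ᴴ * P i) * (P j)ᴴ := by simp only [Matrix.mul_assoc]
      _ = _ := by rw [h.self, Matrix.mul_one]
  have hcdc : pr P i * c = c := by rw [hc, ← Matrix.mul_assoc, h.pr_P]
  have e : rot P i j = (1 + c) * (1 + -d) * (1 + c) := by
    have e1 : (1 + c) * (1 + -d) * (1 + c) = 1 + c + c - d + c * c - d * c - c * d - c * d * c := by noncomm_ring
    rw [e1, hcc, hdc, hcd, hcdc, rot]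
    abel
  have hdet : ∀ z : Matrix (Fin n) (Fin n) F, z * z = 0 → (1 + z).det = 1 := by
    intro z hz
    exact Cfsg.Agent.H748.TW.det_one_add hn ⟨2, by rw [pow_two, hz]⟩
  rw [e, Matrix.det_mul, Matrix.det_mul, hdet c hcc, hdet (-d) (by rw [neg_mul_neg, hdd]), one_mul, one_mul]

include hF hs in
theorem exists_rot (h : OF P) (hn : 0 < n) {i j : Fin t} (hij : i ≠ j) :
    ∃ s : ↥(Cfsg.SU n F q), _root_.Cfsg.Agent.H607.TW.mt (iSU n F q) s = rot P i j :=
  exists_mt hF hs (by rw [rot_star, rot_mul_rot h hij]) (rot_det h hn hij)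

end

end Cfsg.Agent.H189.TW
end

-- part: H189/TW/Lift
section
/-!
# S3694, T6: the action of `G` on the matrix ring (helper189)

`Lf N π T` : `T : G →* Aut (M_n(F))` is the homomorphism given by the lifts; it commutes with the adjoint, and all the `Ind` are
`T g` or `T g` after the adjoint.
* `exists_Lf` : existence.
-/

set_option autoImplicit false

namespace Cfsg.Agent.H189.TW

open Matrix Subgroup Cfsg Cfsg.Agent.H607.TW
open Cfsg.Agent.H296.TW (tauP_mul tauM_mul not_mul_and_anti ind_tauP ind_tauM lift_su st_st)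
open Cfsg.Agent.LieClassical.HermBasic (q_pos)
open scoped commutatorElement
open Cfsg.Agent.H748.TW (mt_mul mt_one mt_inj mt_mul_inv mt_inv_mul)

universe u

/-- The lifts of the elements of `G` form an action on the matrix ring with involution. -/
structure Lf {G : Type u} [Group G] {F : Type} [Field F] [StarRing F] {n q : ℕ} (π : ↥(Cfsg.SU n F q) →* G)
    (T : G →* RingAut (Matrix (Fin n) (Fin n) F)) : Prop where
  str : ∀ g x, T g xᴴ = (T g x)ᴴ
  pi : ∀ s x, T (π s) x = _root_.Cfsg.Agent.H607.TW.mt (iSU n F q) s * x * _root_.Cfsg.Agent.H607.TW.mt (iSU n F q) s⁻¹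
  ind : ∀ g τ, Ind (iSU n F q) π g τ → (∀ x, τ x = T g x) ∨ (∀ x, τ x = T g xᴴ)
  self : ∀ g, ∃ τ, Ind (iSU n F q) π g τ ∧ ∀ x, τ x = T g x
  semi : ∀ g, ∃ (B : Matrix.GeneralLinearGroup (Fin n) F) (σ : F ≃+* F), ∀ x, T g x =
    (B : Matrix (Fin n) (Fin n) F) * x.map σ * ((B⁻¹ : Matrix.GeneralLinearGroup (Fin n) F) : Matrix (Fin n) (Fin n) F)
  faithful : ∀ g, (∀ x, T g x = x) → g = 1
  conj : ∀ g s, ∃ s', _root_.Cfsg.Agent.H607.TW.mt (iSU n F q) s' = T g (_root_.Cfsg.Agent.H607.TW.mt (iSU n F q) s) ∧ π s' = g * π s * g⁻¹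

section

variable {G : Type u} [Group G] {F : Type} [Field F] [Fintype F] [StarRing F] {q n : ℕ} (hF : Fintype.card F = q ^ 2)
  (hs : ∀ x : F, star x = x ^ q) {N : Subgroup G} {π : ↥(Cfsg.SU n F q) →* G}

/-- the standard family -/
def Pe (n : ℕ) (F : Type) [Field F] (i : Fin n) : Matrix (Fin n) (Fin 1) F := fun a _ => if a = i then 1 else 0

omit [Fintype F] in
theorem Pe_OF : OF (Pe n F) := by
  refine ⟨fun i => ?_, fun i j hij => ?_, ?_⟩
  · ext a b
    rw [Matrix.mul_apply, Finset.sum_eq_single i]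
    · have : a = b := Subsingleton.elim _ _
      subst this
      simp [Pe, Matrix.conjTranspose_apply]
    · intro c _ hc
      simp [Pe, hc]
    · simp only [_root_.Finset.mem_univ, _root_.not_true_eq_false, _root_.Matrix.conjTranspose_apply, _root_.mul_eq_zero, _root_.star_eq_zero, _root_.IsEmpty.forall_iff]
  · ext a b
    rw [Matrix.mul_apply, Matrix.zero_apply]
    refine Finset.sum_eq_zero fun c _ => ?_
    by_cases hc : c = j
    · subst hc
      simp [Pe, Matrix.conjTranspose_apply, hij.symm]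
    · simp only [Pe, hc, _root_.Matrix.conjTranspose_apply, _root_.Cfsg.Agent.H189.TW.Pe, ↓ _root_.reduceIte, _root_.MulZeroClass.mul_zero]
  · ext a b
    rw [Matrix.sum_apply]
    by_cases hab : a = b
    · subst hab
      rw [Matrix.one_apply_eq, Finset.sum_eq_single a]
      · simp [Pe, Matrix.mul_apply, Matrix.conjTranspose_apply]
      · intro c _ hc
        simp [Pe, Matrix.mul_apply, hc.symm]
      · simp only [_root_.Finset.mem_univ, _root_.not_true_eq_false, _root_.IsEmpty.forall_iff]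
    · rw [Matrix.one_apply_ne hab]
      refine Finset.sum_eq_zero fun c _ => ?_
      by_cases hc : a = c
      · subst hc
        simp [Pe, Matrix.mul_apply, Matrix.conjTranspose_apply, Ne.symm hab]
      · simp only [Pe, Matrix.mul_apply, hc, _root_.Matrix.mul_apply, _root_.Finset.univ_unique, _root_.Fin.default_eq_zero, _root_.Fin.isValue, _root_.Cfsg.Agent.H189.TW.Pe, ↓ _root_.reduceIte, _root_.Matrix.conjTranspose_apply, _root_.MulZeroClass.zero_mul, _root_.Finset.sum_const_zero]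

omit [Fintype F] [StarRing F] in
theorem span_ind {V : Submodule F (Matrix (Fin n) (Fin n) F)} (hsp : Submodule.span F (Set.range (_root_.Cfsg.Agent.H607.TW.mt (iSU n F q))) = ⊤)
    (h : ∀ s, _root_.Cfsg.Agent.H607.TW.mt (iSU n F q) s ∈ V) (x : Matrix (Fin n) (Fin n) F) : x ∈ V := by
  have h1 : Submodule.span F (Set.range (_root_.Cfsg.Agent.H607.TW.mt (iSU n F q))) ≤ V := by
    rw [Submodule.span_le]
    rintro _ ⟨s, rfl⟩
    exact h s
  rw [hsp] at h1
  exact h1 Submodule.mem_top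

omit [Fintype F] [StarRing F] in
theorem scalar_of (hn : 0 < n) {H : Matrix (Fin n) (Fin n) F} (h : ∀ x, H * x = x * H) :
    H = H ⟨0, hn⟩ ⟨0, hn⟩ • (1 : Matrix (Fin n) (Fin n) F) := by
  have h2 : H ∈ Set.range (Matrix.scalar (Fin n)) := by
    rw [Matrix.mem_range_scalar_iff_commute_single]
    intro i j _
    exact (h _).symm
  obtain ⟨c, hc⟩ := h2
  rw [← hc, Matrix.scalar_apply, Matrix.diagonal_apply_eq, Matrix.smul_one_eq_diagonal]

omit [Fintype F] [StarRing F] in
/-- automorphisms of the matrix ring are semilinear -/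
theorem semi (hn : 0 < n) (ρ : RingAut (Matrix (Fin n) (Fin n) F)) :
    ∃ σ : F →+* F, ∀ (c : F) (x : Matrix (Fin n) (Fin n) F), ρ (c • x) = σ c • ρ x := by
  let i0 : Fin n := ⟨0, hn⟩
  let σ0 : F → F := fun c => ρ (c • (1 : Matrix (Fin n) (Fin n) F)) i0 i0
  have hσ : ∀ c : F, ρ (c • (1 : Matrix (Fin n) (Fin n) F)) = σ0 c • (1 : Matrix (Fin n) (Fin n) F) := by
    intro c
    apply scalar_of hn
    intro y
    obtain ⟨z, rfl⟩ := ρ.surjective y
    rw [← map_mul, ← map_mul, smul_mul_assoc, one_mul, mul_smul_comm, mul_one]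
  have hs1 : ∀ c d : F, c • (1 : Matrix (Fin n) (Fin n) F) = d • (1 : Matrix (Fin n) (Fin n) F) → c = d := by
    intro c d hcd
    have := congrFun (congrFun hcd i0) i0
    simpa using this
  refine ⟨{ toFun := σ0, map_one' := ?_, map_mul' := ?_, map_zero' := ?_, map_add' := ?_ }, fun c x => ?_⟩
  · apply hs1
    rw [← hσ, one_smul, map_one]
  · intro c d
    apply hs1
    rw [← hσ]
    have e1 : (c * d) • (1 : Matrix (Fin n) (Fin n) F) = (c • 1) * (d • 1) := by
      rw [smul_mul_smul_comm, mul_one]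
    rw [e1, map_mul, hσ, hσ, smul_mul_smul_comm, mul_one]
  · apply hs1
    change σ0 0 • (1 : Matrix (Fin n) (Fin n) F) = _
    rw [← hσ, zero_smul, map_zero]
  · intro c d
    apply hs1
    change σ0 (c + d) • (1 : Matrix (Fin n) (Fin n) F) = _
    rw [← hσ, add_smul, map_add, hσ, hσ, ← add_smul]
  · change _ = σ0 c • ρ x
    have e1 : c • x = (c • 1) * x := by rw [smul_mul_assoc, one_mul]
    rw [e1, map_mul, hσ, smul_mul_assoc, one_mul]

include hF hs in
/-- an automorphism of the matrix ring fixing the elements of `SU_n(q)` is trivial -/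
theorem fix_all (hn : 3 ≤ n) (hsp : Submodule.span F (Set.range (_root_.Cfsg.Agent.H607.TW.mt (iSU n F q))) = ⊤)
    (ρ : RingAut (Matrix (Fin n) (Fin n) F)) (h : ∀ s, ρ (_root_.Cfsg.Agent.H607.TW.mt (iSU n F q) s) = _root_.Cfsg.Agent.H607.TW.mt (iSU n F q) s)
    (x : Matrix (Fin n) (Fin n) F) : ρ x = x := by
  classical
  have hn0 : 0 < n := by omega
  let i0 : Fin n := ⟨0, hn0⟩
  let i1 : Fin n := ⟨1, by omega⟩
  let i2 : Fin n := ⟨2, by omega⟩
  have h01 : i0 ≠ i1 := by simp [i0, i1]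
  have h02 : i0 ≠ i2 := by simp [i0, i2]
  have h12 : i1 ≠ i2 := by simp [i1, i2]
  obtain ⟨σ, hσ⟩ := semi hn0 ρ
  set D : Matrix (Fin n) (Fin n) F := pr (Pe n F) i1 - pr (Pe n F) i2 with hD
  have hD0 : D ≠ 0 := by
    intro h0
    have h1 : pr (Pe n F) i1 * D = 0 := by rw [h0, mul_zero]
    rw [hD, mul_sub, Pe_OF.pr_mul_self, Pe_OF.pr_mul_ne h12, sub_zero] at h1
    exact Pe_OF.pr_ne_zero one_pos i1 h1
  have hfix : ∀ a : F, a * a ^ q = 1 → ρ ((a⁻¹ - 1) • D) = (a⁻¹ - 1) • D := by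
    intro a ha
    obtain ⟨s, hs1⟩ := exists_dg hF hs (Pe_OF (n := n) (F := F)) h01 ha
    obtain ⟨t, ht1⟩ := exists_dg hF hs (Pe_OF (n := n) (F := F)) h02 ha
    have e1 : (a⁻¹ - 1) • D = _root_.Cfsg.Agent.H607.TW.mt (iSU n F q) s - _root_.Cfsg.Agent.H607.TW.mt (iSU n F q) t := by
      rw [hs1, ht1, hD, smul_sub]
      abel
    rw [e1, map_sub, h, h]
  obtain ⟨β, hβ, hβ1⟩ : ∃ β : F, β * β ^ q = 1 ∧ β ≠ 1 := by
    by_contra hcon
    push Not at hcon
    have h1 : nrm F q ⊆ {1} := by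
      intro a ha
      rw [Finset.mem_singleton]
      exact hcon a (mem_nrm.1 ha)
    have h2 := Finset.card_le_card h1
    rw [card_nrm hF, Finset.card_singleton] at h2
    have := q_pos hF
    omega
  have hβ2 : β⁻¹ - 1 ≠ 0 := by
    intro h0
    apply hβ1
    rw [sub_eq_zero, inv_eq_one] at h0
    exact h0
  have hβ3 : σ (β⁻¹ - 1) ≠ 0 := by
    rw [map_ne_zero]
    exact hβ2
  have hρD : ρ D = ((β⁻¹ - 1) / σ (β⁻¹ - 1)) • D := by
    have h1 := hfix β hβ
    rw [hσ] at h1
    rw [div_eq_inv_mul, mul_smul, ← h1, smul_smul, inv_mul_cancel₀ hβ3, one_smul]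
  have hσ2 : ∀ b : F, b * b ^ q = 1 → σ ((b⁻¹ - 1) / (β⁻¹ - 1)) = (b⁻¹ - 1) / (β⁻¹ - 1) := by
    intro b hb
    have h1 := hfix b hb
    rw [hσ, hρD, smul_smul, ← sub_eq_zero, ← sub_smul, smul_eq_zero] at h1
    have h2 := (sub_eq_zero.1 (h1.resolve_right hD0))
    rw [← mul_div_assoc, div_eq_iff hβ3] at h2
    rw [map_div₀, div_eq_div_iff hβ3 hβ2, h2]
  have hσ3 : ∀ c, σ c = c := by
    apply fix_of_many hF σ ((nrm F q).image fun b => (b⁻¹ - 1) / (β⁻¹ - 1))
    · rw [Finset.card_image_of_injective, card_nrm hF]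
      · omega
      · intro a b hab
        simp only at hab
        rw [div_left_inj' hβ2, sub_left_inj, _root_.inv_inj] at hab
        exact hab
    · intro a ha
      obtain ⟨b, hb, rfl⟩ := Finset.mem_image.1 ha
      exact hσ2 b (mem_nrm.1 hb)
  let V : Submodule F (Matrix (Fin n) (Fin n) F) :=
    { carrier := {y | ρ y = y}
      add_mem' := by
        intro a b ha hb
        change ρ (a + b) = a + b
        rw [map_add]
        exact congrArg₂ _ ha hb
      zero_mem' := map_zero ρ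
      smul_mem' := by
        intro c a ha
        change ρ (c • a) = c • a
        rw [hσ, hσ3]
        exact congrArg _ ha }
  exact span_ind (V := V) hsp (fun s => h s) x

include hF hs in
/-- the multiplicative lift is unique -/
theorem uniq (hn : 3 ≤ n) (hM : Model N (iSU n F q) π) {g : G} {τ τ' : RingAut (Matrix (Fin n) (Fin n) F)}
    (h : ∀ s, ∃ s', _root_.Cfsg.Agent.H607.TW.mt (iSU n F q) s' = τ (_root_.Cfsg.Agent.H607.TW.mt (iSU n F q) s) ∧ π s' = g * π s * g⁻¹)
    (h' : ∀ s, ∃ s', _root_.Cfsg.Agent.H607.TW.mt (iSU n F q) s' = τ' (_root_.Cfsg.Agent.H607.TW.mt (iSU n F q) s) ∧ π s' = g * π s * g⁻¹) (x : Matrix (Fin n) (Fin n) F) :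
    τ x = τ' x := by
  have key : ∀ s, ∃ c : F, τ (_root_.Cfsg.Agent.H607.TW.mt (iSU n F q) s) = c • τ' (_root_.Cfsg.Agent.H607.TW.mt (iSU n F q) s) := by
    intro s
    obtain ⟨s1, h1, h2⟩ := h s
    obtain ⟨s2, h3, h4⟩ := h' s
    have h5 : π (s1 * s2⁻¹) = 1 := by rw [map_mul, map_inv, h2, h4, mul_inv_cancel]
    obtain ⟨c, hc⟩ := (hM.ker _).1 h5
    refine ⟨c, ?_⟩
    have h6 : s1 = s1 * s2⁻¹ * s2 := by group
    rw [← h1, ← h3, h6, mt_mul, hc, smul_mul_assoc, one_mul]
  let f : ↥(Cfsg.SU n F q) →* (Matrix (Fin n) (Fin n) F)ˣ :=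
    (Units.map (τ : Matrix (Fin n) (Fin n) F →* Matrix (Fin n) (Fin n) F)).comp (iSU n F q)
  let f' : ↥(Cfsg.SU n F q) →* (Matrix (Fin n) (Fin n) F)ˣ :=
    (Units.map (τ' : Matrix (Fin n) (Fin n) F →* Matrix (Fin n) (Fin n) F)).comp (iSU n F q)
  have hf : ∀ s, (f s : Matrix (Fin n) (Fin n) F) = τ (_root_.Cfsg.Agent.H607.TW.mt (iSU n F q) s) := fun s => rfl
  have hf' : ∀ s, (f' s : Matrix (Fin n) (Fin n) F) = τ' (_root_.Cfsg.Agent.H607.TW.mt (iSU n F q) s) := fun s => rfl
  have hinv : ∀ s, ∀ c d : F, τ (_root_.Cfsg.Agent.H607.TW.mt (iSU n F q) s) = c • τ' (_root_.Cfsg.Agent.H607.TW.mt (iSU n F q) s) →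
      τ (_root_.Cfsg.Agent.H607.TW.mt (iSU n F q) s⁻¹) = d • τ' (_root_.Cfsg.Agent.H607.TW.mt (iSU n F q) s⁻¹) → (c * d) • (1 : Matrix (Fin n) (Fin n) F) = 1 := by
    intro s c d hc hd
    have h1 : τ (_root_.Cfsg.Agent.H607.TW.mt (iSU n F q) s) * τ (_root_.Cfsg.Agent.H607.TW.mt (iSU n F q) s⁻¹) = 1 := by rw [← map_mul, mt_mul_inv, map_one]
    have h2 : τ' (_root_.Cfsg.Agent.H607.TW.mt (iSU n F q) s) * τ' (_root_.Cfsg.Agent.H607.TW.mt (iSU n F q) s⁻¹) = 1 := by rw [← map_mul, mt_mul_inv, map_one]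
    rw [hc, hd, smul_mul_smul_comm, h2] at h1
    exact h1
  have hW : _root_.commutator ↥(Cfsg.SU n F q) ≤ f.eqLocus f' := by
    rw [commutator_def, Subgroup.commutator_le]
    intro s _ t _
    change f ⁅s, t⁆ = f' ⁅s, t⁆
    apply Units.ext
    rw [hf, hf', commutatorElement_def, mt_mul, mt_mul, mt_mul]
    simp only [map_mul]
    obtain ⟨c, hc⟩ := key s
    obtain ⟨c', hc'⟩ := key s⁻¹
    obtain ⟨d, hd⟩ := key t
    obtain ⟨d', hd'⟩ := key t⁻¹
    have e1 := hinv s c c' hc hc'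
    have e2 := hinv t d d' hd hd'
    rw [hc, hc', hd, hd']
    simp only [smul_mul_assoc, mul_smul_comm, smul_smul]
    generalize τ' (_root_.Cfsg.Agent.H607.TW.mt (iSU n F q) s) * τ' (_root_.Cfsg.Agent.H607.TW.mt (iSU n F q) t) * τ' (_root_.Cfsg.Agent.H607.TW.mt (iSU n F q) s⁻¹) * τ' (_root_.Cfsg.Agent.H607.TW.mt (iSU n F q) t⁻¹) = z
    calc _ = ((c * c') • (1 : Matrix (Fin n) (Fin n) F)) * (((d * d') • (1 : Matrix (Fin n) (Fin n) F)) * z) := by
          rw [smul_mul_assoc, one_mul, smul_mul_assoc, one_mul, smul_smul]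
          congr 1
          ring
      _ = z := by rw [e1, e2, one_mul, one_mul]
  have hW2 : ∀ s, τ (_root_.Cfsg.Agent.H607.TW.mt (iSU n F q) s) = τ' (_root_.Cfsg.Agent.H607.TW.mt (iSU n F q) s) := by
    intro s
    have h1 : s ∈ f.eqLocus f' := hW (by rw [hM.perfect]; trivial)
    have h2 : f s = f' s := h1
    have h3 := congrArg Units.val h2
    rw [hf, hf'] at h3
    exact h3
  have h3 : (τ'⁻¹ * τ) x = x := by
    refine fix_all hF hs hn hM.span (τ'⁻¹ * τ) (fun s => ?_) x
    rw [RingAut.mul_apply, hW2, ← RingAut.mul_apply, inv_mul_cancel, RingAut.one_apply]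
  rw [RingAut.mul_apply] at h3
  have h4 := congrArg τ' h3
  rw [← RingAut.mul_apply, mul_inv_cancel, RingAut.one_apply] at h4
  exact h4

/-- conjugation by an element of `SU_n(q)` -/
def cj (s : ↥(Cfsg.SU n F q)) : RingAut (Matrix (Fin n) (Fin n) F) where
  toFun x := _root_.Cfsg.Agent.H607.TW.mt (iSU n F q) s * x * _root_.Cfsg.Agent.H607.TW.mt (iSU n F q) s⁻¹
  invFun x := _root_.Cfsg.Agent.H607.TW.mt (iSU n F q) s⁻¹ * x * _root_.Cfsg.Agent.H607.TW.mt (iSU n F q) s
  left_inv x := by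
    calc _ = (_root_.Cfsg.Agent.H607.TW.mt (iSU n F q) s⁻¹ * _root_.Cfsg.Agent.H607.TW.mt (iSU n F q) s) * x * (_root_.Cfsg.Agent.H607.TW.mt (iSU n F q) s⁻¹ * _root_.Cfsg.Agent.H607.TW.mt (iSU n F q) s) := by
          simp only [mul_assoc]
      _ = x := by rw [mt_inv_mul, one_mul, mul_one]
  right_inv x := by
    calc _ = (_root_.Cfsg.Agent.H607.TW.mt (iSU n F q) s * _root_.Cfsg.Agent.H607.TW.mt (iSU n F q) s⁻¹) * x * (_root_.Cfsg.Agent.H607.TW.mt (iSU n F q) s * _root_.Cfsg.Agent.H607.TW.mt (iSU n F q) s⁻¹) := by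
          simp only [mul_assoc]
      _ = x := by rw [mt_mul_inv, one_mul, mul_one]
  map_mul' x y := by
    calc _ = _root_.Cfsg.Agent.H607.TW.mt (iSU n F q) s * x * 1 * y * _root_.Cfsg.Agent.H607.TW.mt (iSU n F q) s⁻¹ := by simp only [mul_assoc, one_mul]
      _ = _ := by rw [← mt_inv_mul (ι := iSU n F q) s]; simp only [mul_assoc]
  map_add' x y := by rw [mul_add, add_mul]

include hF hs in
/-- **the action of `G` on the matrix ring** -/
theorem exists_Lf (hn : 3 ≤ n) (hM : Model N (iSU n F q) π) (hc : centralizer (N : Set G) = ⊥) :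
    ∃ T : G →* RingAut (Matrix (Fin n) (Fin n) F), Lf π T := by
  have hn2 : 2 ≤ n := by omega
  choose B σ hB hind using fun g => lift_su hF hn hM g
  let T0 : G → RingAut (Matrix (Fin n) (Fin n) F) := fun g => { tauP (B g) (σ g) with map_mul' := tauP_mul (B g) (σ g) }
  have hT0 : ∀ g x, T0 g x = tauP (B g) (σ g) x := fun g x => rfl
  have hT1 : ∀ g s, ∃ s', _root_.Cfsg.Agent.H607.TW.mt (iSU n F q) s' = T0 g (_root_.Cfsg.Agent.H607.TW.mt (iSU n F q) s) ∧ π s' = g * π s * g⁻¹ := fun g s =>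
    (ind_tauP hn2).1 (hind g) s
  let T : G →* RingAut (Matrix (Fin n) (Fin n) F) := MonoidHom.mk' T0 (by
    intro g h
    apply RingEquiv.ext
    intro x
    refine uniq hF hs hn hM (g := g * h) (hT1 (g * h)) (fun s => ?_) x
    obtain ⟨s1, h1, h2⟩ := hT1 h s
    obtain ⟨s2, h3, h4⟩ := hT1 g s1
    refine ⟨s2, ?_, ?_⟩
    · rw [h3, h1, RingAut.mul_apply]
    · rw [h4, h2]
      group)
  have hT : ∀ g, T g = T0 g := fun g => rfl
  have hstr : ∀ g x, T g xᴴ = (T g x)ᴴ := by
    intro g x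
    rw [hT, hT0, hT0, tauP_apply, tauP_apply]
    have h1 : (B g : Matrix (Fin n) (Fin n) F)ᴴ * (B g : Matrix (Fin n) (Fin n) F) = 1 := by
      rw [← st_eq hF hs]
      exact (Cfsg.Agent.H296.TW.mem_GU_iff_st hF _).1 (hB g)
    have h2 : (((B g)⁻¹ : Matrix.GeneralLinearGroup (Fin n) F) : Matrix (Fin n) (Fin n) F) =
        (B g : Matrix (Fin n) (Fin n) F)ᴴ := by
      have h3 := Cfsg.Agent.H296.TW.GL_mul_inv (B g)
      calc _ = ((B g : Matrix (Fin n) (Fin n) F)ᴴ * (B g : Matrix (Fin n) (Fin n) F)) *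
            (((B g)⁻¹ : Matrix.GeneralLinearGroup (Fin n) F) : Matrix (Fin n) (Fin n) F) := by rw [h1, one_mul]
        _ = _ := by rw [mul_assoc, h3, mul_one]
    have h3 : (x.map (σ g))ᴴ = xᴴ.map (σ g) := by
      ext i j
      rw [Matrix.conjTranspose_apply, Matrix.map_apply, Matrix.map_apply, Matrix.conjTranspose_apply, hs, hs, map_pow]
    rw [h2, Matrix.conjTranspose_mul, Matrix.conjTranspose_mul, Matrix.conjTranspose_conjTranspose, h3, Matrix.mul_assoc]
  refine ⟨T, ⟨hstr, ?_, ?_, ?_, ?_, ?_, ?_⟩⟩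
  · intro s x
    refine uniq hF hs hn hM (g := π s) (τ := T (π s)) (τ' := cj s) (hT1 (π s)) (fun s' => ?_) x
    refine ⟨s * s' * s⁻¹, ?_, ?_⟩
    · rw [mt_mul, mt_mul]
      rfl
    · rw [map_mul, map_mul, map_inv]
  · rintro g τ (⟨h1, h2⟩ | ⟨h1, h2⟩)
    · left
      intro x
      let τ' : RingAut (Matrix (Fin n) (Fin n) F) := { τ with map_mul' := h1 }
      exact uniq hF hs hn hM (g := g) (τ := τ') (τ' := T g) h2 (hT1 g) x
    · right
      intro x
      let τ' : RingAut (Matrix (Fin n) (Fin n) F) :=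
        { toFun := fun x => τ xᴴ
          invFun := fun x => (τ.symm x)ᴴ
          left_inv := fun x => by
            change (τ.symm (τ xᴴ))ᴴ = x
            rw [AddEquiv.symm_apply_apply, Matrix.conjTranspose_conjTranspose]
          right_inv := fun x => by
            change τ ((τ.symm x)ᴴ)ᴴ = x
            rw [Matrix.conjTranspose_conjTranspose, AddEquiv.apply_symm_apply]
          map_mul' := fun x y => by
            change τ (x * y)ᴴ = τ xᴴ * τ yᴴ
            rw [Matrix.conjTranspose_mul, h1]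
          map_add' := fun x y => by
            change τ (x + y)ᴴ = τ xᴴ + τ yᴴ
            rw [Matrix.conjTranspose_add, map_add] }
      have h3 : ∀ x, τ' x = τ xᴴ := fun x => rfl
      have h4 := uniq hF hs hn hM (g := g) (τ := τ') (τ' := T g) (fun s => by
        obtain ⟨s', h5, h6⟩ := h2 s⁻¹
        refine ⟨s', ?_, ?_⟩
        · rw [h3, h5, mt_star hF hs]
        · rw [← _root_.inv_inj, h6, map_inv]
          group) (hT1 g) xᴴ
      rw [h3, Matrix.conjTranspose_conjTranspose] at h4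
      exact h4
  · intro g
    exact ⟨_, hind g, fun x => rfl⟩
  · intro g
    exact ⟨B g, σ g, fun x => rfl⟩
  · intro g hg
    have h1 : g ∈ centralizer (N : Set G) := by
      rw [Subgroup.mem_centralizer_iff]
      intro y hy
      rw [← hM.range] at hy
      obtain ⟨s, rfl⟩ := hy
      obtain ⟨s', h2, h3⟩ := hT1 g s
      rw [← hT, hg] at h2
      have h4 := mt_inj hM.inj h2
      rw [h4] at h3
      calc π s * g = g * π s * g⁻¹ * g := by rw [← h3]
        _ = g * π s := by group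
    rw [hc, Subgroup.mem_bot] at h1
    exact h1
  · exact hT1

end

end Cfsg.Agent.H189.TW
end

-- part: H189/TW/Rk
section
/-!
# S3694, T6: ranks of idempotents (helper189)

`Rk e m` : the idempotent `e` has rank `m`.
* `exists_rk`, `Rk.unique`, `Rk.add`, `Rk.map`;
* `Rk.on` : a self-adjoint idempotent is `P Pᴴ` with `Pᴴ P = 1`.
-/

set_option autoImplicit false

namespace Cfsg.Agent.H189.TW

open Matrix Subgroup Cfsg Cfsg.Agent.H607.TW

universe u

section

variable {F : Type} [Field F] {n m k : ℕ}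

/-- the idempotent `e` has rank `m` -/
def Rk (e : Matrix (Fin n) (Fin n) F) (m : ℕ) : Prop :=
  ∃ (P : Matrix (Fin n) (Fin m) F) (Q : Matrix (Fin m) (Fin n) F), P * Q = e ∧ Q * P = 1

theorem eq_of_inv {P : Matrix (Fin m) (Fin k) F} {Q : Matrix (Fin k) (Fin m) F} (h1 : P * Q = 1) (h2 : Q * P = 1) :
    m = k := by
  have h3 : m ≤ k := by
    have h5 : Function.Injective (Matrix.mulVecLin Q) := by
      intro x y hxy
      simp only [Matrix.mulVecLin_apply] at hxy
      have h6 := congrArg (fun z => P *ᵥ z) hxy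
      simp only [Matrix.mulVec_mulVec, h1, Matrix.one_mulVec] at h6
      exact h6
    have h6 := LinearMap.finrank_le_finrank_of_injective h5
    simpa only [_root_.ge_iff_le, _root_.Module.finrank_fintype_fun_eq_card, _root_.Fintype.card_fin] using h6
  have h4 : k ≤ m := by
    have h5 : Function.Injective (Matrix.mulVecLin P) := by
      intro x y hxy
      simp only [Matrix.mulVecLin_apply] at hxy
      have h6 := congrArg (fun z => Q *ᵥ z) hxy
      simp only [Matrix.mulVec_mulVec, h2, Matrix.one_mulVec] at h6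
      exact h6
    have h6 := LinearMap.finrank_le_finrank_of_injective h5
    simpa only [_root_.ge_iff_le, _root_.Module.finrank_fintype_fun_eq_card, _root_.Fintype.card_fin] using h6
  exact le_antisymm h3 h4

theorem Rk.unique {e : Matrix (Fin n) (Fin n) F} (h1 : Rk e m) (h2 : Rk e k) : m = k := by
  obtain ⟨P, Q, h3, h4⟩ := h1
  obtain ⟨P', Q', h5, h6⟩ := h2
  have e1 : (Q * P') * (Q' * P) = 1 := by
    calc _ = Q * (P' * Q') * P := by simp only [Matrix.mul_assoc]
      _ = (Q * P) * (Q * P) := by rw [h5, ← h3]; simp only [Matrix.mul_assoc]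
      _ = 1 := by rw [h4, Matrix.one_mul]
  have e2 : (Q' * P) * (Q * P') = 1 := by
    calc _ = Q' * (P * Q) * P' := by simp only [Matrix.mul_assoc]
      _ = (Q' * P') * (Q' * P') := by rw [h3, ← h5]; simp only [Matrix.mul_assoc]
      _ = 1 := by rw [h6, Matrix.one_mul]
  exact eq_of_inv e1 e2

theorem exists_rk {e : Matrix (Fin n) (Fin n) F} (he : e * e = e) : ∃ m, Rk e m := by
  let V := LinearMap.range (Matrix.mulVecLin e)
  let b := Module.finBasis F V
  let P : Matrix (Fin n) (Fin (Module.finrank F V)) F := fun a i => ((b i : Fin n → F) a :)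
  let f : (Fin n → F) →ₗ[F] V := (Matrix.mulVecLin e).rangeRestrict
  let Q : Matrix (Fin (Module.finrank F V)) (Fin n) F := fun i a => b.repr (f (Pi.single a 1)) i
  have hP : ∀ c, P *ᵥ c = ∑ i, c i • (b i : Fin n → F) := by
    intro c
    ext a
    rw [Matrix.mulVec, dotProduct, Finset.sum_apply]
    refine Finset.sum_congr rfl fun i _ => ?_
    rw [Pi.smul_apply, smul_eq_mul, mul_comm]
  have hQ : ∀ v, Q *ᵥ v = b.repr (f v) := by
    intro v
    ext i
    rw [Matrix.mulVec, dotProduct]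
    have h1 : v = ∑ a, v a • (Pi.single a (1 : F) : Fin n → F) := by
      ext c
      rw [Finset.sum_apply, Finset.sum_eq_single c]
      · simp
      · intro d _ hd
        simp [hd.symm]
      · simp only [_root_.Finset.mem_univ, _root_.not_true_eq_false, _root_.Pi.smul_apply, _root_.Pi.single_eq_same, _root_.smul_eq_mul, _root_.mul_one, _root_.IsEmpty.forall_iff]
    conv_rhs => rw [h1]
    rw [map_sum, map_sum, Finsupp.finsetSum_apply]
    refine Finset.sum_congr rfl fun a _ => ?_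
    rw [map_smul, map_smul, Finsupp.smul_apply, smul_eq_mul, mul_comm]
  have hf : ∀ v, ((f v : V) : Fin n → F) = e *ᵥ v := fun v => rfl
  refine ⟨Module.finrank F V, P, Q, ?_, ?_⟩
  · apply Matrix.ext_of_mulVec_single
    intro a
    rw [← Matrix.mulVec_mulVec, hQ, hP]
    have h1 := b.sum_repr (f (Pi.single a 1))
    have h2 := congrArg (fun z : V => (z : Fin n → F)) h1
    simp only [AddSubmonoidClass.coe_finsetSum, SetLike.val_smul, hf] at h2
    exact h2
  · apply Matrix.ext_of_mulVec_single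
    intro i
    rw [← Matrix.mulVec_mulVec, hQ, Matrix.one_mulVec]
    have h1 : P *ᵥ Pi.single i 1 = (b i : Fin n → F) := by
      rw [hP, Finset.sum_eq_single i]
      · simp
      · intro j _ hj
        rw [Pi.single_apply, if_neg hj, zero_smul]
      · simp only [_root_.Finset.mem_univ, _root_.not_true_eq_false, _root_.Pi.single_eq_same, _root_.one_smul, _root_.ZeroMemClass.coe_eq_zero, _root_.IsEmpty.forall_iff]
    rw [h1]
    have h2 : f (b i : Fin n → F) = b i := by
      apply Subtype.ext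
      rw [hf]
      obtain ⟨w, hw⟩ := (b i).2
      rw [← hw, Matrix.mulVecLin_apply, Matrix.mulVec_mulVec, he]
    rw [h2, b.repr_self]
    ext j
    rw [Finsupp.single_apply, Pi.single_apply]
    simp only [eq_comm]

theorem Rk.add {e : Matrix (Fin n) (Fin n) F} (h1 : Rk e m) (h2 : Rk (1 - e) k) : n = m + k := by
  obtain ⟨P, Q, h3, h4⟩ := h1
  obtain ⟨P', Q', h5, h6⟩ := h2
  have hQe : Q * (1 - e) = 0 := by
    rw [Matrix.mul_sub, Matrix.mul_one, ← h3, ← Matrix.mul_assoc, h4, Matrix.one_mul, sub_self]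
  have heP : (1 - e) * P' = P' := by
    rw [← h5, Matrix.mul_assoc, h6, Matrix.mul_one]
  have hQP' : Q * P' = 0 := by rw [← heP, ← Matrix.mul_assoc, hQe, Matrix.zero_mul]
  have hQ'e : Q' * (1 - e) = Q' := by rw [← h5, ← Matrix.mul_assoc, h6, Matrix.one_mul]
  have heP0 : (1 - e) * P = 0 := by
    rw [Matrix.sub_mul, Matrix.one_mul, ← h3, Matrix.mul_assoc, h4, Matrix.mul_one, sub_self]
  have hQ'P : Q' * P = 0 := by rw [← hQ'e, Matrix.mul_assoc, heP0, Matrix.mul_zero]
  let U : Matrix (Fin n) (Fin m ⊕ Fin k) F := Matrix.fromCols P P'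
  let W : Matrix (Fin m ⊕ Fin k) (Fin n) F := Matrix.fromRows Q Q'
  have e1 : U * W = 1 := by
    rw [Matrix.fromCols_mul_fromRows, h3, h5]
    abel
  have e2 : W * U = 1 := by
    rw [Matrix.fromRows_mul_fromCols, h4, h6, hQP', hQ'P, Matrix.fromBlocks_one]
  have e3 : n ≤ m + k := by
    have h5 : Function.Injective (Matrix.mulVecLin W) := by
      intro x y hxy
      simp only [Matrix.mulVecLin_apply] at hxy
      have h6 := congrArg (fun z => U *ᵥ z) hxy
      simp only [Matrix.mulVec_mulVec, e1, Matrix.one_mulVec] at h6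
      exact h6
    have h6 := LinearMap.finrank_le_finrank_of_injective h5
    simpa only [_root_.ge_iff_le, _root_.Module.finrank_fintype_fun_eq_card, _root_.Fintype.card_fin, _root_.Fintype.card_sum] using h6
  have e4 : m + k ≤ n := by
    have h5 : Function.Injective (Matrix.mulVecLin U) := by
      intro x y hxy
      simp only [Matrix.mulVecLin_apply] at hxy
      have h6 := congrArg (fun z => W *ᵥ z) hxy
      simp only [Matrix.mulVec_mulVec, e2, Matrix.one_mulVec] at h6
      exact h6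
    have h6 := LinearMap.finrank_le_finrank_of_injective h5
    simpa only [_root_.ge_iff_le, _root_.Module.finrank_fintype_fun_eq_card, _root_.Fintype.card_sum, _root_.Fintype.card_fin] using h6
  exact le_antisymm e3 e4

theorem Rk.pos {e : Matrix (Fin n) (Fin n) F} (h1 : Rk e m) (h0 : e ≠ 0) : 0 < m := by
  rcases Nat.eq_zero_or_pos m with rfl | h
  · exfalso
    obtain ⟨P, Q, h3, h4⟩ := h1
    apply h0
    rw [← h3]
    ext a b
    rw [Matrix.mul_apply, Finset.univ_eq_empty, Finset.sum_empty, Matrix.zero_apply]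
  · exact h

end

section

variable {F : Type} [Field F] [Fintype F] [StarRing F] {q n m k : ℕ} (hF : Fintype.card F = q ^ 2)
  (hs : ∀ x : F, star x = x ^ q)

include hF hs in
/-- a self-adjoint idempotent has an orthonormal basis -/
theorem exists_on {e : Matrix (Fin n) (Fin n) F} (he : e * e = e) (hes : eᴴ = e) :
    ∃ (m : ℕ) (P : Matrix (Fin n) (Fin m) F), Pᴴ * P = 1 ∧ P * Pᴴ = e := by
  let σ : F →+* F := starRingEnd F
  have hσ : ∀ a, σ a = a ^ q := fun a => hs a
  have hHS := Cfsg.Agent.H734.OreT5.mHS hF hσ (1 : Equiv.Perm (Fin n)) (fun p => rfl)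
  set B := Cfsg.Agent.H734.OreT5.mB σ (1 : Equiv.Perm (Fin n)) with hB
  have hBd : ∀ u v : Fin n → F, B u v = u ⬝ᵥ star v := fun u v => rfl
  let W := LinearMap.range (Matrix.mulVecLin e)
  have hWe : ∀ u ∈ W, e *ᵥ u = u := by
    rintro _ ⟨w, rfl⟩
    rw [Matrix.mulVecLin_apply, Matrix.mulVec_mulVec, he]
  have hadj : ∀ u v : Fin n → F, B (e *ᵥ u) v = B u (e *ᵥ v) := by
    intro u v
    rw [hBd, hBd, Matrix.star_mulVec, hes, dotProduct_comm (e *ᵥ u), Matrix.dotProduct_mulVec, dotProduct_comm u]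
  have hNd : Cfsg.Agent.H951.Nd B W := by
    intro u hu hu0
    by_contra hcon
    push Not at hcon
    apply hu0
    apply hHS.nd
    intro v
    rw [← hWe u hu, hadj]
    exact hcon _ ⟨v, rfl⟩
  obtain ⟨v, hvW, hv⟩ := Cfsg.Agent.H734.OreT5.exists_family hHS (Module.finrank F W) W hNd rfl
  let P : Matrix (Fin n) (Fin (Module.finrank F W)) F := fun a i => v i a
  have hPP : Pᴴ * P = 1 := by
    ext i j
    have h1 : (Pᴴ * P) i j = B (v j) (v i) := by
      rw [hBd, Matrix.mul_apply, dotProduct]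
      refine Finset.sum_congr rfl fun a _ => ?_
      rw [Matrix.conjTranspose_apply, mul_comm]
      rfl
    rw [h1, hv, Matrix.one_apply]
    simp only [eq_comm]
  have hinj : Function.Injective (Matrix.mulVecLin P) := by
    intro x y hxy
    simp only [Matrix.mulVecLin_apply] at hxy
    have h6 := congrArg (fun z => Pᴴ *ᵥ z) hxy
    simp only [Matrix.mulVec_mulVec, hPP, Matrix.one_mulVec] at h6
    exact h6
  have hrange : LinearMap.range (Matrix.mulVecLin P) = W := by
    apply Submodule.eq_of_le_of_finrank_eq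
    · rintro _ ⟨c, rfl⟩
      have h1 : Matrix.mulVecLin P c = ∑ i, c i • v i := by
        ext a
        rw [Matrix.mulVecLin_apply, Matrix.mulVec, dotProduct, Finset.sum_apply]
        refine Finset.sum_congr rfl fun i _ => ?_
        rw [Pi.smul_apply, smul_eq_mul, mul_comm]
      rw [h1]
      exact Submodule.sum_mem _ fun i _ => Submodule.smul_mem _ _ (hvW i)
    · rw [LinearMap.finrank_range_of_inj hinj]
      simp only [_root_.Module.finrank_fintype_fun_eq_card, _root_.Fintype.card_fin]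
  refine ⟨_, P, hPP, ?_⟩
  have hfe : P * Pᴴ * e = e := by
    apply Matrix.ext_of_mulVec_single
    intro a
    have h1 : e *ᵥ Pi.single a 1 ∈ LinearMap.range (Matrix.mulVecLin P) := by
      rw [hrange]
      exact ⟨_, rfl⟩
    obtain ⟨c, hc⟩ := h1
    rw [Matrix.mulVecLin_apply] at hc
    rw [← Matrix.mulVec_mulVec, ← hc, Matrix.mulVec_mulVec, Matrix.mul_assoc, hPP, Matrix.mul_one]
  have hef : e * (P * Pᴴ) = P * Pᴴ := by
    rw [← Matrix.mul_assoc]
    congr 1
    apply Matrix.ext_of_mulVec_single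
    intro i
    rw [← Matrix.mulVec_mulVec]
    apply hWe
    exact (le_of_eq hrange) ⟨_, rfl⟩
  have h2 := congrArg Matrix.conjTranspose hfe
  rw [Matrix.conjTranspose_mul, Matrix.conjTranspose_mul, Matrix.conjTranspose_conjTranspose, hes, hef] at h2
  exact h2

include hF hs in
theorem Rk.on {e : Matrix (Fin n) (Fin n) F} (he : e * e = e) (hes : eᴴ = e) (h : Rk e m) :
    ∃ P : Matrix (Fin n) (Fin m) F, Pᴴ * P = 1 ∧ P * Pᴴ = e := by
  obtain ⟨k, P, h1, h2⟩ := exists_on hF hs he hes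
  have h3 : Rk e k := ⟨P, Pᴴ, h2, h1⟩
  obtain rfl := h.unique h3
  exact ⟨P, h1, h2⟩

omit [Fintype F] in
/-- comparable self-adjoint idempotents of the same rank are equal -/
theorem eq_of_le {P P' : Matrix (Fin n) (Fin m) F} (h' : P'ᴴ * P' = 1)
    (hle : (P' * P'ᴴ) * (P * Pᴴ) = P' * P'ᴴ) : P * Pᴴ = P' * P'ᴴ := by
  have h1 : P'ᴴ * P * (Pᴴ * P') = 1 := by
    calc _ = (P'ᴴ * P') * P'ᴴ * (P * Pᴴ) * P' := by rw [h', Matrix.one_mul]; simp only [Matrix.mul_assoc]
      _ = P'ᴴ * ((P' * P'ᴴ) * (P * Pᴴ)) * P' := by simp only [Matrix.mul_assoc]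
      _ = (P'ᴴ * P') * (P'ᴴ * P') := by rw [hle]; simp only [Matrix.mul_assoc]
      _ = 1 := by rw [h', Matrix.one_mul]
  have h2 : (Pᴴ * P') * (P'ᴴ * P) = 1 := mul_eq_one_comm.1 h1
  have h3 : (P * Pᴴ) * ((P' * P'ᴴ) * (P * Pᴴ)) = P * Pᴴ := by
    calc _ = P * ((Pᴴ * P') * (P'ᴴ * P)) * Pᴴ := by simp only [Matrix.mul_assoc]
      _ = _ := by rw [h2, Matrix.mul_one]
  rw [hle] at h3
  have h4 := congrArg Matrix.conjTranspose hle
  simp only [Matrix.conjTranspose_mul, Matrix.conjTranspose_conjTranspose] at h4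
  rw [← h3]
  simpa only [Matrix.mul_assoc] using h4

end

section

variable {G : Type u} [Group G] {F : Type} [Field F] [StarRing F] {n m q : ℕ} {π : ↥(Cfsg.SU n F q) →* G}
  {T : G →* RingAut (Matrix (Fin n) (Fin n) F)}

theorem Rk.map (hT : Lf π T) (g : G) {e : Matrix (Fin n) (Fin n) F} (h : Rk e m) : Rk (T g e) m := by
  obtain ⟨P, Q, h1, h2⟩ := h
  obtain ⟨B, σ, hB⟩ := hT.semi g
  have e0 : ∀ {a b c : ℕ} (x : Matrix (Fin a) (Fin b) F) (y : Matrix (Fin b) (Fin c) F),
      (x * y).map σ = x.map σ * y.map σ := fun x y => Matrix.map_mul (L := x) (M := y) (f := (σ : F →+* F))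
  have e1 := Cfsg.Agent.H296.TW.GL_inv_mul B
  refine ⟨(B : Matrix (Fin n) (Fin n) F) * P.map σ, Q.map σ * ((B⁻¹ : Matrix.GeneralLinearGroup (Fin n) F) : Matrix (Fin n) (Fin n) F), ?_, ?_⟩
  · rw [hB, ← h1, e0]
    simp only [Matrix.mul_assoc]
  · calc _ = Q.map σ * (((B⁻¹ : Matrix.GeneralLinearGroup (Fin n) F) : Matrix (Fin n) (Fin n) F) *
          (B : Matrix (Fin n) (Fin n) F)) * P.map σ := by simp only [Matrix.mul_assoc]
      _ = 1 := by
        rw [e1, Matrix.mul_one, ← e0, h2]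
        exact Matrix.map_one σ (map_zero _) (map_one _)

end

end Cfsg.Agent.H189.TW
end

-- part: H189/TW/Fr
section
/-!
# S3694, T6: frames (helper189)

`Fr π T D e` : the frame `e` of the subgroup `D`, in terms of the action `T` of `G` on the matrix ring.
* `Fr.of_frame`, `Fr.conj`;
* `CompF` : the statement about invariant subalgebras; `comp_cent` : its use for centralizers;
* `Fr.selfadj` : the idempotents are self-adjoint.
-/

set_option autoImplicit false
set_option linter.unusedSectionVars false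

namespace Cfsg.Agent.H189.TW

open Matrix Subgroup Cfsg Cfsg.Agent.H607.TW
open Cfsg.Agent.H748.TW (mt_mul mt_one mt_inj mt_mul_inv mt_inv_mul HE HE_le mem_HE finite_S le_or_eq)

universe u

section

variable {G : Type u} [Group G] {F : Type} [Field F] [StarRing F] {q n : ℕ} {π : ↥(Cfsg.SU n F q) →* G}
  {T : G →* RingAut (Matrix (Fin n) (Fin n) F)} {N A : Subgroup G}

theorem T_mul (g h : G) (x : Matrix (Fin n) (Fin n) F) : T (g * h) x = T g (T h x) := by
  rw [map_mul, RingAut.mul_apply]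

theorem T_inv (g : G) (x : Matrix (Fin n) (Fin n) F) : T g⁻¹ (T g x) = x := by
  rw [← T_mul, inv_mul_cancel, map_one, RingAut.one_apply]

theorem T_inv' (g : G) (x : Matrix (Fin n) (Fin n) F) : T g (T g⁻¹ x) = x := by
  rw [← T_mul, mul_inv_cancel, map_one, RingAut.one_apply]

/-- the frame of `D` -/
structure Fr (π : ↥(Cfsg.SU n F q) →* G) (T : G →* RingAut (Matrix (Fin n) (Fin n) F)) (D : Subgroup G) {t : ℕ}
    (e : Fin t → Matrix (Fin n) (Fin n) F) : Prop where
  two : 2 ≤ t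
  idem : ∀ i, e i * e i = e i
  ne : ∀ i, e i ≠ 0
  orth : ∀ i j, i ≠ j → e i * e j = 0
  sum : ∑ i, e i = 1
  perm : ∀ a ∈ D, ∀ i, ∃ j, T a (e i) = e j
  star : ∀ i, ∃ j, (e i)ᴴ = e j
  stab : ∀ s, (∀ i, ∃ j, T (π s) (e i) = e j) → π s ∈ D

theorem Fr.inj {D : Subgroup G} {t : ℕ} {e : Fin t → Matrix (Fin n) (Fin n) F} (h : Fr π T D e) {i j : Fin t}
    (hij : e i = e j) : i = j := by
  by_contra hne
  have h1 := h.orth i j hne
  rw [hij, h.idem] at h1
  exact h.ne j h1

theorem Fr.conj (hT : Lf π T) {t : ℕ} {e : Fin t → Matrix (Fin n) (Fin n) F} (h : Fr π T A e) (g : G) :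
    Fr π T (A.map (MulAut.conj g).toMonoidHom) (fun i => T g (e i)) := by
  refine ⟨h.two, fun i => ?_, fun i h0 => ?_, fun i j hij => ?_, ?_, ?_, fun i => ?_, fun s hs => ?_⟩
  · rw [← map_mul, h.idem]
  · rw [map_eq_zero_iff _ (T g).injective] at h0
    exact h.ne i h0
  · rw [← map_mul, h.orth i j hij, map_zero]
  · rw [← map_sum, h.sum, map_one]
  · rintro _ ⟨a, ha, rfl⟩ i
    obtain ⟨j, hj⟩ := h.perm a ha i
    refine ⟨j, ?_⟩
    change T (g * a * g⁻¹) (T g (e i)) = T g (e j)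
    rw [T_mul, T_inv, T_mul, hj]
  · obtain ⟨j, hj⟩ := h.star i
    refine ⟨j, ?_⟩
    rw [← hT.str, hj]
  · obtain ⟨s', h1, h2⟩ := hT.conj g⁻¹ s
    have h3 : π s' ∈ A := by
      apply h.stab
      intro i
      obtain ⟨j, hj⟩ := hs i
      refine ⟨j, ?_⟩
      rw [h2, T_mul, T_mul, inv_inv, hj, T_inv]
    refine ⟨π s', h3, ?_⟩
    change g * π s' * g⁻¹ = π s
    rw [h2]
    group

/-- invariance in terms of the action -/
theorem inv_of (hT : Lf π T) {E : Subalgebra F (Matrix (Fin n) (Fin n) F)} (h1 : ∀ a ∈ A, ∀ x ∈ E, T a x ∈ E)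
    (h2 : ∀ x ∈ E, xᴴ ∈ E) : _root_.Cfsg.Agent.H607.TW.Inv (iSU n F q) π A E := by
  intro a ha τ hτ x hx
  rcases hT.ind a τ hτ with h3 | h3
  · rw [h3]
    exact h1 a ha x hx
  · rw [h3]
    exact h1 a ha _ (h2 x hx)

/-- centralizers of invariant sets are invariant -/
theorem cent_inv (hT : Lf π T) {X : Set (Matrix (Fin n) (Fin n) F)} (h1 : ∀ a ∈ A, ∀ x ∈ X, T a x ∈ X)
    (h2 : ∀ x ∈ X, xᴴ ∈ X) : _root_.Cfsg.Agent.H607.TW.Inv (iSU n F q) π A (Subalgebra.centralizer F X) := by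
  apply inv_of hT
  · intro a ha x hx
    rw [Subalgebra.mem_centralizer_iff] at hx ⊢
    intro y hy
    have h3 := hx _ (h1 a⁻¹ (inv_mem ha) y hy)
    have h4 := congrArg (T a) h3
    rw [map_mul, map_mul, T_inv'] at h4
    exact h4
  · intro x hx
    rw [Subalgebra.mem_centralizer_iff] at hx ⊢
    intro y hy
    have h3 := congrArg Matrix.conjTranspose (hx _ (h2 y hy))
    rw [Matrix.conjTranspose_mul, Matrix.conjTranspose_mul, Matrix.conjTranspose_conjTranspose] at h3
    exact h3.symm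

/-- The statement about the simple factors of invariant subalgebras, for `L = F`. -/
def CompF (π : ↥(Cfsg.SU n F q) →* G) (A : Subgroup G) : Prop :=
  ∀ E : Subalgebra F (Matrix (Fin n) (Fin n) F), _root_.Cfsg.Agent.H607.TW.Inv (iSU n F q) π A E → E ≠ ⊤ →
    ∀ (w : ℕ) (φ : Matrix (Fin w) (Fin w) F →ₙ+* Matrix (Fin n) (Fin n) F), Function.Injective φ →
      (∀ x, (∃ m, φ m = x) ↔ x ∈ E ∧ φ 1 * x = x) → (∀ x ∈ E, φ 1 * x = x * φ 1) →
      w ≤ 1 ∨ (((φ 1).map (fun c => c ^ q)).transpose = φ 1 ∧ ((w = 2 ∧ (q = 2 ∨ q = 3)) ∨ (w = 3 ∧ q = 2)))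

/-- the corner isomorphism -/
def corner {w : ℕ} {P : Matrix (Fin n) (Fin w) F} {Q : Matrix (Fin w) (Fin n) F} (h : Q * P = 1) :
    Matrix (Fin w) (Fin w) F →ₙ+* Matrix (Fin n) (Fin n) F where
  toFun x := P * x * Q
  map_mul' x y := by
    calc P * (x * y) * Q = P * x * (1 : Matrix (Fin w) (Fin w) F) * y * Q := by rw [Matrix.mul_one]; simp only [Matrix.mul_assoc]
      _ = _ := by rw [← h]; simp only [Matrix.mul_assoc]
  map_zero' := by rw [Matrix.mul_zero, Matrix.zero_mul]
  map_add' x y := by rw [Matrix.mul_add, Matrix.add_mul]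

theorem comp_cent (hs : ∀ x : F, Star.star x = x ^ q) (hT : Lf π T) (hcomp : CompF π A)
    {X : Set (Matrix (Fin n) (Fin n) F)} (h1 : ∀ a ∈ A, ∀ x ∈ X, T a x ∈ X)
    (h2 : ∀ x ∈ X, xᴴ ∈ X) (hne : Subalgebra.centralizer F X ≠ ⊤) {f : Matrix (Fin n) (Fin n) F}
    (hfX : ∀ x ∈ X, ∃ c : F, f * x = c • f ∧ x * f = c • f)
    (hfc : ∀ z, (∀ x ∈ X, x * z = z * x) → f * z = z * f) {w : ℕ} (hw : Rk f w) :
    w ≤ 1 ∨ (fᴴ = f ∧ ((w = 2 ∧ (q = 2 ∨ q = 3)) ∨ (w = 3 ∧ q = 2))) := by
  obtain ⟨P, Q, hPQ, hQP⟩ := hw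
  have hφ : ∀ x, corner hQP x = P * x * Q := fun x => rfl
  have hφ1 : corner hQP 1 = f := by rw [hφ, Matrix.mul_one, hPQ]
  have h3 := hcomp _ (cent_inv hT h1 h2) hne w (corner hQP) ?_ ?_ ?_
  · rcases h3 with h3 | ⟨h3, h4⟩
    · exact Or.inl h3
    · refine Or.inr ⟨?_, h4⟩
      rw [hφ1] at h3
      ext i j
      have h5 := congrFun (congrFun h3 i) j
      rw [Matrix.conjTranspose_apply, hs, ← h5]
      rfl
  · intro x y hxy
    rw [hφ, hφ] at hxy
    have h4 := congrArg (fun z => Q * z * P) hxy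
    have h5 : ∀ z : Matrix (Fin w) (Fin w) F, Q * (P * z * Q) * P = z := by
      intro z
      calc _ = (Q * P) * z * (Q * P) := by simp only [Matrix.mul_assoc]
        _ = z := by rw [hQP, Matrix.one_mul, Matrix.mul_one]
    simp only [h5] at h4
    exact h4
  · intro x
    constructor
    · rintro ⟨m, rfl⟩
      rw [hφ1, hφ]
      have hfP : f * P = P := by rw [← hPQ, Matrix.mul_assoc, hQP, Matrix.mul_one]
      have hQf : Q * f = Q := by rw [← hPQ, ← Matrix.mul_assoc, hQP, Matrix.one_mul]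
      refine ⟨?_, ?_⟩
      · rw [Subalgebra.mem_centralizer_iff]
        intro y hy
        obtain ⟨c, h4, h5⟩ := hfX y hy
        have h6 : y * (P * m * Q) = c • (P * m * Q) := by
          calc _ = (y * (f * P)) * m * Q := by rw [hfP]; simp only [Matrix.mul_assoc]
            _ = (y * f) * P * m * Q := by simp only [Matrix.mul_assoc]
            _ = c • (f * P * m * Q) := by rw [h5]; simp only [Matrix.smul_mul]
            _ = _ := by rw [hfP]
        have h7 : (P * m * Q) * y = c • (P * m * Q) := by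
          calc _ = P * m * (Q * f) * y := by rw [hQf]
            _ = P * m * Q * (f * y) := by simp only [Matrix.mul_assoc]
            _ = c • (P * m * (Q * f)) := by rw [h4]; simp only [Matrix.mul_smul, Matrix.mul_assoc]
            _ = _ := by rw [hQf]
        rw [h6, h7]
      · rw [← Matrix.mul_assoc, ← Matrix.mul_assoc, hfP]
    · rintro ⟨h4, h5⟩
      rw [hφ1] at h5
      rw [Subalgebra.mem_centralizer_iff] at h4
      refine ⟨Q * x * P, ?_⟩
      rw [hφ]
      have h6 := hfc x h4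
      calc _ = (P * Q) * x * (P * Q) := by simp only [Matrix.mul_assoc]
        _ = f * (f * x) := by rw [hPQ, mul_assoc, ← h6]
        _ = x := by rw [h5, h5]
  · intro x hx
    rw [Subalgebra.mem_centralizer_iff] at hx
    rw [hφ1]
    exact hfc x hx

end

section

variable {G : Type u} [Group G] {F : Type} [Field F] [Fintype F] [StarRing F] {q n : ℕ} (hF : Fintype.card F = q ^ 2)
  (hs : ∀ x : F, Star.star x = x ^ q) {π : ↥(Cfsg.SU n F q) →* G}
  {T : G →* RingAut (Matrix (Fin n) (Fin n) F)} {N A : Subgroup G} {r : ℕ}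

include hF hs in
theorem Fr.of_frame (hT : Lf π T) {t : ℕ} {e : Fin t → Matrix (Fin n) (Fin n) F} (h : Frame (iSU n F q) π A e) :
    Fr π T A e := by
  refine ⟨h.two, h.idem, h.ne, h.orth, h.sum, fun a ha i => ?_, fun i => ?_, fun s hs => ?_⟩
  · obtain ⟨τ, hτ, hx⟩ := hT.self a
    obtain ⟨j, hj⟩ := h.perm a ha τ hτ i
    exact ⟨j, by rw [← hx, hj]⟩
  · have h1 := Cfsg.Agent.H296.TW.star_su (n := n) hF π (Cfsg.Agent.LieClassical.HermBasic.conj hF)
      (Cfsg.Agent.LieClassical.HermBasic.conj_apply hF)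
    obtain ⟨j, hj⟩ := h.perm 1 (one_mem _) _ h1 i
    refine ⟨j, ?_⟩
    rw [← hj, tauM_apply, Units.val_one, one_mul, inv_one, Units.val_one, mul_one, ← st_eq hF hs]
    rfl
  · apply h.stab
    intro i
    obtain ⟨j, hj⟩ := hs i
    refine ⟨j, ?_⟩
    rw [← hj, hT.pi, mul_assoc, mt_inv_mul, mul_one]

/-- the centralizer of a set containing a nontrivial idempotent is proper -/
theorem cent_ne_top (hn : 0 < n) {X : Set (Matrix (Fin n) (Fin n) F)} {f : Matrix (Fin n) (Fin n) F} (hf : f ∈ X)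
    (hff : f * f = f) (h0 : f ≠ 0) (h1 : f ≠ 1) : Subalgebra.centralizer F X ≠ ⊤ := by
  intro htop
  have h2 : ∀ x, f * x = x * f := by
    intro x
    have h3 : x ∈ Subalgebra.centralizer F X := by
      rw [htop]
      exact Algebra.mem_top
    rw [Subalgebra.mem_centralizer_iff] at h3
    exact h3 f hf
  have h3 := scalar_of hn h2
  set c := f ⟨0, hn⟩ ⟨0, hn⟩
  rw [h3, smul_mul_smul_comm, mul_one] at hff
  have h4 := congrFun (congrFun hff ⟨0, hn⟩) ⟨0, hn⟩
  simp only [Matrix.smul_apply, Matrix.one_apply_eq, smul_eq_mul, mul_one] at h4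
  rcases eq_or_ne c 0 with h5 | h5
  · apply h0
    rw [h3, h5, zero_smul]
  · apply h1
    rw [h3]
    have : c = 1 := mul_right_cancel₀ h5 (by rw [h4, one_mul])
    rw [this, one_smul]

theorem Fr.ne_one {t : ℕ} {e : Fin t → Matrix (Fin n) (Fin n) F} (h : Fr π T A e) (i : Fin t) : e i ≠ 1 := by
  intro h1
  obtain ⟨j, hj⟩ : ∃ j : Fin t, j ≠ i := by
    have h2 := h.two
    by_cases h3 : i = ⟨0, by omega⟩
    · refine ⟨⟨1, by omega⟩, ?_⟩
      rw [h3]
      intro h4
      have := congrArg Fin.val h4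
      simp at this
    · exact ⟨⟨0, by omega⟩, fun h4 => h3 h4.symm⟩
  have h3 := h.orth j i hj
  rw [h1, mul_one] at h3
  exact h.ne j h3

/-- the rank of the idempotents of the frame -/
theorem Fr.rank (hn : 3 ≤ n) (hT : Lf π T) (hcomp : CompF π A) {t : ℕ} {e : Fin t → Matrix (Fin n) (Fin n) F}
    (h : Fr π T A e) (hs : ∀ x : F, Star.star x = x ^ q) {i : Fin t} {w : ℕ} (hw : Rk (e i) w) :
    w = 1 ∨ ((e i)ᴴ = e i ∧ ((w = 2 ∧ (q = 2 ∨ q = 3)) ∨ (w = 3 ∧ q = 2))) := by
  have h0 := hw.pos (h.ne i)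
  have h1 := comp_cent hs hT hcomp (X := Set.range e) (f := e i) (by
      rintro a ha _ ⟨k, rfl⟩
      obtain ⟨j, hj⟩ := h.perm a ha k
      exact ⟨j, hj.symm⟩) (by
      rintro _ ⟨k, rfl⟩
      obtain ⟨j, hj⟩ := h.star k
      exact ⟨j, hj.symm⟩)
    (cent_ne_top (by omega) (Set.mem_range_self i) (h.idem i) (h.ne i) (h.ne_one i)) (by
      rintro _ ⟨k, rfl⟩
      by_cases hik : i = k
      · subst hik
        exact ⟨1, by rw [h.idem, one_smul], by rw [h.idem, one_smul]⟩
      · exact ⟨0, by rw [h.orth i k hik, zero_smul], by rw [h.orth k i (Ne.symm hik), zero_smul]⟩)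
    (fun z hz => hz _ (Set.mem_range_self i)) hw
  rcases h1 with h1 | h1
  · left
    omega
  · exact Or.inr h1

include hF hs in
/-- **the idempotents are self-adjoint** -/
theorem Fr.selfadj (hn : 3 ≤ n) (hL : Loc N A r) (hM : Model N (iSU n F q) π) (hT : Lf π T) (hcomp : CompF π A)
    {t : ℕ} {e : Fin t → Matrix (Fin n) (Fin n) F} (h : Fr π T A e) (i : Fin t) : (e i)ᴴ = e i := by
  have : Finite ↥(Cfsg.SU n F q) := finite_S hM
  have hn0 : 0 < n := by omega
  by_contra hcon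
  obtain ⟨i', hi'⟩ := h.star i
  have hii : i ≠ i' := by
    rintro rfl
    exact hcon hi'
  have hi : (e i')ᴴ = e i := by rw [← hi', Matrix.conjTranspose_conjTranspose]
  have hcon' : (e i')ᴴ ≠ e i' := by
    rw [hi]
    intro h1
    exact hii (h.inj h1)
  have rk1 : Rk (e i) 1 := by
    obtain ⟨w, hw⟩ := exists_rk (h.idem i)
    rcases h.rank hn hT hcomp hs hw with rfl | ⟨h1, -⟩
    · exact hw
    · exact (hcon h1).elim
  have rk2 : Rk (e i') 1 := by
    obtain ⟨w, hw⟩ := exists_rk (h.idem i')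
    rcases h.rank hn hT hcomp hs hw with rfl | ⟨h1, -⟩
    · exact hw
    · exact (hcon' h1).elim
  -- a nonzero element of the corner
  obtain ⟨y, hy0, hy1, hy2⟩ : ∃ y, y ≠ 0 ∧ e i * y = y ∧ y * e i' = y := by
    obtain ⟨P, Q, h1, h2⟩ := rk1
    obtain ⟨P', Q', h3, h4⟩ := rk2
    refine ⟨P * Q', ?_, ?_, ?_⟩
    · intro h0
      have h5 : Q * (P * Q') * P' = 1 := by
        calc _ = (Q * P) * (Q' * P') := by simp only [Matrix.mul_assoc]
          _ = 1 := by rw [h2, h4, Matrix.one_mul]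
      rw [h0, Matrix.mul_zero, Matrix.zero_mul] at h5
      have h6 := congrFun (congrFun h5 0) 0
      rw [Matrix.zero_apply, Matrix.one_apply_eq] at h6
      exact zero_ne_one h6
    · rw [← h1, ← Matrix.mul_assoc, Matrix.mul_assoc P Q P, h2, Matrix.mul_one]
    · rw [← h3, Matrix.mul_assoc P Q' (P' * Q'), ← Matrix.mul_assoc Q' P' Q', h4, Matrix.one_mul]
  have hys1 : e i * yᴴ = yᴴ := by
    rw [← hi, ← Matrix.conjTranspose_mul, hy2]
  have hys2 : yᴴ * e i' = yᴴ := by
    rw [← hi', ← Matrix.conjTranspose_mul, hy1]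
  obtain ⟨c, hc⟩ : ∃ c : F, c • y - (c • y)ᴴ ≠ 0 := by
    by_contra hall
    push Not at hall
    have h1 := hall 1
    rw [one_smul, sub_eq_zero] at h1
    have h2 : ∀ c : F, c ^ q = c := by
      intro c
      have h3 := hall c
      rw [Matrix.conjTranspose_smul, ← h1, hs, ← sub_smul, smul_eq_zero, sub_eq_zero] at h3
      exact (h3.resolve_right hy0).symm
    have h4 := Cfsg.Agent.LieClassical.HermBasic.card_fixed hF
    have h5 : Nat.card {x : F // x ^ q = x} = Nat.card F :=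
      Nat.card_congr (Equiv.subtypeUnivEquiv h2)
    rw [h5, Nat.card_eq_fintype_card, hF] at h4
    have h6 := Cfsg.Agent.LieClassical.HermBasic.two_le hF
    nlinarith only [h4, h6]
  set x : Matrix (Fin n) (Fin n) F := c • y - (c • y)ᴴ with hx
  have hx1 : e i * x = x := by
    rw [hx, mul_sub, mul_smul_comm, hy1, Matrix.conjTranspose_smul, mul_smul_comm, hys1]
  have hx2 : x * e i' = x := by
    rw [hx, sub_mul, smul_mul_assoc, hy2, Matrix.conjTranspose_smul, smul_mul_assoc, hys2]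
  have hxs : xᴴ = -x := by
    rw [hx, Matrix.conjTranspose_sub, Matrix.conjTranspose_conjTranspose]
    abel
  have hxx : x * x = 0 := by
    calc x * x = (x * e i') * (e i * x) := by rw [hx1, hx2]
      _ = x * (e i' * e i) * x := by simp only [mul_assoc]
      _ = 0 := by rw [h.orth i' i hii.symm, mul_zero, zero_mul]
  obtain ⟨s, hs1⟩ : ∃ s : ↥(Cfsg.SU n F q), _root_.Cfsg.Agent.H607.TW.mt (iSU n F q) s = 1 + x := by
    apply exists_mt hF hs
    · rw [Matrix.conjTranspose_add, Matrix.conjTranspose_one, hxs]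
      calc (1 + -x) * (1 + x) = 1 - x * x := by noncomm_ring
        _ = 1 := by rw [hxx, sub_zero]
    · exact Cfsg.Agent.H748.TW.det_one_add hn0 ⟨2, by rw [pow_two, hxx]⟩
  let X : Set (Matrix (Fin n) (Fin n) F) := Set.range fun k => e k + (e k)ᴴ
  have hXi : e i + e i' ∈ X := ⟨i, by simp only [hi']⟩
  have hidem : (e i + e i') * (e i + e i') = e i + e i' := by
    rw [mul_add, add_mul, add_mul, h.idem, h.idem, h.orth i i' hii, h.orth i' i hii.symm, add_zero, zero_add]
  have hne0 : e i + e i' ≠ 0 := by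
    intro h0
    have h1 : e i * (e i + e i') = 0 := by rw [h0, mul_zero]
    rw [mul_add, h.idem, h.orth i i' hii, add_zero] at h1
    exact h.ne i h1
  have hne1 : e i + e i' ≠ 1 := by
    intro h1
    have h2 : 1 - e i = e i' := by rw [← h1]; abel
    have h3 := rk1.add (h2 ▸ rk2)
    omega
  have hEne : Subalgebra.centralizer F X ≠ ⊤ := cent_ne_top hn0 hXi hidem hne0 hne1
  have hEinv : _root_.Cfsg.Agent.H607.TW.Inv (iSU n F q) π A (Subalgebra.centralizer F X) := by
    apply cent_inv hT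
    · rintro a ha _ ⟨k, rfl⟩
      obtain ⟨j, hj⟩ := h.perm a ha k
      refine ⟨j, ?_⟩
      simp only
      rw [map_add, hT.str, hj]
    · rintro _ ⟨k, rfl⟩
      refine ⟨k, ?_⟩
      simp only
      rw [Matrix.conjTranspose_add, Matrix.conjTranspose_conjTranspose, add_comm]
  have hsE : s ∈ HE (iSU n F q) (Subalgebra.centralizer F X) := by
    rw [mem_HE, Subalgebra.mem_centralizer_iff]
    rintro _ ⟨k, rfl⟩
    simp only
    rw [hs1]
    have e1 : x * e k = if k = i' then x else 0 := by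
      rw [← hx2, mul_assoc]
      split_ifs with hk
      · rw [hk, h.idem]
      · rw [h.orth i' k (Ne.symm hk), mul_zero]
    have e2 : e k * x = if k = i then x else 0 := by
      rw [← hx1, ← mul_assoc]
      split_ifs with hk
      · rw [hk, h.idem]
      · rw [h.orth k i hk, zero_mul]
    have e3 : x * (e k)ᴴ = if k = i then x else 0 := by
      have h1 := congrArg Matrix.conjTranspose e2
      rw [Matrix.conjTranspose_mul, hxs, neg_mul] at h1
      rw [neg_eq_iff_eq_neg.1 h1]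
      split_ifs
      · rw [hxs, neg_neg]
      · rw [Matrix.conjTranspose_zero, neg_zero]
    have e4 : (e k)ᴴ * x = if k = i' then x else 0 := by
      have h1 := congrArg Matrix.conjTranspose e1
      rw [Matrix.conjTranspose_mul, hxs, mul_neg] at h1
      rw [neg_eq_iff_eq_neg.1 h1]
      split_ifs
      · rw [hxs, neg_neg]
      · rw [Matrix.conjTranspose_zero, neg_zero]
    have e5 : (e k + (e k)ᴴ) * (1 + x) = (e k + (e k)ᴴ) + (e k * x + (e k)ᴴ * x) := by
      rw [mul_add, mul_one, add_mul]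
    have e6 : (1 + x) * (e k + (e k)ᴴ) = (e k + (e k)ᴴ) + (x * e k + x * (e k)ᴴ) := by
      rw [add_mul, one_mul, mul_add]
    rw [e5, e6, e1, e2, e3, e4, add_comm (if k = i then x else 0)]
  have hsA : π s ∈ A := HE_le hL hM hEinv hEne ⟨s, hsE, rfl⟩
  obtain ⟨k, hk⟩ := h.perm _ hsA i'
  have hsi : _root_.Cfsg.Agent.H607.TW.mt (iSU n F q) s⁻¹ = 1 - x := by
    rw [← mt_star hF hs, hs1, Matrix.conjTranspose_add, Matrix.conjTranspose_one, hxs, sub_eq_add_neg]
  have hex : e i' * x = 0 := by rw [← hx1, ← mul_assoc, h.orth i' i hii.symm, zero_mul]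
  have h1 : e k = e i' + x := by
    rw [← hk, hT.pi, hs1, hsi, add_mul, one_mul, hx2, mul_sub, mul_one, add_mul, hex, zero_add, hxx, sub_zero]
  by_cases hki : k = i'
  · rw [hki] at h1
    apply hc
    have : e i' + x = e i' + 0 := by rw [← h1, add_zero]
    exact add_left_cancel this
  · apply h.ne k
    have h2 := h.orth k i' hki
    rw [h1, add_mul, h.idem, hx2, ← h1] at h2
    exact h2

end

end Cfsg.Agent.H189.TW
end

-- part: H189/TW/Rank
section
/-!
# S3694, T6: the ranks of the idempotents of a frame are equal (helper189)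

* `Fr.perm_equiv` : the permutation of the frame;
* `Fr.equal` : the ranks are equal, or `n ≤ 4`, `q ≤ 3`, or `n ≤ 5`, `q = 2`.
-/

set_option autoImplicit false
set_option linter.unusedSectionVars false

namespace Cfsg.Agent.H189.TW

open Matrix Subgroup Cfsg Cfsg.Agent.H607.TW
open Cfsg.Agent.H748.TW (mt_mul mt_one mt_inj mt_mul_inv mt_inv_mul HE HE_le mem_HE finite_S le_or_eq le_normalizer_of
  map_le_N)
open scoped commutatorElement

universe u

section

variable {G : Type u} [Group G] {F : Type} [Field F] [Fintype F] [StarRing F] {q n : ℕ} (hF : Fintype.card F = q ^ 2)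
  (hs : ∀ x : F, Star.star x = x ^ q) {π : ↥(Cfsg.SU n F q) →* G}
  {T : G →* RingAut (Matrix (Fin n) (Fin n) F)} {N A : Subgroup G} {r : ℕ}

theorem Fr.perm_equiv {D : Subgroup G} {t : ℕ} {e : Fin t → Matrix (Fin n) (Fin n) F} (h : Fr π T D e) {a : G}
    (ha : a ∈ D) : ∃ k : Equiv.Perm (Fin t), ∀ i, T a (e i) = e (k i) := by
  choose f hf using h.perm a ha
  have hinj : Function.Injective f := by
    intro i j hij
    apply h.inj
    apply (T a).injective
    rw [hf, hf, hij]
  exact ⟨Equiv.ofBijective f (Finite.injective_iff_bijective.1 hinj), hf⟩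

/-- the elements of `S` fixing `f` or mapping it to `1 - f` -/
def flip (π : ↥(Cfsg.SU n F q) →* G) (T : G →* RingAut (Matrix (Fin n) (Fin n) F)) (f : Matrix (Fin n) (Fin n) F) :
    Subgroup ↥(Cfsg.SU n F q) where
  carrier := {s | T (π s) f = f ∨ T (π s) f = 1 - f}
  mul_mem' := by
    intro a b ha hb
    change T (π (a * b)) f = f ∨ T (π (a * b)) f = 1 - f
    rw [map_mul, T_mul]
    rcases ha with ha | ha <;> rcases hb with hb | hb <;> rw [hb] <;> simp only [map_sub, map_one, ha]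
    · exact Or.inl trivial
    · exact Or.inr trivial
    · exact Or.inr trivial
    · left
      abel
  one_mem' := by
    left
    rw [map_one, map_one, RingAut.one_apply]
  inv_mem' := by
    intro a ha
    change T (π a⁻¹) f = f ∨ T (π a⁻¹) f = 1 - f
    rw [map_inv]
    rcases ha with ha | ha
    · left
      conv_lhs => rw [← ha]
      rw [T_inv]
    · right
      have h1 := congrArg (T (π a)⁻¹) ha
      rw [T_inv, map_sub, map_one] at h1
      calc T (π a)⁻¹ f = 1 - (1 - T (π a)⁻¹ f) := by abel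
        _ = 1 - f := by rw [← h1]

include hF hs in
theorem swap_false (hn : 3 ≤ n) (hL : Loc N A r) (hM : Model N (iSU n F q) π) (hT : Lf π T)
    {f : Matrix (Fin n) (Fin n) F} (hff : f * f = f) (hfs : fᴴ = f) (h0 : f ≠ 0) (h1 : f ≠ 1)
    (hA : ∀ a ∈ A, T a f = f) {w : ℕ} (hw : Rk f w) (hw' : Rk (1 - f) w) : False := by
  have hn0 : 0 < n := by omega
  have hff' : (1 - f) * (1 - f) = 1 - f := by
    rw [sub_mul, one_mul, mul_sub, mul_one, hff]
    abel
  have hfs' : (1 - f)ᴴ = 1 - f := by rw [Matrix.conjTranspose_sub, Matrix.conjTranspose_one, hfs]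
  obtain ⟨P0, h2, h3⟩ := Rk.on hF hs hff hfs hw
  obtain ⟨P1, h4, h5⟩ := Rk.on hF hs hff' hfs' hw'
  have hf1 : f * (1 - f) = 0 := by rw [mul_sub, mul_one, hff, sub_self]
  have h01 : P0ᴴ * P1 = 0 := by
    calc P0ᴴ * P1 = (P0ᴴ * P0) * P0ᴴ * P1 * (P1ᴴ * P1) := by rw [h2, h4, Matrix.one_mul, Matrix.mul_one]
      _ = P0ᴴ * ((P0 * P0ᴴ) * (P1 * P1ᴴ)) * P1 := by simp only [Matrix.mul_assoc]
      _ = 0 := by rw [h3, h5, hf1, Matrix.mul_zero, Matrix.zero_mul]
  have h10 : P1ᴴ * P0 = 0 := by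
    have := congrArg Matrix.conjTranspose h01
    rwa [Matrix.conjTranspose_mul, Matrix.conjTranspose_conjTranspose, Matrix.conjTranspose_zero] at this
  have hOF : OF ![P0, P1] := by
    refine ⟨fun i => ?_, fun i j hij => ?_, ?_⟩
    · fin_cases i
      · exact h2
      · exact h4
    · fin_cases i <;> fin_cases j
      · exact (hij rfl).elim
      · exact h01
      · exact h10
      · exact (hij rfl).elim
    · rw [Fin.sum_univ_two]
      change P0 * P0ᴴ + P1 * P1ᴴ = 1
      rw [h3, h5]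
      abel
  have hne : (0 : Fin 2) ≠ 1 := by decide
  obtain ⟨s, hsr⟩ := exists_rot hF hs hOF hn0 hne
  have hrot : T (π s) f = 1 - f := by
    have e1 : _root_.Cfsg.Agent.H607.TW.mt (iSU n F q) s * f = (1 - f) * _root_.Cfsg.Agent.H607.TW.mt (iSU n F q) s := by
      rw [hsr]
      apply ext_OF hOF
      intro i
      rw [Matrix.mul_assoc, Matrix.mul_assoc]
      have hfP0 : f * P0 = P0 := by rw [← h3, Matrix.mul_assoc, h2, Matrix.mul_one]
      have hfP1 : f * P1 = 0 := by
        rw [← h3, Matrix.mul_assoc, h01, Matrix.mul_zero]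
      have e2 := rot_P hOF hne
      have e3 := rot_P' hOF hne
      fin_cases i
      · change rot ![P0, P1] 0 1 * (f * P0) = (1 - f) * (rot ![P0, P1] 0 1 * P0)
        change rot ![P0, P1] 0 1 * P0 = -P1 at e2
        rw [hfP0, e2, Matrix.mul_neg, Matrix.sub_mul, Matrix.one_mul, hfP1, sub_zero]
      · change rot ![P0, P1] 0 1 * (f * P1) = (1 - f) * (rot ![P0, P1] 0 1 * P1)
        change rot ![P0, P1] 0 1 * P1 = P0 at e3
        rw [hfP1, e3, Matrix.mul_zero, Matrix.sub_mul, Matrix.one_mul, hfP0, sub_self]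
    rw [hT.pi, e1, mul_assoc, mt_mul_inv, mul_one]
  have hAinv : ∀ a ∈ A, T a⁻¹ f = f := fun a ha => hA a⁻¹ (inv_mem ha)
  have hnorm : A ≤ normalizer (((flip π T f).map π : Subgroup G) : Set G) := by
    apply le_normalizer_of
    rintro a ha _ ⟨k, hk, rfl⟩
    obtain ⟨k', h6, h7⟩ := hT.conj a k
    refine ⟨k', ?_, h7⟩
    change T (π k') f = f ∨ T (π k') f = 1 - f
    rw [h7, T_mul, T_mul, hAinv a ha]
    rcases hk with hk | hk
    · rw [hk, hA a ha]
      exact Or.inl rfl
    · rw [hk, map_sub, map_one, hA a ha]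
      exact Or.inr rfl
  rcases le_or_eq hL (map_le_N hM _) hnorm with h6 | h6
  · have h7 : π s ∈ A := h6 ⟨s, Or.inr hrot, rfl⟩
    have h8 := hA _ h7
    rw [hrot] at h8
    rw [h8, hff] at hf1
    exact h0 hf1
  · have h7 : ∀ s, T (π s) f = f ∨ T (π s) f = 1 - f := by
      intro s
      have h8 : π s ∈ (flip π T f).map π := by
        rw [h6, ← hM.range]
        exact ⟨s, rfl⟩
      obtain ⟨k, hk, hks⟩ := h8
      rw [← hks]
      exact hk
    let S0 : Subgroup ↥(Cfsg.SU n F q) :=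
      { carrier := {s | T (π s) f = f}
        mul_mem' := by
          intro a b ha hb
          change T (π (a * b)) f = f
          rw [map_mul, T_mul]
          exact (congrArg _ hb).trans ha
        one_mem' := by
          change T (π 1) f = f
          rw [map_one, map_one, RingAut.one_apply]
        inv_mem' := by
          intro a ha
          change T (π a⁻¹) f = f
          rw [map_inv]
          have h8 := congrArg (T (π a)⁻¹) ha
          rw [T_inv] at h8
          exact h8.symm }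
    have h8 : _root_.commutator ↥(Cfsg.SU n F q) ≤ S0 := by
      rw [commutator_def, Subgroup.commutator_le]
      intro a _ b _
      change T (π ⁅a, b⁆) f = f
      have e0 : π ⁅a, b⁆ = π a * π b * π a⁻¹ * π b⁻¹ := by
        rw [commutatorElement_def, map_mul, map_mul, map_mul]
      rw [e0, T_mul, T_mul, T_mul]
      have e1 : ∀ a, T (π a⁻¹) f = T (π a) f := by
        intro a
        rw [map_inv]
        rcases h7 a with h9 | h9
        · rw [h9]
          have h10 := congrArg (T (π a)⁻¹) h9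
          rw [T_inv] at h10
          exact h10.symm
        · rw [h9]
          have h10 := congrArg (T (π a)⁻¹) h9
          rw [T_inv, map_sub, map_one] at h10
          calc T (π a)⁻¹ f = 1 - (1 - T (π a)⁻¹ f) := by abel
            _ = 1 - f := by rw [← h10]
      rw [e1]
      rcases h7 a with h9 | h9 <;> rcases h7 b with h10 | h10 <;>
        simp only [h10, e1, h9, map_sub, map_one, sub_sub_cancel]
    have h9 : ∀ s, T (π s) f = f := by
      intro s
      have h10 : s ∈ S0 := h8 (by rw [hM.perfect]; trivial)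
      exact h10
    have h10 : ∀ s, f * _root_.Cfsg.Agent.H607.TW.mt (iSU n F q) s = _root_.Cfsg.Agent.H607.TW.mt (iSU n F q) s * f := by
      intro s
      have h11 := h9 s
      rw [hT.pi] at h11
      calc f * _root_.Cfsg.Agent.H607.TW.mt (iSU n F q) s = _root_.Cfsg.Agent.H607.TW.mt (iSU n F q) s * f * (_root_.Cfsg.Agent.H607.TW.mt (iSU n F q) s⁻¹ * _root_.Cfsg.Agent.H607.TW.mt (iSU n F q) s) := by
            rw [← mul_assoc, h11]
        _ = _ := by rw [mt_inv_mul, mul_one]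
    obtain ⟨c, hc⟩ := Cfsg.Agent.H296.TW.scalar_of_commute hM.span h10
    have h11 : Subalgebra.centralizer F ({f} : Set (Matrix (Fin n) (Fin n) F)) ≠ ⊤ :=
      cent_ne_top hn0 (Set.mem_singleton f) hff h0 h1
    apply h11
    rw [eq_top_iff]
    intro x _
    rw [Subalgebra.mem_centralizer_iff]
    intro y hy
    rw [Set.mem_singleton_iff.1 hy, hc, smul_mul_assoc, one_mul, mul_smul_comm, mul_one]

include hF hs in
/-- **the ranks are equal** (or everything is small) -/
theorem Fr.equal (hn : 3 ≤ n) (hL : Loc N A r) (hM : Model N (iSU n F q) π) (hT : Lf π T) (hcomp : CompF π A)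
    {t : ℕ} {e : Fin t → Matrix (Fin n) (Fin n) F} (h : Fr π T A e) :
    (∃ m, (m = 1 ∨ (m = 2 ∧ (q = 2 ∨ q = 3)) ∨ (m = 3 ∧ q = 2)) ∧
      ∃ P : Fin t → Matrix (Fin n) (Fin m) F, OF P ∧ ∀ i, e i = pr P i) ∨
    (n ≤ 4 ∧ q ≤ 3) ∨ (n ≤ 5 ∧ q = 2) := by
  classical
  have hsa := Fr.selfadj hF hs hn hL hM hT hcomp h
  have hn0 : 0 < n := by omega
  choose w hw using fun i => exists_rk (h.idem i)
  have hw1 : ∀ i, w i = 1 ∨ ((w i = 2 ∧ (q = 2 ∨ q = 3)) ∨ (w i = 3 ∧ q = 2)) := by
    intro i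
    rcases h.rank hn hT hcomp hs (hw i) with h1 | ⟨-, h1⟩
    · exact Or.inl h1
    · exact Or.inr h1
  have ht := h.two
  let i0 : Fin t := ⟨0, by omega⟩
  by_cases hall : ∀ i, w i = w i0
  · left
    refine ⟨w i0, hw1 i0, ?_⟩
    have hw2 : ∀ i, Rk (e i) (w i0) := fun i => hall i ▸ hw i
    choose P hP1 hP2 using fun i => Rk.on hF hs (h.idem i) (hsa i) (hw2 i)
    refine ⟨P, ⟨hP1, fun i j hij => ?_, ?_⟩, fun i => (hP2 i).symm⟩
    · calc (P i)ᴴ * P j = ((P i)ᴴ * P i) * (P i)ᴴ * P j * ((P j)ᴴ * P j) := by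
            rw [hP1, hP1, Matrix.one_mul, Matrix.mul_one]
        _ = (P i)ᴴ * ((P i * (P i)ᴴ) * (P j * (P j)ᴴ)) * P j := by simp only [Matrix.mul_assoc]
        _ = 0 := by rw [hP2, hP2, h.orth i j hij, Matrix.mul_zero, Matrix.zero_mul]
    · rw [← h.sum]
      exact Finset.sum_congr rfl fun i _ => hP2 i
  · right
    push Not at hall
    obtain ⟨j0, hj0⟩ := hall
    let I : Finset (Fin t) := Finset.univ.filter fun k => w k = w i0
    let f : Matrix (Fin n) (Fin n) F := ∑ k ∈ I, e k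
    have hfe : ∀ k, f * e k = if w k = w i0 then e k else 0 := by
      intro k
      rw [Finset.sum_mul]
      split_ifs with hk
      · rw [Finset.sum_eq_single k]
        · exact h.idem k
        · intro j _ hjk
          exact h.orth j k hjk
        · intro hk'
          exact (hk' (Finset.mem_filter.2 ⟨Finset.mem_univ _, hk⟩)).elim
      · apply Finset.sum_eq_zero
        intro j hj
        apply h.orth
        rintro rfl
        exact hk (Finset.mem_filter.1 hj).2
    have hff : f * f = f := by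
      change f * ∑ k ∈ I, e k = ∑ k ∈ I, e k
      rw [Finset.mul_sum]
      apply Finset.sum_congr rfl
      intro k hk
      rw [hfe, if_pos (Finset.mem_filter.1 hk).2]
    have hfs : fᴴ = f := by
      change (∑ k ∈ I, e k)ᴴ = ∑ k ∈ I, e k
      rw [Matrix.conjTranspose_sum]
      exact Finset.sum_congr rfl fun k _ => hsa k
    have hf0 : f ≠ 0 := by
      intro h0
      have h1 := hfe i0
      rw [if_pos rfl, h0, zero_mul] at h1
      exact h.ne i0 h1.symm
    have hf1 : f ≠ 1 := by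
      intro h0
      have h1 := hfe j0
      rw [if_neg hj0, h0, one_mul] at h1
      exact h.ne j0 h1
    have hfA : ∀ a ∈ A, T a f = f := by
      intro a ha
      obtain ⟨k, hk⟩ := h.perm_equiv ha
      change T a (∑ k ∈ I, e k) = ∑ k ∈ I, e k
      rw [map_sum]
      have hwk : ∀ i, w (k i) = w i := by
        intro i
        have h1 : Rk (e (k i)) (w i) := by
          rw [← hk]
          exact (hw i).map hT a
        exact (hw (k i)).unique h1
      refine Finset.sum_bij (fun i _ => k i) ?_ ?_ ?_ ?_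
      · intro i hi
        rw [Finset.mem_filter] at hi ⊢
        exact ⟨Finset.mem_univ _, by rw [hwk, hi.2]⟩
      · intro i _ j _ hij
        exact k.injective hij
      · intro j hj
        refine ⟨k.symm j, ?_, k.apply_symm_apply j⟩
        rw [Finset.mem_filter] at hj ⊢
        refine ⟨Finset.mem_univ _, ?_⟩
        rw [← hwk, k.apply_symm_apply, hj.2]
      · intro i _
        exact hk i
    have hff' : (1 - f) * (1 - f) = 1 - f := by
      rw [sub_mul, one_mul, mul_sub, mul_one, hff]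
      abel
    obtain ⟨w1, hw1'⟩ := exists_rk hff
    obtain ⟨w2, hw2'⟩ := exists_rk hff'
    have hX1 : ∀ a ∈ A, ∀ x ∈ ({f} : Set (Matrix (Fin n) (Fin n) F)), T a x ∈ ({f} : Set (Matrix (Fin n) (Fin n) F)) := by
      intro a ha x hx
      rw [Set.mem_singleton_iff] at hx ⊢
      rw [hx, hfA a ha]
    have hX2 : ∀ x ∈ ({f} : Set (Matrix (Fin n) (Fin n) F)), xᴴ ∈ ({f} : Set (Matrix (Fin n) (Fin n) F)) := by
      intro x hx
      rw [Set.mem_singleton_iff] at hx ⊢
      rw [hx, hfs]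
    have hX3 := cent_ne_top hn0 (Set.mem_singleton f) hff hf0 hf1
    have e1 := comp_cent hs hT hcomp hX1 hX2 hX3 (f := f) (by
      intro x hx
      rw [Set.mem_singleton_iff] at hx
      exact ⟨1, by rw [hx, hff, one_smul], by rw [hx, hff, one_smul]⟩)
      (fun z hz => hz f (Set.mem_singleton f)) hw1'
    have e2 := comp_cent hs hT hcomp hX1 hX2 hX3 (f := 1 - f) (by
      intro x hx
      rw [Set.mem_singleton_iff] at hx
      refine ⟨0, ?_, ?_⟩
      · rw [hx, sub_mul, one_mul, hff, sub_self, zero_smul]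
      · rw [hx, mul_sub, mul_one, hff, sub_self, zero_smul])
      (fun z hz => by
        have := hz f (Set.mem_singleton f)
        rw [sub_mul, mul_sub, one_mul, mul_one, this]) hw2'
    have e3 := hw1'.pos hf0
    have e4 := hw2'.pos (fun h0 => hf1 (sub_eq_zero.1 h0).symm)
    have e5 := hw1'.add hw2'
    by_cases h33 : w1 = 3 ∧ w2 = 3
    · exfalso
      obtain ⟨rfl, rfl⟩ := h33
      exact swap_false hF hs hn hL hM hT hff hfs hf0 hf1 hfA hw1' hw2'
    · rcases e1 with e1 | ⟨-, e1⟩ <;> rcases e2 with e2 | ⟨-, e2⟩ <;> omega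

end

end Cfsg.Agent.H189.TW
end

-- part: H189/TW/Cent
section
/-!
# S3694, T6: the centralizer of the stabilizer of a frame is trivial (helper189)

`cent_false`.
-/

set_option autoImplicit false
set_option linter.unusedSectionVars false

namespace Cfsg.Agent.H189.TW

open Matrix Subgroup Cfsg Cfsg.Agent.H607.TW
open Cfsg.Agent.H748.TW (mt_mul mt_one mt_inj mt_mul_inv mt_inv_mul)

universe u

/-- the nilpotent matrices -/
def NilAx (F : Type) [Field F] [StarRing F] (m : ℕ) : Prop :=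
  ∃ ν : Matrix (Fin m) (Fin m) F, ν * ν = 0 ∧ ν ≠ 0 ∧ νᴴ = -ν

/-- a non-scalar matrix does not commute with some conjugate under the special unitary group -/
def ConjAx (F : Type) [Field F] [StarRing F] (m : ℕ) : Prop :=
  ∀ y : Matrix (Fin m) (Fin m) F, (¬ ∃ c : F, y = c • (1 : Matrix (Fin m) (Fin m) F)) →
    ∃ α : Matrix (Fin m) (Fin m) F, αᴴ * α = 1 ∧ α.det = 1 ∧ y * (α * y * αᴴ) ≠ (α * y * αᴴ) * y

section

variable {G : Type u} [Group G] {F : Type} [Field F] [Fintype F] [StarRing F] {q n m t : ℕ}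
  (hF : Fintype.card F = q ^ 2) (hs : ∀ x : F, Star.star x = x ^ q) {π : ↥(Cfsg.SU n F q) →* G}
  {T : G →* RingAut (Matrix (Fin n) (Fin n) F)} {N D : Subgroup G}
  {P : Fin t → Matrix (Fin n) (Fin m) F} {e : Fin t → Matrix (Fin n) (Fin n) F}

theorem blk_P (h : OF P) (α : Matrix (Fin m) (Fin m) F) (i : Fin t) : blk (P i) α * P i = P i * α := by
  rw [blk_def, Matrix.add_mul, Matrix.one_mul, Matrix.mul_assoc, h.self, Matrix.mul_one, Matrix.mul_sub, Matrix.mul_one]
  abel

theorem Ps_blk (h : OF P) (α : Matrix (Fin m) (Fin m) F) (i : Fin t) : (P i)ᴴ * blk (P i) α = α * (P i)ᴴ := by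
  rw [blk_def, Matrix.mul_add, Matrix.mul_one, ← Matrix.mul_assoc, ← Matrix.mul_assoc, h.self, Matrix.one_mul,
    Matrix.sub_mul, Matrix.one_mul]
  abel

theorem blk_P_ne (h : OF P) (α : Matrix (Fin m) (Fin m) F) {i j : Fin t} (hij : i ≠ j) : blk (P i) α * P j = P j := by
  rw [blk_def, Matrix.add_mul, Matrix.one_mul, Matrix.mul_assoc, h.orth _ _ hij, Matrix.mul_zero, add_zero]

/-- conjugation -/
theorem T_pi_eq (hT : Lf π T) {s : ↥(Cfsg.SU n F q)} {x y : Matrix (Fin n) (Fin n) F}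
    (h : _root_.Cfsg.Agent.H607.TW.mt (iSU n F q) s * x = y * _root_.Cfsg.Agent.H607.TW.mt (iSU n F q) s) : T (π s) x = y := by
  rw [hT.pi, h, mul_assoc, mt_mul_inv, mul_one]

theorem Fr.mem_of_comm (hT : Lf π T) (h : Fr π T D e) (he : ∀ i, e i = pr P i) {s : ↥(Cfsg.SU n F q)}
    (hsc : ∀ i, _root_.Cfsg.Agent.H607.TW.mt (iSU n F q) s * pr P i = pr P i * _root_.Cfsg.Agent.H607.TW.mt (iSU n F q) s) : π s ∈ D := by
  apply h.stab
  intro i
  exact ⟨i, by rw [he]; exact T_pi_eq hT (hsc i)⟩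

/-- the rotation permutes the projections -/
theorem rot_pr (h : OF P) {i j : Fin t} (hij : i ≠ j) (k : Fin t) :
    rot P i j * pr P k = pr P (Equiv.swap i j k) * rot P i j := by
  have e0 : rot P i j * P i = - P j := rot_P h hij
  have e1 : rot P i j * P j = P i := rot_P' h hij
  have f0 : (P i)ᴴ * rot P i j = (P j)ᴴ := by
    have h1 := congrArg Matrix.conjTranspose (rot_P' h hij.symm)
    rwa [Matrix.conjTranspose_mul, rot_star] at h1
  have f1 : (P j)ᴴ * rot P i j = -(P i)ᴴ := by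
    have h1 := congrArg Matrix.conjTranspose (rot_P h hij.symm)
    rwa [Matrix.conjTranspose_mul, rot_star, Matrix.conjTranspose_neg] at h1
  by_cases hki : k = i
  · subst hki
    rw [Equiv.swap_apply_left, pr_def, pr_def, ← Matrix.mul_assoc, e0, Matrix.mul_assoc (P j), f1, Matrix.mul_neg,
      Matrix.neg_mul]
  · by_cases hkj : k = j
    · subst hkj
      rw [Equiv.swap_apply_right, pr_def, pr_def, ← Matrix.mul_assoc, e1, Matrix.mul_assoc (P i), f0]
    · rw [Equiv.swap_apply_of_ne_of_ne hki hkj, pr_def, ← Matrix.mul_assoc, rot_P_ne h (Ne.symm hki) (Ne.symm hkj),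
        Matrix.mul_assoc]
      have h1 := congrArg Matrix.conjTranspose (rot_P_ne h (Ne.symm hkj) (Ne.symm hki))
      rw [Matrix.conjTranspose_mul, rot_star] at h1
      rw [h1]

include hF hs in
theorem exists_rot_T (h : OF P) (hT : Lf π T) (hn : 0 < n) {i j : Fin t} (hij : i ≠ j) :
    ∃ s : ↥(Cfsg.SU n F q), _root_.Cfsg.Agent.H607.TW.mt (iSU n F q) s = rot P i j ∧ ∀ k, T (π s) (pr P k) = pr P (Equiv.swap i j k) := by
  obtain ⟨s, hs1⟩ := exists_rot hF hs h hn hij
  refine ⟨s, hs1, fun k => ?_⟩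
  apply T_pi_eq hT
  rw [hs1, rot_pr h hij]

theorem comm_scalar (hM : Model N (iSU n F q) π) (hT : Lf π T) {x : G} {s : ↥(Cfsg.SU n F q)} (h : x * π s = π s * x) :
    ∃ c : F, T x (_root_.Cfsg.Agent.H607.TW.mt (iSU n F q) s) = c • _root_.Cfsg.Agent.H607.TW.mt (iSU n F q) s := by
  obtain ⟨s', h1, h2⟩ := hT.conj x s
  have h3 : π (s' * s⁻¹) = 1 := by
    rw [map_mul, map_inv, h2, h]
    group
  obtain ⟨c, hc⟩ := (hM.ker _).1 h3
  refine ⟨c, ?_⟩
  have h6 : s' = s' * s⁻¹ * s := by group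
  rw [← h1, h6, mt_mul, hc, smul_mul_assoc, one_mul]

theorem smul_pr_inj (hP : OF P) (hm : 0 < m) {c d : F} {i : Fin t} (h : c • pr P i = d • pr P i) : c = d := by
  by_contra hne
  rw [← sub_eq_zero, ← sub_smul, smul_eq_zero] at h
  rcases h with h | h
  · exact hne (sub_eq_zero.1 h)
  · exact hP.pr_ne_zero hm i h

theorem smul_P_inj (hP : OF P) (hm : 0 < m) {c d : F} {i : Fin t} (h : c • P i = d • P i) : c = d := by
  apply smul_pr_inj hP hm (i := i)
  rw [pr_def, ← Matrix.smul_mul, h, Matrix.smul_mul]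

theorem exists_third (ht : 3 ≤ t) (i j : Fin t) : ∃ k : Fin t, k ≠ i ∧ k ≠ j := by
  classical
  by_contra hcon
  push Not at hcon
  have h1 : (Finset.univ : Finset (Fin t)) ⊆ {i, j} := by
    intro k _
    rw [Finset.mem_insert, Finset.mem_singleton]
    by_cases h : k = i
    · exact Or.inl h
    · exact Or.inr (hcon k h)
  have h2 := Finset.card_le_card h1
  rw [Finset.card_univ, Fintype.card_fin] at h2
  have h3 := Finset.card_insert_le i ({j} : Finset (Fin t))
  rw [Finset.card_singleton] at h3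
  omega

theorem exists_other (ht : 2 ≤ t) (i : Fin t) : ∃ k : Fin t, k ≠ i := by
  have : Nontrivial (Fin t) := Fin.nontrivial_iff_two_le.2 ht
  exact exists_ne i

include hF hs in
/-- **an element centralizing the stabilizer of the frame is trivial** -/
theorem cent_false (hn : 3 ≤ n) (hM : Model N (iSU n F q) π) (hT : Lf π T) (h : Fr π T D e) (hP : OF P)
    (he : ∀ i, e i = pr P i) (hm : 0 < m) (hnil : m ≠ 1 → NilAx F m) (hconj : ConjAx F m)
    (ht : 3 ≤ t ∨ (2 : F) = 0) {x : G} (hx : x ∈ D) (hcomm : ∀ s, π s ∈ D → x * π s = π s * x) : x = 1 := by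
  have hn0 : 0 < n := by omega
  have ht2 := h.two
  have hkey : ∀ s, π s ∈ D → ∃ c : F, T x (_root_.Cfsg.Agent.H607.TW.mt (iSU n F q) s) = c • _root_.Cfsg.Agent.H607.TW.mt (iSU n F q) s := fun s hsD =>
    comm_scalar hM hT (hcomm s hsD)
  -- `c = 1`
  have hc1 : ∀ c : F, (3 ≤ t → c = 1) → c * c = 1 → c = 1 := by
    intro c h1 h2
    rcases ht with h3 | h3
    · exact h1 h3
    · have h4 : (c - 1) * (c - 1) = 0 := by
        have : (c - 1) * (c - 1) = c * c + 1 - 2 * c := by ring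
        rw [this, h2, h3, zero_mul, sub_zero, one_add_one_eq_two, h3]
      exact sub_eq_zero.1 (mul_self_eq_zero.1 h4)
  -- the projections are fixed
  have hfix : ∀ i, T x (pr P i) = pr P i := by
    intro i
    obtain ⟨j, hj⟩ := h.perm x hx i
    rw [he, he] at hj
    by_cases hij : j = i
    · rw [hj, hij]
    exfalso
    by_cases hm1 : m = 1
    · have ht3 : 3 ≤ t := by
        have h1 := hP.card
        rw [hm1, mul_one] at h1
        omega
      obtain ⟨l, hli, hlj⟩ := exists_third ht3 i j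
      obtain ⟨s, -, hsT⟩ := exists_rot_T hF hs hP hT hn0 (Ne.symm hlj)
      have hsD : π s ∈ D := by
        apply h.stab
        intro k
        exact ⟨Equiv.swap j l k, by rw [he, he, hsT]⟩
      have h1 := congrArg (fun g => T g (pr P i)) (hcomm s hsD)
      simp only [T_mul] at h1
      rw [hsT, Equiv.swap_apply_of_ne_of_ne (Ne.symm hij) (Ne.symm hli), hj, hsT, Equiv.swap_apply_left] at h1
      exact hlj (hP.pr_inj hm h1).symm
    · obtain ⟨ν, h1, h2, h3⟩ := hnil hm1
      have hα : (1 + ν)ᴴ * (1 + ν) = 1 := by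
        rw [Matrix.conjTranspose_add, Matrix.conjTranspose_one, h3]
        calc (1 + -ν) * (1 + ν) = 1 - ν * ν := by noncomm_ring
          _ = 1 := by rw [h1, sub_zero]
      obtain ⟨s, hs1⟩ := exists_blk hF hs hP i hα (Cfsg.Agent.H748.TW.det_one_add hm ⟨2, by rw [pow_two, h1]⟩)
      have hsD : π s ∈ D := h.mem_of_comm hT he (fun k => by rw [hs1, blk_comm hP])
      obtain ⟨c, hc⟩ := hkey s hsD
      have hblk : _root_.Cfsg.Agent.H607.TW.mt (iSU n F q) s = 1 + P i * ν * (P i)ᴴ := by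
        rw [hs1, blk_def, add_sub_cancel_left]
      have h4 : pr P i * (P i * ν * (P i)ᴴ) = P i * ν * (P i)ᴴ := by
        rw [← Matrix.mul_assoc, ← Matrix.mul_assoc, hP.pr_P]
      have h5 : pr P i * T x (P i * ν * (P i)ᴴ) = 0 := by
        rw [← h4, map_mul, hj, ← mul_assoc, hP.pr_mul_ne (Ne.symm hij), zero_mul]
      rw [hblk, map_add, map_one] at hc
      have h6 := congrArg (fun z => pr P i * z) hc
      beta_reduce at h6
      rw [mul_add, mul_one, h5, add_zero, mul_smul_comm, mul_add, mul_one, h4, smul_add] at h6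
      -- pr = c pr + c ν'
      have h7 := congrArg (fun z => (P i)ᴴ * z * P i) h6
      beta_reduce at h7
      have h8 : (P i)ᴴ * pr P i * P i = 1 := by rw [hP.Ps_pr, hP.self]
      have h9 : (P i)ᴴ * (P i * ν * (P i)ᴴ) * P i = ν := by
        calc _ = ((P i)ᴴ * P i) * ν * ((P i)ᴴ * P i) := by simp only [Matrix.mul_assoc]
          _ = ν := by rw [hP.self, Matrix.one_mul, Matrix.mul_one]
      rw [h8, Matrix.mul_add, Matrix.add_mul, Matrix.mul_smul, Matrix.smul_mul, h8, Matrix.mul_smul, Matrix.smul_mul,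
        h9] at h7
      have h10 := congrArg (fun z => z * ν) h7
      beta_reduce at h10
      rw [Matrix.one_mul, Matrix.add_mul, Matrix.smul_mul, Matrix.one_mul, Matrix.smul_mul, h1, smul_zero, add_zero] at h10
      have h11 : (c - 1) • ν = 0 := by rw [sub_smul, one_smul, ← h10, sub_self]
      rw [smul_eq_zero, sub_eq_zero] at h11
      rw [h11.resolve_right h2, one_smul, one_smul] at h7
      exact h2 (left_eq_add.1 h7)
  -- linearity
  obtain ⟨σ, hσ⟩ := semi hn0 (T x)
  have hσ1 : ∀ a : F, a * a ^ q = 1 → σ a = a := by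
    intro a ha
    have ha0 : a ≠ 0 := by
      rintro rfl
      rw [zero_mul] at ha
      exact zero_ne_one ha
    let i0 : Fin t := ⟨0, by omega⟩
    let i1 : Fin t := ⟨1, by omega⟩
    have h01 : i0 ≠ i1 := by simp [i0, i1]
    obtain ⟨s, hs1⟩ := exists_dg hF hs hP h01 ha
    have hpk : ∀ (b c : F) (k : Fin t), (1 + (b - 1) • pr P i0 + (c - 1) • pr P i1) * pr P k =
        (if k = i0 then b else if k = i1 then c else 1) • pr P k := by
      intro b c k
      rw [add_mul, add_mul, one_mul, smul_mul_assoc, smul_mul_assoc]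
      by_cases hk0 : k = i0
      · rw [if_pos hk0, hk0, hP.pr_mul_self, hP.pr_mul_ne h01.symm, smul_zero, add_zero, sub_smul, one_smul]
        abel
      · rw [if_neg hk0]
        by_cases hk1 : k = i1
        · rw [if_pos hk1, hk1, hP.pr_mul_self, hP.pr_mul_ne h01, smul_zero, add_zero, sub_smul, one_smul]
          abel
        · rw [if_neg hk1, hP.pr_mul_ne (Ne.symm hk0), hP.pr_mul_ne (Ne.symm hk1), smul_zero, smul_zero, add_zero, add_zero,
            one_smul]
    have hkp : ∀ (b c : F) (k : Fin t), pr P k * (1 + (b - 1) • pr P i0 + (c - 1) • pr P i1) =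
        (if k = i0 then b else if k = i1 then c else 1) • pr P k := by
      intro b c k
      rw [mul_add, mul_add, mul_one, mul_smul_comm, mul_smul_comm]
      by_cases hk0 : k = i0
      · rw [if_pos hk0, hk0, hP.pr_mul_self, hP.pr_mul_ne h01, smul_zero, add_zero, sub_smul, one_smul]
        abel
      · rw [if_neg hk0]
        by_cases hk1 : k = i1
        · rw [if_pos hk1, hk1, hP.pr_mul_self, hP.pr_mul_ne h01.symm, smul_zero, add_zero, sub_smul, one_smul]
          abel
        · rw [if_neg hk1, hP.pr_mul_ne hk0, hP.pr_mul_ne hk1, smul_zero, smul_zero, add_zero, add_zero,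
            one_smul]
    have hsD : π s ∈ D := h.mem_of_comm hT he (fun k => by rw [hs1, hpk, hkp])
    obtain ⟨c, hc⟩ := hkey s hsD
    have h1 : T x (_root_.Cfsg.Agent.H607.TW.mt (iSU n F q) s) = 1 + (σ a - 1) • pr P i0 + (σ a⁻¹ - 1) • pr P i1 := by
      rw [hs1, map_add, map_add, map_one, hσ, hσ, hfix, hfix, map_sub, map_sub, map_one]
    rw [h1, hs1] at hc
    have h2 : ∀ k, (if k = i0 then σ a else if k = i1 then σ a⁻¹ else 1) =
        c * (if k = i0 then a else if k = i1 then a⁻¹ else 1) := by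
      intro k
      apply smul_pr_inj hP hm (i := k)
      rw [← hpk, hc, smul_mul_assoc, hpk, smul_smul]
    have h3 := h2 i0
    have h4 := h2 i1
    rw [if_pos rfl, if_pos rfl] at h3
    rw [if_neg h01.symm, if_pos rfl, if_neg h01.symm, if_pos rfl] at h4
    have hcc : c = 1 := by
      apply hc1
      · intro ht3
        obtain ⟨k, hk0, hk1⟩ := exists_third ht3 i0 i1
        have h5 := h2 k
        rw [if_neg hk0, if_neg hk1, if_neg hk0, if_neg hk1, mul_one] at h5
        exact h5.symm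
      · have h5 : σ a * σ a⁻¹ = 1 := by rw [← map_mul, mul_inv_cancel₀ ha0, map_one]
        rw [h3, h4] at h5
        calc c * c = c * a * (c * a⁻¹) := by field_simp
          _ = 1 := h5
    rw [h3, hcc, one_mul]
  have hσ2 := fix_of_norm hF σ hσ1
  -- the matrix `B`
  obtain ⟨B, σ', hB⟩ := hT.semi x
  set X : Matrix (Fin n) (Fin n) F := (B : Matrix (Fin n) (Fin n) F) with hX
  have hinv := Cfsg.Agent.H296.TW.GL_inv_mul B
  have hinv' := Cfsg.Agent.H296.TW.GL_mul_inv B
  have hσ' : ∀ c, σ' c = c := by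
    intro c
    have h1 := hB (c • 1)
    rw [hσ, hσ2, map_one] at h1
    have h2 : ((c • (1 : Matrix (Fin n) (Fin n) F)).map σ') = σ' c • 1 := by
      ext i j
      rw [Matrix.map_apply, Matrix.smul_apply, Matrix.smul_apply, smul_eq_mul, smul_eq_mul, map_mul, Matrix.one_apply]
      split_ifs <;> simp only [_root_.map_one, _root_.mul_one, _root_.map_zero, _root_.MulZeroClass.mul_zero]
    rw [h2, Matrix.mul_smul, Matrix.smul_mul, Matrix.mul_one, hinv'] at h1
    have h3 := congrFun (congrFun h1 ⟨0, hn0⟩) ⟨0, hn0⟩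
    simp only [Matrix.smul_apply, Matrix.one_apply_eq, smul_eq_mul, mul_one] at h3
    exact h3.symm
  have hBX : ∀ y z, T x y = z → X * y = z * X := by
    intro y z hyz
    rw [hB] at hyz
    have h1 : y.map σ' = y := by
      ext i j
      rw [Matrix.map_apply, hσ']
    rw [h1] at hyz
    rw [← hyz, Matrix.mul_assoc, hinv, Matrix.mul_one]
  have hXP : ∀ i, X * P i = P i * ((P i)ᴴ * X * P i) := by
    intro i
    have h1 := hBX _ _ (hfix i)
    calc X * P i = (X * pr P i) * P i := by rw [Matrix.mul_assoc, hP.pr_P]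
      _ = pr P i * X * P i := by rw [h1]
      _ = _ := by rw [pr_def]; simp only [Matrix.mul_assoc]
  have hscal : ∀ i, ∃ β : F, X * P i = β • P i := by
    intro i
    by_cases hsc : ∃ c : F, (P i)ᴴ * X * P i = c • (1 : Matrix (Fin m) (Fin m) F)
    · obtain ⟨c, hc⟩ := hsc
      exact ⟨c, by rw [hXP, hc, Matrix.mul_smul, Matrix.mul_one]⟩
    · exfalso
      obtain ⟨α, h1, h2, h3⟩ := hconj _ hsc
      obtain ⟨s, hs1⟩ := exists_blk hF hs hP i h1 h2
      have hsD : π s ∈ D := h.mem_of_comm hT he (fun k => by rw [hs1, blk_comm hP])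
      obtain ⟨c, hc⟩ := hkey s hsD
      have hcc : c = 1 := by
        obtain ⟨k, hk⟩ := exists_other ht2 i
        have h4 := congrArg (fun z => z * pr P k) hc
        beta_reduce at h4
        rw [smul_mul_assoc, hs1, blk_pr_ne hP α (Ne.symm hk)] at h4
        have h5 : T x (blk (P i) α) * pr P k = pr P k := by
          conv_lhs => rw [← hfix k]
          rw [← map_mul, blk_pr_ne hP α (Ne.symm hk), hfix]
        rw [h5] at h4
        have h6 : (1 : F) • pr P k = c • pr P k := by rw [one_smul]; exact h4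
        exact (smul_pr_inj hP hm h6).symm
      rw [hcc, one_smul, hs1] at hc
      have h4 := hBX _ _ hc
      have h5 : (P i)ᴴ * X * P i * α = α * ((P i)ᴴ * X * P i) := by
        calc _ = (P i)ᴴ * (X * blk (P i) α) * P i := by
              rw [Matrix.mul_assoc ((P i)ᴴ * X), ← blk_P hP]
              simp only [Matrix.mul_assoc]
          _ = (P i)ᴴ * blk (P i) α * X * P i := by rw [h4]; simp only [Matrix.mul_assoc]
          _ = _ := by rw [Ps_blk hP]; simp only [Matrix.mul_assoc]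
      apply h3
      have h6 : α * αᴴ = 1 := mul_eq_one_comm.1 h1
      have h7 : α * ((P i)ᴴ * X * P i) * αᴴ = (P i)ᴴ * X * P i := by
        rw [← h5, Matrix.mul_assoc, h6, Matrix.mul_one]
      rw [h7]
  choose β hβ using hscal
  have hβ0 : ∀ i, β i ≠ 0 := by
    intro i h0
    have h1 := hβ i
    rw [h0, zero_smul] at h1
    have h2 : P i = 0 := by
      calc P i = (((B⁻¹ : Matrix.GeneralLinearGroup (Fin n) F) : Matrix (Fin n) (Fin n) F) * X) * P i := by
            rw [hinv, Matrix.one_mul]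
        _ = 0 := by rw [Matrix.mul_assoc, h1, Matrix.mul_zero]
    have h3 : pr P i = 0 := by rw [pr_def, h2, Matrix.zero_mul]
    exact hP.pr_ne_zero hm i h3
  have hββ : ∀ i j, i ≠ j → β i = β j := by
    intro i j hij
    obtain ⟨s, hs1, hsT⟩ := exists_rot_T hF hs hP hT hn0 hij
    have hsD : π s ∈ D := by
      apply h.stab
      intro k
      exact ⟨Equiv.swap i j k, by rw [he, he, hsT]⟩
    obtain ⟨c, hc⟩ := hkey s hsD
    rw [hs1] at hc
    have h1 := hBX _ _ hc
    have h2 : ∀ k, X * (rot P i j * P k) = (c * β k) • (rot P i j * P k) := by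
      intro k
      calc X * (rot P i j * P k) = (c • rot P i j) * X * P k := by rw [← h1, Matrix.mul_assoc]
        _ = (c • rot P i j) * (β k • P k) := by rw [Matrix.mul_assoc, hβ]
        _ = _ := by rw [Matrix.smul_mul, Matrix.mul_smul, smul_smul]
    have h3 := h2 i
    rw [rot_P hP hij, Matrix.mul_neg, hβ, smul_neg, neg_inj] at h3
    have h4 := h2 j
    rw [rot_P' hP hij, hβ] at h4
    have e1 := smul_P_inj hP hm h3
    have e2 := smul_P_inj hP hm h4
    have hcc : c = 1 := by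
      apply hc1
      · intro ht3
        obtain ⟨k, hki, hkj⟩ := exists_third ht3 i j
        have h5 := h2 k
        rw [rot_P_ne hP (Ne.symm hki) (Ne.symm hkj), hβ] at h5
        have h6 := smul_P_inj hP hm h5
        exact mul_right_cancel₀ (hβ0 k) (by rw [one_mul, ← h6])
      · apply mul_right_cancel₀ (hβ0 i)
        rw [one_mul, mul_assoc, ← e1, ← e2]
    rw [e2, hcc, one_mul]
  -- `X` is scalar
  have hXs : ∃ b : F, X = b • (1 : Matrix (Fin n) (Fin n) F) := by
    let i0 : Fin t := ⟨0, by omega⟩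
    refine ⟨β i0, ext_OF hP fun i => ?_⟩
    rw [hβ, Matrix.smul_mul, Matrix.one_mul]
    by_cases hi : i = i0
    · rw [hi]
    · rw [hββ i i0 hi]
  obtain ⟨b, hb⟩ := hXs
  apply hT.faithful
  intro y
  have h1 := hBX y _ rfl
  rw [hb, smul_mul_assoc, one_mul, mul_smul_comm, mul_one] at h1
  have hb0 : b ≠ 0 := by
    rintro rfl
    rw [zero_smul] at hb
    rw [← hX, hb, Matrix.zero_mul] at hinv'
    have h6 := congrFun (congrFun hinv' ⟨0, hn0⟩) ⟨0, hn0⟩
    rw [Matrix.zero_apply, Matrix.one_apply_eq] at h6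
    exact zero_ne_one h6
  have h2 := congrArg (fun z => b⁻¹ • z) h1
  simp only [smul_smul, inv_mul_cancel₀ hb0, one_smul] at h2
  exact h2.symm

end

end Cfsg.Agent.H189.TW
end

private theorem dce_cb82a003c2a2 : _root_.True := by
  try have : _root_.True := by simp only [_root_.Cfsg.Agent.H189.TW.Pe.eq_1]
  try have : _root_.True := by simp only [_root_.Cfsg.Agent.H189.TW.nrm.eq_1]
  try have : _root_.True := by simp only [_root_.Cfsg.Agent.H189.TW.rot.eq_1]
  exact _root_.True.intro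
end

-- part: H607/TW/Main_mg
section
prune_inst 0x2000000000240000000080000000000000000000000000080000800000000800002000000000000000000000000000000000000040000000000008000000000010000008e000080000000000000000000000000000000000000000000000
set_option linter.all false
open scoped Cfsg.Agent.FastGrp

-- part: H968/TW/FieldEnd
section
/-!
# S3694: the field case, the end (helper968)
-/

set_option autoImplicit false

namespace Cfsg.Agent.H968.TW

open Subgroup Cfsg.Agent.H607.TW

universe u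

variable {G : Type u} [Group G] [Finite G] {N A C A₁ C₁ A₂ C₂ X : Subgroup G} {r d : ℕ} {F : Type} [Field F] {n : ℕ}
  {S : Type} [Group S] {ι : S →* Matrix.GeneralLinearGroup (Fin n) F} {π : S →* G}

omit [Finite G] in
/-- products of general lifts -/
theorem ind_mul {g h : G} {τ ρ : Matrix (Fin n) (Fin n) F ≃+ Matrix (Fin n) (Fin n) F} (hτ : Ind ι π g τ)
    (hρ : Ind ι π h ρ) : Ind ι π (g * h) (ρ.trans τ) := by
  rcases hτ with ⟨t1, t2⟩ | ⟨t1, t2⟩ <;> rcases hρ with ⟨r1, r2⟩ | ⟨r1, r2⟩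
  · refine Or.inl ⟨fun x y => ?_, fun s => ?_⟩
    · rw [AddEquiv.trans_apply, r1, t1]; rfl
    · obtain ⟨s', h1, h2⟩ := r2 s
      obtain ⟨s'', h3, h4⟩ := t2 s'
      exact ⟨s'', by rw [h3, h1]; rfl, by rw [h4, h2]; group⟩
  · refine Or.inr ⟨fun x y => ?_, fun s => ?_⟩
    · rw [AddEquiv.trans_apply, r1, t1]; rfl
    · obtain ⟨s', h1, h2⟩ := r2 s
      obtain ⟨s'', h3, h4⟩ := t2 s'
      refine ⟨s'', by rw [h3, h1]; rfl, ?_⟩
      have h5 : π s' = (h * π s * h⁻¹)⁻¹ := by rw [← h2, inv_inv]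
      rw [h4, h5]; group
  · refine Or.inr ⟨fun x y => ?_, fun s => ?_⟩
    · rw [AddEquiv.trans_apply, r1, t1]; rfl
    · obtain ⟨s', h1, h2⟩ := r2 s
      obtain ⟨s'', h3, h4⟩ := t2 s'
      exact ⟨s'', by rw [h3, h1]; rfl, by rw [h4, h2]; group⟩
  · refine Or.inl ⟨fun x y => ?_, fun s => ?_⟩
    · rw [AddEquiv.trans_apply, r1, t1]; rfl
    · obtain ⟨s', h1, h2⟩ := r2 s
      obtain ⟨s'', h3, h4⟩ := t2 s'
      refine ⟨s'', by rw [h3, h1]; rfl, ?_⟩
      have h5 : π s' = (h * π s * h⁻¹)⁻¹ := by rw [← h2, inv_inv]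
      have h6 : π s'' = (g * π s' * g⁻¹)⁻¹ := by rw [← h4, inv_inv]
      rw [h6, h5]; group

/-- the contragredient of a unit -/
noncomputable def ctr (B : Matrix.GeneralLinearGroup (Fin n) F) (σ : F ≃+* F) : Matrix.GeneralLinearGroup (Fin n) F where
  val := tauM B σ ((B⁻¹ : Matrix.GeneralLinearGroup (Fin n) F) : Matrix (Fin n) (Fin n) F)
  inv := tauM B σ (B : Matrix (Fin n) (Fin n) F)
  val_inv := by
    rw [← tauM_mul, ← Units.val_mul, mul_inv_cancel, Units.val_one, tau_one (Or.inr (tauM_mul B σ))]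
  inv_val := by
    rw [← tauM_mul, ← Units.val_mul, inv_mul_cancel, Units.val_one, tau_one (Or.inr (tauM_mul B σ))]

omit [Finite G] in
/-- the square of an antiautomorphism -/
theorem tauM_tauM (B : Matrix.GeneralLinearGroup (Fin n) F) (σ : F ≃+* F) :
    (tauM B σ).trans (tauM B σ) = tauP (ctr B σ * B) (σ.trans σ) := by
  ext1 x
  rw [AddEquiv.trans_apply]
  have h1 : tauM B σ x = (B : Matrix (Fin n) (Fin n) F) * x.transpose.map σ *
      ((B⁻¹ : Matrix.GeneralLinearGroup (Fin n) F) : Matrix (Fin n) (Fin n) F) := tauM_apply B σ x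
  rw [h1, tauM_mul, tauM_mul]
  have h2 : tauM B σ (x.transpose.map σ) = (B : Matrix (Fin n) (Fin n) F) * x.map (σ.trans σ) *
      ((B⁻¹ : Matrix.GeneralLinearGroup (Fin n) F) : Matrix (Fin n) (Fin n) F) := by
    rw [tauM_apply]
    rfl
  rw [h2, tauP_apply, mul_inv_rev, Units.val_mul, Units.val_mul]
  have h3 : ((ctr B σ : Matrix.GeneralLinearGroup (Fin n) F) : Matrix (Fin n) (Fin n) F) =
      tauM B σ ((B⁻¹ : Matrix.GeneralLinearGroup (Fin n) F) : Matrix (Fin n) (Fin n) F) := rfl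
  have h4 : (((ctr B σ)⁻¹ : Matrix.GeneralLinearGroup (Fin n) F) : Matrix (Fin n) (Fin n) F) =
      tauM B σ (B : Matrix (Fin n) (Fin n) F) := rfl
  rw [h3, h4]
  simp only [mul_assoc]

/-- T14 with the two inputs -/
theorem end_field_core [Finite F] (hT : T12a F n) (h : Sit N A C A₁ C₁ A₂ C₂ r d) (hn : 3 ≤ n) (hM : Model N ι π)
    (hC : CompAx ι π A)
    (hfld : ∀ x : G, Loc N A r → x ^ r = 1 → x ≠ 1 → (∀ y ∈ A ⊓ N, x * y = y * x) →
      (∀ y ∈ N, x * y = y * x → y ∈ A) → A ⊓ N ≠ ⊥ → ∀ (B : Matrix.GeneralLinearGroup (Fin n) F) (σ : F ≃+* F), σ ≠ 1 →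
      Ind ι π x (tauP B σ) → r = 2)
    (hX : MinX N A X r) (hab : ∀ s t : S, π s ∈ X → π t ∈ X → s * t = t * s)
    (hinv : ∀ b ∈ Algebra.adjoin F (_root_.Cfsg.Agent.H607.TW.mt ι '' {s | π s ∈ X}), b ≠ 0 → ∃ c ∈ Algebra.adjoin F (_root_.Cfsg.Agent.H607.TW.mt ι '' {s | π s ∈ X}), b * c = 1)
    (hout : A₂ ⊓ N = ⊥ → ∃ x ∈ A₂, x ^ r = 1 ∧ x ≠ 1 ∧ (∀ y ∈ A ⊓ N, x * y = y * x) ∧
      (∀ y ∈ N, x * y = y * x → y ∈ A)) : False := by
  have hSfin : Finite S := Finite.of_injective ι hM.inj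
  obtain ⟨hr2, hloc⟩ := field_local hT h.locA hn hM hC hX hab hinv
  have hXn : ∀ a ∈ A, ∀ x ∈ X, a * x * a⁻¹ ∈ X := fun a ha x hx => conj_mem_of_norm hX.norm ha hx
  -- an element of `O_r(A) ∩ O_r(C)` with an inner lift is trivial
  have key : ∀ y ∈ OO r A, y ∈ OO r C → (∃ u, InnL ι π y u) → y = 1 := by
    intro y hyA hyC hyu
    by_contra hy1
    obtain ⟨u, hu⟩ := hyu
    have h1 := hloc y hyA hy1 u hu
    obtain ⟨g, hg⟩ := h.conj
    -- the conjugate
    obtain ⟨y', hy'⟩ : ∃ y', y' = g⁻¹ * y * g⁻¹⁻¹ := ⟨_, rfl⟩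
    have hy'A : y' ∈ OO r A := by
      have h2 := OO_map r A (MulAut.conj g)
      rw [hg, h2] at hyC
      obtain ⟨z, hz, hzy⟩ := hyC
      have h3 : g * z * g⁻¹ = y := hzy
      rw [hy', ← h3, show g⁻¹ * (g * z * g⁻¹) * g⁻¹⁻¹ = z by group]
      exact hz
    have hy'1 : y' ≠ 1 := by
      intro h2
      apply hy1
      rw [hy', inv_inv] at h2
      calc y = g * (g⁻¹ * y * g) * g⁻¹ := by group
        _ = 1 := by rw [h2]; group
    obtain ⟨B, σ, hBσ⟩ := hM.lift g⁻¹
    obtain ⟨v, hv⟩ : ∃ v, InnL ι π y' v := by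
      rw [hy']
      rcases hBσ with hτ | hτ
      · exact hu.conj hM.inj hτ
      · exact hu.conj hM.inj hτ
    have h2 := hloc y' hy'A hy'1 v hv
    -- `X` and its conjugate are equal
    have hzc : IsCyclic ↥(zpowers y) := inferInstance
    have hconj : ∀ x ∈ X, g * x * g⁻¹ ∈ X := by
      intro x hx
      have h3 : g * x * g⁻¹ ∈ zpowers y := by
        obtain ⟨m, hm⟩ := mem_zpowers_iff.1 (h2 hx)
        rw [mem_zpowers_iff]
        refine ⟨m, ?_⟩
        rw [← hm, hy', inv_inv, ← conj_zpow]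
        have h4 : g * (g⁻¹ * y * g) * g⁻¹ = y := by group
        rw [h4]
      obtain ⟨⟨x₀, hx₀⟩, hx₀1⟩ := Subgroup.ne_bot_iff_exists_ne_one.1 hX.ne
      have hx₀1' : x₀ ≠ 1 := fun h => hx₀1 (Subtype.ext h)
      have h5 := mem_zpowers_of_cyclic hzc h.locA.prime (h1 hx₀) hx₀1' ⟨1, by rw [pow_one]; exact hX.exp _ hx₀⟩ h3
        (by rw [conj_pow, hX.exp x hx, mul_one, mul_inv_cancel])
      exact (zpowers_le.2 hx₀) h5
    -- `C` normalizes `X`
    have hgX : X.map (MulAut.conj g).toMonoidHom = X := by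
      apply Subgroup.eq_of_le_of_card_ge
      · rintro _ ⟨x, hx, rfl⟩
        exact hconj x hx
      · rw [card_map_of_injective (MulAut.conj g).injective]
    refine h.false_of_both' (H := X) hX.ne ((hX.le.trans inf_le_left).trans (OO_le r A)) hX.norm ?_
    apply le_normalizer_of_conj
    intro c hc x hx
    rw [hg] at hc
    obtain ⟨a, ha, hac⟩ := hc
    have hac' : g * a * g⁻¹ = c := hac
    rw [← hgX] at hx
    obtain ⟨z, hz, hzx⟩ := hx
    have hzx' : g * z * g⁻¹ = x := hzx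
    have h6 : c * x * c⁻¹ = g * (a * z * a⁻¹) * g⁻¹ := by rw [← hac', ← hzx']; group
    rw [h6]
    exact hconj _ (hXn a ha z hz)
  have hA₂N : A₂ ⊓ N = ⊥ := by
    rw [eq_bot_iff]
    rintro y ⟨hy1, hy2⟩
    rw [mem_bot]
    obtain ⟨s, rfl⟩ : ∃ s, π s = y := by
      have h1 : y ∈ N := hy2
      rw [← hM.range] at h1
      exact h1
    exact key _ (h.A₂_OO_A hy1) (h.A₂_OO hy1) ⟨_, InnL.pi s⟩
  obtain ⟨x, hxA, hxr, hx1, hxc, hxN⟩ := hout hA₂N
  have hAN : A ⊓ N ≠ ⊥ := by
    intro h1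
    apply hX.ne
    rw [eq_bot_iff, ← h1]
    exact fun y hy => ⟨OO_le r A (hX.le hy).1, (hX.le hy).2⟩
  -- an element with a `tauP` lift is impossible
  have fin : ∀ z ∈ A₂, z ^ r = 1 → z ≠ 1 → (∀ y ∈ A ⊓ N, z * y = y * z) → (∀ y ∈ N, z * y = y * z → y ∈ A) →
      ∀ (B : Matrix.GeneralLinearGroup (Fin n) F) (σ : F ≃+* F), Ind ι π z (tauP B σ) → False := by
    intro z hz hzr hz1 hzc hzN B σ hind
    by_cases hσ : σ = 1
    · subst hσ
      exact hz1 (key z (h.A₂_OO_A hz) (h.A₂_OO hz) ⟨B, innL_of_ind (by omega) hind⟩)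
    · exact hr2 (hfld z h.locA hzr hz1 hzc hzN hAN B σ hσ hind)
  obtain ⟨B, σ, hBσ⟩ := hM.lift x
  rcases hBσ with hτ | hτ
  · exact fin x hxA hxr hx1 hxc hxN B σ hτ
  · have hodd : Odd r := h.locA.prime.odd_of_ne_two hr2
    obtain ⟨k, hk⟩ := hodd
    have hxx : (x * x) ^ (k + 1) = x := by
      rw [← pow_two, ← pow_mul, show 2 * (k + 1) = r + 1 by omega, pow_succ, hxr, one_mul]
    refine fin (x * x) (mul_mem hxA hxA) ?_ ?_ ?_ ?_ _ _ (by
      have h1 := ind_mul hτ hτ
      rw [tauM_tauM] at h1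
      exact h1)
    · rw [← pow_two, ← pow_mul, mul_comm, pow_mul, hxr, one_pow]
    · intro h1
      rw [h1, one_pow] at hxx
      exact hx1 hxx.symm
    · intro y hy
      have h1 : Commute x y := hxc y hy
      exact h1.mul_left h1
    · intro y hy hyc
      apply hxN y hy
      have h1 : Commute (x * x) y := hyc
      have h2 := h1.pow_left (k + 1)
      rw [hxx] at h2
      exact h2

end Cfsg.Agent.H968.TW
end

-- part: H679/CentField
section
/-!
# The centralizer of a subfield of `M_n(F)` (helper679, for S3694)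

* `exists_phi` : for a field `L` in `M_n(F)` the centralizer is a matrix algebra over `L`;
* `exists_phi_centralizer` : the same for a commutative subalgebra closed under inverses.
-/

set_option autoImplicit false

namespace Cfsg.Agent.H679.CentField

open Matrix

section

variable {F : Type} [Field F] {n : ℕ}

theorem exists_phi {L : Type} [Field L] [Algebra F L] (ι : L →ₐ[F] Matrix (Fin n) (Fin n) F) :
    ∃ (w : ℕ) (φ : Matrix (Fin w) (Fin w) L →ₙ+* Matrix (Fin n) (Fin n) F),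
      w * Module.finrank F L = n ∧ Function.Injective φ ∧ φ 1 = 1 ∧
      (∀ x, (∃ m, φ m = x) ↔ ∀ l : L, x * ι l = ι l * x) ∧ (∀ c : L, φ (Matrix.scalar (Fin w) c) = ι c) := by
  classical
  let f : L →+* Module.End F (Fin n → F) := ((Matrix.toLinAlgEquiv' : Matrix (Fin n) (Fin n) F ≃ₐ[F] _) :
    Matrix (Fin n) (Fin n) F →+* Module.End F (Fin n → F)).comp (ι : L →+* Matrix (Fin n) (Fin n) F)
  have hf : ∀ (l : L) (v : Fin n → F), f l v = ι l *ᵥ v := fun l v => rfl
  let _ : Module L (Fin n → F) := Module.compHom (Fin n → F) f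
  have hs : ∀ (l : L) (v : Fin n → F), l • v = ι l *ᵥ v := fun l v => rfl
  have htower : IsScalarTower F L (Fin n → F) := by
    refine ⟨fun r l v => ?_⟩
    rw [hs, hs, map_smul, smul_mulVec]
  have hfin : Module.Finite L (Fin n → F) := Module.Finite.of_restrictScalars_finite F L (Fin n → F)
  have hfinL : Module.finrank F L * Module.finrank L (Fin n → F) = n := by
    rw [Module.finrank_mul_finrank, Module.finrank_fin_fun]
  let b : Module.Basis (Fin (Module.finrank L (Fin n → F))) L (Fin n → F) := Module.finBasis L (Fin n → F)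
  let φ : Matrix (Fin (Module.finrank L (Fin n → F))) (Fin (Module.finrank L (Fin n → F))) L →ₙ+*
      Matrix (Fin n) (Fin n) F :=
    { toFun := fun m => LinearMap.toMatrix' ((Matrix.toLin b b m).restrictScalars F)
      map_mul' := by
        intro x y
        rw [Matrix.toLin_mul b b b, ← LinearMap.toMatrix'_comp]
        rfl
      map_zero' := by
        rw [map_zero, LinearMap.restrictScalars_zero, map_zero]
      map_add' := by
        intro x y
        rw [map_add, LinearMap.restrictScalars_add, map_add] }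
  have hφ : ∀ m, φ m = LinearMap.toMatrix' ((Matrix.toLin b b m).restrictScalars F) := fun m => rfl
  have hφv : ∀ m (v : Fin n → F), φ m *ᵥ v = Matrix.toLin b b m v := by
    intro m v
    rw [hφ, ← Matrix.toLin'_apply, Matrix.toLin'_toMatrix']
    rfl
  have hext : ∀ {x y : Matrix (Fin n) (Fin n) F}, (∀ v, x *ᵥ v = y *ᵥ v) → x = y := by
    intro x y h
    apply Matrix.toLin'.injective
    refine LinearMap.ext fun v => ?_
    rw [Matrix.toLin'_apply, Matrix.toLin'_apply, h v]
  refine ⟨Module.finrank L (Fin n → F), φ, by rw [mul_comm]; exact hfinL, ?_, ?_, ?_, ?_⟩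
  · intro x y h
    apply (Matrix.toLin b b).injective
    refine LinearMap.ext fun v => ?_
    rw [← hφv, ← hφv, h]
  · apply hext
    intro v
    rw [hφv, Matrix.toLin_one, one_mulVec]
    rfl
  · intro x
    constructor
    · rintro ⟨m, rfl⟩ l
      apply hext
      intro v
      rw [← mulVec_mulVec, ← mulVec_mulVec, hφv, hφv, ← hs, ← hs, map_smul]
    · intro h
      let g : (Fin n → F) →ₗ[L] (Fin n → F) :=
        { toFun := fun v => x *ᵥ v
          map_add' := fun v w => mulVec_add x v w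
          map_smul' := fun l v => by
            rw [hs, RingHom.id_apply, hs, mulVec_mulVec, mulVec_mulVec, h] }
      refine ⟨LinearMap.toMatrix b b g, ?_⟩
      apply hext
      intro v
      rw [hφv, Matrix.toLin_toMatrix]
      rfl
  · intro c
    apply hext
    intro v
    rw [hφv, ← hs]
    have h1 : Matrix.scalar (Fin (Module.finrank L (Fin n → F))) c = c • (1 : Matrix _ _ L) := by
      rw [scalar_apply, smul_one_eq_diagonal]
    rw [h1, map_smul, Matrix.toLin_one]
    rfl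

/-- T12a : the centralizer of a subfield of `M_n(F)` is a matrix algebra over it. -/
theorem exists_phi_centralizer (hn : 0 < n) (B : Subalgebra F (Matrix (Fin n) (Fin n) F))
    (hcomm : ∀ x ∈ B, ∀ y ∈ B, x * y = y * x) (hinv : ∀ x ∈ B, x ≠ 0 → ∃ y ∈ B, x * y = 1) :
    ∃ (L : Type) (_ : Field L) (w : ℕ) (φ : Matrix (Fin w) (Fin w) L →ₙ+* Matrix (Fin n) (Fin n) F),
      Nat.card L = Nat.card ↥B ∧ w * Module.finrank F ↥B = n ∧ Function.Injective φ ∧ φ 1 = 1 ∧
      (∀ x, (∃ m, φ m = x) ↔ ∀ y ∈ B, x * y = y * x) ∧ (∀ c : L, φ (Matrix.scalar (Fin w) c) ∈ B) := by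
  have : Nonempty (Fin n) := ⟨⟨0, hn⟩⟩
  have hfield : IsField ↥B :=
    { exists_pair_ne := ⟨0, 1, (zero_ne_one : _)⟩
      mul_comm := fun x y => Subtype.ext (hcomm x x.2 y y.2)
      mul_inv_cancel := fun {x} hx => by
        obtain ⟨y, hy, h⟩ := hinv x x.2 (fun h => hx (Subtype.ext h))
        exact ⟨⟨y, hy⟩, Subtype.ext h⟩ }
  let _ : Field ↥B := hfield.toField
  obtain ⟨w, φ, h1, h2, h3, h4, h5⟩ := exists_phi (L := ↥B) B.val
  refine ⟨↥B, inferInstance, w, φ, rfl, h1, h2, h3, ?_, ?_⟩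
  · intro x
    rw [h4]
    exact ⟨fun h y hy => h ⟨y, hy⟩, fun h l => h l l.2⟩
  · intro c
    rw [h5]
    exact c.2

end

end Cfsg.Agent.H679.CentField
end

-- part: H607/TW/EndField
section
/-!
# S3694: the field case, `n ≥ 3`, with the exceptions of `hfld`

The proof is helper968's (`H968/TW/FieldEnd.lean`, `T14.lean`); only the hypothesis `hfld` is weakened.
-/

set_option autoImplicit false

namespace Cfsg.Agent.H607.TW

open Subgroup Cfsg.Agent.H968.TW

universe u

section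

variable {G : Type u} [Group G] [Finite G] {N A C A₁ C₁ A₂ C₂ X : Subgroup G} {r d : ℕ} {F : Type} [Field F] {n : ℕ}
  {S : Type} [Group S] {ι : S →* Matrix.GeneralLinearGroup (Fin n) F} {π : S →* G}

/-- T14 with the two inputs (helper968's proof; `hfld` is only used for `A` itself) -/
theorem end_field_core [Finite F] (hT : T12a F n) (h : Sit N A C A₁ C₁ A₂ C₂ r d) (hn : 3 ≤ n) (hM : Model N ι π)
    (hC : CompAx ι π A)
    (hfld : ∀ (x : G), x ^ r = 1 → x ≠ 1 → (∀ y ∈ A ⊓ N, x * y = y * x) →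
      (∀ y ∈ N, x * y = y * x → y ∈ A) → A ⊓ N ≠ ⊥ → ∀ (B : Matrix.GeneralLinearGroup (Fin n) F) (σ : F ≃+* F), σ ≠ 1 →
      Ind ι π x (tauP B σ) → r = 2)
    (hX : MinX N A X r) (hab : ∀ s t : S, π s ∈ X → π t ∈ X → s * t = t * s)
    (hinv : ∀ b ∈ Algebra.adjoin F (mt ι '' {s | π s ∈ X}), b ≠ 0 → ∃ c ∈ Algebra.adjoin F (mt ι '' {s | π s ∈ X}), b * c = 1)
    (hout : A₂ ⊓ N = ⊥ → ∃ x ∈ A₂, x ^ r = 1 ∧ x ≠ 1 ∧ (∀ y ∈ A ⊓ N, x * y = y * x) ∧
      (∀ y ∈ N, x * y = y * x → y ∈ A)) : False := by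
  have hSfin : Finite S := Finite.of_injective ι hM.inj
  obtain ⟨hr2, hloc⟩ := field_local hT h.locA hn hM hC hX hab hinv
  have hXn : ∀ a ∈ A, ∀ x ∈ X, a * x * a⁻¹ ∈ X := fun a ha x hx => conj_mem_of_norm hX.norm ha hx
  -- an element of `O_r(A) ∩ O_r(C)` with an inner lift is trivial
  have key : ∀ y ∈ OO r A, y ∈ OO r C → (∃ u, InnL ι π y u) → y = 1 := by
    intro y hyA hyC hyu
    by_contra hy1
    obtain ⟨u, hu⟩ := hyu
    have h1 := hloc y hyA hy1 u hu
    obtain ⟨g, hg⟩ := h.conj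
    -- the conjugate
    obtain ⟨y', hy'⟩ : ∃ y', y' = g⁻¹ * y * g⁻¹⁻¹ := ⟨_, rfl⟩
    have hy'A : y' ∈ OO r A := by
      have h2 := OO_map r A (MulAut.conj g)
      rw [hg, h2] at hyC
      obtain ⟨z, hz, hzy⟩ := hyC
      have h3 : g * z * g⁻¹ = y := hzy
      rw [hy', ← h3, show g⁻¹ * (g * z * g⁻¹) * g⁻¹⁻¹ = z by group]
      exact hz
    have hy'1 : y' ≠ 1 := by
      intro h2
      apply hy1
      rw [hy', inv_inv] at h2
      calc y = g * (g⁻¹ * y * g) * g⁻¹ := by group
        _ = 1 := by rw [h2]; group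
    obtain ⟨B, σ, hBσ⟩ := hM.lift g⁻¹
    obtain ⟨v, hv⟩ : ∃ v, InnL ι π y' v := by
      rw [hy']
      rcases hBσ with hτ | hτ
      · exact hu.conj hM.inj hτ
      · exact hu.conj hM.inj hτ
    have h2 := hloc y' hy'A hy'1 v hv
    -- `X` and its conjugate are equal
    have hzc : IsCyclic ↥(zpowers y) := inferInstance
    have hconj : ∀ x ∈ X, g * x * g⁻¹ ∈ X := by
      intro x hx
      have h3 : g * x * g⁻¹ ∈ zpowers y := by
        obtain ⟨m, hm⟩ := mem_zpowers_iff.1 (h2 hx)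
        rw [mem_zpowers_iff]
        refine ⟨m, ?_⟩
        rw [← hm, hy', inv_inv, ← conj_zpow]
        have h4 : g * (g⁻¹ * y * g) * g⁻¹ = y := by group
        rw [h4]
      obtain ⟨⟨x₀, hx₀⟩, hx₀1⟩ := Subgroup.ne_bot_iff_exists_ne_one.1 hX.ne
      have hx₀1' : x₀ ≠ 1 := fun h => hx₀1 (Subtype.ext h)
      have h5 := mem_zpowers_of_cyclic hzc h.locA.prime (h1 hx₀) hx₀1' ⟨1, by rw [pow_one]; exact hX.exp _ hx₀⟩ h3
        (by rw [conj_pow, hX.exp x hx, mul_one, mul_inv_cancel])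
      exact (zpowers_le.2 hx₀) h5
    -- `C` normalizes `X`
    have hgX : X.map (MulAut.conj g).toMonoidHom = X := by
      apply Subgroup.eq_of_le_of_card_ge
      · rintro _ ⟨x, hx, rfl⟩
        exact hconj x hx
      · rw [card_map_of_injective (MulAut.conj g).injective]
    refine h.false_of_both' (H := X) hX.ne ((hX.le.trans inf_le_left).trans (OO_le r A)) hX.norm ?_
    apply le_normalizer_of_conj
    intro c hc x hx
    rw [hg] at hc
    obtain ⟨a, ha, hac⟩ := hc
    have hac' : g * a * g⁻¹ = c := hac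
    rw [← hgX] at hx
    obtain ⟨z, hz, hzx⟩ := hx
    have hzx' : g * z * g⁻¹ = x := hzx
    have h6 : c * x * c⁻¹ = g * (a * z * a⁻¹) * g⁻¹ := by rw [← hac', ← hzx']; group
    rw [h6]
    exact hconj _ (hXn a ha z hz)
  have hA₂N : A₂ ⊓ N = ⊥ := by
    rw [eq_bot_iff]
    rintro y ⟨hy1, hy2⟩
    rw [mem_bot]
    obtain ⟨s, rfl⟩ : ∃ s, π s = y := by
      have h1 : y ∈ N := hy2
      rw [← hM.range] at h1
      exact h1
    exact key _ (h.A₂_OO_A hy1) (h.A₂_OO hy1) ⟨_, InnL.pi s⟩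
  obtain ⟨x, hxA, hxr, hx1, hxc, hxN⟩ := hout hA₂N
  have hAN : A ⊓ N ≠ ⊥ := by
    intro h1
    apply hX.ne
    rw [eq_bot_iff, ← h1]
    exact fun y hy => ⟨OO_le r A (hX.le hy).1, (hX.le hy).2⟩
  -- an element with a `tauP` lift is impossible
  have fin : ∀ z ∈ A₂, z ^ r = 1 → z ≠ 1 → (∀ y ∈ A ⊓ N, z * y = y * z) → (∀ y ∈ N, z * y = y * z → y ∈ A) →
      ∀ (B : Matrix.GeneralLinearGroup (Fin n) F) (σ : F ≃+* F), Ind ι π z (tauP B σ) → False := by
    intro z hz hzr hz1 hzc hzN B σ hind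
    by_cases hσ : σ = 1
    · subst hσ
      exact hz1 (key z (h.A₂_OO_A hz) (h.A₂_OO hz) ⟨B, innL_of_ind (by omega) hind⟩)
    · exact hr2 (hfld z hzr hz1 hzc hzN hAN B σ hσ hind)
  obtain ⟨B, σ, hBσ⟩ := hM.lift x
  rcases hBσ with hτ | hτ
  · exact fin x hxA hxr hx1 hxc hxN B σ hτ
  · have hodd : Odd r := h.locA.prime.odd_of_ne_two hr2
    obtain ⟨k, hk⟩ := hodd
    have hxx : (x * x) ^ (k + 1) = x := by
      rw [← pow_two, ← pow_mul, show 2 * (k + 1) = r + 1 by omega, pow_succ, hxr, one_mul]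
    refine fin (x * x) (mul_mem hxA hxA) ?_ ?_ ?_ ?_ _ _ (by
      have h1 := ind_mul hτ hτ
      rw [tauM_tauM] at h1
      exact h1)
    · rw [← pow_two, ← pow_mul, mul_comm, pow_mul, hxr, one_pow]
    · intro h1
      rw [h1, one_pow] at hxx
      exact hx1 hxx.symm
    · intro y hy
      have h1 : Commute x y := hxc y hy
      exact h1.mul_left h1
    · intro y hy hyc
      apply hxN y hy
      have h1 : Commute (x * x) y := hyc
      have h2 := h1.pow_left (k + 1)
      rw [hxx] at h2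
      exact h2

end

variable {G : Type u} [Group G] [Finite G] {N A C A₁ C₁ A₂ C₂ X : Subgroup G} {r d : ℕ} {F : Type} [Field F] [Fintype F]
  {n : ℕ} {S : Type} [Group S] {ι : S →* Matrix.GeneralLinearGroup (Fin n) F} {π : S →* G}

/-- T14 : the field case, `n ≥ 3` -/
theorem end_field (h : Sit N A C A₁ C₁ A₂ C₂ r d) (hn : 3 ≤ n) (hM : Model N ι π) (hC : CompAx ι π A) (hcyc : CycAx ι π N)
    (hfld : ∀ (A' : Subgroup G) (x : G), Loc N A' r → x ^ r = 1 → x ≠ 1 → (∀ y ∈ A' ⊓ N, x * y = y * x) →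
      (∀ y ∈ N, x * y = y * x → y ∈ A') → A' ⊓ N ≠ ⊥ → ∀ (B : Matrix.GeneralLinearGroup (Fin n) F) (σ : F ≃+* F), σ ≠ 1 →
      Ind ι π x (tauP B σ) → r = 2 ∨ Nat.card ↥A' ≤ M 5)
    (hX : MinX N A X r) (hab : ∀ s t : S, π s ∈ X → π t ∈ X → s * t = t * s)
    (hinv : ∀ b ∈ Algebra.adjoin F (mt ι '' {s | π s ∈ X}), b ≠ 0 → ∃ c ∈ Algebra.adjoin F (mt ι '' {s | π s ∈ X}), b * c = 1) :
    Nat.card ↥A ≤ M d := by
  by_cases hA5 : Nat.card ↥A ≤ M 5
  · exact h.card_le_M hA5
  · exfalso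
    have hT : T12a F n := fun B h1 h2 => Cfsg.Agent.H679.CentField.exists_phi_centralizer (by omega) B h1 h2
    refine end_field_core hT h hn hM hC (fun x h1 h2 h3 h4 h5 B σ h6 h7 => (hfld A x h.locA h1 h2 h3 h4 h5 B σ h6 h7).resolve_right hA5)
      hX hab hinv fun hA => ?_
    obtain ⟨x, hx, hx1, hxr, -, -, h1, h2, -⟩ := outer h.locA hM hcyc h.A₂_OO_A h.A₂_norm h.A₂_ne hA
    exact ⟨x, hx, hxr, hx1, h1, h2⟩

end Cfsg.Agent.H607.TW
end

-- part: H966/TW/Coprime
section
/-!
# S3694, T17: `O_r(A) ∩ N ≠ 1` (helper966)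

If `O_r(A) ∩ N = 1` then `A ∩ N = 1` and `C_N(P) = 1` for `P = O_r(A)`, so `r` does not divide `|N|`; the unique
`P`-invariant Sylow `s`-subgroup of `N` is normalised by `A`, so it is `N`: contradiction.
-/

set_option autoImplicit false

namespace Cfsg.Agent.H966.TW

open Subgroup Cfsg.Agent.H607.TW
open scoped Pointwise

universe u

variable {G : Type u} [Group G] [Finite G] {N A : Subgroup G} {r : ℕ}

/-- T17 : `O_r(A) ∩ N ≠ 1` (coprime action; `N` simple nonabelian) -/
theorem OO_inf_ne_bot (h : Loc N A r) (hA : A ≠ ⊥) : OO r A ⊓ N ≠ ⊥ := by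
  intro h0
  have hr := h.fact
  have hN := h.normal
  have hs := h.simple
  set P := OO r A with hP
  have hP1 : P ≠ ⊥ := h.OO_ne_bot hA
  have hAP : A ≤ normalizer (P : Set G) := le_normalizer_OO r A
  have hPN : ∀ x ∈ P, x ∈ N → x = 1 := by
    intro x hx hxN
    have : x ∈ P ⊓ N := ⟨hx, hxN⟩
    rwa [h0, mem_bot] at this
  -- elements of `A ∩ N` centralise `P`
  have hcomm : ∀ x ∈ A, x ∈ N → ∀ y ∈ P, x * y = y * x := by
    intro x hxA hxN y hy
    have h1 : x * y * x⁻¹ * y⁻¹ ∈ P := P.mul_mem (conj_mem_of_norm hAP hxA hy) (P.inv_mem hy)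
    have h2 : x * y * x⁻¹ * y⁻¹ ∈ N := by
      have : x * (y * x⁻¹ * y⁻¹) ∈ N := N.mul_mem hxN (hN.conj_mem _ (N.inv_mem hxN) y)
      simpa only [mul_assoc] using this
    have h3 := hPN _ h1 h2
    rw [mul_inv_eq_one, mul_inv_eq_iff_eq_mul] at h3
    exact h3
  have hAN : A ⊓ N = ⊥ := by
    rw [eq_bot_iff]
    rintro x ⟨hxA, hxN⟩
    rw [mem_bot]
    exact hPN x (h.mem_OO_of_comm hxA (hcomm x hxA hxN)) hxN
  -- `C_N(P) = 1`
  have hC : ∀ x ∈ N, x ∈ centralizer (P : Set G) → x = 1 := by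
    have hn : A ≤ normalizer ((N ⊓ centralizer (P : Set G) : Subgroup G) : Set G) := by
      apply le_normalizer_of_conj
      rintro g hg x ⟨hx1, hx2⟩
      refine ⟨hN.conj_mem x hx1 g, ?_⟩
      have hx2' : x ∈ centralizer (P : Set G) := hx2
      rw [mem_centralizer_iff] at hx2'
      change g * x * g⁻¹ ∈ centralizer (P : Set G)
      rw [mem_centralizer_iff]
      intro y hy
      have h3 := hx2' (g⁻¹ * y * g) (by
        have := conj_mem_of_norm hAP (A.inv_mem hg) hy
        simpa using this)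
      calc y * (g * x * g⁻¹) = g * ((g⁻¹ * y * g) * x) * g⁻¹ := by group
        _ = g * (x * (g⁻¹ * y * g)) * g⁻¹ := by rw [h3]
        _ = g * x * g⁻¹ * y := by group
    have hne : N ⊓ centralizer (P : Set G) ≠ N := by
      intro h1
      apply hP1
      rw [eq_bot_iff, ← h.cent]
      intro y hy
      rw [mem_centralizer_iff]
      intro x hx
      rw [SetLike.mem_coe, ← h1] at hx
      exact (mem_centralizer_iff.1 hx.2 y hy).symm
    have h2 := h.le_of_norm' inf_le_left hne hn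
    intro x hxN hxC
    have h3 : x ∈ A ⊓ N := ⟨h2 ⟨hxN, hxC⟩, hxN⟩
    rwa [hAN, mem_bot] at h3
  have hPp : IsPGroup r P := isPGroup_OO r A
  -- `r` does not divide `|N|`
  have hcop : (Nat.card P).Coprime (Nat.card N) := by
    let _ : MulAction P N := MulAction.compHom N ((MulAut.conjNormal : G →* MulAut N).comp P.subtype)
    have hsm : ∀ (p : P) (n : N), ((p • n : N) : G) = p * n * (p : G)⁻¹ := fun p n => rfl
    have h1 := hPp.card_modEq_card_fixedPoints N
    have h2 : Nat.card (MulAction.fixedPoints P N) = 1 := by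
      rw [Nat.card_eq_one_iff_unique]
      refine ⟨⟨fun a b => ?_⟩, ⟨1, fun p => ?_⟩⟩
      · have key : ∀ a : MulAction.fixedPoints P N, (a : N) = 1 := by
          intro a
          apply Subtype.ext
          apply hC _ (a : N).2
          rw [mem_centralizer_iff]
          intro y hy
          have h3 := congrArg (Subtype.val : N → G) (a.2 ⟨y, hy⟩)
          rw [hsm] at h3
          exact mul_inv_eq_iff_eq_mul.1 h3
        exact Subtype.ext ((key a).trans (key b).symm)
      · apply Subtype.ext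
        rw [hsm]
        simp
    rw [h2] at h1
    obtain ⟨k, hk⟩ := IsPGroup.iff_card.1 hPp
    rw [hk]
    apply Nat.Coprime.pow_left
    rw [Nat.Prime.coprime_iff_not_dvd h.prime]
    intro h3
    have h4 : r ∣ 1 := (Nat.modEq_zero_iff_dvd.1 ((h1.symm).trans (Nat.modEq_zero_iff_dvd.2 h3)))
    exact h.prime.one_lt.ne' (Nat.dvd_one.1 h4)
  have hsol : Group.IsSolvable P ∨ Group.IsSolvable N := by
    left
    have : Group.IsNilpotent P := hPp.isNilpotent
    infer_instance
  have hPn : P ≤ normalizer (N : Set G) := _root_.Cfsg.Agent.H607.TW.le_normalizer_of_normal N hN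
  -- a Sylow subgroup
  have hN1 : Nat.card N ≠ 1 := by
    intro h1
    exact h.N_ne_bot (card_eq_one.1 h1)
  set! s := (Nat.card N).minFac with hsd
  have hsp : Fact s.Prime := ⟨Nat.minFac_prime hN1⟩
  obtain ⟨T, hT⟩ := Cfsg.Agent.S0023.result P N hPn hcop hsol s
  have hTA : A ≤ normalizer (((T : Subgroup N).map N.subtype : Subgroup G) : Set G) := by
    have key : ∀ a ∈ A, (MulAut.conjNormal a : MulAut N) • T = T := by
      intro a ha
      have h1 : P ≤ normalizer (((((MulAut.conjNormal a : MulAut N) • T : Sylow s N) : Subgroup N).map N.subtype :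
          Subgroup G) : Set G) := by
        apply le_normalizer_of_conj
        rintro p hp _ ⟨x, hx, rfl⟩
        rw [SetLike.mem_coe, Sylow.pointwise_smul_def, Subgroup.mem_smul_pointwise_iff_exists] at hx
        obtain ⟨t, ht, rfl⟩ := hx
        have h2 : a⁻¹ * p * a ∈ P := by
          have := conj_mem_of_norm hAP (A.inv_mem ha) hp
          simpa using this
        have h3 : (a⁻¹ * p * a) * (t : G) * (a⁻¹ * p * a)⁻¹ ∈ (T : Subgroup N).map N.subtype :=
          conj_mem_of_norm hT h2 ⟨t, ht, rfl⟩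
        obtain ⟨t', ht', he⟩ := h3
        refine ⟨(MulAut.conjNormal a : MulAut N) • t', ?_, ?_⟩
        · rw [SetLike.mem_coe, Sylow.pointwise_smul_def]
          exact Subgroup.smul_mem_pointwise_smul _ _ _ ht'
        · have e1 : (((MulAut.conjNormal a : MulAut N) • t' : N) : G) = a * t' * a⁻¹ := rfl
          have e2 : (((MulAut.conjNormal a : MulAut N) • t : N) : G) = a * t * a⁻¹ := rfl
          have he' : (t' : G) = (a⁻¹ * p * a) * (t : G) * (a⁻¹ * p * a)⁻¹ := he
          change (((MulAut.conjNormal a : MulAut N) • t' : N) : G) =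
            p * (((MulAut.conjNormal a : MulAut N) • t : N) : G) * p⁻¹
          rw [e1, e2, he']
          group
      obtain ⟨c, hc, hcT⟩ := Cfsg.Agent.S0024.result P N hPn hcop hsol s T
        ((MulAut.conjNormal a : MulAut N) • T) hT h1
      have hc1 : c = 1 := Subtype.ext (hC _ c.2 hc)
      rw [hc1, map_one, one_smul] at hcT
      exact hcT.symm
    apply le_normalizer_of_conj
    rintro a ha _ ⟨x, hx, rfl⟩
    refine ⟨(MulAut.conjNormal a : MulAut N) • x, ?_, rfl⟩
    have h1 := Subgroup.smul_mem_pointwise_smul x (MulAut.conjNormal a : MulAut N) (T : Subgroup N) hx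
    rw [← Sylow.pointwise_smul_def, key a ha] at h1
    exact h1
  have hTN : (T : Subgroup N).map N.subtype = N := by
    by_contra hne
    have h1 := h.le_of_norm' (map_subtype_le _) hne hTA
    have h2 : (T : Subgroup N).map N.subtype ≤ A ⊓ N := le_inf h1 (map_subtype_le _)
    rw [hAN, le_bot_iff, Subgroup.map_eq_bot_iff_of_injective _ N.subtype_injective] at h2
    have h3 : s ∣ Nat.card (T : Subgroup N) := T.dvd_card_of_dvd_card (Nat.minFac_dvd _)
    rw [h2, card_bot] at h3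
    exact hsp.out.one_lt.ne' (Nat.dvd_one.1 h3)
  have hTtop : (T : Subgroup N) = ⊤ := by
    rw [eq_top_iff]
    intro x _
    have h1 : (x : G) ∈ (T : Subgroup N).map N.subtype := by rw [hTN]; exact x.2
    obtain ⟨y, hy, he⟩ := h1
    have : y = x := Subtype.ext he
    rwa [← this]
  have hNp : IsPGroup s N := by
    have h1 : IsPGroup s (T : Subgroup N) := T.isPGroup'
    rw [hTtop] at h1
    exact h1.of_equiv topEquiv
  have hnt := hs.toNontrivial
  have hcen : Nontrivial (center N) := hNp.center_nontrivial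
  rcases hs.eq_bot_or_eq_top_of_normal (center N) inferInstance with h1 | h1
  · rw [h1] at hcen
    exact not_nontrivial _ hcen
  · apply h.nonab
    constructor
    constructor
    intro x y
    have hy : y ∈ center N := h1 ▸ mem_top y
    exact mem_center_iff.1 hy x

end Cfsg.Agent.H966.TW
end

-- part: H599/TW/FrameConj
section
/-!
# S3694: the frame of a conjugate, bounds (helper599)
-/

set_option autoImplicit false
set_option linter.unusedSectionVars false
set_option linter.style.haveILetI false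

namespace Cfsg.Agent.H599.TW

open Subgroup Cfsg.Agent.H607.TW

universe u

variable {G : Type u} [Group G] {N A : Subgroup G} {F : Type} [Field F] {n : ℕ} {S : Type} [Group S]
  {ι : S →* Matrix.GeneralLinearGroup (Fin n) F} {π : S →* G}

/-- The frame of a conjugate of `A`. -/
theorem frame_conj [Finite F] (hM : Model N ι π) {t : ℕ} {e : Fin t → Matrix (Fin n) (Fin n) F} (h : Frame ι π A e) {g : G}
    {τ : Matrix (Fin n) (Fin n) F ≃+ Matrix (Fin n) (Fin n) F} (hτ : Ind ι π g τ) :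
    Frame ι π (A.map (MulAut.conj g).toMonoidHom) (fun i => τ (e i)) := by
  have hmul : (∀ x y, τ (x * y) = τ x * τ y) ∨ (∀ x y, τ (x * y) = τ y * τ x) := by
    rcases hτ with ⟨h1, _⟩ | ⟨h1, _⟩
    · exact Or.inl h1
    · exact Or.inr h1
  refine ⟨h.two, fun i => ?_, fun i hi => ?_, fun i j hij => ?_, ?_, ?_, ?_⟩
  · rcases hmul with h1 | h1 <;> rw [← h1, h.idem]
  · exact h.ne i (τ.injective (by rw [hi, map_zero]))
  · rcases hmul with h1 | h1
    · rw [← h1, h.orth i j hij, map_zero]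
    · rw [← h1, h.orth j i (Ne.symm hij), map_zero]
  · rw [← map_sum, h.sum, Ind.one' hτ]
  · rintro _ ⟨a, ha, rfl⟩ ρ hρ i
    have h1 : Ind ι π (g⁻¹ * (g * a * g⁻¹) * g) ((τ.trans ρ).trans τ.symm) := by
      have h2 := Ind.comp (Ind.comp (Ind.symm' hM hτ) hρ) hτ
      have h3 : (MulAut.conj g).toMonoidHom a = g * a * g⁻¹ := rfl
      rw [h3] at h2
      exact h2
    have h4 : g⁻¹ * (g * a * g⁻¹) * g = a := by group
    rw [h4] at h1
    obtain ⟨j, hj⟩ := h.perm a ha _ h1 i
    refine ⟨j, ?_⟩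
    rw [← hj]
    simp only [AddEquiv.trans_apply, AddEquiv.apply_symm_apply]
  · intro s hs
    have hsymm := Ind.symm' hM hτ
    have key : ∀ u : S, (∀ i, ∃ j, _root_.Cfsg.Agent.H607.TW.mt ι u * e i = e j * _root_.Cfsg.Agent.H607.TW.mt ι u) → (π u = g⁻¹ * π s * g ∨ (π u)⁻¹ = g⁻¹ * π s * g) →
        π s ∈ A.map (MulAut.conj g).toMonoidHom := by
      intro u hu hu'
      have hA := h.stab u hu
      rcases hu' with h5 | h5
      · refine ⟨π u, hA, ?_⟩
        change g * π u * g⁻¹ = π s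
        rw [h5]; group
      · refine ⟨(π u)⁻¹, A.inv_mem hA, ?_⟩
        change g * (π u)⁻¹ * g⁻¹ = π s
        rw [h5]; group
    rcases hsymm with ⟨m, h2⟩ | ⟨m, h2⟩
    · obtain ⟨u, hu1, hu2⟩ := h2 s
      rw [inv_inv] at hu2
      refine key u (fun i => ?_) (Or.inl hu2)
      obtain ⟨j, hj⟩ := hs i
      refine ⟨j, ?_⟩
      have h6 := congrArg τ.symm hj
      rw [m, m, AddEquiv.symm_apply_apply, AddEquiv.symm_apply_apply, ← hu1] at h6
      exact h6
    · obtain ⟨u, hu1, hu2⟩ := h2 s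
      rw [inv_inv] at hu2
      refine key u ?_ (Or.inr hu2)
      choose f hf using hs
      have h6 : ∀ i, e i * _root_.Cfsg.Agent.H607.TW.mt ι u = _root_.Cfsg.Agent.H607.TW.mt ι u * e (f i) := fun i => by
        have h7 := congrArg τ.symm (hf i)
        rw [m, m, AddEquiv.symm_apply_apply, AddEquiv.symm_apply_apply, ← hu1] at h7
        exact h7
      have hinj : Function.Injective f := by
        intro i j hij
        by_contra hne
        have h8 := h6 i
        rw [hij, ← h6 j] at h8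
        have h9 : e i * _root_.Cfsg.Agent.H607.TW.mt ι u = 0 := by
          have h10 := congrArg (fun X => e i * X) h8
          simp only [← mul_assoc] at h10
          rw [h.idem i, h.orth i j hne, zero_mul] at h10
          exact h10
        apply h.ne i
        have h11 : _root_.Cfsg.Agent.H607.TW.mt ι u * _root_.Cfsg.Agent.H607.TW.mt ι u⁻¹ = 1 := by
          rw [← H296.TW.mt_mul, mul_inv_cancel, H296.TW.mt_one]
        calc e i = e i * _root_.Cfsg.Agent.H607.TW.mt ι u * _root_.Cfsg.Agent.H607.TW.mt ι u⁻¹ := by rw [mul_assoc, h11, mul_one]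
          _ = 0 := by rw [h9, zero_mul]
      have hsurj := Finite.surjective_of_injective hinj
      intro i
      obtain ⟨j, rfl⟩ := hsurj i
      exact ⟨j, (h6 j).symm⟩

end Cfsg.Agent.H599.TW
end

-- part: H599/TW/SizeSL
section
/-!
# S3694: the sizes of the blocks, linear case (helper599)
-/

set_option autoImplicit false
set_option linter.unusedSectionVars false
set_option linter.style.haveILetI false

namespace Cfsg.Agent.H599.TW

open Subgroup Cfsg.Agent.H607.TW

universe u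

variable {F : Type} [Field F] {n : ℕ}

local notation "MM" => Matrix (Fin n) (Fin n) F
local notation "GLL" => Matrix.GeneralLinearGroup (Fin n) F
local notation "SLL" => Matrix.SpecialLinearGroup (Fin n) F

variable {t : ℕ}

theorem blk_mul_blk (b : Fin n → Fin t) (i j : Fin t) (hij : i ≠ j) : (blk b i : MM) * blk b j = 0 := by
  ext a c
  rw [blk_mul, blk_apply, Matrix.zero_apply]
  split_ifs with h1 h2 h3
  · subst h2
    exact absurd (h1.symm.trans h3) hij
  · rfl
  · rfl
  · rfl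

/-- the rectangular matrix of the `i`-th block -/
noncomputable def UU (F : Type) [Field F] {n : ℕ} (b : Fin n → Fin t) (i : Fin t) :
    Matrix (Fin n) (Fin (Fintype.card {k : Fin n // b k = i})) F :=
  Matrix.of fun k a => if k = ((Fintype.equivFin {k : Fin n // b k = i}).symm a : Fin n) then 1 else 0

theorem UT_U (b : Fin n → Fin t) (i : Fin t) : (UU F b i).transpose * UU F b i = 1 := by
  ext a c
  rw [Matrix.mul_apply, Finset.sum_eq_single (((Fintype.equivFin {k : Fin n // b k = i}).symm a : Fin n))]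
  · rw [Matrix.transpose_apply]
    change (if _ then (1 : F) else 0) * (if _ then (1 : F) else 0) = _
    rw [if_pos rfl, one_mul, Matrix.one_apply]
    congr 1
    rw [eq_iff_iff]
    constructor
    · intro h
      exact (Fintype.equivFin {k : Fin n // b k = i}).symm.injective (Subtype.ext h)
    · intro h
      rw [h]
  · intro k _ hk
    rw [Matrix.transpose_apply]
    change (if _ then (1 : F) else 0) * _ = _
    rw [if_neg hk, zero_mul]
  · intro h; exact absurd (Finset.mem_univ _) h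

theorem U_UT (b : Fin n → Fin t) (i : Fin t) : UU F b i * (UU F b i).transpose = blk b i := by
  ext k l
  rw [Matrix.mul_apply, blk_apply]
  simp only [Matrix.transpose_apply]
  change ∑ a, (if k = ((Fintype.equivFin {k : Fin n // b k = i}).symm a : Fin n) then (1 : F) else 0) *
    (if l = ((Fintype.equivFin {k : Fin n // b k = i}).symm a : Fin n) then (1 : F) else 0) = _
  by_cases hkl : k = l
  · subst hkl
    rw [if_pos rfl]
    by_cases hk : b k = i
    · rw [if_pos hk, Finset.sum_eq_single (Fintype.equivFin {k : Fin n // b k = i} ⟨k, hk⟩)]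
      · simp
      · intro a _ ha
        rw [if_neg, zero_mul]
        intro h
        apply ha
        have h3 := congrArg (Fintype.equivFin {k : Fin n // b k = i}) (Subtype.ext h :
          (⟨k, hk⟩ : {k : Fin n // b k = i}) = (Fintype.equivFin {k : Fin n // b k = i}).symm a)
        rw [Equiv.apply_symm_apply] at h3
        exact h3.symm
      · intro h; exact absurd (Finset.mem_univ _) h
    · rw [if_neg hk]
      apply Finset.sum_eq_zero
      intro a _
      rw [if_neg, zero_mul]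
      intro h
      apply hk
      rw [h]
      exact ((Fintype.equivFin {k : Fin n // b k = i}).symm a).2
  · rw [if_neg hkl]
    apply Finset.sum_eq_zero
    intro a _
    by_cases h1 : k = ((Fintype.equivFin {k : Fin n // b k = i}).symm a : Fin n)
    · rw [if_pos h1, if_neg (fun h2 => hkl (h1.trans h2.symm)), mul_zero]
    · rw [if_neg h1, zero_mul]

/-- the embedding of the `i`-th factor -/
noncomputable def phi (b : Fin n → Fin t) (i : Fin t) :
    Matrix (Fin (Fintype.card {k : Fin n // b k = i})) (Fin (Fintype.card {k : Fin n // b k = i})) F →ₙ+* MM where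
  toFun m := UU F b i * m * (UU F b i).transpose
  map_mul' m m' := by
    have h1 : UU F b i * (m * m') * (UU F b i).transpose =
        UU F b i * m * (1 : Matrix (Fin (Fintype.card {k : Fin n // b k = i})) (Fin (Fintype.card {k : Fin n // b k = i})) F) *
          m' * (UU F b i).transpose := by
      simp only [Matrix.mul_one, Matrix.mul_assoc]
    rw [h1, ← UT_U b i]
    simp only [Matrix.mul_assoc]
  map_zero' := by rw [Matrix.mul_zero, Matrix.zero_mul]
  map_add' m m' := by rw [Matrix.mul_add, Matrix.add_mul]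

theorem phi_apply (b : Fin n → Fin t) (i : Fin t)
    (m : Matrix (Fin (Fintype.card {k : Fin n // b k = i})) (Fin (Fintype.card {k : Fin n // b k = i})) F) :
    phi b i m = UU F b i * m * (UU F b i).transpose := rfl

theorem phi_one (b : Fin n → Fin t) (i : Fin t) : (phi b i 1 : MM) = blk b i := by
  rw [phi_apply, Matrix.mul_one, U_UT]

theorem phi_inj (b : Fin n → Fin t) (i : Fin t) : Function.Injective (phi (F := F) b i) := by
  intro m m' h
  rw [phi_apply, phi_apply] at h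
  have h1 : ∀ m : Matrix (Fin (Fintype.card {k : Fin n // b k = i})) (Fin (Fintype.card {k : Fin n // b k = i})) F,
      (UU F b i).transpose * (UU F b i * m * (UU F b i).transpose) * UU F b i = m := fun m => by
    calc _ = ((UU F b i).transpose * UU F b i) * m * ((UU F b i).transpose * UU F b i) := by simp only [Matrix.mul_assoc]
      _ = m := by rw [UT_U, Matrix.one_mul, Matrix.mul_one]
  rw [← h1 m, h, h1]

variable {G : Type u} [Group G] [Finite G] [Fintype F] {N A : Subgroup G} {r : ℕ}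

/-- the commutant of the idempotents -/
def EE (F : Type) [Field F] {n : ℕ} (b : Fin n → Fin t) : Subalgebra F (Matrix (Fin n) (Fin n) F) :=
  Subalgebra.centralizer F (Set.range (blk (F := F) b))

theorem mem_EE {b : Fin n → Fin t} {x : MM} : x ∈ EE F b ↔ ∀ i, blk b i * x = x * blk b i := by
  rw [EE, Subalgebra.mem_centralizer_iff]
  constructor
  · intro h i; exact h _ ⟨i, rfl⟩
  · rintro h _ ⟨i, rfl⟩; exact h i

/-- The size of a block is at most two. -/
theorem size_le (hL : Loc N A r) {π : SLL →* G} (hM : Model N (iSL n F) π) {b : Fin n → Fin t}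
    (hperm : ∀ a ∈ A, ∀ τ, Ind (iSL n F) π a τ → ∀ i, ∃ j, τ (blk b i) = blk b j) {i : Fin t} (h1 : ∃ k, b k = i) (h2 : ∃ k, b k ≠ i) :
    Fintype.card {k : Fin n // b k = i} ≤ 1 ∨ (Fintype.card {k : Fin n // b k = i} = 2 ∧ Nat.card F ≤ 3) := by
  classical
  have hInv : _root_.Cfsg.Agent.H607.TW.Inv (iSL n F) π A (EE F b) := by
    intro a ha τ hτ x hx
    rw [mem_EE] at hx ⊢
    intro i
    -- `blk b i` is the image of some `blk b j`
    obtain ⟨j, hj⟩ := hperm a⁻¹ (A.inv_mem ha) _ (Ind.symm' hM hτ) i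
    have hj' : blk b i = τ (blk b j) := by rw [← hj, AddEquiv.apply_symm_apply]
    rw [hj']
    rcases hτ with ⟨m, _⟩ | ⟨m, _⟩
    · rw [← m, ← m, hx j]
    · rw [← m, ← m, hx j]
  have hne : EE F b ≠ ⊤ := by
    intro h
    obtain ⟨k, hk⟩ := h1
    obtain ⟨l, hl⟩ := h2
    have h3 : (Matrix.single k l (1 : F) : MM) ∈ EE F b := by rw [h]; exact Algebra.mem_top
    rw [mem_EE] at h3
    have h4 := congrFun (congrFun (h3 i) k) l
    rw [blk_mul, mul_blk, if_pos hk, if_neg hl, Matrix.single_apply_same] at h4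
    exact one_ne_zero h4
  have key := Cfsg.Agent.H748.TW.comp_sl hL hM (EE F b) hInv hne F (Fintype.card {k : Fin n // b k = i}) (phi b i) (phi_inj b i)
    (fun x => ?_) (fun x hx => ?_)
  · rcases key with h | h
    · exact Or.inl h
    · exact Or.inr ⟨h.1, h.2.2⟩
  · constructor
    · rintro ⟨m, rfl⟩
      have e1 : blk b i * phi b i m = phi b i m := by rw [← phi_one, ← map_mul, one_mul]
      have e2 : phi b i m * blk b i = phi b i m := by rw [← phi_one, ← map_mul, mul_one]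
      refine ⟨?_, by rw [phi_one, e1]⟩
      rw [mem_EE]
      intro j
      by_cases hj : j = i
      · rw [hj, e1, e2]
      · have l1 : blk b j * phi b i m = 0 := by rw [← e1, ← mul_assoc, blk_mul_blk b j i hj, zero_mul]
        have l2 : phi b i m * blk b j = 0 := by rw [← e2, mul_assoc, blk_mul_blk b i j (Ne.symm hj), mul_zero]
        rw [l1, l2]
    · rintro ⟨h3, h4⟩
      rw [phi_one] at h4
      rw [mem_EE] at h3
      refine ⟨(UU F b i).transpose * x * UU F b i, ?_⟩
      rw [phi_apply]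
      calc _ = (UU F b i * (UU F b i).transpose) * x * (UU F b i * (UU F b i).transpose) := by simp only [Matrix.mul_assoc]
        _ = x := by rw [U_UT, h4, ← h3, h4]
  · rw [phi_one]
    exact (mem_EE.mp hx) i

/-- commutativity of the `i`-th factor -/
def CP (e : MM) : Prop := ∀ x y : MM, (e * x * e) * (e * y * e) = (e * y * e) * (e * x * e)

theorem CP_map {e : MM} {τ : MM ≃+ MM} (hmul : (∀ x y, τ (x * y) = τ x * τ y) ∨ (∀ x y, τ (x * y) = τ y * τ x)) (h : CP e) :
    CP (τ e) := by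
  intro x' y'
  obtain ⟨x, rfl⟩ := τ.surjective x'
  obtain ⟨y, rfl⟩ := τ.surjective y'
  have h1 : ∀ z, τ (e * z * e) = τ e * τ z * τ e := fun z => by
    rcases hmul with m | m
    · rw [m, m]
    · rw [m, m, mul_assoc]
  rw [← h1, ← h1]
  rcases hmul with m | m
  · rw [← m, ← m, h x y]
  · rw [← m, ← m, h x y]

theorem CP_blk (b : Fin n → Fin t) (i : Fin t) : CP (blk b i : MM) ↔ Fintype.card {k : Fin n // b k = i} ≤ 1 := by
  classical
  constructor
  · intro h
    rw [Fintype.card_le_one_iff]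
    rintro ⟨k, hk⟩ ⟨l, hl⟩
    by_contra hne
    have hkl : k ≠ l := fun hh => hne (Subtype.ext hh)
    have h1 := h (Matrix.single k l 1) (Matrix.single l k 1)
    have e1 : (blk b i : MM) * Matrix.single k l 1 * blk b i = Matrix.single k l 1 := by
      ext a c
      rw [mul_blk, blk_mul, Matrix.single_apply]
      by_cases h : k = a ∧ l = c
      · obtain ⟨rfl, rfl⟩ := h
        rw [if_pos hl, if_pos hk]
      · rw [if_neg h]; simp
    have e2 : (blk b i : MM) * Matrix.single l k 1 * blk b i = Matrix.single l k 1 := by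
      ext a c
      rw [mul_blk, blk_mul, Matrix.single_apply]
      by_cases h : l = a ∧ k = c
      · obtain ⟨rfl, rfl⟩ := h
        rw [if_pos hk, if_pos hl]
      · rw [if_neg h]; simp
    rw [e1, e2, Matrix.single_mul_single_same, Matrix.single_mul_single_same] at h1
    have h2 := congrFun (congrFun h1 k) k
    rw [Matrix.single_apply_same, Matrix.single_apply, if_neg (fun hh => hkl hh.1.symm), mul_one] at h2
    exact one_ne_zero h2
  · intro h x y
    have h1 : ∀ x : MM, ∀ k l, (blk b i * x * blk b i : MM) k l ≠ 0 → k = l ∧ b k = i := fun x k l hne => by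
      rw [mul_blk, blk_mul] at hne
      by_cases hl : b l = i
      · rw [if_pos hl] at hne
        by_cases hk : b k = i
        · have := Fintype.card_le_one_iff.mp h ⟨k, hk⟩ ⟨l, hl⟩
          exact ⟨congrArg Subtype.val this, hk⟩
        · rw [if_neg hk] at hne; exact absurd rfl hne
      · rw [if_neg hl] at hne; exact absurd rfl hne
    have h2 : ∀ x : MM, ∀ k l, k ≠ l → (blk b i * x * blk b i : MM) k l = 0 := fun x k l hkl => by
      by_contra hne
      exact hkl (h1 x k l hne).1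
    ext k l
    rw [Matrix.mul_apply, Matrix.mul_apply]
    by_cases hkl : k = l
    · subst hkl
      rw [Finset.sum_eq_single k (fun m _ hm => by rw [h2 x k m hm.symm, zero_mul]) (fun hh => absurd (Finset.mem_univ _) hh),
        Finset.sum_eq_single k (fun m _ hm => by rw [h2 y k m hm.symm, zero_mul]) (fun hh => absurd (Finset.mem_univ _) hh), mul_comm]
    · rw [Finset.sum_eq_zero, Finset.sum_eq_zero]
      · intro m _
        by_cases hm : k = m
        · subst hm; rw [h2 x k l hkl, mul_zero]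
        · rw [h2 y k m hm, zero_mul]
      · intro m _
        by_cases hm : k = m
        · subst hm; rw [h2 y k l hkl, mul_zero]
        · rw [h2 x k m hm, zero_mul]

end Cfsg.Agent.H599.TW
end

-- part: H599/TW/FrameSL
section
/-!
# S3694-T5: the imprimitive type, linear case (helper599)
-/

set_option autoImplicit false
set_option linter.unusedSectionVars false
set_option linter.style.haveILetI false

namespace Cfsg.Agent.H599.TW

open Subgroup Cfsg.Agent.H607.TW

universe u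

variable {F : Type} [Field F] {n : ℕ}

local notation "MM" => Matrix (Fin n) (Fin n) F
local notation "GLL" => Matrix.GeneralLinearGroup (Fin n) F
local notation "SLL" => Matrix.SpecialLinearGroup (Fin n) F

variable {t : ℕ} {G : Type u} [Group G] [Finite G] {N A C A₁ C₁ A₂ C₂ : Subgroup G} {r d : ℕ}

/-! ### Bounds -/

omit [Finite G] in
theorem card_stab [Fintype F] {π : SLL →* G} (hM : Model N (iSL n F) π) :
    Nat.card ↥(A ⊓ N) * Nat.card ↥π.ker = Nat.card {s : SLL // π s ∈ A} := by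
  set K : Subgroup SLL := A.comap π with hK
  set! f : ↥K →* G := π.comp K.subtype with hf
  have h1 : f.range = A ⊓ N := by
    ext g
    rw [MonoidHom.mem_range, Subgroup.mem_inf, ← hM.range]
    constructor
    · rintro ⟨s, rfl⟩
      exact ⟨s.2, ⟨(s : SLL), rfl⟩⟩
    · rintro ⟨hA, ⟨s, rfl⟩⟩
      exact ⟨⟨s, hA⟩, rfl⟩
  have h2 : f.ker = π.ker.subgroupOf K := by
    ext s
    rw [MonoidHom.mem_ker, Subgroup.mem_subgroupOf, MonoidHom.mem_ker]
    rfl
  have hle : π.ker ≤ K := fun s hs => by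
    rw [MonoidHom.mem_ker] at hs
    rw [hK, Subgroup.mem_comap, hs]
    exact A.one_mem
  have h3 : Nat.card ↥f.ker = Nat.card ↥π.ker := by
    rw [h2]
    exact Nat.card_congr (Subgroup.subgroupOfEquivOfLe hle).toEquiv
  have h4 := Subgroup.card_mul_index f.ker
  rw [Subgroup.index_ker, h1, h3] at h4
  rw [mul_comm, h4]
  rfl

theorem card_le_stab [Fintype F] {π : SLL →* G} (hL : Loc N A r) (hM : Model N (iSL n F) π) :
    Nat.card ↥A ≤ Nat.card {s : SLL // π s ∈ A} * (2 * Nat.card (F ≃+* F)) := by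
  have h1 := hL.card_le
  have h2 := Cfsg.Agent.H982.TWModel.index_sl hL.normal hL.cent hM
  calc Nat.card ↥A ≤ Nat.card ↥(A ⊓ N : Subgroup G) * N.index := h1
    _ ≤ Nat.card ↥(A ⊓ N : Subgroup G) * (2 * Nat.card (F ≃+* F) * Nat.card π.ker) := Nat.mul_le_mul_left _ h2
    _ = (Nat.card ↥(A ⊓ N : Subgroup G) * Nat.card π.ker) * (2 * Nat.card (F ≃+* F)) := by ring
    _ = _ := by rw [card_stab hM]

theorem card_aut_le [Fintype F] : Nat.card (F ≃+* F) ≤ Fintype.card F := by
  classical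
  obtain ⟨g, hg⟩ := IsCyclic.exists_generator (α := Fˣ)
  rw [← Nat.card_eq_fintype_card]
  refine Nat.card_le_card_of_injective (fun σ : F ≃+* F => σ g) fun σ τ h => ?_
  ext x
  by_cases hx : x = 0
  · rw [hx, map_zero, map_zero]
  · obtain ⟨k, hk⟩ := Subgroup.mem_zpowers_iff.mp (hg (Units.mk0 x hx))
    have h1 : x = (g : F) ^ k := by
      have := congrArg (fun u : Fˣ => (u : F)) hk
      simp only [Units.val_zpow_eq_zpow_val, Units.val_mk0] at this
      exact this.symm
    have h2 : σ (g : F) = τ (g : F) := h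
    rw [h1, map_zpow₀, map_zpow₀, h2]

theorem small_all [Fintype F] {π : SLL →* G} (h : Sit N A C A₁ C₁ A₂ C₂ r d) (hM : Model N (iSL n F) π) (hn : n ≤ 4)
    (hq : Fintype.card F ≤ 3) : Nat.card ↥A ≤ M d := by
  classical
  have h1 : Nat.card {s : SLL // π s ∈ A} ≤ 3 ^ 16 := by
    have h2 : Nat.card {s : SLL // π s ∈ A} ≤ Nat.card MM :=
      Nat.card_le_card_of_injective (fun s => ((s : SLL) : MM)) (fun s s' hs => Subtype.ext (Subtype.ext hs))
    refine h2.trans ?_
    have h3 : Nat.card MM = Fintype.card F ^ (n * n) := by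
      change Nat.card (Fin n → Fin n → F) = _
      rw [Nat.card_eq_fintype_card, Fintype.card_fun, Fintype.card_fun, Fintype.card_fin, ← pow_mul]
    rw [h3]
    calc Fintype.card F ^ (n * n) ≤ 3 ^ (n * n) := Nat.pow_le_pow_left hq _
      _ ≤ 3 ^ 16 := Nat.pow_le_pow_right (by norm_num) (by nlinarith only [hn])
  refine h.card_le_of_five (m := 3 ^ 16 * (2 * 3)) ((card_le_stab h.locA hM).trans ?_) (by norm_num)
  exact Nat.mul_le_mul h1 (Nat.mul_le_mul_left _ (card_aut_le.trans hq))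

theorem small_mon [Fintype F] {π : SLL →* G} (h : Sit N A C A₁ C₁ A₂ C₂ r d) (hM : Model N (iSL n F) π)
    (hA : Frame (iSL n F) π A (blk (id : Fin n → Fin n))) (hn : n ≤ 4) (hq : Fintype.card F ≤ 17) : Nat.card ↥A ≤ M d := by
  have h1 : Nat.card {s : SLL // π s ∈ A} ≤ 24 * 17 ^ 4 := by
    have h2 : Nat.card {s : SLL // π s ∈ A} ≤ Nat.card {s : SLL // IsMon (s : MM)} :=
      Nat.card_le_card_of_injective (fun s => ⟨(s : SLL), fun k => perm_of_mem hA s.2 k⟩)
        (fun s s' hs => by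
          apply Subtype.ext
          exact congrArg (fun x : {s : SLL // IsMon (s : MM)} => (x : SLL)) hs)
    refine h2.trans (card_isMon_le.trans ?_)
    refine Nat.mul_le_mul ?_ ?_
    · calc n.factorial ≤ Nat.factorial 4 := Nat.factorial_le hn
        _ = 24 := rfl
    · calc Fintype.card F ^ n ≤ 17 ^ n := Nat.pow_le_pow_left hq _
        _ ≤ 17 ^ 4 := Nat.pow_le_pow_right (by norm_num) hn
  refine h.card_le_of_five (m := 24 * 17 ^ 4 * (2 * 17)) ((card_le_stab h.locA hM).trans ?_) (by norm_num)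
  exact Nat.mul_le_mul h1 (Nat.mul_le_mul_left _ (card_aut_le.trans hq))

/-! ### The frame of the conjugate -/

theorem tauP_blk (B : GLL) (σ : F ≃+* F) (b : Fin n → Fin t) (i : Fin t) : tauP B σ (blk b i) = cM B (blk b i) := by
  rw [tauP_apply, blk_map, cM_apply]

theorem tauM_blk (B : GLL) (σ : F ≃+* F) (b : Fin n → Fin t) (i : Fin t) : tauM B σ (blk b i) = cM B (blk b i) := by
  rw [tauM_eq, blk_transpose, tauP_blk]

theorem frame_C [Fintype F] {π : SLL →* G} (h : Sit N A C A₁ C₁ A₂ C₂ r d) (hM : Model N (iSL n F) π) {b : Fin n → Fin t}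
    (hA : Frame (iSL n F) π A (blk b)) : ∃ B : GLL, Frame (iSL n F) π C (fun i => cM B (blk b i)) := by
  obtain ⟨g, rfl⟩ := h.conj
  obtain ⟨B, σ, h1 | h1⟩ := hM.lift g
  · refine ⟨B, ?_⟩
    have := frame_conj hM hA h1
    simpa only [tauP_blk] using this
  · refine ⟨B, ?_⟩
    have := frame_conj hM hA h1
    simpa only [tauM_blk] using this

/-! ### Frames of points -/

theorem frame_points [Fintype F] {π : SLL →* G} (h : Sit N A C A₁ C₁ A₂ C₂ r d) (hr : ¬ r ∣ Fintype.card F) (hn : 3 ≤ n)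
    (hM : Model N (iSL n F) π) (hA : Frame (iSL n F) π A (blk (id : Fin n → Fin n))) : Nat.card ↥A ≤ M d := by
  by_cases hbig : 5 ≤ n ∨ 18 ≤ Fintype.card F
  · exfalso
    by_cases h2 : A₂ ⊓ N = ⊥
    · have := no_cent hM h.locA hA hn hr h.A₂_OO_A h.A₂_ne h.A₂_norm h2
      omega
    · obtain ⟨B, hC⟩ := frame_C h hM hA
      exact one_main (symm h) hM B hA hC hn hbig h2
  · exact small_mon h hM hA (by omega) (by omega)

/-! ### Frames of planes -/

theorem exists_E {b : Fin n → Fin t} (h : ∀ i, Fintype.card {k : Fin n // b k = i} = 2) :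
    ∃ E : Fin t × Fin 2 ≃ Fin n, ∀ k, b k = (E.symm k).1 := by
  classical
  let f : ∀ i, {k : Fin n // b k = i} ≃ Fin 2 := fun i => Fintype.equivOfCardEq (by rw [h i, Fintype.card_fin])
  let E' : Fin n ≃ Fin t × Fin 2 :=
    (Equiv.sigmaFiberEquiv b).symm.trans ((Equiv.sigmaCongrRight f).trans (Equiv.sigmaEquivProd (Fin t) (Fin 2)))
  exact ⟨E'.symm, fun k => rfl⟩

theorem frame_planes [Fintype F] {π : SLL →* G} (h : Sit N A C A₁ C₁ A₂ C₂ r d) (hr : ¬ r ∣ Fintype.card F)
    (hM : Model N (iSL n F) π) (E : Fin t × Fin 2 ≃ Fin n) (hA : Frame (iSL n F) π A (bl E)) (hq : Fintype.card F ≤ 3) :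
    Nat.card ↥A ≤ M d := by
  by_cases ht : 3 ≤ t
  · exfalso
    by_cases h2 : A₂ ⊓ N = ⊥
    · exact no_cent_bl hM h.locA hA ht hq hr h.A₂_OO_A h.A₂_ne h.A₂_norm h2
    · obtain ⟨B, hC⟩ := frame_C h hM hA
      exact two_main (symm h) hM B (E := E) (E' := E) hA hC hq hr h2
  · refine small_all h hM ?_ hq
    have := Fintype.card_congr E
    rw [Fintype.card_prod, Fintype.card_fin, Fintype.card_fin, Fintype.card_fin] at this
    omega

/-! ### Blocks of different sizes -/

theorem CP_iff [Fintype F] {e : MM} {τ : MM ≃+ MM} (hmul : (∀ x y, τ (x * y) = τ x * τ y) ∨ (∀ x y, τ (x * y) = τ y * τ x)) :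
    CP (τ e) ↔ CP e := by
  refine ⟨fun h => ?_, CP_map hmul⟩
  have h1 : (∀ x y, τ.symm (x * y) = τ.symm x * τ.symm y) ∨ (∀ x y, τ.symm (x * y) = τ.symm y * τ.symm x) := by
    rcases hmul with m | m
    · left; intro x y
      apply τ.injective
      rw [m, AddEquiv.apply_symm_apply, AddEquiv.apply_symm_apply, AddEquiv.apply_symm_apply]
    · right; intro x y
      apply τ.injective
      rw [m, AddEquiv.apply_symm_apply, AddEquiv.apply_symm_apply, AddEquiv.apply_symm_apply]
  have := CP_map h1 h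
  rwa [AddEquiv.symm_apply_apply] at this

theorem blk_comp {t' : ℕ} (b : Fin n → Fin t) (φ : Fin t → Fin t') (c : Fin t') :
    (blk (φ ∘ b) c : MM) = ∑ i ∈ Finset.univ.filter (fun i => φ i = c), blk b i := by
  classical
  ext k l
  rw [Matrix.sum_apply]
  simp only [blk_apply]
  by_cases hkl : k = l
  · subst hkl
    simp only [if_true, Function.comp_apply]
    rw [Finset.sum_ite_eq]
    simp only [_root_.Finset.mem_filter, _root_.Finset.mem_univ, _root_.true_and]
  · simp only [hkl, ↓ _root_.reduceIte, _root_.Finset.sum_const_zero]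

theorem frame_mixed [Fintype F] {π : SLL →* G} (h : Sit N A C A₁ C₁ A₂ C₂ r d)
    (hM : Model N (iSL n F) π) {b : Fin n → Fin t} (hA : Frame (iSL n F) π A (blk b))
    {i₀ i₁ : Fin t} (h0 : Fintype.card {k : Fin n // b k = i₀} = 1) (h1 : Fintype.card {k : Fin n // b k = i₁} = 2)
    (hq : Fintype.card F ≤ 3) : Nat.card ↥A ≤ M d := by
  classical
  refine small_all h hM ?_ hq
  let φ : Fin t → Fin 2 := fun i => if Fintype.card {k : Fin n // b k = i} ≤ 1 then 0 else 1
  have hφ0 : φ i₀ = 0 := by simp only [φ]; rw [h0]; rfl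
  have hφ1 : φ i₁ = 1 := by simp only [φ]; rw [h1]; rfl
  have hperm2 : ∀ a ∈ A, ∀ τ, Ind (iSL n F) π a τ → ∀ c, ∃ c', τ (blk (φ ∘ b) c) = blk (φ ∘ b) c' := by
    intro a ha τ hτ c
    have hmul : (∀ x y, τ (x * y) = τ x * τ y) ∨ (∀ x y, τ (x * y) = τ y * τ x) := by
      rcases hτ with ⟨h1, _⟩ | ⟨h1, _⟩
      · exact Or.inl h1
      · exact Or.inr h1
    choose f hf using fun i => hA.perm a ha τ hτ i
    have hinj : Function.Injective f := by
      intro i j hij
      by_contra hne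
      have h3 : (blk b i : MM) = blk b j := τ.injective (by rw [hf, hf, hij])
      apply hA.ne i
      rw [← hA.idem i]
      nth_rewrite 2 [h3]
      exact hA.orth i j hne
    have hbij : Function.Bijective f := Finite.injective_iff_bijective.mp hinj
    have hφf : ∀ i, φ (f i) = φ i := fun i => by
      have h3 := CP_iff (e := blk b i) hmul
      rw [hf, CP_blk, CP_blk] at h3
      simp only [φ]
      by_cases h4 : Fintype.card {k : Fin n // b k = i} ≤ 1
      · rw [if_pos h4, if_pos (h3.mpr h4)]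
      · rw [if_neg h4, if_neg (fun hh => h4 (h3.mp hh))]
    refine ⟨c, ?_⟩
    rw [blk_comp, map_sum]
    refine Finset.sum_bij (fun i _ => f i) ?_ ?_ ?_ ?_
    · intro i hi
      rw [Finset.mem_filter] at hi ⊢
      exact ⟨Finset.mem_univ _, by rw [hφf, hi.2]⟩
    · intro i _ j _ hij
      exact hinj hij
    · intro j hj
      obtain ⟨i, rfl⟩ := hbij.2 j
      rw [Finset.mem_filter, hφf] at hj
      exact ⟨i, by rw [Finset.mem_filter]; exact ⟨Finset.mem_univ _, hj.2⟩, rfl⟩
    · intro i _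
      exact hf i
  have hk0 : ∃ k, (φ ∘ b) k = 0 := by
    have : 0 < Fintype.card {k : Fin n // b k = i₀} := by omega
    obtain ⟨⟨k, hk⟩⟩ := Fintype.card_pos_iff.mp this
    exact ⟨k, by rw [Function.comp_apply, hk, hφ0]⟩
  have hk1 : ∃ k, (φ ∘ b) k = 1 := by
    have : 0 < Fintype.card {k : Fin n // b k = i₁} := by omega
    obtain ⟨⟨k, hk⟩⟩ := Fintype.card_pos_iff.mp this
    exact ⟨k, by rw [Function.comp_apply, hk, hφ1]⟩
  have s0 := size_le h.locA hM hperm2 hk0 (by obtain ⟨k, hk⟩ := hk1; exact ⟨k, by rw [hk]; decide⟩)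
  have s1 := size_le h.locA hM hperm2 hk1 (by obtain ⟨k, hk⟩ := hk0; exact ⟨k, by rw [hk]; decide⟩)
  have hsum : n = Fintype.card {k : Fin n // (φ ∘ b) k = 0} + Fintype.card {k : Fin n // (φ ∘ b) k = 1} := by
    have h5 := Fintype.card_congr (Equiv.sigmaFiberEquiv (φ ∘ b))
    rw [Fintype.card_sigma, Fin.sum_univ_two, Fintype.card_fin] at h5
    exact h5.symm
  omega

/-- **T5** -/
theorem frame_std [Fintype F] {π : SLL →* G} (h : Sit N A C A₁ C₁ A₂ C₂ r d) (hr : ¬ r ∣ Fintype.card F)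
    (hn : 3 ≤ n) (hM : Model N (iSL n F) π) {b : Fin n → Fin t} (hA : Frame (iSL n F) π A (blk b)) : Nat.card ↥A ≤ M d := by
  classical
  have hne : ∀ i, ∃ k, b k = i := fun i => by
    by_contra hcon
    push Not at hcon
    apply hA.ne i
    ext k l
    rw [blk_apply, if_neg (hcon k), Matrix.zero_apply, ite_self]
  have hother : ∀ i, ∃ k, b k ≠ i := fun i => by
    haveI : Nontrivial (Fin t) := Fin.nontrivial_iff_two_le.mpr hA.two
    obtain ⟨j, hj⟩ := exists_ne i
    obtain ⟨k, hk⟩ := hne j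
    exact ⟨k, by rw [hk]; exact hj⟩
  have hsize := fun i => size_le h.locA hM hA.perm (hne i) (hother i)
  have hpos : ∀ i, 0 < Fintype.card {k : Fin n // b k = i} := fun i => by
    obtain ⟨k, hk⟩ := hne i
    exact Fintype.card_pos_iff.mpr ⟨⟨k, hk⟩⟩
  by_cases hall1 : ∀ i, Fintype.card {k : Fin n // b k = i} ≤ 1
  · -- frame of points
    have hinj : Function.Injective b := fun k l hkl =>
      congrArg Subtype.val (Fintype.card_le_one_iff.mp (hall1 (b l)) ⟨k, hkl⟩ ⟨l, rfl⟩)
    let g : Fin n ≃ Fin t := Equiv.ofBijective b ⟨hinj, fun i => hne i⟩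
    have hA' := frame_reindex hA g
    have he : (fun i => (blk b (g i) : MM)) = blk (id : Fin n → Fin n) := by
      funext i
      ext k l
      rw [blk_apply, blk_apply]
      change (if k = l then (if b k = b i then (1 : F) else 0) else 0) = _
      simp only [hinj.eq_iff, id_eq]
    rw [he] at hA'
    exact frame_points h hr hn hM hA'
  · push Not at hall1
    obtain ⟨i₁, hi₁⟩ := hall1
    have hq : Fintype.card F ≤ 3 := by
      rcases hsize i₁ with h1 | h1
      · omega
      · rw [← Nat.card_eq_fintype_card]; exact h1.2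
    have hs1 : Fintype.card {k : Fin n // b k = i₁} = 2 := by
      rcases hsize i₁ with h1 | h1
      · omega
      · exact h1.1
    by_cases hall2 : ∀ i, Fintype.card {k : Fin n // b k = i} = 2
    · obtain ⟨E, hE⟩ := exists_E hall2
      have he : (blk b : Fin t → MM) = bl E := by
        funext i
        rw [bl, funext hE]
      rw [he] at hA
      exact frame_planes h hr hM E hA hq
    · push Not at hall2
      obtain ⟨i₀, hi₀⟩ := hall2
      have hs0 : Fintype.card {k : Fin n // b k = i₀} = 1 := by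
        have := hpos i₀
        rcases hsize i₀ with h1 | h1
        · omega
        · exact absurd h1.1 hi₀
      exact frame_mixed h hM hA hs0 hs1 hq

/-- **T5**: the imprimitive type, linear case. -/
theorem frame_sl [Fintype F] {π : Matrix.SpecialLinearGroup (Fin n) F →* G} (h : Sit N A C A₁ C₁ A₂ C₂ r d)
    (hr : ¬ r ∣ Fintype.card F) (hn : 3 ≤ n) (hM : Model N (iSL n F) π) {t : ℕ} {e : Fin t → Matrix (Fin n) (Fin n) F}
    (hA : Frame (iSL n F) π A e) : Nat.card A ≤ M d := by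
  obtain ⟨P, b, hPb⟩ := exists_std hA.idem hA.orth hA.sum
  have he : e = fun i => cM P (blk b i) := funext hPb
  rw [he] at hA
  exact frame_std h hr hn (model_cS P hM) (frame_cS P hA)

end Cfsg.Agent.H599.TW
end

-- part: H124/TW/ReductionFive
section
/-!
# S3694, T15: the reduction to the situation `Sit` (helper124)

`reduction_of_four` takes the bound for `d = 4` (S3567, closure 19198 modules) as a hypothesis; `Reduction.lean` plugs it in.
-/

set_option autoImplicit false

namespace Cfsg.Agent.H124.TW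

open Subgroup MulAction Cfsg Cfsg.Agent.H607.TW Cfsg.Agent.H429.Suborbit Cfsg.Agent.H900.TWCore

section

variable {G Ω : Type*} [Group G] [MulAction G Ω]

theorem mem_K_iff {a b : Ω} {x : G} :
    x ∈ K a b ↔ x ∈ stabilizer G a ∧ ∀ m ∈ stabilizer G a, m * x * m⁻¹ ∈ stabilizer G a ⊓ stabilizer G b := by
  rw [mem_K]
  constructor
  · rintro ⟨h1, h2⟩
    refine ⟨h1, fun m hm => mem_inf.2 ⟨mul_mem (mul_mem hm h1) (inv_mem hm), ?_⟩⟩
    have h3 := h2 (m⁻¹ • b) ⟨⟨m⁻¹, inv_mem hm⟩, rfl⟩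
    rw [mem_stabilizer_iff, mul_smul, mul_smul, h3, smul_inv_smul]
  · rintro ⟨h1, h2⟩
    refine ⟨h1, ?_⟩
    rintro _ ⟨⟨m, hm⟩, rfl⟩
    have h3 := (mem_inf.1 (h2 m⁻¹ (inv_mem hm))).2
    rw [mem_stabilizer_iff, mul_smul, mul_smul, inv_inv] at h3
    change x • m • b = m • b
    rw [inv_smul_eq_iff] at h3
    exact h3

theorem T_le_left (a b : Ω) : (T a b : Subgroup G) ≤ K a b := by
  intro x hx
  rw [mem_K]
  have h1 := T_le a b hx
  refine ⟨K_le_right b a h1, fun c hc => ?_⟩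
  exact (mem_K.mp (mem_T.mp hx c hc)).1

end

theorem M_two : M 2 = 2 := by decide
theorem M_three : M 3 = 48 := by decide
theorem M_four : M 4 = 31104 := by decide

/-- T15 : the reduction, up to `d = 4` -/
theorem reduction_of_four {G Ω : Type*} [Group G] [Finite G] [MulAction G Ω] [FaithfulSMul G Ω] [Finite Ω]
    (N : Subgroup G) (hNn : N.Normal) (hNs : IsSimpleGroup N) (hNa : ¬ IsMulCommutative N)
    (hNc : Subgroup.centralizer (N : Set G) = ⊥) (hprim : MulAction.IsPreprimitive G Ω) (a b : Ω) (d : ℕ)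
    (hd : Nat.card (MulAction.orbit (MulAction.stabilizer G a) b) = d) (h2 : 2 ≤ d)
    (h4 : Nat.card (MulAction.orbit (MulAction.stabilizer G a) b) = 4 → Nat.card ↥(MulAction.stabilizer G a) ≤ 31104)
    (key : ∀ (A C A₁ C₁ A₂ C₂ : Subgroup G) (r : ℕ), Sit N A C A₁ C₁ A₂ C₂ r d → Nat.card ↥A ≤ M d) :
    Nat.card (MulAction.stabilizer G a) ≤ M d := by
  have h2' : 2 ≤ Nat.card (orbit (stabilizer G a) b) := by rw [hd]; exact h2
  -- small cases
  by_cases hd2 : d = 2
  · subst hd2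
    rw [(S3684.result hprim a b hd).1, M_two]
  by_cases hd3 : d = 3
  · subst hd3
    rw [M_three]
    have hp3 : Nat.card (Equiv.Perm (Fin 3)) = 6 := by rw [Nat.card_perm, Nat.card_fin]; rfl
    have hp4 : Nat.card (Equiv.Perm (Fin 4)) = 24 := by rw [Nat.card_perm, Nat.card_fin]; rfl
    rcases S3685.result hprim a b hd with ⟨⟨e⟩⟩ | ⟨⟨e⟩⟩ | ⟨⟨e⟩⟩ | ⟨⟨e⟩⟩ | ⟨⟨e⟩⟩
    · rw [Nat.card_congr e.toEquiv]
      have : Nat.card (Multiplicative (ZMod 3)) = 3 := by
        rw [Nat.card_congr Multiplicative.toAdd, Nat.card_zmod]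
      omega
    · rw [Nat.card_congr e.toEquiv, hp3]; omega
    · rw [Nat.card_congr e.toEquiv, DihedralGroup.nat_card]; omega
    · rw [Nat.card_congr e.toEquiv, hp4]; omega
    · rw [Nat.card_congr e.toEquiv, Nat.card_prod, hp4]
      have : Nat.card (Multiplicative (ZMod 2)) = 2 := by
        rw [Nat.card_congr Multiplicative.toAdd, Nat.card_zmod]
      omega
  by_cases hd4 : d = 4
  · subst hd4
    rw [M_four]
    exact h4 hd
  have h5 : 5 ≤ d := by omega
  by_cases hA2 : (T a b : Subgroup G) = ⊥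
  · have h := Nat.le_of_dvd (by positivity) (card_dvd_of_T_eq_bot hA2)
    rw [hd] at h
    exact h
  by_cases hC2 : (T b a : Subgroup G) = ⊥
  · have h := Nat.le_of_dvd (by positivity) (card_dvd_of_T_eq_bot hC2)
    rw [card_orbit_eq, card_stabilizer_eq b a, hd] at h
    exact h
  -- the main case
  have hnt : Nontrivial Ω := ⟨a, b, ne_of_two_le h2'⟩
  have hmax : ∀ c : Ω, IsCoatom (stabilizer G c) := fun c =>
    IsPreprimitive.isCoatom_stabilizer_of_isPreprimitive G c
  have hne : stabilizer G a ≠ stabilizer G b := stabilizer_ne_of_two_le h2'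
  obtain ⟨g, hg⟩ := _root_.MulAction.exists_smul_eq G a b
  have hconj : stabilizer G b = (stabilizer G a).map (MulAut.conj g).toMonoidHom := by
    rw [← hg, stabilizer_smul_eq_stabilizer_map_conj]
  have hsup : stabilizer G a ⊔ stabilizer G b = ⊤ := by
    rcases (hmax a).le_iff.mp (le_sup_left : stabilizer G a ≤ stabilizer G a ⊔ stabilizer G b) with h | h
    · exact h
    · exfalso
      have h1 : stabilizer G b ≤ stabilizer G a := by rw [← h]; exact le_sup_right
      rcases (hmax b).le_iff.mp h1 with h3 | h3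
      · exact (hmax a).1 h3
      · exact hne h3
  have hP : Pair (stabilizer G a) (stabilizer G b) (K a b) (K b a) (T a b) (T b a) := by
    refine ⟨fun X h1 h3 h4 => normalizer_le hprim a X h3 h1 h4, fun X h1 h3 h4 => normalizer_le hprim b X h3 h1 h4, ?_,
      fun x => mem_K_iff, fun x => ?_, T_le_left a b, T_le a b, le_normalizer_T a b, T_le b a, T_le_left b a,
      le_normalizer_T b a, hA2, hC2, ⟨g, hconj⟩⟩
    · intro X h1 _ h3 h4
      by_contra h0
      have h6 := normalizer_le hprim a X h1 h0 h3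
      have h7 : (⊤ : Subgroup G) ≤ normalizer (X : Set G) := by rw [← hsup]; exact sup_le h3 h4
      exact (hmax a).1 (top_le_iff.1 (h7.trans h6))
    · rw [mem_K_iff, inf_comm]
  obtain ⟨p, hp, hpA, hpB, hF, hr⟩ := hP.main
  obtain ⟨p', hp', hpB', hpA', hF', hr'⟩ := hP.symm.main
  have hpp : p' = p := by
    by_contra hne'
    apply hA2
    have : Fact p.Prime := ⟨hp⟩
    have : Fact p'.Prime := ⟨hp'⟩
    obtain ⟨u, hu⟩ := (IsPGroup.iff_card).mp hpA
    obtain ⟨v, hv⟩ := (IsPGroup.iff_card).mp hpA'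
    rw [← Subgroup.card_eq_one]
    have h1 : Nat.card (T a b : Subgroup G) ∣ Nat.gcd (p ^ u) (p' ^ v) :=
      Nat.dvd_gcd ⟨1, by rw [hu, mul_one]⟩ ⟨1, by rw [hv, mul_one]⟩
    rw [(Nat.Coprime.pow u v ((Nat.coprime_primes hp hp').mpr (Ne.symm hne'))).gcd_eq_one] at h1
    exact Nat.dvd_one.mp h1
  subst hpp
  have hNbot : N ≠ ⊥ := by
    rintro rfl
    exact hNa ⟨⟨fun x y => Subsingleton.elim _ _⟩⟩
  have hNle : ∀ c : Ω, ¬ N ≤ stabilizer G c := by
    intro c h
    have h1 : normalizer (N : Set G) = ⊤ := normalizer_eq_top_iff.2 hNn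
    have h3 := normalizer_le hprim c N h hNbot (by rw [h1]; exact le_top)
    rw [h1] at h3
    exact (hmax c).1 (top_le_iff.1 h3)
  refine key (stabilizer G a) (stabilizer G b) (K a b) (K b a) (T a b) (T b a) p' ?_
  exact
    { locA := ⟨hNn, hNs, hNa, hNc, hmax a, hNle a, hp', hF⟩
      locC := ⟨hNn, hNs, hNa, hNc, hmax b, hNle b, hp', hF'⟩
      ne := hne
      conj := ⟨g, hconj⟩
      idx := by
        have h1 := card_orbit_mul (G := G) a b
        rw [hd] at h1
        have h3 := Subgroup.relIndex_mul_relIndex ⊥ (stabilizer G a ⊓ stabilizer G b) (stabilizer G a) bot_le inf_le_left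
        rw [Subgroup.relIndex_bot_left, Subgroup.relIndex_bot_left, mul_comm] at h3
        exact Nat.eq_of_mul_eq_mul_right Nat.card_pos (h3.trans h1.symm)
      five := h5
      A₁_le := le_inf (K_le_left a b) (K_le_right a b)
      C₁_le := le_inf (K_le_right b a) (K_le_left b a)
      A₁_norm := le_normalizer_K a b
      C₁_norm := le_normalizer_K b a
      A₂_le := le_inf (T_le_left a b) (T_le a b)
      C₂_le := le_inf (T_le b a) (T_le_left b a)
      A₂_norm := le_normalizer_T a b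
      C₂_norm := le_normalizer_T b a
      A₂_ne := hA2
      C₂_ne := hC2
      A₂_OO := hP.symm.le_pcore_of_X (T_le a b) ((K_le_right b a).trans (le_normalizer_T a b)) hpA
      C₂_OO := hP.le_pcore_of_X (T_le b a) ((K_le_right a b).trans (le_normalizer_T b a)) hpB }

end Cfsg.Agent.H124.TW
end

-- part: H607/TW/Main
section
/-!
# S3694: the assembly

`result_of` : the theorem, given the frame case for the unitary groups (`FrameSU`, T6) and the bound for `d = 4` (S3567).
-/

set_option autoImplicit false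

namespace Cfsg.Agent.H607.TW

open Subgroup Cfsg

universe u

/-- the frame case for the unitary groups -/
def FrameSU (G : Type u) [Group G] [Finite G] : Prop :=
  ∀ {N A C A₁ C₁ A₂ C₂ : Subgroup G} {r d : ℕ} {F : Type} [Field F] [Fintype F] {n q : ℕ} (_ : Fintype.card F = q ^ 2)
    {π : ↥(Cfsg.SU n F q) →* G} (_ : Sit N A C A₁ C₁ A₂ C₂ r d)
    (_ : ¬ r ∣ Fintype.card F) (_ : 3 ≤ n) (_ : Model N (iSU n F q) π) {t : ℕ} {e : Fin t → Matrix (Fin n) (Fin n) F}
    (_ : Frame (iSU n F q) π A e), Nat.card A ≤ M d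

section cross

variable {G : Type u} [Group G] [Finite G] {N A C A₁ C₁ A₂ C₂ : Subgroup G} {r d : ℕ}
  {F : Type} [Field F] [Fintype F] {n : ℕ} {S : Type} [Group S]
  {ι : S →* Matrix.GeneralLinearGroup (Fin n) F} {π : S →* G}

theorem end_extra (h : Sit N A C A₁ C₁ A₂ C₂ r d)
    (hM : Model N ι π) (hcyc : CycAx ι π N) (hX : Extra ι π N A r)
    (hidx : N.index ≤ 2 * Nat.card (F ≃+* F) * Nat.card π.ker)
    (hout : ∀ (A' : Subgroup G) (x : G), Loc N A' r → Extra ι π N A' r → x ^ r = 1 → x ≠ 1 → (∀ y ∈ A' ⊓ N, x * y = y * x) →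
      (∀ y ∈ N, x * y = y * x → y ∈ A') → (∀ B : Matrix.GeneralLinearGroup (Fin n) F, ¬ Ind ι π x (tauP B 1)) →
      (r = 2 ∧ Nat.card F ≤ 10 ^ 4) ∨ Nat.card ↥A' ≤ M 5) : Nat.card ↥A ≤ M d := by
  refine H87.TW.end_extra_of (fun A' K hA' hK hn hne hKN => ?_) h hM hX hidx hout
  obtain ⟨x, h1, h2, h3, -, h4, h5, h6, -⟩ := outer hA' hM hcyc hK hn hne hKN
  exact ⟨x, h1, h3, h2, h4, h5, h6⟩

/-- the cross characteristic case, `n ≥ 3`, uniform in SL and SU -/
theorem cross_char (h : Sit N A C A₁ C₁ A₂ C₂ r d)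
    (hr : ¬ r ∣ Fintype.card F) (hn : 3 ≤ n) (hM : Model N ι π) (hS : SemiAx ι π A) (hC : CompAx ι π A) (hcyc : CycAx ι π N)
    (hidx : N.index ≤ 2 * Nat.card (F ≃+* F) * Nat.card π.ker)
    (hfld : ∀ (A' : Subgroup G) (x : G), Loc N A' r → x ^ r = 1 → x ≠ 1 → (∀ y ∈ A' ⊓ N, x * y = y * x) →
      (∀ y ∈ N, x * y = y * x → y ∈ A') → A' ⊓ N ≠ ⊥ → ∀ (B : Matrix.GeneralLinearGroup (Fin n) F) (σ : F ≃+* F), σ ≠ 1 →
      Ind ι π x (tauP B σ) → r = 2 ∨ Nat.card ↥A' ≤ M 5)
    (hout : ∀ (A' : Subgroup G) (x : G), Loc N A' r → Extra ι π N A' r → x ^ r = 1 → x ≠ 1 → (∀ y ∈ A' ⊓ N, x * y = y * x) →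
      (∀ y ∈ N, x * y = y * x → y ∈ A') → (∀ B : Matrix.GeneralLinearGroup (Fin n) F, ¬ Ind ι π x (tauP B 1)) →
      (r = 2 ∧ Nat.card F ≤ 10 ^ 4) ∨ Nat.card ↥A' ≤ M 5)
    (hframe : ∀ (t : ℕ) (e : Fin t → Matrix (Fin n) (Fin n) F), Frame ι π A e → Nat.card ↥A ≤ M d) :
    Nat.card ↥A ≤ M d := by
  obtain ⟨X, hX⟩ := h.locA.exists_minX (H966.TW.OO_inf_ne_bot h.locA h.A_ne_bot)
  by_cases hab : ∀ s t : S, π s ∈ X → π t ∈ X → s * t = t * s
  · rcases type_abelian h.locA hM hS hX hab with ⟨t, e, he⟩ | hinv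
    · exact hframe t e he
    · exact end_field h hn hM hC hcyc hfld hX hab hinv
  · push Not at hab
    obtain ⟨s, t, hs, ht, hst⟩ := hab
    rcases H968.TW.type_nonab h.locA hr hM hS hC hidx hX ⟨s, t, hs, ht, hst⟩ with hE | hsm
    · exact end_extra h hM hcyc hE hidx hout
    · exact h.card_le_M hsm

end cross

section main

variable {G : Type u} [Group G] [Finite G] {N A C A₁ C₁ A₂ C₂ : Subgroup G} {r d : ℕ}
  {F : Type} [Field F] [Fintype F] {n : ℕ}

theorem main_sl {π : Matrix.SpecialLinearGroup (Fin n) F →* G} (h : Sit N A C A₁ C₁ A₂ C₂ r d) (hn : 3 ≤ n)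
    (hM : Model N (iSL n F) π) : Nat.card ↥A ≤ M d := by
  by_cases hr : r ∣ Fintype.card F
  · exact H801.Sims.char_sl h hr hM
  · exact cross_char h hr hn hM (H748.TW.semi_sl h.locA hr hM) (compAx_sl h.locA hM) (cycAx_sl h.locA hM)
      (H982.TWModel.index_sl h.locA.normal h.locA.cent hM) (fld_sl hn hM) (out_sl hr hn hM)
      (fun t e he => H599.TW.frame_sl h hr hn hM he)

/-- `n = 2` -/
theorem main_sl_two {π : Matrix.SpecialLinearGroup (Fin 2) F →* G} (h : Sit N A C A₁ C₁ A₂ C₂ r d)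
    (hM : Model N (iSL 2 F) π) : Nat.card ↥A ≤ M d := by
  by_cases hr : r ∣ Fintype.card F
  · exact H801.Sims.char_sl h hr hM
  · obtain ⟨X, hX⟩ := h.locA.exists_minX (H966.TW.OO_inf_ne_bot h.locA h.A_ne_bot)
    have hidx := H982.TWModel.index_sl h.locA.normal h.locA.cent hM
    by_cases hab : ∀ s t, π s ∈ X → π t ∈ X → s * t = t * s
    · refine H947.TW.two_torus h hr hM _ (Inv.adjoin (ι := iSL 2 F) (π := π) hX.norm) ?_ ?_
      · intro hbot
        apply hX.ne
        rw [eq_bot_iff]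
        intro x hx
        obtain ⟨s, rfl⟩ := hM.exists_pre (hX.le hx).2
        have h1 : mt (iSL 2 F) s ∈ Algebra.adjoin F (mt (iSL 2 F) '' {s | π s ∈ X}) :=
          Algebra.subset_adjoin ⟨s, hx, rfl⟩
        rw [hbot, Algebra.mem_bot] at h1
        obtain ⟨c, hc⟩ := h1
        rw [mem_bot, hM.ker]
        exact ⟨c, by rw [← hc, Algebra.algebraMap_eq_smul_one]⟩
      · apply adjoin_comm
        rintro _ ⟨s, hs, rfl⟩ _ ⟨t, ht, rfl⟩
        rw [← H296.TW.mt_mul, ← H296.TW.mt_mul, hab s t hs ht]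
    · push Not at hab
      obtain ⟨s, t, hs, ht, hst⟩ := hab
      rcases H968.TW.type_nonab h.locA hr hM (H748.TW.semi_sl h.locA hr hM) (compAx_sl h.locA hM) hidx hX ⟨s, t, hs, ht, hst⟩ with hE | hsm
      · exact end_extra h hM (cycAx_sl h.locA hM) hE hidx (out_sl_two hM)
      · exact h.card_le_M hsm

theorem main_su (hfs : FrameSU G) {q : ℕ} (hF : Fintype.card F = q ^ 2) {π : ↥(Cfsg.SU n F q) →* G} (h : Sit N A C A₁ C₁ A₂ C₂ r d) (hn : 3 ≤ n)
    (hM : Model N (iSU n F q) π) : Nat.card ↥A ≤ M d := by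
  by_cases hr : r ∣ Fintype.card F
  · exact H328.TW.char_su hF h hr hn hM
  · exact cross_char h hr hn hM (H989.TW.semi_su hF hn h.locA hr hM) (compAx_su hF hn h.locA hM) (cycAx_su hF hn h.locA hM)
      (idx_su hF hn h.locA hM) (fld_su hF hn hM) (out_su hF hr hn hM)
      (fun t e he => hfs hF h hr hn hM he)

theorem key (hfs : FrameSU G) (hsoc : Cfsg.IsPSL N ∨ Cfsg.IsPSU N) (h : Sit N A C A₁ C₁ A₂ C₂ r d) : Nat.card ↥A ≤ M d := by
  rcases hsoc with ⟨F, _, _, n, hn, h2, ⟨e⟩⟩ | ⟨F, _, _, n, q, hF, hn, h3, ⟨e⟩⟩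
  · obtain ⟨π, hM⟩ := H982.TWModel.model_sl h.locA.normal h.locA.cent hn h2 e
    rcases Nat.lt_or_ge 2 n with h5 | h5
    · exact main_sl h h5 hM
    · obtain rfl : n = 2 := by omega
      exact main_sl_two h hM
  · obtain ⟨π, hM⟩ := H296.TW.model_su hF h.locA.normal h.locA.cent hn h3 e
    exact main_su hfs hF h hn hM

theorem result_of {G Ω : Type*} [Group G] [Finite G] [MulAction G Ω] [FaithfulSMul G Ω] [Finite Ω] (hfs : FrameSU G)
    (N : Subgroup G) (hNn : N.Normal) (hNs : IsSimpleGroup N) (hNa : ¬ IsMulCommutative N) (hNc : Subgroup.centralizer (N : Set G) = ⊥) (hsoc : Cfsg.IsPSL N ∨ Cfsg.IsPSU N)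
    (hprim : MulAction.IsPreprimitive G Ω) (a b : Ω) (d : ℕ) (hd : Nat.card (MulAction.orbit (MulAction.stabilizer G a) b) = d) (h2 : 2 ≤ d)
    (h4 : Nat.card (MulAction.orbit (MulAction.stabilizer G a) b) = 4 → Nat.card ↥(MulAction.stabilizer G a) ≤ 31104) :
    Nat.card (MulAction.stabilizer G a) ≤ Nat.factorial d * (Nat.factorial (d - 1)) ^ d :=
  H124.TW.reduction_of_four N hNn hNs hNa hNc hprim a b d hd h2 h4 fun _ _ _ _ _ _ _ h => key hfs hsoc h

end main

end Cfsg.Agent.H607.TW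
end

-- part: H189/TW/Grp
section
/-!
# S3694, T6: group theory (helper189)

* `perm_normal_pgroup` : normal `r`-subgroups of the symmetric group of degree at least five are trivial;
* `inf_ne` : `A ∩ N ≠ C ∩ N`;
* `exists_Y` : the elementary abelian normal subgroup `Y` of `C` in `C₂ ∩ N`;
* `Sit.tw` : the commutator property of `Y`.
-/

set_option autoImplicit false

namespace Cfsg.Agent.H189.TW

open Subgroup Cfsg Cfsg.Agent.H607.TW

universe u

theorem perm_normal_pgroup {t r : ℕ} (ht : 5 ≤ t) (hr : r.Prime) {K : Subgroup (Equiv.Perm (Fin t))} (hK : K.Normal)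
    (hp : IsPGroup r K) : K = ⊥ := by
  by_contra hne
  have hnt : Nontrivial K := (nontrivial_iff_ne_bot K).2 hne
  have : Fact r.Prime := ⟨hr⟩
  have hA : alternatingGroup (Fin t) ≤ K := Equiv.Perm.alternatingGroup_le_of_normal (by simpa only [_root_.Nat.card_eq_fintype_card, _root_.Fintype.card_fin] using ht) hnt
  have hpA : IsPGroup r (alternatingGroup (Fin t)) := hp.to_le hA
  obtain ⟨k, hk⟩ := (IsPGroup.iff_card).1 hpA
  have hnt2 : Nontrivial (Fin t) := Fin.nontrivial_iff_two_le.2 (by omega)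
  have h2 := two_mul_nat_card_alternatingGroup (α := Fin t)
  rw [hk, Nat.card_perm, Nat.card_eq_fintype_card, Fintype.card_fin] at h2
  have h12 : 12 ∣ t.factorial := by
    have : 12 ∣ Nat.factorial 5 := by decide
    exact this.trans (Nat.factorial_dvd_factorial ht)
  rw [← h2] at h12
  have h3 : 3 ∣ r ^ k := by
    have h4 : 3 ∣ 2 * r ^ k := (by norm_num : 3 ∣ 12).trans h12
    exact (Nat.Coprime.dvd_mul_left (by norm_num : Nat.Coprime 3 2)).1 h4
  have h4 : 2 ∣ r ^ k := by
    obtain ⟨c, hc⟩ := h12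
    exact ⟨3 * c, by omega⟩
  have h5 := (Nat.prime_dvd_prime_iff_eq Nat.prime_three hr).1 (Nat.prime_three.dvd_of_dvd_pow h3)
  have h6 := (Nat.prime_dvd_prime_iff_eq Nat.prime_two hr).1 (Nat.prime_two.dvd_of_dvd_pow h4)
  omega

section

variable {G : Type u} [Group G] {N A C A₁ C₁ A₂ C₂ : Subgroup G} {r d : ℕ}

theorem inf_ne (hA : Loc N A r) (hC : Loc N C r) (hne : A ≠ C) (h : A ⊓ N = C ⊓ N) (h0 : A ⊓ N ≠ ⊥) : False := by
  have hN := hA.normal
  have h1 : A ≤ normalizer ((A ⊓ N : Subgroup G) : Set G) := by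
    apply Cfsg.Agent.H748.TW.le_normalizer_of
    intro a ha k hk
    exact ⟨A.mul_mem (A.mul_mem ha hk.1) (A.inv_mem ha), hN.conj_mem _ hk.2 _⟩
  have h2 : C ≤ normalizer ((A ⊓ N : Subgroup G) : Set G) := by
    apply Cfsg.Agent.H748.TW.le_normalizer_of
    intro a ha k hk
    rw [h] at hk ⊢
    exact ⟨C.mul_mem (C.mul_mem ha hk.1) (C.inv_mem ha), hN.conj_mem _ hk.2 _⟩
  have h3 : A ⊔ C = ⊤ := by
    apply hA.max.2
    apply left_lt_sup.2
    intro hCA
    rcases hC.max.le_iff.1 hCA with h4 | h4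
    · exact hA.max.1 h4
    · exact hne h4
  have h4 : (A ⊓ N : Subgroup G).Normal := by
    rw [← normalizer_eq_top_iff, eq_top_iff, ← h3]
    exact sup_le h1 h2
  have h5 := hA.simple
  rcases h5.eq_bot_or_eq_top_of_normal ((A ⊓ N).subgroupOf N) inferInstance with h6 | h6
  · rw [subgroupOf_eq_bot, disjoint_iff, inf_eq_left.2 inf_le_right] at h6
    exact h0 h6
  · rw [subgroupOf_eq_top] at h6
    exact hA.not_le (h6.trans inf_le_left)

theorem OO_pgroup [Finite G] (hr : r.Prime) (A : Subgroup G) : IsPGroup r (OO r A) := by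
  have : Fact r.Prime := ⟨hr⟩
  exact (Cfsg.Agent.Lib.Cores.pCore_isPGroup r).map A.subtype

theorem OO_le (A : Subgroup G) : OO r A ≤ A := by
  rintro _ ⟨x, -, rfl⟩
  exact x.2

theorem OO_norm [Finite G] (A : Subgroup G) (a : G) (ha : a ∈ A) (x : G) (hx : x ∈ OO r A) : a * x * a⁻¹ ∈ OO r A := by
  obtain ⟨y, hy, rfl⟩ := hx
  have h1 : (Cfsg.pCore r ↥A).Normal := inferInstance
  exact ⟨(⟨a, ha⟩ * y * ⟨a, ha⟩⁻¹ :), h1.conj_mem _ hy _, rfl⟩

theorem conj_mem_of_le {A K : Subgroup G} (h : A ≤ normalizer (K : Set G)) {a x : G} (ha : a ∈ A) (hx : x ∈ K) :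
    a * x * a⁻¹ ∈ K := (mem_normalizer_iff.1 (h ha) x).1 hx

/-- a nontrivial elementary abelian normal subgroup of `C` in `C₂ ∩ N` -/
theorem exists_Y [Finite G] (h : Sit N A C A₁ C₁ A₂ C₂ r d) (hne : C₂ ⊓ N ≠ ⊥) :
    ∃ Y : Subgroup G, Y ≠ ⊥ ∧ Y ≤ C₂ ⊓ N ∧ (∀ c ∈ C, ∀ y ∈ Y, c * y * c⁻¹ ∈ Y) ∧ (∀ x ∈ Y, ∀ y ∈ Y, x * y = y * x) ∧
      ∀ y ∈ Y, y ^ r = 1 := by
  have hr := h.locA.prime
  have : Fact r.Prime := ⟨hr⟩
  set K := C₂ ⊓ N with hK
  have hKp : IsPGroup r K := (OO_pgroup hr A).to_le (inf_le_left.trans h.C₂_OO)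
  have hKnt : Nontrivial K := (nontrivial_iff_ne_bot K).2 hne
  have hZ : Nontrivial (center K) := hKp.center_nontrivial
  let Y : Subgroup G :=
    { carrier := {y | y ∈ K ∧ (∀ k ∈ K, y * k = k * y) ∧ y ^ r = 1}
      mul_mem' := by
        rintro a b ⟨ha1, ha2, ha3⟩ ⟨hb1, hb2, hb3⟩
        refine ⟨mul_mem ha1 hb1, fun k hk => ?_, ?_⟩
        · rw [mul_assoc, hb2 k hk, ← mul_assoc, ha2 k hk, mul_assoc]
        · rw [(show Commute a b from ha2 b hb1).mul_pow, ha3, hb3, one_mul]
      one_mem' := ⟨one_mem _, fun k _ => by rw [one_mul, mul_one], one_pow _⟩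
      inv_mem' := by
        rintro a ⟨ha1, ha2, ha3⟩
        refine ⟨inv_mem ha1, fun k hk => ?_, by rw [inv_pow, ha3, inv_one]⟩
        have h1 := ha2 k hk
        calc a⁻¹ * k = a⁻¹ * (k * a) * a⁻¹ := by group
          _ = k * a⁻¹ := by rw [← h1]; group }
  have hmem : ∀ y, y ∈ Y ↔ (y ∈ K ∧ (∀ k ∈ K, y * k = k * y) ∧ y ^ r = 1) := fun y => Iff.rfl
  refine ⟨Y, ?_, ?_, ?_, ?_, ?_⟩
  · intro hbot
    have hp2 : IsPGroup r (center K) := hKp.to_subgroup _
    obtain ⟨k, hk0, hk⟩ := (IsPGroup.nontrivial_iff_card hp2).1 hZ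
    have hdvd : r ∣ Nat.card (center K) := by
      rw [hk]
      exact dvd_pow_self r (by omega)
    obtain ⟨z, hz⟩ := exists_prime_orderOf_dvd_card' r hdvd
    have hzY : ((z : K) : G) ∈ Y := by
      refine ⟨(z : K).2, fun k hk => ?_, ?_⟩
      · have h1 := mem_center_iff.1 z.2 ⟨k, hk⟩
        exact (congrArg (fun w : K => (w : G)) h1).symm
      · have h1 : z ^ r = 1 := by rw [← hz]; exact pow_orderOf_eq_one z
        have h2 := congrArg (fun w : center K => ((w : K) : G)) h1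
        exact h2
    rw [hbot, mem_bot] at hzY
    have h3 : z = 1 := Subtype.ext (Subtype.ext hzY)
    rw [h3, orderOf_one] at hz
    exact hr.one_lt.ne hz
  · intro y hy
    exact hy.1
  · intro c hc y hy
    obtain ⟨hy1, hy2, hy3⟩ := hy
    have hN := h.locA.normal
    have hKc : ∀ c ∈ C, ∀ k ∈ K, c * k * c⁻¹ ∈ K := by
      intro c hc k hk
      exact ⟨conj_mem_of_le h.C₂_norm hc hk.1, hN.conj_mem _ hk.2 _⟩
    refine ⟨hKc c hc y hy1, fun k hk => ?_, ?_⟩
    · have h1 := hy2 _ (hKc c⁻¹ (inv_mem hc) k hk)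
      rw [inv_inv] at h1
      calc c * y * c⁻¹ * k = c * (y * (c⁻¹ * k * c)) * c⁻¹ := by group
        _ = k * (c * y * c⁻¹) := by rw [h1]; group
    · rw [conj_pow, hy3]
      group
  · intro x hx y hy
    exact hx.2.1 y hy.1
  · intro y hy
    exact hy.2.2

/-- the Thompson-Wielandt property -/
theorem Sit.tw (h : Sit N A C A₁ C₁ A₂ C₂ r d) {Y : Subgroup G} (hY : Y ≤ C₂ ⊓ N) (hYC : ∀ c ∈ C, ∀ y ∈ Y, c * y * c⁻¹ ∈ Y)
    {a y y' : G} (ha : a ∈ A) (hy : y ∈ Y) (hy' : y' ∈ Y) : (a * y' * a⁻¹) * y * (a * y' * a⁻¹)⁻¹ ∈ Y := by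
  apply hYC _ _ _ hy
  have h1 : y' ∈ A₁ := (h.C₂_le.trans inf_le_left) (hY hy').1
  have h2 : a * y' * a⁻¹ ∈ A₁ := conj_mem_of_le h.A₁_norm ha h1
  exact (h.A₁_le h2).2

end

end Cfsg.Agent.H189.TW
end

-- part: H189/TW/Moves
section
/-!
# S3694, T6: the elements of `Y` fix the frames (helper189)

`moves`.
-/

set_option autoImplicit false
set_option linter.unusedSectionVars false

namespace Cfsg.Agent.H189.TW

open Matrix Subgroup Cfsg Cfsg.Agent.H607.TW
open Cfsg.Agent.H748.TW (mt_mul mt_one mt_inj mt_mul_inv mt_inv_mul)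

universe u

section Comm

variable {G : Type u} [Group G]

/-- the Thompson-Wielandt property of `Y` with respect to `D` -/
def TWp (D Y : Subgroup G) : Prop :=
  ∀ a ∈ D, ∀ y ∈ Y, ∀ y' ∈ Y, (a * y' * a⁻¹) * y * (a * y' * a⁻¹)⁻¹ ∈ Y

theorem TWp.comm {D Y : Subgroup G} (h : TWp D Y) {a y : G} (ha : a ∈ D) (hy : y ∈ Y) :
    y * (y * a * y⁻¹ * a⁻¹) * y⁻¹ * (y * a * y⁻¹ * a⁻¹)⁻¹ ∈ Y := by
  have h1 := h a ha y⁻¹ (inv_mem hy) y⁻¹ (inv_mem hy)
  have h2 := Y.mul_mem hy (Y.mul_mem (Y.mul_mem hy h1) (Y.inv_mem hy))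
  have e : y * (y * a * y⁻¹ * a⁻¹) * y⁻¹ * (y * a * y⁻¹ * a⁻¹)⁻¹ =
      y * (y * (a * y⁻¹ * a⁻¹ * y⁻¹ * (a * y⁻¹ * a⁻¹)⁻¹) * y⁻¹) := by group
  rw [e]
  exact h2

/-- the simple commutator with a conjugate -/
theorem TWp.comm' {D Y : Subgroup G} (h : TWp D Y) {a y : G} (ha : a ∈ D) (hy : y ∈ Y) :
    y * (a * y * a⁻¹) * y⁻¹ * (a * y * a⁻¹)⁻¹ ∈ Y := by
  have h1 := h a ha y⁻¹ (inv_mem hy) y hy
  have h2 := Y.mul_mem hy h1
  have e : y * (a * y * a⁻¹) * y⁻¹ * (a * y * a⁻¹)⁻¹ = y * (a * y * a⁻¹ * y⁻¹ * (a * y * a⁻¹)⁻¹) := by group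
  rw [e]
  exact h2

end Comm

section

variable {G : Type u} [Group G] {F : Type} [Field F] [Fintype F] [StarRing F] {q n m t : ℕ}
  (hF : Fintype.card F = q ^ 2) (hs : ∀ x : F, Star.star x = x ^ q) {π : ↥(Cfsg.SU n F q) →* G}
  {T : G →* RingAut (Matrix (Fin n) (Fin n) F)} {N D : Subgroup G}
  {P : Fin t → Matrix (Fin n) (Fin m) F} {e : Fin t → Matrix (Fin n) (Fin n) F} {r : ℕ}

theorem Fr.exists_hom (h : Fr π T D e) : ∃ φ : ↥D →* Equiv.Perm (Fin t), ∀ (a : ↥D) i, T (a : G) (e i) = e (φ a i) := by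
  choose φ hφ using fun a : ↥D => h.perm_equiv a.2
  refine ⟨MonoidHom.mk' φ ?_, hφ⟩
  intro a b
  ext i
  congr 1
  apply h.inj
  rw [← hφ, Subgroup.coe_mul, T_mul, hφ, hφ]
  rfl

include hF hs in
/-- every permutation of the frame is induced -/
theorem exists_perm (h : Fr π T D e) (hP : OF P) (he : ∀ i, e i = pr P i) (hT : Lf π T) (hn : 0 < n)
    (σ : Equiv.Perm (Fin t)) : ∃ s, π s ∈ D ∧ ∀ i, T (π s) (pr P i) = pr P (σ i) := by
  have key : ∃ s : ↥(Cfsg.SU n F q), ∀ i, T (π s) (pr P i) = pr P (σ i) := by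
    refine Equiv.Perm.swap_induction_on σ ⟨1, fun i => ?_⟩ ?_
    · rw [map_one, map_one, RingAut.one_apply]
      rfl
    · rintro f x y hxy ⟨s, hs1⟩
      obtain ⟨w, -, hw⟩ := exists_rot_T hF hs hP hT hn hxy
      refine ⟨w * s, fun i => ?_⟩
      rw [map_mul, T_mul, hs1, hw]
      rfl
  obtain ⟨s, hs1⟩ := key
  refine ⟨s, h.stab s fun i => ⟨σ i, ?_⟩, hs1⟩
  rw [he, he, hs1]

include hF hs in
/-- degree at least five -/
theorem moves_five (h : Fr π T D e) (hP : OF P) (he : ∀ i, e i = pr P i) (hT : Lf π T) (hn : 0 < n) (ht : 5 ≤ t)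
    (hr : r.Prime) {O : Subgroup G} (hOD : O ≤ D) (hO : IsPGroup r O) (hOn : ∀ a ∈ D, ∀ x ∈ O, a * x * a⁻¹ ∈ O) {x : G}
    (hx : x ∈ O) (i : Fin t) : T x (pr P i) = pr P i := by
  obtain ⟨φ, hφ⟩ := h.exists_hom
  let K : Subgroup (Equiv.Perm (Fin t)) := (O.subgroupOf D).map φ
  have hK : K.Normal := by
    refine ⟨?_⟩
    rintro _ ⟨a, ha, rfl⟩ σ
    obtain ⟨s, hsD, hs1⟩ := exists_perm hF hs h hP he hT hn σ
    have hσ : φ ⟨π s, hsD⟩ = σ := by
      ext j
      congr 1
      apply h.inj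
      rw [← hφ, he, hs1, ← he]
    refine ⟨⟨π s, hsD⟩ * a * ⟨π s, hsD⟩⁻¹, hOn _ hsD _ ha, ?_⟩
    rw [map_mul, map_mul, map_inv, hσ]
  have hKp : IsPGroup r K := (hO.comap_of_injective _ (subtype_injective D)).map φ
  have h1 := perm_normal_pgroup ht hr hK hKp
  have h2 : φ ⟨x, hOD hx⟩ = 1 := by
    have : φ ⟨x, hOD hx⟩ ∈ K := ⟨⟨x, hOD hx⟩, hx, rfl⟩
    rwa [h1, mem_bot] at this
  have h3 := hφ ⟨x, hOD hx⟩ i
  rw [h2, he, he] at h3
  exact h3

theorem T_pow (x : G) (k : ℕ) {f : Fin t → Matrix (Fin n) (Fin n) F} {σ : Equiv.Perm (Fin t)}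
    (h : ∀ i, T x (f i) = f (σ i)) (i : Fin t) : T (x ^ k) (f i) = f ((σ ^ k) i) := by
  induction k with
  | zero => rw [pow_zero, pow_zero, map_one, RingAut.one_apply]; rfl
  | succ k ih => rw [pow_succ', T_mul, ih, h, pow_succ']; rfl

include hF hs in
/-- blocks of dimension at least two -/
theorem moves_block (h : Fr π T D e) (hP : OF P) (he : ∀ i, e i = pr P i) (hM : Model N (iSU n F q) π) (hT : Lf π T)
    (hm : 0 < m) (hnil : NilAx F m) (hr : r.Prime) (hrF : (r : F) ≠ 0) {Y : Subgroup G} (hYr : ∀ y ∈ Y, y ^ r = 1)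
    (hYD : Y ≤ D) (hTW : TWp D Y) {y : ↥(Cfsg.SU n F q)} (hy : π y ∈ Y) (i : Fin t) : T (π y) (pr P i) = pr P i := by
  obtain ⟨σ, hσ⟩ := h.perm_equiv (hYD hy)
  simp only [he] at hσ
  by_contra hne
  have hki : σ i ≠ i := by
    intro h1
    rw [hσ, h1] at hne
    exact hne rfl
  obtain ⟨ν, hν1, hν2, hν3⟩ := hnil
  have hα : (1 + ν)ᴴ * (1 + ν) = 1 := by
    rw [Matrix.conjTranspose_add, Matrix.conjTranspose_one, hν3]
    calc (1 + -ν) * (1 + ν) = 1 - ν * ν := by noncomm_ring
      _ = 1 := by rw [hν1, sub_zero]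
  obtain ⟨s, hs1⟩ := exists_blk hF hs hP i hα (Cfsg.Agent.H748.TW.det_one_add hm ⟨2, by rw [pow_two, hν1]⟩)
  have hsD : π s ∈ D := h.mem_of_comm hT he (fun k => by rw [hs1, blk_comm hP])
  set! νi := P i * ν * (P i)ᴴ with hνi
  have hsν : _root_.Cfsg.Agent.H607.TW.mt (iSU n F q) s = 1 + νi := by rw [hs1, blk_def, add_sub_cancel_left]
  have hpν : pr P i * νi = νi := by rw [hνi, ← Matrix.mul_assoc, ← Matrix.mul_assoc, hP.pr_P]
  have hνp : νi * pr P i = νi := by rw [hνi, Matrix.mul_assoc, hP.Ps_pr]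
  have hνν : νi * νi = 0 := by
    calc _ = P i * (ν * ((P i)ᴴ * P i) * ν) * (P i)ᴴ := by rw [hνi]; simp only [Matrix.mul_assoc]
      _ = 0 := by rw [hP.self, Matrix.mul_one, hν1, Matrix.mul_zero, Matrix.zero_mul]
  have hν0 : νi ≠ 0 := by
    intro h0
    apply hν2
    calc ν = (P i)ᴴ * νi * P i := by
          rw [hνi]
          have : (P i)ᴴ * (P i * ν * (P i)ᴴ) * P i = ((P i)ᴴ * P i) * ν * ((P i)ᴴ * P i) := by
            simp only [Matrix.mul_assoc]
          rw [this, hP.self, Matrix.one_mul, Matrix.mul_one]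
      _ = 0 := by rw [h0, Matrix.mul_zero, Matrix.zero_mul]
  have hsi : _root_.Cfsg.Agent.H607.TW.mt (iSU n F q) s⁻¹ = 1 - νi := by
    have h1 : _root_.Cfsg.Agent.H607.TW.mt (iSU n F q) s * (1 - νi) = 1 := by
      rw [hsν]
      calc (1 + νi) * (1 - νi) = 1 - νi * νi := by noncomm_ring
        _ = 1 := by rw [hνν, sub_zero]
    calc _root_.Cfsg.Agent.H607.TW.mt (iSU n F q) s⁻¹ = _root_.Cfsg.Agent.H607.TW.mt (iSU n F q) s⁻¹ * (_root_.Cfsg.Agent.H607.TW.mt (iSU n F q) s * (1 - νi)) := by rw [h1, mul_one]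
      _ = 1 - νi := by rw [← mul_assoc, mt_inv_mul, one_mul]
  set! ν' := T (π y) νi with hν'
  set! ν'' := T (π y) ν' with hν''
  have hν'p : ν' * pr P i = 0 := by
    have h1 : ν' * pr P (σ i) = ν' := by rw [hν', ← hσ, ← map_mul, hνp]
    rw [← h1, mul_assoc, hP.pr_mul_ne hki, mul_zero]
  have hν'ν : ν' * νi = 0 := by rw [← hpν, ← mul_assoc, hν'p, zero_mul]
  have hν'ν' : ν' * ν' = 0 := by rw [hν', ← map_mul, hνν, map_zero]
  -- the commutators
  set! u := y * s * y⁻¹ * s⁻¹ with hu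
  set! w := y * u * y⁻¹ * u⁻¹ with hw
  have hmu : _root_.Cfsg.Agent.H607.TW.mt (iSU n F q) u = 1 + ν' - νi := by
    rw [hu, mt_mul, mt_mul, mt_mul, ← hT.pi, hsν, hsi, map_add, map_one, ← hν']
    calc (1 + ν') * (1 - νi) = 1 + ν' - νi - ν' * νi := by noncomm_ring
      _ = _ := by rw [hν'ν, sub_zero]
  have hmui : _root_.Cfsg.Agent.H607.TW.mt (iSU n F q) u⁻¹ = 1 + νi - ν' := by
    have h1 : u⁻¹ = s * (y * s⁻¹ * y⁻¹) := by rw [hu]; group
    rw [h1, mt_mul, mt_mul, mt_mul, ← hT.pi, hsν, hsi, map_sub, map_one, ← hν']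
    have h2 : νi * ν' = 0 := by
      have h3 : pr P (σ i) * ν' = ν' := by rw [hν', ← hσ, ← map_mul, hpν]
      rw [← hνp, ← h3, mul_assoc, ← mul_assoc (pr P i) (pr P (σ i)), hP.pr_mul_ne (Ne.symm hki), zero_mul, mul_zero]
    calc (1 + νi) * (1 - ν') = 1 + νi - ν' - νi * ν' := by noncomm_ring
      _ = _ := by rw [h2, sub_zero]
  have hmw : _root_.Cfsg.Agent.H607.TW.mt (iSU n F q) w = (1 + ν'' - ν') * (1 + νi - ν') := by
    rw [hw, mt_mul, mt_mul, mt_mul, ← hT.pi, hmu, hmui, map_sub, map_add, map_one, ← hν', ← hν'']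
  have hmwp : _root_.Cfsg.Agent.H607.TW.mt (iSU n F q) w * pr P i = pr P i + νi + (ν'' * pr P i + ν'' * νi) := by
    have h1 : (1 + νi - ν') * pr P i = pr P i + νi := by
      rw [sub_mul, add_mul, one_mul, hνp, hν'p, sub_zero]
    rw [hmw, mul_assoc, h1]
    calc (1 + ν'' - ν') * (pr P i + νi) = pr P i + νi + (ν'' * pr P i + ν'' * νi) - (ν' * pr P i + ν' * νi) := by
          noncomm_ring
      _ = _ := by rw [hν'p, hν'ν, add_zero, sub_zero]
  obtain ⟨κ, hκ0, hκ⟩ : ∃ κ : F, κ ≠ 0 ∧ _root_.Cfsg.Agent.H607.TW.mt (iSU n F q) w * pr P i = pr P i + κ • νi := by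
    by_cases hkk : σ (σ i) = i
    · have hr2 : r = 2 := by
        rcases hr.eq_two_or_odd' with h1 | h1
        · exact h1
        · exfalso
          obtain ⟨j, hj⟩ := h1
          have h2 : T (π y ^ r) (pr P i) = pr P i := by rw [hYr _ hy, map_one, RingAut.one_apply]
          rw [T_pow (π y) r hσ, hj] at h2
          have h3 : (σ ^ (2 * j + 1)) i = σ i := by
            have h4 : ∀ k : ℕ, (σ ^ (2 * k)) i = i := by
              intro k
              induction k with
              | zero => rfl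
              | succ k ih =>
                rw [mul_add, mul_one, pow_add, Equiv.Perm.mul_apply, pow_two, Equiv.Perm.mul_apply, hkk, ih]
            rw [pow_succ', Equiv.Perm.mul_apply, h4]
          rw [h3] at h2
          exact hki (hP.pr_inj hm h2)
      have h1 : ν'' = νi := by
        have h2 := hYr _ hy
        rw [hr2, pow_two] at h2
        rw [hν'', hν', ← T_mul, h2, map_one, RingAut.one_apply]
      refine ⟨2, by rw [hr2] at hrF; exact_mod_cast hrF, ?_⟩
      rw [hmwp, h1, hνp, hνν, add_zero, two_smul, add_assoc]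
    · refine ⟨1, one_ne_zero, ?_⟩
      have h1 : ν'' * pr P (σ (σ i)) = ν'' := by
        rw [hν'', hν', ← hσ, ← hσ, ← map_mul, ← map_mul, hνp]
      have h2 : ν'' * pr P i = 0 := by rw [← h1, mul_assoc, hP.pr_mul_ne hkk, mul_zero]
      have h3 : ν'' * νi = 0 := by rw [← hpν, ← mul_assoc, h2, zero_mul]
      rw [hmwp, h2, h3, add_zero, add_zero, one_smul]
  have hwY : π w ∈ Y := by
    have h1 := hTW.comm hsD hy
    have e1 : π w = π y * (π y * π s * (π y)⁻¹ * (π s)⁻¹) * (π y)⁻¹ * (π y * π s * (π y)⁻¹ * (π s)⁻¹)⁻¹ := by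
      rw [hw, hu]
      simp only [map_mul, map_inv]
    rw [e1]
    exact h1
  have hpow : ∀ j : ℕ, _root_.Cfsg.Agent.H607.TW.mt (iSU n F q) (w ^ j) * pr P i = pr P i + ((j : F) * κ) • νi := by
    intro j
    induction j with
    | zero => rw [pow_zero, mt_one, one_mul, Nat.cast_zero, zero_mul, zero_smul, add_zero]
    | succ j ih =>
      have h1 : pr P i * (pr P i + ((j : F) * κ) • νi) = pr P i + ((j : F) * κ) • νi := by
        rw [mul_add, hP.pr_mul_self, mul_smul_comm, hpν]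
      rw [pow_succ', mt_mul, mul_assoc, ih, ← h1, ← mul_assoc, hκ, add_mul, mul_add, hP.pr_mul_self, mul_smul_comm, hpν,
        smul_mul_assoc, mul_add, hνp, mul_smul_comm, hνν, smul_zero, add_zero, Nat.cast_succ, add_mul, one_mul, add_smul,
        add_assoc]
  obtain ⟨z, hz⟩ := (hM.ker (w ^ r)).1 (by rw [map_pow, hYr _ hwY])
  have h1 := hpow r
  rw [hz, smul_mul_assoc, one_mul] at h1
  have h2 := congrArg (fun x => νi * x) h1
  beta_reduce at h2
  rw [mul_smul_comm, hνp, mul_add, hνp, mul_smul_comm, hνν, smul_zero, add_zero] at h2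
  have h3 : (z - 1) • νi = 0 := by rw [sub_smul, one_smul, h2, sub_self]
  rw [smul_eq_zero, sub_eq_zero] at h3
  rw [h3.resolve_right hν0, one_smul, left_eq_add, smul_eq_zero] at h1
  rcases h1 with h1 | h1
  · exact (mul_ne_zero hrF hκ0) h1
  · exact hν0 h1

/-- diagonal elements -/
def Dg (P : Fin t → Matrix (Fin n) (Fin m) F) (c : Fin t → F) : Matrix (Fin n) (Fin n) F := ∑ i, c i • pr P i

theorem Dg_pr (hP : OF P) (c : Fin t → F) (i : Fin t) : Dg P c * pr P i = c i • pr P i := by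
  rw [Dg, Finset.sum_mul, Finset.sum_eq_single i]
  · rw [smul_mul_assoc, hP.pr_mul_self]
  · intro j _ hj
    rw [smul_mul_assoc, hP.pr_mul_ne hj, smul_zero]
  · intro h
    exact (h (Finset.mem_univ _)).elim

theorem Dg_ext (hP : OF P) {x : Matrix (Fin n) (Fin n) F} {c : Fin t → F} (h : ∀ i, x * pr P i = c i • pr P i) :
    x = Dg P c := by
  rw [← hP.eq_sum' x, Dg]
  exact Finset.sum_congr rfl fun i _ => h i

theorem Dg_mul (hP : OF P) (c d : Fin t → F) : Dg P c * Dg P d = Dg P (fun i => c i * d i) := by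
  apply Dg_ext hP
  intro i
  rw [mul_assoc, Dg_pr hP, mul_smul_comm, Dg_pr hP, smul_smul, mul_comm]

theorem Dg_pow (hP : OF P) (c : Fin t → F) (k : ℕ) : Dg P c ^ k = Dg P (fun i => c i ^ k) := by
  induction k with
  | zero =>
    rw [pow_zero]
    apply Dg_ext hP
    intro i
    rw [pow_zero, one_smul, one_mul]
  | succ k ih =>
    rw [pow_succ, ih, Dg_mul hP]
    congr 1
    funext i
    rw [pow_succ]

theorem T_Dg (hT : Lf π T) {y : ↥(Cfsg.SU n F q)} {σ : Equiv.Perm (Fin t)} (hσ : ∀ i, T (π y) (pr P i) = pr P (σ i))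
    (c : Fin t → F) : T (π y) (Dg P c) = Dg P (fun i => c (σ.symm i)) := by
  have hlin : ∀ (a : F) (x : Matrix (Fin n) (Fin n) F), T (π y) (a • x) = a • T (π y) x := by
    intro a x
    rw [hT.pi, hT.pi, mul_smul_comm, smul_mul_assoc]
  rw [Dg, Dg, map_sum]
  simp only [hlin, hσ]
  exact Fintype.sum_equiv σ _ _ fun i => by rw [Equiv.symm_apply_apply]

theorem mt_Dg_inv (hP : OF P) {s : ↥(Cfsg.SU n F q)} {c : Fin t → F} (h : _root_.Cfsg.Agent.H607.TW.mt (iSU n F q) s = Dg P c)
    (hc : ∀ i, c i ≠ 0) : _root_.Cfsg.Agent.H607.TW.mt (iSU n F q) s⁻¹ = Dg P (fun i => (c i)⁻¹) := by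
  have h1 : _root_.Cfsg.Agent.H607.TW.mt (iSU n F q) s * Dg P (fun i => (c i)⁻¹) = 1 := by
    rw [h, Dg_mul hP]
    symm
    apply Dg_ext hP
    intro i
    rw [mul_inv_cancel₀ (hc i), one_smul, one_mul]
  calc _root_.Cfsg.Agent.H607.TW.mt (iSU n F q) s⁻¹ = _root_.Cfsg.Agent.H607.TW.mt (iSU n F q) s⁻¹ * (_root_.Cfsg.Agent.H607.TW.mt (iSU n F q) s * Dg P (fun i => (c i)⁻¹)) := by rw [h1, mul_one]
    _ = _ := by rw [← mul_assoc, mt_inv_mul, one_mul]

theorem mt_pow (s : ↥(Cfsg.SU n F q)) (k : ℕ) : _root_.Cfsg.Agent.H607.TW.mt (iSU n F q) (s ^ k) = _root_.Cfsg.Agent.H607.TW.mt (iSU n F q) s ^ k := by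
  induction k with
  | zero => rw [pow_zero, pow_zero, mt_one]
  | succ k ih => rw [pow_succ, pow_succ, mt_mul, ih]

include hF in
/-- a generator of the group of elements of norm one -/
theorem exists_norm_gen : ∃ a : F, a * a ^ q = 1 ∧ ∀ k, a ^ k = 1 → q + 1 ∣ k := by
  have h2 := Cfsg.Agent.LieClassical.HermBasic.two_le hF
  obtain ⟨g, hg⟩ := IsCyclic.exists_generator (α := Fˣ)
  have hord : orderOf g = (q + 1) * (q - 1) := by
    rw [← Cfsg.Agent.LieClassical.HermBasic.card_units_eq hF]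
    exact orderOf_eq_card_of_forall_mem_zpowers hg
  have h1 : g ^ ((q + 1) * (q - 1)) = 1 := by rw [← hord]; exact pow_orderOf_eq_one g
  refine ⟨((g ^ (q - 1) : Fˣ) : F), ?_, fun k hk => ?_⟩
  · rw [← pow_succ', ← Units.val_pow_eq_pow_val, ← pow_mul, mul_comm, h1, Units.val_one]
  · have h3 : g ^ ((q - 1) * k) = 1 := by
      rw [pow_mul]
      apply Units.ext
      rw [Units.val_pow_eq_pow_val, hk, Units.val_one]
    have h4 := orderOf_dvd_of_pow_eq_one h3
    rw [hord, mul_comm (q - 1)] at h4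
    exact Nat.dvd_of_mul_dvd_mul_right (by omega) h4

include hF hs in
/-- degree at most four -/
theorem moves_small (h : Fr π T D e) (hP : OF P) (he : ∀ i, e i = pr P i) (hM : Model N (iSU n F q) π) (hT : Lf π T)
    (hm : 0 < m) (ht3 : 3 ≤ t) (ht4 : t ≤ 4) (hr : r.Prime) {Y : Subgroup G} (hYr : ∀ y ∈ Y, y ^ r = 1)
    (hYD : Y ≤ D) (hTW : TWp D Y) {y : ↥(Cfsg.SU n F q)} (hy : π y ∈ Y) :
    (∀ i, T (π y) (pr P i) = pr P i) ∨ q + 1 ≤ 36 := by
  obtain ⟨σ, hσ⟩ := h.perm_equiv (hYD hy)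
  simp only [he] at hσ
  by_cases hσ1 : σ = 1
  · left
    intro i
    rw [hσ, hσ1]
    rfl
  right
  have hσr : σ ^ r = 1 := by
    ext i
    congr 1
    have h1 : T (π y ^ r) (pr P i) = pr P i := by rw [hYr _ hy, map_one, RingAut.one_apply]
    rw [T_pow (π y) r hσ] at h1
    exact hP.pr_inj hm h1
  have hrf : Fact r.Prime := ⟨hr⟩
  have hord : orderOf σ = r := orderOf_eq_prime hσr hσ1
  have hdvd : r ∣ Nat.factorial 4 := by
    have h1 := orderOf_dvd_card (x := σ)
    rw [hord, Fintype.card_perm, Fintype.card_fin] at h1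
    exact h1.trans (Nat.factorial_dvd_factorial ht4)
  have hr3 : r ≤ 3 := by
    have h24 : Nat.factorial 4 = 2 ^ 3 * 3 := by decide
    rw [h24] at hdvd
    rcases hr.dvd_mul.1 hdvd with h1 | h1
    · exact (Nat.le_of_dvd (by norm_num) (hr.dvd_of_dvd_pow h1)).trans (by norm_num)
    · exact Nat.le_of_dvd (by norm_num) h1
  obtain ⟨a, ha, hagen⟩ := exists_norm_gen hF
  have ha0 : a ≠ 0 := by
    rintro rfl
    rw [zero_mul] at ha
    exact zero_ne_one ha
  -- a moved point
  obtain ⟨i0, hi0⟩ : ∃ i, σ i ≠ i := by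
    by_contra hcon
    push Not at hcon
    exact hσ1 (Equiv.ext hcon)
  obtain ⟨l, hl0, hl1⟩ := exists_third ht3 i0 (σ i0)
  obtain ⟨s, hs1⟩ := exists_dg hF hs hP (Ne.symm hl0) ha
  let c : Fin t → F := fun k => if k = i0 then a else if k = l then a⁻¹ else 1
  have hc0 : ∀ k, c k ≠ 0 := by
    intro k
    simp only [c]
    split_ifs
    · exact ha0
    · exact inv_ne_zero ha0
    · exact one_ne_zero
  have hsc : _root_.Cfsg.Agent.H607.TW.mt (iSU n F q) s = Dg P c := by
    rw [hs1]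
    apply Dg_ext hP
    intro k
    rw [add_mul, add_mul, one_mul, smul_mul_assoc, smul_mul_assoc]
    simp only [c]
    by_cases hk0 : k = i0
    · rw [if_pos hk0, hk0, hP.pr_mul_self, hP.pr_mul_ne hl0, smul_zero, add_zero, sub_smul, one_smul]
      abel
    · rw [if_neg hk0]
      by_cases hk1 : k = l
      · rw [if_pos hk1, hk1, hP.pr_mul_self, hP.pr_mul_ne (Ne.symm hl0), smul_zero, add_zero, sub_smul, one_smul]
        abel
      · rw [if_neg hk1, hP.pr_mul_ne (Ne.symm hk0), hP.pr_mul_ne (Ne.symm hk1), smul_zero, smul_zero, add_zero, add_zero,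
          one_smul]
  have hsD : π s ∈ D := by
    apply h.mem_of_comm hT he
    intro k
    have h1 : (Dg P c)ᴴ = Dg P (fun i => Star.star (c i)) := by
      rw [Dg, Dg, Matrix.conjTranspose_sum]
      refine Finset.sum_congr rfl fun i _ => ?_
      rw [Matrix.conjTranspose_smul, pr_star]
    have h2 := Dg_pr hP (fun i => Star.star (c i)) k
    rw [← h1] at h2
    have h3 := congrArg Matrix.conjTranspose h2
    rw [Matrix.conjTranspose_mul, Matrix.conjTranspose_conjTranspose, pr_star, Matrix.conjTranspose_smul, pr_star,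
      star_star] at h3
    rw [hsc, Dg_pr hP, h3]
  -- the commutators
  set! u := y * s * y⁻¹ * s⁻¹ with hu
  set! w := y * u * y⁻¹ * u⁻¹ with hw
  let cu : Fin t → F := fun k => c (σ.symm k) * (c k)⁻¹
  have hcu0 : ∀ k, cu k ≠ 0 := fun k => mul_ne_zero (hc0 _) (inv_ne_zero (hc0 _))
  let cw : Fin t → F := fun k => cu (σ.symm k) * (cu k)⁻¹
  have hmu : _root_.Cfsg.Agent.H607.TW.mt (iSU n F q) u = Dg P cu := by
    rw [hu, mt_mul, mt_mul, mt_mul, ← hT.pi, hsc, T_Dg hT hσ, mt_Dg_inv hP hsc hc0, Dg_mul hP]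
  have hmw : _root_.Cfsg.Agent.H607.TW.mt (iSU n F q) w = Dg P cw := by
    rw [hw, mt_mul, mt_mul, mt_mul, ← hT.pi, hmu, T_Dg hT hσ, mt_Dg_inv hP hmu hcu0, Dg_mul hP]
  have hwY : π w ∈ Y := by
    have h1 := hTW.comm hsD hy
    have e1 : π w = π y * (π y * π s * (π y)⁻¹ * (π s)⁻¹) * (π y)⁻¹ * (π y * π s * (π y)⁻¹ * (π s)⁻¹)⁻¹ := by
      rw [hw, hu]
      simp only [map_mul, map_inv]
    rw [e1]
    exact h1
  obtain ⟨z, hz⟩ := (hM.ker (w ^ r)).1 (by rw [map_pow, hYr _ hwY])
  have hz1 : ∀ k, cw k ^ r = z := by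
    intro k
    have h1 := Dg_pr hP (fun i => cw i ^ r) k
    rw [← Dg_pow hP, ← hmw, ← mt_pow, hz, smul_mul_assoc, one_mul] at h1
    exact (smul_pr_inj hP hm h1).symm
  have hzt : z ^ t = 1 := by
    have h1 : ∏ k, cw k ^ r = z ^ t := by
      rw [Finset.prod_congr rfl fun k _ => hz1 k, Finset.prod_const, Finset.card_univ, Fintype.card_fin]
    rw [← h1, Finset.prod_pow]
    have h2 : ∏ k, cw k = 1 := by
      simp only [cw]
      rw [Finset.prod_mul_distrib, Finset.prod_inv_distrib, Equiv.prod_comp σ.symm cu]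
      exact mul_inv_cancel₀ (Finset.prod_ne_zero_iff.2 fun k _ => hcu0 k)
    rw [h2, one_pow]
  -- the entry at `σ i0`
  have hj : cw (σ i0) = a⁻¹ * a⁻¹ ∨ cw (σ i0) = a⁻¹ * a⁻¹ * a⁻¹ := by
    have h1 : cu (σ i0) = a := by
      simp only [cu, c]
      rw [Equiv.symm_apply_apply, if_pos rfl, if_neg hi0, if_neg (Ne.symm hl1), inv_one, mul_one]
    have h2 : cu i0 = c (σ.symm i0) * a⁻¹ := by
      simp only [cu, c, if_true]
    have h3 : σ.symm i0 ≠ i0 := by
      intro h4
      apply hi0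
      conv_lhs => rw [← h4]
      rw [Equiv.apply_symm_apply]
    have h4 : cw (σ i0) = cu i0 * (cu (σ i0))⁻¹ := by
      simp only [cw]
      rw [Equiv.symm_apply_apply]
    rw [h4, h1, h2]
    simp only [c]
    rw [if_neg h3]
    split_ifs
    · right; rfl
    · left; rw [one_mul]
  have hle : q + 1 ≤ 3 * r * t := by
    have hfin : a ^ (2 * r * t) = 1 ∨ a ^ (3 * r * t) = 1 := by
      rcases hj with hj | hj
      · left
        have h1 := hz1 (σ i0)
        rw [hj] at h1
        have h2 : (a ^ (2 * r * t))⁻¹ = 1 := by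
          rw [← hzt, ← h1, ← inv_pow]
          have : a⁻¹ * a⁻¹ = a⁻¹ ^ 2 := by rw [pow_two]
          rw [this, ← pow_mul, ← pow_mul, mul_assoc]
        rwa [inv_eq_one] at h2
      · right
        have h1 := hz1 (σ i0)
        rw [hj] at h1
        have h2 : (a ^ (3 * r * t))⁻¹ = 1 := by
          rw [← hzt, ← h1, ← inv_pow]
          have : a⁻¹ * a⁻¹ * a⁻¹ = a⁻¹ ^ 3 := by ring
          rw [this, ← pow_mul, ← pow_mul, mul_assoc]
        rwa [inv_eq_one] at h2
    have hr0 := hr.pos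
    rcases hfin with h1 | h1
    · have h2 := Nat.le_of_dvd (by (clear * - ht3 hr0; positivity)) (hagen _ h1)
      linarith only [h2]
    · exact Nat.le_of_dvd (by (clear * - ht3 hr0; positivity)) (hagen _ h1)
  calc q + 1 ≤ 3 * r * t := hle
    _ ≤ 3 * 3 * 4 := Nat.mul_le_mul (Nat.mul_le_mul_left 3 hr3) ht4
    _ = 36 := by norm_num

end

end Cfsg.Agent.H189.TW
end

private theorem dce_b3b17a093969 : _root_.True := by
  try have : _root_.True := by simp only [_root_.Cfsg.Agent.H599.TW.EE.eq_1]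
  try have : _root_.True := by simp only [_root_.Cfsg.Agent.H189.TW.Dg.eq_1]
  exact _root_.True.intro
end
end
end
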